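/-
The rank-24 lattice built from the length-24 code: a workable membership criterion, closure
properties, evenness, invariance under sign changes and code permutations, generators.
-/
import Cfsg.Agent.H1.Golay

set_option autoImplicit false

namespace Cfsg.Agent.H3

open Cfsg Cfsg.Agent.H1 Finset
open scoped Pointwise symmDiff

/-- Integer vectors indexed by the 24 points. -/
abbrev V : Type := GolayPt → ℤ

/-- Membership criterion: a parity `m` and a code word `c` with the coordinates congruent to
`m + 2` modulo 4 on `c`, to `m` off `c`, and coordinate sum `4 m` modulo 8. -/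
def IsL (x : V) : Prop :=
  ∃ (m : ℤ) (c : Finset GolayPt), c ∈ GC ∧ (∀ i ∈ c, (x i - m) % 4 = 2) ∧
    (∀ i ∉ c, (x i - m) % 4 = 0) ∧ (∑ i, x i - 4 * m) % 8 = 0

theorem mem_res {x : V} {k : ℤ} {i : GolayPt} :
    i ∈ (univ.filter fun i => x i ≡ k [ZMOD 4]) ↔ x i % 4 = k % 4 := by
  rw [mem_filter]; exact ⟨fun h => h.2, fun h => ⟨mem_univ _, h⟩⟩

theorem mem_leechSet_iff {x : V} : x ∈ leechSet ↔ IsL x := by
  constructor
  · rintro ⟨m, h2, h8, h4⟩
    refine ⟨m, _, h4 (m + 2), ?_, ?_, ?_⟩
    · intro i hi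
      rw [mem_res] at hi
      omega
    · intro i hi
      rw [mem_res] at hi
      have := h2 i
      simp only [Int.ModEq] at this
      omega
    · simp only [Int.ModEq] at h8
      omega
  · rintro ⟨m, c, hc, h1, h0, h8⟩
    refine ⟨m, fun i => ?_, ?_, fun k => ?_⟩
    · by_cases hi : i ∈ c
      · have := h1 i hi
        simp only [Int.ModEq]; omega
      · have := h0 i hi
        simp only [Int.ModEq]; omega
    · simp only [Int.ModEq]; omega
    · by_cases hk : (k - m) % 4 = 2
      · have : (univ.filter fun i => x i ≡ k [ZMOD 4]) = c := by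
          ext i
          rw [mem_res]
          by_cases hi : i ∈ c
          · have := h1 i hi
            simp only [hi, iff_true]; omega
          · have := h0 i hi
            simp only [hi, iff_false]; omega
        rw [this]; exact hc
      · by_cases hk' : (k - m) % 4 = 0
        · have : (univ.filter fun i => x i ≡ k [ZMOD 4]) = cᶜ := by
            ext i
            rw [mem_res, mem_compl]
            by_cases hi : i ∈ c
            · have := h1 i hi
              simp only [hi, not_true_eq_false, iff_false]; omega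
            · have := h0 i hi
              simp only [hi, not_false_eq_true, iff_true]; omega
          rw [this]; exact compl_mem_GC hc
        · have : (univ.filter fun i => x i ≡ k [ZMOD 4]) = ∅ := by
            ext i
            rw [mem_res]
            simp only [notMem_empty, iff_false]
            by_cases hi : i ∈ c
            · have := h1 i hi
              omega
            · have := h0 i hi
              omega
          rw [this]; exact empty_mem_GC

theorem IsL.zero : IsL 0 :=
  ⟨0, ∅, empty_mem_GC, by simp, by simp, by simp⟩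

theorem IsL.add {x y : V} (hx : IsL x) (hy : IsL y) : IsL (x + y) := by
  obtain ⟨m, c, hc, h1, h0, h8⟩ := hx
  obtain ⟨m', c', hc', h1', h0', h8'⟩ := hy
  refine ⟨m + m', c ∆ c', symmDiff_mem_GC hc hc', ?_, ?_, ?_⟩
  · intro i hi
    rw [Finset.mem_symmDiff] at hi
    rw [Pi.add_apply]
    rcases hi with ⟨a, b⟩ | ⟨a, b⟩
    · have := h1 i a; have := h0' i b; omega
    · have := h1' i a; have := h0 i b; omega
  · intro i hi
    rw [Finset.mem_symmDiff] at hi
    rw [Pi.add_apply]
    by_cases a : i ∈ c <;> by_cases b : i ∈ c'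
    · have := h1 i a; have := h1' i b; omega
    · exact absurd (Or.inl ⟨a, b⟩) hi
    · exact absurd (Or.inr ⟨b, a⟩) hi
    · have := h0 i a; have := h0' i b; omega
  · simp only [Pi.add_apply, sum_add_distrib]; omega

theorem IsL.neg {x : V} (hx : IsL x) : IsL (-x) := by
  obtain ⟨m, c, hc, h1, h0, h8⟩ := hx
  refine ⟨-m, c, hc, ?_, ?_, ?_⟩
  · intro i hi
    have := h1 i hi
    rw [Pi.neg_apply]; omega
  · intro i hi
    have := h0 i hi
    rw [Pi.neg_apply]; omega
  · simp only [Pi.neg_apply, sum_neg_distrib]; omega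

/-- The vectors satisfying the criterion form an additive subgroup. -/
def leechSub : AddSubgroup V where
  carrier := {x | IsL x}
  zero_mem' := IsL.zero
  add_mem' := IsL.add
  neg_mem' := IsL.neg

theorem coe_leechSub : (leechSub : Set V) = leechSet := by
  ext x; exact mem_leechSet_iff.symm

theorem leechLattice_eq : leechLattice = leechSub := by
  have : leechLattice = AddSubgroup.closure leechSet := rfl
  rw [this, ← coe_leechSub, AddSubgroup.closure_eq]

theorem mem_leech {x : V} : x ∈ leechLattice ↔ IsL x := by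
  rw [leechLattice_eq]; rfl

/-- The criterion with parity `0` or `1`. -/
theorem IsL.normal {x : V} (hx : IsL x) : ∃ (m : ℤ) (c : Finset GolayPt), (m = 0 ∨ m = 1) ∧
    c ∈ GC ∧ (∀ i ∈ c, x i % 4 = m + 2) ∧ (∀ i ∉ c, x i % 4 = m) ∧ (∑ i, x i) % 8 = 4 * m := by
  obtain ⟨m, c, hc, h1, h0, h8⟩ := hx
  by_cases hm : m % 4 < 2
  · refine ⟨m % 4, c, by omega, hc, fun i hi => ?_, fun i hi => ?_, by omega⟩
    · have := h1 i hi; omega
    · have := h0 i hi; omega
  · refine ⟨m % 4 - 2, cᶜ, by omega, compl_mem_GC hc, fun i hi => ?_, fun i hi => ?_, by omega⟩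
    · have := h0 i (by simpa using hi); omega
    · have := h1 i (by simpa using hi); omega

theorem four_dvd_card {c : Finset GolayPt} (hc : c ∈ GC) : (c.card : ℤ) % 4 = 0 := by
  have := card_of_mem_GC hc
  omega

theorem sqNorm_def {α : Type*} [Fintype α] (x : α → ℤ) : sqNorm x = ∑ i, x i ^ 2 := rfl

theorem dotInt_def {α : Type*} [Fintype α] (x y : α → ℤ) : dotInt x y = ∑ i, x i * y i := rfl

/-- Sums of congruent terms are congruent. -/
theorem sum_emod_congr {α : Type*} (s : Finset α) (f g : α → ℤ) (n : ℤ)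
    (h : ∀ i ∈ s, f i % n = g i % n) : (∑ i ∈ s, f i) % n = (∑ i ∈ s, g i) % n := by
  rw [Finset.sum_int_mod, Finset.sum_congr rfl h, ← Finset.sum_int_mod]

theorem sum_ite_mem_const (c : Finset GolayPt) (a b : ℤ) :
    ∑ i, (if i ∈ c then a else b) = c.card * a + (24 - c.card) * b := by
  rw [sum_ite, filter_mem_eq_inter, univ_inter]
  have : (univ.filter fun i => i ∉ c) = cᶜ := by ext; simp
  have h2 : c.card ≤ 24 := card_golayPt ▸ card_le_univ c
  rw [this, sum_const, sum_const, card_compl, card_golayPt]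
  simp [Nat.cast_sub h2]

theorem IsL.sixteen_dvd {x : V} (hx : IsL x) : (16 : ℤ) ∣ sqNorm x := by
  obtain ⟨m, c, hm, hc, h1, h0, h8⟩ := hx.normal
  have h4 := four_dvd_card hc
  rcases hm with rfl | rfl
  · have : (∑ i, x i ^ 2) % 16 = (∑ i, (if i ∈ c then (4 : ℤ) else 0)) % 16 := by
      refine sum_emod_congr _ _ _ _ fun i _ => ?_
      split_ifs with hi
      · obtain ⟨k, hk⟩ : ∃ k, x i = 4 * k + 2 := ⟨x i / 4, by have := h1 i hi; omega⟩
        rw [hk, show (4 * k + 2) ^ 2 = 4 + 16 * (k ^ 2 + k) by ring]; omega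
      · obtain ⟨k, hk⟩ : ∃ k, x i = 4 * k := ⟨x i / 4, by have := h0 i hi; omega⟩
        rw [hk, show (4 * k) ^ 2 = 16 * (k ^ 2) by ring]; omega
    rw [sum_ite_mem_const] at this
    rw [sqNorm_def]; omega
  · have : (∑ i, x i ^ 2) % 16 = (∑ i, (2 * x i + (if i ∈ c then (3 : ℤ) else -1))) % 16 := by
      refine sum_emod_congr _ _ _ _ fun i _ => ?_
      split_ifs with hi
      · obtain ⟨k, hk⟩ : ∃ k, x i = 4 * k + 3 := ⟨x i / 4, by have := h1 i hi; omega⟩
        rw [hk, show (4 * k + 3) ^ 2 = 2 * (4 * k + 3) + 3 + 16 * (k ^ 2 + k) by ring]; omega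
      · obtain ⟨k, hk⟩ : ∃ k, x i = 4 * k + 1 := ⟨x i / 4, by have := h0 i hi; omega⟩
        rw [hk, show (4 * k + 1) ^ 2 = 2 * (4 * k + 1) + -1 + 16 * (k ^ 2) by ring]; omega
    rw [sum_add_distrib, ← mul_sum, sum_ite_mem_const] at this
    rw [sqNorm_def]; omega

/-- Changing signs on a set of coordinates. -/
def sgn (c : Finset GolayPt) (x : V) : V := fun i => if i ∈ c then -x i else x i

theorem IsL.sgn {c : Finset GolayPt} (hc : c ∈ GC) {x : V} (hx : IsL x) : IsL (sgn c x) := by
  obtain ⟨m, d, hm, hd, h1, h0, h8⟩ := hx.normal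
  have hsum : ∑ i, H3.sgn c x i = ∑ i, x i - 2 * ∑ i ∈ c, x i := by
    have : ∀ i, H3.sgn c x i = x i - 2 * (if i ∈ c then x i else 0) := fun i => by
      unfold H3.sgn; split_ifs <;> ring
    simp only [this, sum_sub_distrib, ← mul_sum]
    rw [sum_ite_mem, univ_inter]
  have h4 : (∑ i ∈ c, x i) % 4 = (∑ i ∈ c, (m + if i ∈ d then 2 else 0)) % 4 := by
    refine sum_emod_congr _ _ _ _ fun i _ => ?_
    split_ifs with hi
    · have := h1 i hi; omega
    · have := h0 i hi; omega
  rw [sum_add_distrib, sum_ite_mem, sum_const, sum_const] at h4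
  have e1 := Nat.even_iff.mp (even_card_inter hc hd)
  have e2 := four_dvd_card hc
  simp only [nsmul_eq_mul] at h4
  rcases hm with rfl | rfl
  · refine ⟨0, d, hd, fun i hi => ?_, fun i hi => ?_, by omega⟩
    · have := h1 i hi
      unfold H3.sgn; split_ifs <;> omega
    · have := h0 i hi
      unfold H3.sgn; split_ifs <;> omega
  · refine ⟨1, c ∆ d, symmDiff_mem_GC hc hd, fun i hi => ?_, fun i hi => ?_, by omega⟩
    · rw [Finset.mem_symmDiff] at hi
      unfold H3.sgn
      rcases hi with ⟨a, b⟩ | ⟨a, b⟩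
      · have := h0 i b; rw [if_pos a]; omega
      · have := h1 i a; rw [if_neg b]; omega
    · rw [Finset.mem_symmDiff] at hi
      unfold H3.sgn
      by_cases a : i ∈ c <;> by_cases b : i ∈ d
      · have := h1 i b; rw [if_pos a]; omega
      · exact absurd (Or.inl ⟨a, b⟩) hi
      · exact absurd (Or.inr ⟨b, a⟩) hi
      · have := h0 i b; rw [if_neg a]; omega

/-- A permutation lies in the code's group iff it maps the code onto itself. -/
theorem mem_M24_iff {σ : Equiv.Perm GolayPt} : σ ∈ M24 ↔ σ • GC = GC := Iff.rfl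

theorem smul_mem_GC {σ : Equiv.Perm GolayPt} (hσ : σ ∈ M24) {c : Finset GolayPt} (hc : c ∈ GC) :
    σ • c ∈ GC := by
  rw [← mem_M24_iff.mp hσ]
  exact Set.smul_mem_smul_set hc

theorem mem_M24_of_forall {σ : Equiv.Perm GolayPt} (h : ∀ c ∈ GC, σ • c ∈ GC) : σ ∈ M24 := by
  rw [mem_M24_iff]
  apply Set.eq_of_subset_of_ncard_le
  · rintro _ ⟨c, hc, rfl⟩; exact h c hc
  · rw [Set.ncard_smul_set]
  · exact Set.toFinite _

theorem mem_smul_iff {σ : Equiv.Perm GolayPt} {c : Finset GolayPt} {i : GolayPt} :
    i ∈ σ • c ↔ σ⁻¹ i ∈ c := by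
  rw [← Finset.inv_smul_mem_iff]; rfl

theorem IsL.comp {σ : Equiv.Perm GolayPt} (hσ : σ ∈ M24) {x : V} (hx : IsL x) :
    IsL (fun i => x (σ i)) := by
  obtain ⟨m, c, hc, h1, h0, h8⟩ := hx
  refine ⟨m, σ⁻¹ • c, smul_mem_GC (inv_mem hσ) hc, fun i hi => ?_, fun i hi => ?_, ?_⟩
  · exact h1 _ (by simpa [mem_smul_iff] using hi)
  · exact h0 _ (by simpa [mem_smul_iff] using hi)
  · rw [Equiv.sum_comp σ x]; exact h8

/-- Vectors with all coordinates divisible by 4 and sum divisible by 8 lie in the lattice. -/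
theorem isL_of_four {x : V} (h4 : ∀ i, x i % 4 = 0) (h8 : (∑ i, x i) % 8 = 0) : IsL x :=
  ⟨0, ∅, empty_mem_GC, by simp, fun i _ => by simpa using h4 i, by simpa using h8⟩

/-- The vector with `a` at the point `p` and `0` elsewhere. -/
def sg (p : GolayPt) (a : ℤ) : V := fun i => if i = p then a else 0

theorem sum_sg (p : GolayPt) (a : ℤ) : ∑ i, sg p a i = a := by simp [sg]

theorem isL_sg_eight (p : GolayPt) : IsL (sg p 8) :=
  isL_of_four (fun i => by unfold sg; split_ifs <;> rfl) (by rw [sum_sg]; rfl)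

theorem isL_sg_add (p q : GolayPt) : IsL (sg p 4 + sg q 4) :=
  isL_of_four (fun i => by simp only [Pi.add_apply, sg]; split_ifs <;> rfl)
    (by simp only [Pi.add_apply, sum_add_distrib, sum_sg]; rfl)

theorem isL_sg_sub (p q : GolayPt) : IsL (sg p 4 - sg q 4) :=
  isL_of_four (fun i => by simp only [Pi.sub_apply, sg]; split_ifs <;> rfl)
    (by simp only [Pi.sub_apply, sum_sub_distrib, sum_sg]; rfl)

/-- Twice the indicator vector of a set of points. -/
def two (c : Finset GolayPt) : V := fun i => if i ∈ c then 2 else 0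

theorem isL_two {c : Finset GolayPt} (hc : c ∈ GC) : IsL (two c) := by
  refine ⟨0, c, hc, fun i hi => by simp [two, hi], fun i hi => by simp [two, hi], ?_⟩
  have := four_dvd_card hc
  simp only [two, sum_ite_mem_const]; omega

/-- The vector with `-3` at the point `p` and `1` elsewhere. -/
def odd3 (p : GolayPt) : V := fun i => if i = p then -3 else 1

theorem sum_odd3 (p : GolayPt) : ∑ i, odd3 p i = 20 := by
  have : ∀ i, odd3 p i = 1 - sg p 4 i := fun i => by unfold odd3 sg; split_ifs <;> rfl
  simp only [this, sum_sub_distrib, sum_sg, sum_const, card_univ, card_golayPt]; rfl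

theorem isL_odd3 (p : GolayPt) : IsL (odd3 p) :=
  ⟨1, ∅, empty_mem_GC, by simp, fun i _ => by unfold odd3; split_ifs <;> rfl,
    by rw [sum_odd3]; rfl⟩

/-- A subgroup containing the vectors `4 e_p + 4 e_∞` contains all vectors with coordinates
divisible by 4 and sum divisible by 8. -/
theorem mem_of_four (K : AddSubgroup V) (hK : ∀ p, sg p 4 + sg none 4 ∈ K) {x : V}
    (h4 : ∀ i, x i % 4 = 0) (h8 : (∑ i, x i) % 8 = 0) : x ∈ K := by
  have key : x = ∑ p, (x p / 4) • (sg p 4 + sg none 4) -
      ((∑ i, x i) / 8) • (sg none 4 + sg none 4) := by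
    funext i
    have hs : ∑ p, (x p / 4) * 4 = ∑ p, x p :=
      sum_congr rfl fun p _ => by have := h4 p; omega
    simp only [Pi.sub_apply, Finset.sum_apply, Pi.smul_apply, Pi.add_apply, smul_eq_mul, mul_add,
      sum_add_distrib, sg, mul_ite, mul_zero, sum_ite_eq, mem_univ, if_true]
    have := h4 i
    split_ifs with hi
    · rw [hs]; omega
    · simp; omega
  rw [key]
  exact K.sub_mem (K.sum_mem fun p _ => K.zsmul_mem (hK p) _) (K.zsmul_mem (hK none) _)

/-- Generators of the lattice. -/
theorem le_of_gens (K : AddSubgroup V) (h4 : ∀ p, sg p 4 + sg none 4 ∈ K)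
    (h2 : ∀ b ∈ rows, two (toSet b) ∈ K) (h1 : odd3 none ∈ K) {x : V} (hx : IsL x) : x ∈ K := by
  have htwo : ∀ c ∈ GC, two c ∈ K := by
    intro c hc
    have : c ∈ GC ∧ two c ∈ K := by
      refine GC_induction (P := fun c => c ∈ GC ∧ two c ∈ K) ⟨empty_mem_GC, ?_⟩ ?_ ?_ hc
      · have : two ∅ = 0 := by funext i; simp [two]
        rw [this]; exact K.zero_mem
      · rintro s t ⟨hs, hs'⟩ ⟨ht, ht'⟩
        refine ⟨symmDiff_mem_GC hs ht, ?_⟩
        have e : two (s ∆ t) = two s + two t - fun i => if i ∈ s ∩ t then 4 else 0 := by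
          funext i
          simp only [two, Finset.mem_symmDiff, Pi.sub_apply, Pi.add_apply, mem_inter]
          by_cases a : i ∈ s <;> by_cases b : i ∈ t <;> simp [a, b]
        rw [e]
        refine K.sub_mem (K.add_mem hs' ht') (mem_of_four K h4 (fun i => ?_) ?_)
        · split_ifs <;> rfl
        · have := Nat.even_iff.mp (even_card_inter hs ht)
          rw [sum_ite_mem_const]; omega
      · intro b hb; exact ⟨rows_mem_GC b hb, h2 b hb⟩
    exact this.2
  have heven : ∀ y : V, IsL y → y none % 2 = 0 → y ∈ K := by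
    intro y hy hy0
    obtain ⟨m, c, hm, hc, a1, a0, a8⟩ := hy.normal
    have hm0 : m = 0 := by
      by_cases hn : none ∈ c
      · have := a1 _ hn; omega
      · have := a0 _ hn; omega
    subst hm0
    have : y = (y - two c) + two c := by simp
    rw [this]
    refine K.add_mem (mem_of_four K h4 (fun i => ?_) ?_) (htwo c hc)
    · simp only [Pi.sub_apply, two]
      split_ifs with hi
      · have := a1 i hi; omega
      · have := a0 i hi; omega
    · have := four_dvd_card hc
      simp only [Pi.sub_apply, sum_sub_distrib, two, sum_ite_mem_const]; omega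
  by_cases h0 : x none % 2 = 0
  · exact heven x hx h0
  · have : x = (x - odd3 none) + odd3 none := by simp
    rw [this]
    refine K.add_mem (heven _ ?_ ?_) h1
    · rw [sub_eq_add_neg]; exact hx.add (isL_odd3 none).neg
    · simp only [Pi.sub_apply, odd3, if_true]; omega

/-- All coordinates of a lattice vector have the same parity. -/
theorem IsL.parity {x : V} (hx : IsL x) (i j : GolayPt) : x i % 2 = x j % 2 := by
  obtain ⟨m, c, -, h1, h0, -⟩ := hx
  have : ∀ k, (x k - m) % 2 = 0 := fun k => by
    by_cases hk : k ∈ c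
    · have := h1 k hk; omega
    · have := h0 k hk; omega
  have a := this i
  have b := this j
  omega

end Cfsg.Agent.H3
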