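/-
Counting lattice vectors: a product formula for weighted sums over the lattice vectors in a box,
the numbers of vectors of small norm, and the index of the lattice.
-/
import Cfsg.Agent.H3.Leech

set_option autoImplicit false

namespace Cfsg.Agent.H3

open Cfsg Cfsg.Agent.H1 Finset
open scoped Pointwise symmDiff

/-- The sign `(-1)^k`. -/
def sgnp (k : ℤ) : ℤ := if k % 2 = 0 then 1 else -1

theorem sgnp_add (a b : ℤ) : sgnp (a + b) = sgnp a * sgnp b := by
  unfold sgnp
  split_ifs <;> omega

theorem prod_sgnp {α : Type*} (s : Finset α) (f : α → ℤ) :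
    ∏ i ∈ s, sgnp (f i) = sgnp (∑ i ∈ s, f i) := by
  classical
  induction s using Finset.induction_on with
  | empty => simp [sgnp]
  | insert a s ha ih => rw [prod_insert ha, sum_insert ha, sgnp_add, ih]

/-- The code as a finite set. -/
noncomputable def GCf : Finset (Finset GolayPt) := (Set.toFinite GC).toFinset

theorem mem_GCf {c : Finset GolayPt} : c ∈ GCf ↔ c ∈ GC := Set.Finite.mem_toFinset _

theorem card_filter_GCf (P : Finset GolayPt → Prop) [DecidablePred P] :
    (GCf.filter P).card = {s | s ∈ GC ∧ P s}.ncard := by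
  rw [← Set.ncard_coe_finset]
  congr 1
  ext s
  simp [mem_GCf]

theorem sum_GCf (G : ℕ → ℤ) :
    ∑ c ∈ GCf, G c.card = G 0 + 759 * G 8 + 2576 * G 12 + 759 * G 16 + G 24 := by
  have hm : ∀ c ∈ GCf, c.card ∈ ({0, 8, 12, 16, 24} : Finset ℕ) := fun c hc => by
    have := card_of_mem_GC (mem_GCf.mp hc)
    simp only [mem_insert, mem_singleton]; exact this
  rw [← sum_fiberwise_of_maps_to hm]
  have h1 : ∀ w, ∑ c ∈ GCf with c.card = w, G c.card =
      ({s | s ∈ GC ∧ s.card = w}.ncard : ℤ) * G w := fun w => by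
    rw [sum_congr rfl (g := fun _ => G w) (fun c hc => by rw [(mem_filter.mp hc).2]), sum_const,
      card_filter_GCf, nsmul_eq_mul]
  simp only [h1]
  have e0 : {s | s ∈ GC ∧ s.card = 0}.ncard = 1 := by
    have : {s | s ∈ GC ∧ s.card = 0} = {∅} := by
      ext s
      simp only [Set.mem_ofPred_eq, card_eq_zero, Set.mem_singleton_iff]
      exact ⟨fun h => h.2, fun h => ⟨h ▸ empty_mem_GC, h⟩⟩
    rw [this, Set.ncard_singleton]
  have e24 : {s | s ∈ GC ∧ s.card = 24}.ncard = 1 := by
    have : {s | s ∈ GC ∧ s.card = 24} = {univ} := by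
      ext s
      simp only [Set.mem_ofPred_eq, Set.mem_singleton_iff]
      refine ⟨fun h => ?_, fun h => ⟨h ▸ univ_mem_GC, by rw [h, card_univ, card_golayPt]⟩⟩
      exact eq_univ_of_card _ (by rw [h.2, card_golayPt])
    rw [this, Set.ncard_singleton]
  have e8 : {s | s ∈ GC ∧ s.card = 8}.ncard = 759 := ncard_octads
  have e12 : {s | s ∈ GC ∧ s.card = 12}.ncard = 2576 := ncard_dodecads
  rw [sum_insert (by decide), sum_insert (by decide), sum_insert (by decide),
    sum_insert (by decide), sum_singleton, e0, e8, e12, ncard_sixteen, e24]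
  push_cast; ring

/-- Sum of `f` over the members of `B` congruent to `r` modulo 4. -/
def resSum (B : Finset ℤ) (f : ℤ → ℤ) (r : ℤ) : ℤ := ∑ a ∈ B with a % 4 = r, f a

/-- Twice the contribution of one code word of weight `w` to the weighted sum. -/
def wtTerm (B : Finset ℤ) (f : ℤ → ℤ) (w : ℕ) : ℤ :=
  (resSum B f 2 ^ w * resSum B f 0 ^ (24 - w) +
    resSum B (fun a => sgnp (a / 4) * f a) 2 ^ w *
      resSum B (fun a => sgnp (a / 4) * f a) 0 ^ (24 - w)) +
  (resSum B f 3 ^ w * resSum B f 1 ^ (24 - w) -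
    resSum B (fun a => sgnp (a / 4) * f a) 3 ^ w *
      resSum B (fun a => sgnp (a / 4) * f a) 1 ^ (24 - w))

theorem sum_pi_res (B : Finset ℤ) (f : ℤ → ℤ) (m : ℤ) (c : Finset GolayPt) :
    ∑ x ∈ Fintype.piFinset (fun i : GolayPt => B.filter fun a => a % 4 = if i ∈ c then m + 2 else m),
      ∏ i, f (x i) = resSum B f (m + 2) ^ c.card * resSum B f m ^ (24 - c.card) := by
  rw [← prod_univ_sum]
  have : ∀ i : GolayPt, ∑ a ∈ B with a % 4 = (if i ∈ c then m + 2 else m), f a =
      if i ∈ c then resSum B f (m + 2) else resSum B f m := fun i => by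
    split_ifs <;> rfl
  simp only [this]
  rw [prod_ite, filter_mem_eq_inter, univ_inter, prod_const, prod_const]
  have : (univ.filter fun i => i ∉ c) = cᶜ := by ext; simp
  rw [this, card_compl, card_golayPt]

open Classical in
theorem two_mul_sum_box (B : Finset ℤ) (f : ℤ → ℤ) :
    2 * ∑ x ∈ (Fintype.piFinset fun _ : GolayPt => B) with x ∈ leechLattice, ∏ i, f (x i) =
      wtTerm B f 0 + 759 * wtTerm B f 8 + 2576 * wtTerm B f 12 + 759 * wtTerm B f 16 +
        wtTerm B f 24 := by
  rw [← sum_GCf (wtTerm B f)]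
  let g : V → Finset GolayPt × ℤ := fun x => (univ.filter fun i => 2 ≤ x i % 4, x none % 2)
  have hkey : ∀ (x : V) (m : ℤ) (c : Finset GolayPt), (m = 0 ∨ m = 1) →
      (∀ i ∈ c, x i % 4 = m + 2) → (∀ i ∉ c, x i % 4 = m) → g x = (c, m) := by
    intro x m c hm h1 h0
    refine Prod.ext ?_ ?_
    · ext i
      simp only [g, mem_filter, mem_univ, true_and]
      by_cases hi : i ∈ c
      · have := h1 i hi; simp only [hi, iff_true]; omega
      · have := h0 i hi; simp only [hi, iff_false]; omega
    · simp only [g]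
      by_cases hi : none ∈ c
      · have := h1 _ hi; omega
      · have := h0 _ hi; omega
  have hm : ∀ x ∈ (Fintype.piFinset fun _ : GolayPt => B).filter (· ∈ leechLattice),
      g x ∈ GCf ×ˢ ({0, 1} : Finset ℤ) := by
    intro x hx
    obtain ⟨m, c, hm, hc, h1, h0, -⟩ := (mem_leech.mp (mem_filter.mp hx).2).normal
    rw [hkey x m c hm h1 h0, mem_product]
    exact ⟨mem_GCf.mpr hc, by simpa using hm⟩
  rw [← sum_fiberwise_of_maps_to hm, sum_product, mul_sum]
  refine sum_congr rfl fun c hc => ?_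
  have hc := mem_GCf.mp hc
  have h4 := four_dvd_card hc
  have key : ∀ m : ℤ, (m = 0 ∨ m = 1) →
      2 * ∑ x ∈ ((Fintype.piFinset fun _ : GolayPt => B).filter (· ∈ leechLattice)) with
        g x = (c, m), ∏ i, f (x i) =
      resSum B f (m + 2) ^ c.card * resSum B f m ^ (24 - c.card) +
        sgnp m * (resSum B (fun a => sgnp (a / 4) * f a) (m + 2) ^ c.card *
          resSum B (fun a => sgnp (a / 4) * f a) m ^ (24 - c.card)) := by
    intro m hm
    rw [← sum_pi_res, ← sum_pi_res, mul_sum, mul_sum, ← sum_add_distrib]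
    have hset : ((Fintype.piFinset fun _ : GolayPt => B).filter (· ∈ leechLattice)).filter
        (fun x => g x = (c, m)) =
        (Fintype.piFinset (fun i : GolayPt =>
          B.filter fun a => a % 4 = if i ∈ c then m + 2 else m)).filter
          fun x => (∑ i, x i) % 8 = 4 * m := by
      ext x
      simp only [mem_filter, Fintype.mem_piFinset]
      constructor
      · rintro ⟨⟨hB, hx⟩, hg⟩
        obtain ⟨m', c', hm', -, h1, h0, h8⟩ := (mem_leech.mp hx).normal
        rw [hkey x m' c' hm' h1 h0, Prod.mk.injEq] at hg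
        obtain ⟨rfl, rfl⟩ := hg
        refine ⟨fun i => ⟨hB i, ?_⟩, h8⟩
        split_ifs with hi
        · exact h1 i hi
        · exact h0 i hi
      · rintro ⟨hB, h8⟩
        have h1 : ∀ i ∈ c, x i % 4 = m + 2 := fun i hi => by simpa [hi] using (hB i).2
        have h0 : ∀ i ∉ c, x i % 4 = m := fun i hi => by simpa [hi] using (hB i).2
        refine ⟨⟨fun i => (hB i).1, mem_leech.mpr ⟨m, c, hc, fun i hi => ?_, fun i hi => ?_, ?_⟩⟩,
          hkey x m c hm h1 h0⟩
        · have := h1 i hi; omega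
        · have := h0 i hi; omega
        · omega
    rw [hset, sum_filter]
    refine sum_congr rfl fun x hx => ?_
    simp only [Fintype.mem_piFinset, mem_filter] at hx
    rw [prod_mul_distrib, prod_sgnp]
    have hs : ∑ i, x i = 4 * ∑ i, x i / 4 + ∑ i, (if i ∈ c then m + 2 else m) := by
      rw [mul_sum, ← sum_add_distrib]
      refine sum_congr rfl fun i _ => ?_
      have := (hx i).2
      omega
    rw [sum_ite_mem_const] at hs
    generalize ∏ i, f (x i) = F
    generalize ∑ i, x i / 4 = K at hs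
    unfold sgnp
    rcases hm with rfl | rfl <;> split_ifs <;> omega
  rw [sum_insert (by decide), sum_singleton, mul_add, key 0 (Or.inl rfl), key 1 (Or.inr rfl)]
  unfold wtTerm
  simp only [sgnp]
  norm_num
  ring

/-- Reading a count off a base-`q` digit of a generating sum. -/
theorem digit_sum_pow {α : Type*} (S : Finset α) (f : α → ℕ) (q n : ℕ) (hq : S.card < q) :
    (∑ x ∈ S, q ^ f x) / q ^ n % q = (S.filter fun x => f x = n).card := by
  classical
  have hq0 : 0 < q := by omega
  rw [← sum_filter_add_sum_filter_not S (fun x => f x < n),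
    ← sum_filter_add_sum_filter_not (S.filter fun x => ¬ f x < n) (fun x => f x = n)]
  have h1 : ∑ x ∈ S with f x < n, q ^ f x < q ^ n := by
    rcases n with _ | n
    · simp
    · calc ∑ x ∈ S with f x < n + 1, q ^ f x ≤ (S.filter fun x => f x < n + 1).card • q ^ n :=
            sum_le_card_nsmul _ _ _ fun x hx =>
              Nat.pow_le_pow_right hq0 (by have := (mem_filter.mp hx).2; omega)
        _ ≤ S.card * q ^ n := Nat.mul_le_mul_right _ (card_filter_le _ _)
        _ < q * q ^ n := Nat.mul_lt_mul_of_pos_right hq (Nat.pow_pos hq0)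
        _ = q ^ (n + 1) := by ring
  have h2 : ∑ x ∈ (S.filter fun x => ¬ f x < n) with f x = n, q ^ f x =
      q ^ n * (S.filter fun x => f x = n).card := by
    rw [filter_filter, sum_congr rfl (g := fun _ => q ^ n)
      (fun x hx => by rw [(mem_filter.mp hx).2.2]), sum_const, smul_eq_mul, mul_comm]
    congr 2
    exact filter_congr fun x _ => by omega
  have h3 : ∑ x ∈ (S.filter fun x => ¬ f x < n) with ¬ f x = n, q ^ f x =
      q ^ n * (q * ∑ x ∈ (S.filter fun x => ¬ f x < n) with ¬ f x = n, q ^ (f x - (n + 1))) := by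
    rw [mul_sum, mul_sum]
    refine sum_congr rfl fun x hx => ?_
    simp only [mem_filter] at hx
    rw [← pow_succ', ← pow_add]
    congr 1; omega
  rw [h2, h3, ← mul_add, Nat.add_mul_div_left _ _ (Nat.pow_pos hq0), Nat.div_eq_of_lt h1, zero_add,
    Nat.add_mul_mod_self_left, Nat.mod_eq_of_lt (lt_of_le_of_lt (card_filter_le _ _) hq)]

/-- The weight `q ^ (a ^ 2)`. -/
def thetaWt (q : ℕ) (a : ℤ) : ℤ := ((q ^ (a ^ 2).toNat : ℕ) : ℤ)

/-- The generating sum of the lattice vectors in the box `[-8, 8]^24`, in base `q`. -/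
noncomputable def thetaVal (q : ℕ) : ℕ :=
  (wtTerm (Icc (-8) 8) (thetaWt q) 0 + 759 * wtTerm (Icc (-8) 8) (thetaWt q) 8 +
    2576 * wtTerm (Icc (-8) 8) (thetaWt q) 12 + 759 * wtTerm (Icc (-8) 8) (thetaWt q) 16 +
    wtTerm (Icc (-8) 8) (thetaWt q) 24).toNat / 2

theorem sqNorm_nonneg {α : Type*} [Fintype α] (x : α → ℤ) : 0 ≤ sqNorm x :=
  sum_nonneg fun i _ => sq_nonneg (x i)

theorem sq_le_sqNorm {α : Type*} [Fintype α] (x : α → ℤ) (i : α) : x i ^ 2 ≤ sqNorm x :=
  single_le_sum (f := fun i => x i ^ 2) (fun i _ => sq_nonneg (x i)) (mem_univ i)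

theorem sqNorm_eq_zero {α : Type*} [Fintype α] {x : α → ℤ} (h : sqNorm x = 0) : x = 0 := by
  funext i
  have := sq_le_sqNorm x i
  rw [h] at this
  exact pow_eq_zero_iff (two_ne_zero) |>.mp (le_antisymm this (sq_nonneg _))

theorem prod_thetaWt {α : Type*} [Fintype α] (q : ℕ) (x : α → ℤ) :
    ∏ i, thetaWt q (x i) = ((q ^ (sqNorm x).toNat : ℕ) : ℤ) := by
  have h : (sqNorm x).toNat = ∑ i, (x i ^ 2).toNat := by
    apply Int.ofNat_injective
    simp only [Int.ofNat_eq_natCast, Nat.cast_sum]
    rw [Int.toNat_of_nonneg (sqNorm_nonneg x), sqNorm_def]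
    exact sum_congr rfl fun i _ => (Int.toNat_of_nonneg (sq_nonneg _)).symm
  rw [h, ← prod_pow_eq_pow_sum, Nat.cast_prod]
  rfl

/-- The lattice vectors with sum of squares `n`. -/
def shell (n : ℤ) : Set V := {x | x ∈ leechLattice ∧ sqNorm x = n}

theorem shell_finite (n : ℤ) : (shell n).Finite := by
  refine (Fintype.piFinset fun _ : GolayPt => Icc (-n) n).finite_toSet.subset ?_
  rintro x ⟨-, hx⟩
  simp only [Finset.mem_coe, Fintype.mem_piFinset, mem_Icc]
  intro i
  have := sq_le_sqNorm x i
  rw [hx] at this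
  constructor <;> nlinarith [sq_nonneg (x i - 1), sq_nonneg (x i + 1), sq_nonneg (x i)]

theorem ncard_shell {n q : ℕ} (hn : n ≤ 64) (hq : 17 ^ 24 < q) :
    (shell n).ncard = thetaVal q / q ^ n % q := by
  classical
  have h := two_mul_sum_box (Icc (-8) 8) (thetaWt q)
  set S := (Fintype.piFinset fun _ : GolayPt => Icc (-8 : ℤ) 8).filter (· ∈ leechLattice) with hS
  have h2 : thetaVal q = ∑ x ∈ S, q ^ (sqNorm x).toNat := by
    have e : ∀ x : V, ∏ i, thetaWt q (x i) = ((q ^ (sqNorm x).toNat : ℕ) : ℤ) :=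
      prod_thetaWt q
    simp only [e] at h
    rw [← Nat.cast_sum] at h
    unfold thetaVal
    rw [← h]
    generalize ∑ x ∈ S, q ^ (sqNorm x).toNat = T
    omega
  have hcard : S.card < q := by
    refine lt_of_le_of_lt (card_filter_le _ _) ?_
    rw [Fintype.card_piFinset, prod_const, card_univ, card_golayPt]
    exact hq
  rw [h2, digit_sum_pow _ _ _ _ hcard, ← Set.ncard_coe_finset]
  refine congrArg Set.ncard (Set.ext fun x => ?_)
  rw [Finset.mem_coe, mem_filter, hS, mem_filter, Fintype.mem_piFinset]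
  simp only [mem_Icc]
  constructor
  · rintro ⟨hx, hn'⟩
    refine ⟨⟨fun i => ?_, hx⟩, by rw [hn']; rfl⟩
    have := sq_le_sqNorm x i
    rw [hn'] at this
    have : x i ^ 2 ≤ 64 := by omega
    constructor <;> nlinarith
  · rintro ⟨⟨-, hx⟩, hn'⟩
    exact ⟨hx, by rw [← hn', Int.toNat_of_nonneg (sqNorm_nonneg x)]⟩

theorem ncard_shell_16 : (shell 16).ncard = 0 :=
  (ncard_shell (n := 16) (q := 2 ^ 100) (by norm_num) (by norm_num)).trans (by decide +kernel)

theorem ncard_shell_32 : (shell 32).ncard = 196560 :=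
  (ncard_shell (n := 32) (q := 2 ^ 100) (by norm_num) (by norm_num)).trans (by decide +kernel)

theorem ncard_shell_48 : (shell 48).ncard = 16773120 :=
  (ncard_shell (n := 48) (q := 2 ^ 100) (by norm_num) (by norm_num)).trans (by decide +kernel)

theorem ncard_shell_64 : (shell 64).ncard = 398034000 :=
  (ncard_shell (n := 64) (q := 2 ^ 100) (by norm_num) (by norm_num)).trans (by decide +kernel)

theorem min_norm {x : V} (hx : x ∈ leechLattice) (h0 : x ≠ 0) : 32 ≤ sqNorm x := by
  have h16 := (mem_leech.mp hx).sixteen_dvd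
  have hn := sqNorm_nonneg x
  have hz : sqNorm x ≠ 0 := fun h => h0 (sqNorm_eq_zero h)
  have h1 : sqNorm x ≠ 16 := fun h => by
    have := (Set.ncard_eq_zero (shell_finite 16)).mp ncard_shell_16
    have hx' : x ∈ shell 16 := ⟨hx, h⟩
    rw [this] at hx'
    exact hx'
  omega

theorem index_leech : leechLattice.index = 2 ^ 36 := by
  classical
  let π : V →+ (GolayPt → ZMod 8) := (Int.castAddHom (ZMod 8)).compLeft GolayPt
  have hπ : ∀ x i, π x i = (x i : ZMod 8) := fun _ _ => rfl
  have hsurj : Function.Surjective π := fun y =>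
    ⟨fun i => ((y i).val : ℤ), by funext i; simp [hπ]⟩
  have hker : π.ker ≤ leechLattice := by
    intro x hx
    have hx' : ∀ i, x i % 8 = 0 := fun i => by
      have := congrFun (AddMonoidHom.mem_ker.mp hx) i
      rw [hπ, Pi.zero_apply, ZMod.intCast_zmod_eq_zero_iff_dvd] at this
      omega
    refine mem_leech.mpr (isL_of_four (fun i => by have := hx' i; omega) ?_)
    rw [Finset.sum_int_mod]; simp [hx']
  rw [← AddSubgroup.index_map_eq _ hsurj hker]
  have hcard : Nat.card (leechLattice.map π) = 2 ^ 36 := by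
    have h := two_mul_sum_box (Icc 0 7) (fun _ => 1)
    have hv : wtTerm (Icc 0 7) (fun _ => 1) 0 + 759 * wtTerm (Icc 0 7) (fun _ => 1) 8 +
        2576 * wtTerm (Icc 0 7) (fun _ => 1) 12 + 759 * wtTerm (Icc 0 7) (fun _ => 1) 16 +
        wtTerm (Icc 0 7) (fun _ => 1) 24 = 2 * 2 ^ 36 := by decide +kernel
    rw [hv] at h
    simp only [prod_const_one, sum_const, nsmul_eq_mul, mul_one] at h
    have h' : ((Fintype.piFinset fun _ : GolayPt => Icc (0 : ℤ) 7).filter
        (· ∈ leechLattice)).card = 2 ^ 36 := by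
      zify; omega
    rw [← h', ← Set.ncard_coe_finset, ← SetLike.coe_sort_coe, Nat.card_coe_set_eq]
    symm
    refine Set.ncard_congr (fun x _ => π x) ?_ ?_ ?_
    · intro x hx
      exact ⟨x, (mem_filter.mp hx).2, rfl⟩
    · intro x y hx hy hxy
      have hx := (mem_filter.mp hx).1
      have hy := (mem_filter.mp hy).1
      simp only [Fintype.mem_piFinset, mem_Icc] at hx hy
      funext i
      have := congrFun hxy i
      rw [hπ, hπ, ZMod.intCast_eq_intCast_iff_dvd_sub] at this
      have a := hx i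
      have b := hy i
      omega
    · rintro _ ⟨x, hx, rfl⟩
      have e : π (fun i => x i % 8) = π x := by
        funext i
        rw [hπ, hπ, ZMod.intCast_eq_intCast_iff_dvd_sub]
        omega
      refine ⟨fun i => x i % 8, ?_, e⟩
      simp only [coe_filter, Fintype.mem_piFinset, mem_Icc, Set.mem_ofPred_eq]
      refine ⟨fun i => by omega, ?_⟩
      have : (fun i => x i % 8) - x ∈ π.ker := by
        rw [AddMonoidHom.mem_ker, map_sub, e, sub_self]
      simpa using leechLattice.add_mem (hker this) hx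
  have h := (leechLattice.map π).index_mul_card
  rw [hcard, Nat.card_fun, Nat.card_zmod, Nat.card_eq_fintype_card, card_golayPt] at h
  omega

end Cfsg.Agent.H3
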