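/-
The automorphism group of the rank-24 lattice: basic properties, explicit elements (monomial maps
and the extra generator attached to a sextet), and the stabiliser of a coordinate vector.
-/
import Cfsg.Agent.H3.Theta
import Cfsg.Agent.H1.Mathieu

set_option autoImplicit false

namespace Cfsg.Agent.H3

open Cfsg Cfsg.Agent.H1 Finset
open scoped Pointwise symmDiff

/-- The lattice as a type. -/
abbrev L : Type := leechLattice

theorem isL_coe (v : L) : IsL (v : V) := mem_leech.mp v.2

/-- A lattice vector from the membership criterion. -/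
def mkL (x : V) (h : IsL x) : L := ⟨x, mem_leech.mpr h⟩

@[simp] theorem coe_mkL (x : V) (h : IsL x) : (mkL x h : V) = x := rfl

/-- The additive map underlying an automorphism. -/
def toHom (g : Co0) : L →+ L := AddMonoidHom.mk' (fun v => g • v) g.2.1

theorem toHom_apply (g : Co0) (v : L) : toHom g v = g • v := rfl

theorem co_add (g : Co0) (v w : L) : g • (v + w) = g • v + g • w := g.2.1 v w

theorem co_zero (g : Co0) : g • (0 : L) = 0 := (toHom g).map_zero

theorem co_neg (g : Co0) (v : L) : g • (-v) = -(g • v) := (toHom g).map_neg v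

theorem co_sub (g : Co0) (v w : L) : g • (v - w) = g • v - g • w := (toHom g).map_sub v w

theorem co_zsmul (g : Co0) (n : ℤ) (v : L) : g • (n • v) = n • (g • v) := (toHom g).map_zsmul n v

theorem co_sum {ι : Type*} (g : Co0) (s : Finset ι) (f : ι → L) :
    g • (∑ i ∈ s, f i) = ∑ i ∈ s, g • f i := map_sum (toHom g) f s

theorem co_norm (g : Co0) (v : L) : sqNorm ((g • v : L) : V) = sqNorm (v : V) := g.2.2 v

theorem sqNorm_add {α : Type*} [Fintype α] (x y : α → ℤ) :
    sqNorm (x + y) = sqNorm x + 2 * dotInt x y + sqNorm y := by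
  simp only [sqNorm_def, dotInt_def, mul_sum, ← sum_add_distrib, Pi.add_apply]
  exact sum_congr rfl fun i _ => by ring

theorem sqNorm_neg {α : Type*} [Fintype α] (x : α → ℤ) : sqNorm (-x) = sqNorm x := by
  simp [sqNorm_def]

theorem dotInt_self {α : Type*} [Fintype α] (x : α → ℤ) : dotInt x x = sqNorm x := by
  simp only [sqNorm_def, dotInt_def, sq]

theorem dotInt_comm {α : Type*} [Fintype α] (x y : α → ℤ) : dotInt x y = dotInt y x := by
  simp only [dotInt_def, mul_comm]

theorem dotInt_add_left {α : Type*} [Fintype α] (x y z : α → ℤ) :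
    dotInt (x + y) z = dotInt x z + dotInt y z := by
  simp only [dotInt_def, Pi.add_apply, add_mul, sum_add_distrib]

theorem dotInt_neg_left {α : Type*} [Fintype α] (x z : α → ℤ) : dotInt (-x) z = -dotInt x z := by
  simp only [dotInt_def, Pi.neg_apply, neg_mul, sum_neg_distrib]

theorem dotInt_add_right {α : Type*} [Fintype α] (x y z : α → ℤ) :
    dotInt x (y + z) = dotInt x y + dotInt x z := by
  simp only [dotInt_def, Pi.add_apply, mul_add, sum_add_distrib]

theorem dotInt_neg_right {α : Type*} [Fintype α] (x z : α → ℤ) : dotInt x (-z) = -dotInt x z := by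
  simp only [dotInt_def, Pi.neg_apply, mul_neg, sum_neg_distrib]

theorem co_dot (g : Co0) (v w : L) :
    dotInt ((g • v : L) : V) ((g • w : L) : V) = dotInt (v : V) (w : V) := by
  have h := co_norm g (v + w)
  rw [co_add, AddSubgroup.coe_add, AddSubgroup.coe_add, sqNorm_add, sqNorm_add, co_norm,
    co_norm] at h
  omega

/-- The lattice vectors with sum of squares `n`, as a subset of the lattice. -/
def sh (n : ℤ) : Set L := {v | sqNorm (v : V) = n}

theorem image_sh (n : ℤ) : Subtype.val '' sh n = shell n := by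
  ext x
  exact ⟨fun ⟨v, hv, e⟩ => e ▸ ⟨v.2, hv⟩, fun h => ⟨⟨x, h.1⟩, h.2, rfl⟩⟩

theorem sh_finite (n : ℤ) : (sh n).Finite :=
  Set.Finite.of_finite_image (image_sh n ▸ shell_finite n) Subtype.val_injective.injOn

theorem ncard_sh (n : ℤ) : (sh n).ncard = (shell n).ncard := by
  rw [← image_sh, Set.ncard_image_of_injective _ Subtype.val_injective]

theorem smul_mem_sh {n : ℤ} (g : Co0) {v : L} (hv : v ∈ sh n) : g • v ∈ sh n :=
  (co_norm g v).trans hv

/-- The function `f` on integer vectors describes the action of some element of `K`. -/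
def Real (K : Subgroup Co0) (f : V → V) : Prop := ∃ g ∈ K, ∀ v : L, ((g • v : L) : V) = f v

theorem real_of (f : V → V) (hL : ∀ x, IsL x → IsL (f x))
    (hadd : ∀ x y, IsL x → IsL y → f (x + y) = f x + f y)
    (hn : ∀ x, IsL x → sqNorm (f x) = sqNorm x) : Real ⊤ f := by
  let F : L → L := fun v => mkL (f v) (hL _ (isL_coe v))
  have hF : ∀ v w, F (v + w) = F v + F w := fun v w =>
    Subtype.ext (hadd _ _ (isL_coe v) (isL_coe w))
  have hFn : ∀ v, sqNorm (F v : V) = sqNorm (v : V) := fun v => hn _ (isL_coe v)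
  have hinj : Function.Injective F := by
    refine (injective_iff_map_eq_zero (AddMonoidHom.mk' F hF)).mpr fun v hv => ?_
    have h := hFn v
    have hv' : F v = 0 := hv
    rw [hv'] at h
    exact Subtype.ext (sqNorm_eq_zero (by rw [← h]; simp [sqNorm_def]))
  have hsurj : Function.Surjective F := by
    intro w
    have hm : Set.MapsTo F (sh (sqNorm (w : V))) (sh (sqNorm (w : V))) :=
      fun v hv => (hFn v).trans hv
    obtain ⟨v, -, e⟩ := ((sh_finite _).injOn_iff_bijOn_of_mapsTo hm).mp hinj.injOn |>.surjOn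
      (show w ∈ sh (sqNorm (w : V)) from rfl)
    exact ⟨v, e⟩
  exact ⟨⟨Equiv.ofBijective F ⟨hinj, hsurj⟩, hF, hFn⟩, trivial, fun _ => rfl⟩

theorem Real.comp {K : Subgroup Co0} {f f' : V → V} (h : Real K f) (h' : Real K f') :
    Real K (fun x => f (f' x)) := by
  obtain ⟨g, hg, e⟩ := h
  obtain ⟨g', hg', e'⟩ := h'
  exact ⟨g * g', K.mul_mem hg hg', fun v => by rw [mul_smul, e, e']⟩

theorem Real.mono {K K' : Subgroup Co0} {f : V → V} (h : Real K f) (hle : K ≤ K') : Real K' f :=
  let ⟨g, hg, e⟩ := h; ⟨g, hle hg, e⟩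

theorem Real.stab {K : Subgroup Co0} {f : V → V} (h : Real K f) {v : L} (hv : f v = v) :
    Real (K ⊓ MulAction.stabilizer Co0 v) f :=
  let ⟨g, hg, e⟩ := h; ⟨g, ⟨hg, Subtype.ext ((e v).trans hv)⟩, e⟩

theorem Real.stab_top {f : V → V} (h : Real ⊤ f) {v : L} (hv : f v = v) :
    Real (MulAction.stabilizer Co0 v) f := (h.stab hv).mono inf_le_right

theorem Real.mem_orbit {K : Subgroup Co0} {f : V → V} (h : Real K f) {v w : L} (hv : f v = w) :
    w ∈ MulAction.orbit K v :=
  let ⟨g, hg, e⟩ := h; ⟨⟨g, hg⟩, Subtype.ext ((e v).trans hv)⟩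

theorem real_neg : Real ⊤ (fun x => -x) :=
  real_of _ (fun _ h => h.neg) (fun _ _ _ _ => neg_add _ _) (fun x _ => sqNorm_neg x)

/-- A monomial map: permute the coordinates, then change signs on `c`. -/
def monoMap (c : Finset GolayPt) (τ : Equiv.Perm GolayPt) (x : V) : V := sgn c fun i => x (τ i)

theorem real_monoMap {c : Finset GolayPt} (hc : c ∈ GC) {τ : Equiv.Perm GolayPt} (hτ : τ ∈ M24) :
    Real ⊤ (monoMap c τ) := by
  refine real_of _ (fun x h => (h.comp hτ).sgn hc) (fun x y _ _ => ?_) (fun x _ => ?_)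
  · funext i
    simp only [monoMap, sgn, Pi.add_apply]
    split_ifs <;> ring
  · rw [sqNorm_def, sqNorm_def, ← Equiv.sum_comp τ (fun i => x i ^ 2)]
    refine sum_congr rfl fun i _ => ?_
    simp only [monoMap, sgn]
    split_ifs <;> ring

/-- A monomial map given by a mask and a coded permutation. -/
def monoFn (m c : ℕ) (x : V) : V := fun p =>
  bif m.testBit (ix p) then -x (pt (ap c (ix p))) else x (pt (ap c (ix p)))

theorem real_monoFn {m c : ℕ} (h : (isCode m && inM24 c) = true) : Real ⊤ (monoFn m c) := by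
  rw [Bool.and_eq_true] at h
  obtain ⟨τ, hτ, r⟩ := in_M24 h.2
  have : monoFn m c = monoMap (toSet m) τ := by
    funext x p
    have e : τ p = pt (ap c (ix p)) := by rw [← r p, pt_ix]
    simp only [monoFn, monoMap, sgn, mem_toSet, e]
    cases m.testBit (ix p) <;> simp
  rw [this]
  exact real_monoMap (toSet_mem_GC_of_isCode h.1) hτ

/-! ### The extra generator -/

/-- The points arranged in the six tetrads of a sextet. -/
def sexE : Fin 6 × Fin 4 ≃ GolayPt where
  toFun x := pt ([0, 1, 2, 3, 13, 18, 20, 21, 5, 14, 17, 23, 8, 15, 16, 19, 4, 7, 10, 12,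
    6, 9, 11, 22].getD (4 * x.1.val + x.2.val) 0)
  invFun p := (Fin.ofNat 6 ([0, 0, 0, 0, 4, 2, 5, 4, 3, 5, 4, 5, 4, 1, 2, 3, 3, 2, 1, 3, 1, 1, 5,
    2].getD (ix p) 0), Fin.ofNat 4 ([0, 1, 2, 3, 0, 0, 0, 1, 0, 1, 2, 2, 3, 0, 1, 1, 2, 2, 1, 3, 2,
    3, 3, 3].getD (ix p) 0))
  left_inv := by decide +kernel
  right_inv := by decide +kernel

/-- Sum of the coordinates in a tetrad. -/
def tsum (x : V) (a : Fin 6) : ℤ :=
  x (sexE (a, 0)) + x (sexE (a, 1)) + x (sexE (a, 2)) + x (sexE (a, 3))

/-- Subtract from each coordinate half the sum over its tetrad, and change signs on the first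
tetrad. -/
def xi (x : V) : V := fun p =>
  if (sexE.symm p).1 = 0 then tsum x (sexE.symm p).1 / 2 - x p
  else x p - tsum x (sexE.symm p).1 / 2

theorem tsum_even {x : V} (hx : IsL x) (a : Fin 6) : tsum x a % 2 = 0 := by
  have h1 := hx.parity (sexE (a, 0)) (sexE (a, 1))
  have h2 := hx.parity (sexE (a, 2)) (sexE (a, 3))
  unfold tsum; omega

theorem tsum_add (x y : V) (a : Fin 6) : tsum (x + y) a = tsum x a + tsum y a := by
  simp only [tsum, Pi.add_apply]; ring

theorem xi_add {x y : V} (hx : IsL x) (hy : IsL y) : xi (x + y) = xi x + xi y := by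
  funext p
  have h1 := tsum_even hx (sexE.symm p).1
  have h2 := tsum_even hy (sexE.symm p).1
  simp only [xi, Pi.add_apply, tsum_add]
  split_ifs <;> omega

theorem xi_zero : xi 0 = 0 := by
  funext p
  simp [xi, tsum]

theorem xi_norm {x : V} (hx : IsL x) : sqNorm (xi x) = sqNorm x := by
  rw [sqNorm_def, sqNorm_def, ← sexE.sum_comp, ← sexE.sum_comp (fun i => x i ^ 2),
    Fintype.sum_prod_type, Fintype.sum_prod_type]
  refine sum_congr rfl fun a _ => ?_
  obtain ⟨k, hk⟩ : ∃ k, tsum x a = 2 * k := ⟨tsum x a / 2, by have := tsum_even hx a; omega⟩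
  have hk' : tsum x a / 2 = k := by omega
  simp only [Fin.sum_univ_four, xi, Equiv.symm_apply_apply, hk']
  unfold tsum at hk
  have e : x (sexE (a, 3)) = 2 * k - x (sexE (a, 0)) - x (sexE (a, 1)) - x (sexE (a, 2)) := by omega
  split_ifs <;> rw [e] <;> ring

/-- Boolean form of the membership criterion. -/
def isLB (x : V) : Bool :=
  isCode (Nat.ofBits fun i : Fin 24 => decide ((x (pt i) - x none % 2) % 4 = 2)) &&
    decide (∀ p, (x p - x none % 2) % 2 = 0) && decide ((∑ p, x p - 4 * (x none % 2)) % 8 = 0)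

theorem isL_of_isLB {x : V} (h : isLB x = true) : IsL x := by
  simp only [isLB, Bool.and_eq_true, decide_eq_true_eq] at h
  obtain ⟨⟨h1, h2⟩, h3⟩ := h
  have hm : ∀ p, p ∈ toSet (Nat.ofBits fun i : Fin 24 =>
      decide ((x (pt i) - x none % 2) % 4 = 2)) ↔ (x p - x none % 2) % 4 = 2 := fun p => by
    rw [mem_toSet, Nat.testBit_ofBits_lt _ _ (ix_lt p)]
    simp
  refine ⟨x none % 2, _, toSet_mem_GC_of_isCode h1, fun i hi => (hm i).mp hi, fun i hi => ?_, h3⟩
  have a := mt (hm i).mpr hi
  have b := h2 i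
  omega

theorem isL_xi {x : V} (hx : IsL x) : IsL (xi x) := by
  let K : AddSubgroup V :=
    { carrier := {x | IsL x ∧ IsL (xi x)}
      zero_mem' := ⟨IsL.zero, by rw [xi_zero]; exact IsL.zero⟩
      add_mem' := fun {a b} ha hb => ⟨ha.1.add hb.1, by rw [xi_add ha.1 hb.1]; exact ha.2.add hb.2⟩
      neg_mem' := fun {a} ha => ⟨ha.1.neg, by
        have := xi_add ha.1 ha.1.neg
        rw [add_neg_cancel, xi_zero] at this
        rw [eq_neg_of_add_eq_zero_right this.symm]
        exact ha.2.neg⟩ }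
  have h4 : ∀ p, isLB (xi (sg p 4 + sg none 4)) = true := by decide +kernel
  have h2 : ∀ b ∈ rows, isLB (xi (two (toSet b))) = true := by decide +kernel
  have h1 : isLB (xi (odd3 none)) = true := by decide +kernel
  exact (le_of_gens K (fun p => ⟨isL_sg_add _ _, isL_of_isLB (h4 p)⟩)
    (fun b hb => ⟨isL_two (rows_mem_GC b hb), isL_of_isLB (h2 b hb)⟩)
    ⟨isL_odd3 _, isL_of_isLB h1⟩ hx).2

theorem real_xi : Real ⊤ xi :=
  real_of _ (fun _ => isL_xi) (fun _ _ => xi_add) (fun _ => xi_norm)

/-! ### Automorphisms fixing a coordinate vector are monomial -/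

/-- The vector with `8` at the point `p`. -/
def e8 (p : GolayPt) : L := mkL (sg p 8) (isL_sg_eight p)

theorem eight_smul_eq (v : L) : (8 : ℤ) • v = ∑ p, (v : V) p • e8 p := by
  apply Subtype.ext
  funext i
  simp only [AddSubgroupClass.coe_zsmul, Pi.smul_apply, smul_eq_mul,
    AddSubmonoidClass.coe_finsetSum, Finset.sum_apply, e8, coe_mkL, sg, mul_ite, mul_zero,
    sum_ite_eq, mem_univ, if_true]
  ring

theorem sqNorm_sg (p : GolayPt) (a : ℤ) : sqNorm (sg p a) = a ^ 2 := by
  simp [sqNorm_def, sg]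

theorem eq_of_fix_e8 {g g' : Co0} (h : ∀ p, g • e8 p = g' • e8 p) : g = g' := by
  refine Subtype.ext (Equiv.ext fun v => ?_)
  have h1 : (8 : ℤ) • (g • v) = (8 : ℤ) • (g' • v) := by
    rw [← co_zsmul, ← co_zsmul, eight_smul_eq, co_sum, co_sum]
    exact sum_congr rfl fun p _ => by rw [co_zsmul, co_zsmul, h]
  refine Subtype.ext (funext fun i => ?_)
  have := congrFun (congrArg Subtype.val h1) i
  simp only [AddSubgroupClass.coe_zsmul, Pi.smul_apply, smul_eq_mul] at this
  change ((g • v : L) : V) i = ((g' • v : L) : V) i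
  omega

instance instFiniteCo0 : Finite Co0 := by
  have := (sh_finite 64).to_subtype
  refine Finite.of_injective (fun (g : Co0) (p : GolayPt) =>
    (⟨g • e8 p, smul_mem_sh g (sqNorm_sg p 8)⟩ : sh 64)) fun g g' h => eq_of_fix_e8 fun p => ?_
  exact congrArg Subtype.val (congrFun h p)

/-- The vectors of sum of squares 64 congruent to `8 e_p` modulo twice the lattice. -/
theorem eq_sg_of_congr {u y : V} {p : GolayPt} (hy : IsL y) (hu : ∀ i, u i = sg p 8 i + 2 * y i)
    (hn : sqNorm u = 64) : ∃ k s, (s = 1 ∨ s = -1) ∧ u = sg k (8 * s) := by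
  obtain ⟨m, c, hm, hc, h1, h0, -⟩ := hy.normal
  have h8 : ∀ i, sg p 8 i % 8 = 0 := fun i => by unfold sg; split_ifs <;> rfl
  rcases hm with rfl | rfl
  · have hce : c = ∅ := by
      apply eq_empty_of_card_lt hc
      by_contra hlt
      have : ∑ i ∈ c, (16 : ℤ) ≤ ∑ i ∈ c, u i ^ 2 := by
        refine sum_le_sum fun i hi => ?_
        have a := h1 i hi
        have b := hu i
        have d := h8 i
        have : u i ≤ -4 ∨ 4 ≤ u i := by omega
        rcases this with h | h <;> nlinarith
      have h2 : ∑ i ∈ c, u i ^ 2 ≤ ∑ i, u i ^ 2 :=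
        sum_le_sum_of_subset_of_nonneg (subset_univ _) fun i _ _ => sq_nonneg _
      rw [sqNorm_def] at hn
      simp only [sum_const, nsmul_eq_mul] at this
      omega
    subst hce
    have hu8 : ∀ i, u i % 8 = 0 := fun i => by
      have a := h0 i (by simp)
      have b := hu i
      have d := h8 i
      omega
    obtain ⟨k, hk⟩ : ∃ k, u k ≠ 0 := by
      by_contra hh
      push Not at hh
      simp [sqNorm_def, hh] at hn
    have hk2 := sq_le_sqNorm u k
    have hk3 : u k = 8 ∨ u k = -8 := by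
      have := hu8 k
      have h3 : u k ≤ 8 := by nlinarith
      have h4 : -8 ≤ u k := by nlinarith
      omega
    have hrest : ∀ i, i ≠ k → u i = 0 := by
      intro i hi
      have h2 : ∑ j ∈ {i, k}, u j ^ 2 ≤ ∑ j, u j ^ 2 :=
        sum_le_sum_of_subset_of_nonneg (subset_univ _) fun i _ _ => sq_nonneg _
      rw [sum_pair hi, ← sqNorm_def, hn] at h2
      have : u i ^ 2 ≤ 0 := by rcases hk3 with h | h <;> rw [h] at h2 <;> omega
      exact pow_eq_zero_iff two_ne_zero |>.mp (le_antisymm this (sq_nonneg _))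
    refine ⟨k, u k / 8, by omega, funext fun i => ?_⟩
    unfold sg
    split_ifs with hi
    · rw [hi]; omega
    · exact hrest i hi
  · exfalso
    have : ∑ _i : GolayPt, (4 : ℤ) ≤ ∑ i, u i ^ 2 := by
      refine sum_le_sum fun i _ => ?_
      have b := hu i
      have d := h8 i
      have : u i ≤ -2 ∨ 2 ≤ u i := by
        by_cases hi : i ∈ c
        · have a := h1 i hi; omega
        · have a := h0 i hi; omega
      rcases this with h | h <;> nlinarith
    rw [← sqNorm_def, hn, sum_const, card_univ, card_golayPt] at this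
    simp at this

theorem mem_GC_of_isL {x : V} (hx : IsL x) (k : ℤ) {c : Finset GolayPt}
    (hc : ∀ i, i ∈ c ↔ x i % 4 = k % 4) : c ∈ GC := by
  obtain ⟨m, -, -, h⟩ := mem_leechSet_iff.mpr hx
  have : c = univ.filter fun i => x i ≡ k [ZMOD 4] := by
    ext i; rw [mem_res, hc]
  rw [this]; exact h k

theorem monomial_of_fix {g : Co0} {p : GolayPt} (hg : g • e8 p = e8 p) :
    ∃ c ∈ GC, ∃ τ ∈ M24, ∀ v : L, ((g • v : L) : V) = monoMap c τ v := by
  have key : ∀ j, ∃ k s, (s = 1 ∨ s = -1) ∧ ((g • e8 j : L) : V) = sg k (8 * s) := by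
    intro j
    have e : e8 j = e8 p + (2 : ℤ) • mkL _ (isL_sg_sub j p) := by
      refine Subtype.ext (funext fun i => ?_)
      simp only [e8, coe_mkL, AddSubgroup.coe_add, AddSubgroupClass.coe_zsmul, Pi.add_apply,
        Pi.smul_apply, Pi.sub_apply, sg, smul_eq_mul]
      split_ifs <;> rfl
    refine eq_sg_of_congr (p := p) (isL_coe (g • mkL _ (isL_sg_sub j p))) (fun i => ?_)
      ((co_norm g _).trans (sqNorm_sg j 8))
    rw [e, co_add, co_zsmul, hg]
    rfl
  choose π s hs hπ using key
  have hinj : Function.Injective π := by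
    intro j j' h
    by_contra hne
    have h1 := co_dot g (e8 j) (e8 j')
    rw [hπ, hπ, h] at h1
    have h2 : dotInt (e8 j : V) (e8 j' : V) = 0 := by
      simp [dotInt_def, e8, sg, Ne.symm hne]
    have h3 : dotInt (sg (π j') (8 * s j)) (sg (π j') (8 * s j')) = 8 * s j * (8 * s j') := by
      simp [dotInt_def, sg]
    rw [h2, h3] at h1
    rcases hs j with a | a <;> rcases hs j' with b | b <;> rw [a, b] at h1 <;> omega
  let σ : Equiv.Perm GolayPt := Equiv.ofBijective π (Finite.injective_iff_bijective.mp hinj)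
  have hact : ∀ (v : L) (i : GolayPt), ((g • v : L) : V) i = s (σ⁻¹ i) * (v : V) (σ⁻¹ i) := by
    intro v i
    have h1 : (8 : ℤ) • (g • v) = ∑ j, (v : V) j • (g • e8 j) := by
      rw [← co_zsmul, eight_smul_eq, co_sum]
      exact sum_congr rfl fun p _ => co_zsmul _ _ _
    have h2 := congrFun (congrArg Subtype.val h1) i
    simp only [AddSubgroupClass.coe_zsmul, Pi.smul_apply, smul_eq_mul,
      AddSubmonoidClass.coe_finsetSum, Finset.sum_apply, hπ] at h2
    rw [sum_eq_single (σ⁻¹ i)] at h2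
    · have : π (σ⁻¹ i) = i := σ.apply_symm_apply i
      rw [this] at h2
      simp only [sg, if_true] at h2
      linarith
    · intro j _ hj
      have : i ≠ π j := fun e => hj (by rw [e]; exact (σ.symm_apply_apply j).symm)
      simp [sg, this]
    · simp
  have hσ : σ ∈ M24 := by
    refine mem_M24_of_forall fun d hd => ?_
    refine mem_GC_of_isL (isL_coe (g • mkL _ (isL_two hd))) 2 fun i => ?_
    rw [hact, mem_smul_iff, coe_mkL]
    unfold two
    split_ifs with hi
    · rcases hs (σ⁻¹ i) with a | a <;> rw [a] <;> simp only [hi, true_iff] <;> rfl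
    · simp only [hi, false_iff, mul_zero]; decide
  refine ⟨univ.filter fun i => s (σ⁻¹ i) = -1, ?_, σ⁻¹, inv_mem hσ, fun v => funext fun i => ?_⟩
  · refine mem_GC_of_isL (isL_coe (g • mkL _ (isL_odd3 none))) 3 fun i => ?_
    rw [hact, coe_mkL, mem_filter]
    unfold odd3
    rcases hs (σ⁻¹ i) with a | a <;> rw [a] <;> split_ifs <;> simp
  · rw [hact]
    simp only [monoMap, sgn, mem_filter, mem_univ, true_and]
    rcases hs (σ⁻¹ i) with a | a <;> rw [a] <;> simp

end Cfsg.Agent.H3
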