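/-
Further general lemmas on actions with known suborbits.
-/
import Cfsg.Agent.H3.Simple

set_option autoImplicit false

namespace Cfsg.Agent.H3

open MulAction Finset

theorem not_regCond_one {T : Finset ℤ} {s : ℤ → ℕ} {n : ℕ} {t0 : ℤ} (p : ℕ) (hp : p.Prime)
    (hd : p ∣ n) (h2 : 2 < p) (H : ∀ I ∈ T.powerset, t0 ∉ I →
      (∑ t ∈ I, s t + 1) % p = 0 → (∑ t ∈ I, s t) % 2 ≠ 0) (ord : ℤ → ℕ) :
    ¬ RegCond T s n t0 ord := by
  rintro ⟨h1, h⟩
  obtain ⟨a, b⟩ := h p hp hd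
  refine H _ (mem_powerset.mpr (filter_subset _ _)) (fun c => ?_) a (b h2)
  have := (mem_filter.mp c).2
  omega

theorem not_regCond_two {T : Finset ℤ} {s : ℤ → ℕ} {n : ℕ} {t0 : ℤ} (p q : ℕ) (hp : p.Prime)
    (hq : q.Prime) (hd : p ∣ n) (hd' : q ∣ n) (hpq : p ≠ q)
    (H : ∀ I ∈ T.powerset, ∀ J ∈ T.powerset, t0 ∉ I → t0 ∉ J → (∀ t ∈ I, t ∉ J) →
      (∑ t ∈ I, s t + 1) % p = 0 → (∑ t ∈ J, s t + 1) % q ≠ 0) (ord : ℤ → ℕ) :
    ¬ RegCond T s n t0 ord := by
  rintro ⟨h1, h⟩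
  refine H _ (mem_powerset.mpr (filter_subset _ _)) _ (mem_powerset.mpr (filter_subset _ _))
    (fun c => ?_) (fun c => ?_) (fun t a b => ?_) (h p hp hd).1 (h q hq hd').1
  · have := (mem_filter.mp c).2
    have := hp.one_lt
    omega
  · have := (mem_filter.mp c).2
    have := hq.one_lt
    omega
  · exact hpq ((mem_filter.mp a).2.symm.trans (mem_filter.mp b).2)

variable {G X : Type*} [Group G] [MulAction G X]

theorem orbit_top_eq (x : X) : orbit (⊤ : Subgroup G) x = orbit G x := by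
  ext y
  exact ⟨fun ⟨g, e⟩ => ⟨g.1, e⟩, fun ⟨g, e⟩ => ⟨⟨g, trivial⟩, e⟩⟩

theorem ncard_orbit_normal_smul (N : Subgroup G) [N.Normal] (g : G) (x : X) :
    (orbit N (g • x)).ncard = (orbit N x).ncard := by
  symm
  refine Set.ncard_congr (fun y _ => g • y) (fun y hy => smul_mem_orbit_normal N g hy)
    (fun a b _ _ h => MulAction.injective g h) fun y hy => ⟨g⁻¹ • y, ?_, smul_inv_smul g y⟩
  simpa using smul_mem_orbit_normal N g⁻¹ hy

/-- If a normal subgroup has two orbits, squares preserve each of them. -/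
theorem sq_smul_mem_of_half (N : Subgroup G) [N.Normal] {x : X} (hfin : (orbit G x).Finite)
    (h2 : 2 * (orbit N x).ncard = (orbit G x).ncard) (g : G) {y : X} (hy : y ∈ orbit N x) :
    g • g • y ∈ orbit N x := by
  have hsub : ∀ z ∈ orbit G x, orbit N z ⊆ orbit G x := by
    rintro _ ⟨k, rfl⟩ _ ⟨n, rfl⟩
    exact ⟨n.1 * k, mul_smul _ _ _⟩
  have hyG : y ∈ orbit G x := hsub x (mem_orbit_self x) hy
  have e : orbit N y = orbit N x := orbit_eq_iff.mpr hy
  by_cases h1 : g • y ∈ orbit N x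
  · have := smul_mem_orbit_normal N g (e ▸ h1)
    rwa [orbit_eq_iff.mpr h1] at this
  · by_contra h3
    have hgy : g • y ∈ orbit G x := mapsTo_smul_orbit g x hyG
    have h4 : orbit N (g • y) ⊆ orbit G x \ orbit N x := fun z hz =>
      ⟨hsub _ hgy hz, fun h5 => h1 (by
        rw [← orbit_eq_iff.mpr h5, orbit_eq_iff.mpr hz]; exact mem_orbit_self _)⟩
    have h5 : orbit N (g • y) = orbit G x \ orbit N x := by
      refine Set.eq_of_subset_of_ncard_le h4 ?_ (hfin.subset Set.sdiff_subset)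
      rw [Set.ncard_sdiff (hsub x (mem_orbit_self x)) (hfin.subset (hsub x (mem_orbit_self x))),
        ncard_orbit_normal_smul, e]
      omega
    have h6 : g • g • y ∈ orbit N (g • y) := by
      rw [h5]; exact ⟨mapsTo_smul_orbit g x hgy, h3⟩
    have h7 := smul_mem_orbit_normal N g⁻¹ h6
    rw [inv_smul_smul, inv_smul_smul, e] at h7
    exact h1 h7

/-- Conjugation carries the joint stabiliser of two points to that of their images. -/
def infStabEquiv (g : G) (x y : X) : ↥(stabilizer G x ⊓ stabilizer G y) ≃*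
    ↥(stabilizer G (g • x) ⊓ stabilizer G (g • y)) where
  toFun k := ⟨g * k.1 * g⁻¹, by
    have h1 : k.1 • x = x := k.2.1
    have h2 : k.1 • y = y := k.2.2
    constructor
    · change (g * k.1 * g⁻¹) • g • x = g • x
      simp [mul_smul, h1]
    · change (g * k.1 * g⁻¹) • g • y = g • y
      simp [mul_smul, h2]⟩
  invFun k := ⟨g⁻¹ * k.1 * g, by
    have h1 : k.1 • g • x = g • x := k.2.1
    have h2 : k.1 • g • y = g • y := k.2.2
    constructor
    · change (g⁻¹ * k.1 * g) • x = x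
      simp [mul_smul, h1]
    · change (g⁻¹ * k.1 * g) • y = y
      simp [mul_smul, h2]⟩
  left_inv k := Subtype.ext (by simp [mul_assoc])
  right_inv k := Subtype.ext (by simp [mul_assoc])
  map_mul' a b := Subtype.ext (by simp [mul_assoc])

/-- Decomposition of an orbit of a subgroup `K` under the stabiliser of the base point. -/
theorem decomp_of_sub (K H : Subgroup G) (x : X) (hH : K ⊓ stabilizer G x = H)
    (hfin : (orbit K x).Finite) {φ : X → ℤ} {T : Finset ℤ} {s : ℤ → ℕ}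
    (hφ : ∀ h ∈ H, ∀ y, φ (h • y) = φ y)
    (hr : ∀ t ∈ T, ∃ r ∈ orbit K x, φ r = t ∧ s t ≤ (orbit H r).ncard)
    (hn : (orbit K x).ncard ≤ ∑ t ∈ T, s t) : Decomp (stabilizer K x) (orbit K x) φ T s := by
  subst hH
  refine decomp_of hfin (fun h y hy => mapsTo_smul_orbit h.1 x hy)
    (fun h y _ => hφ h.1.1 ⟨h.1.2, h.2⟩ y) (fun t ht => ?_) hn
  obtain ⟨r, a, b, c⟩ := hr t ht
  exact ⟨r, a, b, by rw [orbit_stab_eq]; exact c⟩

theorem one_le_ncard_orbit {H : Type*} [Group H] [MulAction H X] [Finite H] (x : X) :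
    1 ≤ (orbit H x).ncard :=
  (Set.ncard_pos (Set.finite_range _)).mpr ⟨x, mem_orbit_self x⟩

end Cfsg.Agent.H3
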