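/-
Monomial stabilisers in the automorphism group of the lattice, and the second moments of the
minimal vectors.
-/
import Cfsg.Agent.H3.Gens
import Cfsg.Agent.H3.Simple2

set_option autoImplicit false

namespace Cfsg.Agent.H3

open Cfsg Cfsg.Agent.H1 Finset MulAction

/-- The automorphism of the lattice given by a permutation preserving the code. -/
def permHom : M24 →* Co0 where
  toFun σ := ⟨
    { toFun := fun v => mkL (fun i => (v : V) (σ.1⁻¹ i)) ((isL_coe v).comp (inv_mem σ.2))
      invFun := fun v => mkL (fun i => (v : V) (σ.1 i)) ((isL_coe v).comp σ.2)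
      left_inv := fun v => Subtype.ext (funext fun i => by simp)
      right_inv := fun v => Subtype.ext (funext fun i => by simp) },
    fun _ _ => rfl, fun v => Equiv.sum_comp σ.1⁻¹ fun i => (v : V) i ^ 2⟩
  map_one' := rfl
  map_mul' _ _ := rfl

theorem permHom_apply (σ : M24) (v : L) (i : GolayPt) :
    ((permHom σ • v : L) : V) i = (v : V) (σ.1⁻¹ i) := rfl

theorem permHom_e8 (σ : M24) (p : GolayPt) : permHom σ • e8 p = e8 (σ • p) := by
  refine Subtype.ext (funext fun i => ?_)
  rw [permHom_apply]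
  change sg p 8 (σ.1⁻¹ i) = sg (σ.1 p) 8 i
  simp only [sg, Equiv.Perm.inv_eq_iff_eq]

theorem e8_injective : Function.Injective e8 := by
  intro p q h
  have : sg p 8 p = sg q 8 p := congrFun (congrArg Subtype.val h) p
  by_contra hne
  simp [sg, hne] at this

theorem permHom_injective : Function.Injective permHom := by
  intro σ τ h
  refine Subtype.ext (Equiv.ext fun p => e8_injective ?_)
  exact (permHom_e8 σ p).symm.trans (h ▸ permHom_e8 τ p)

theorem coe_vV : (vV : V) = fun i => if i = none then 5 else 1 := by decide +kernel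

theorem vU_add_vW : vU + vW = e8 none := Subtype.ext (by decide +kernel)

theorem vU_sub_vW : vU - vW = e8 (some 0) := Subtype.ext (by decide +kernel)

theorem vZ_add : vZ + e8 none = vV := Subtype.ext (by decide +kernel)

theorem permHom_vV {σ : M24} (h : σ • (none : GolayPt) = none) : permHom σ • vV = vV := by
  refine Subtype.ext (funext fun i => ?_)
  rw [permHom_apply, coe_vV]
  have h' : σ.1 none = none := h
  simp only [Equiv.Perm.inv_eq_iff_eq, h']

theorem exists_perm_of_fix {g : Co0} (h1 : g • vV = vV) (h2 : g • e8 none = e8 none) :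
    ∃ σ : M24, g = permHom σ := by
  obtain ⟨c, -, τ, hτ, e⟩ := monomial_of_fix h2
  have hc : ∀ i, i ∉ c := fun i hi => by
    have := congrFun (e vV) i
    rw [h1, coe_vV] at this
    simp only [monoMap, sgn, if_pos hi] at this
    revert this
    split_ifs <;> decide
  refine ⟨⟨τ, hτ⟩⁻¹, Subtype.ext (Equiv.ext fun v => Subtype.ext (funext fun i => ?_))⟩
  have := congrFun (e v) i
  simp only [monoMap, sgn, if_neg (hc i)] at this
  exact this

theorem fix_of_add {g : Co0} {x y : L} (hx : g • x = x) (h : g • (x + y) = x + y) : g • y = y := by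
  rw [co_add, hx] at h
  exact add_left_cancel h

theorem eq_of_two_smul {x y : L} (h : x + x = y + y) : x = y := by
  refine Subtype.ext (funext fun i => ?_)
  have := congrFun (congrArg Subtype.val h) i
  simp only [AddSubgroup.coe_add, Pi.add_apply] at this
  omega

theorem mem_UW_iff {g : Co0} : g • vU = vU ∧ g • vW = vW ↔
    g • e8 none = e8 none ∧ g • e8 (some 0) = e8 (some 0) := by
  rw [← vU_add_vW, ← vU_sub_vW, co_add, co_sub]
  refine ⟨fun h => by rw [h.1, h.2]; exact ⟨rfl, rfl⟩, fun ⟨h1, h2⟩ => ?_⟩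
  have e : g • vU = vU := eq_of_two_smul (by
    have := congrArg₂ (· + ·) h1 h2
    simpa using this)
  rw [e] at h1
  exact ⟨e, add_left_cancel h1⟩

theorem GVZ_eq : GV ⊓ stabilizer Co0 vZ = (stabilizer M24 (none : GolayPt)).map permHom := by
  ext g
  constructor
  · rintro ⟨h1, h2⟩
    have h3 : g • e8 none = e8 none := fix_of_add h2 (by rw [vZ_add]; exact h1)
    obtain ⟨σ, rfl⟩ := exists_perm_of_fix h1 h3
    exact ⟨σ, e8_injective ((permHom_e8 σ none).symm.trans h3), rfl⟩
  · rintro ⟨σ, hσ, rfl⟩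
    have h1 := permHom_vV hσ
    have h3 : permHom σ • e8 none = e8 none := by rw [permHom_e8, mem_stabilizer_iff.mp hσ]
    exact ⟨h1, fix_of_add h3 (by rw [add_comm, vZ_add]; exact h1)⟩

theorem GVUW_eq : GV ⊓ GU ⊓ GW =
    (stabilizer M24 (none : GolayPt) ⊓ stabilizer M24 (some 0 : GolayPt)).map permHom := by
  ext g
  constructor
  · rintro ⟨⟨h1, h2⟩, h3⟩
    obtain ⟨h4, h5⟩ := mem_UW_iff.mp ⟨h2, h3⟩
    obtain ⟨σ, rfl⟩ := exists_perm_of_fix h1 h4
    exact ⟨σ, ⟨e8_injective ((permHom_e8 σ _).symm.trans h4),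
      e8_injective ((permHom_e8 σ _).symm.trans h5)⟩, rfl⟩
  · rintro ⟨σ, ⟨h1, h2⟩, rfl⟩
    obtain ⟨h4, h5⟩ := (mem_UW_iff (g := permHom σ)).mpr
      ⟨by rw [permHom_e8, mem_stabilizer_iff.mp h1], by rw [permHom_e8, mem_stabilizer_iff.mp h2]⟩
    exact ⟨⟨permHom_vV h1, h4⟩, h5⟩

theorem card_GVZ : Nat.card ↥(GV ⊓ stabilizer Co0 vZ) = 10200960 := by
  obtain ⟨e⟩ := nonempty_stab1_equiv none
  rw [GVZ_eq, ← Nat.card_congr (Subgroup.equivMapOfInjective _ _ permHom_injective).toEquiv,
    Nat.card_congr e.toEquiv, card_fix1]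

theorem card_GVUW : Nat.card ↥(GV ⊓ GU ⊓ GW) = 443520 := by
  obtain ⟨e⟩ := nonempty_stab2_equiv (p := none) (q := some 0) (by decide)
  rw [GVUW_eq, ← Nat.card_congr (Subgroup.equivMapOfInjective _ _ permHom_injective).toEquiv,
    Nat.card_congr e.toEquiv, card_fix2]

theorem simple_GVUW : IsSimpleGroup ↥(GV ⊓ GU ⊓ GW) := by
  obtain ⟨e⟩ := nonempty_stab2_equiv (p := none) (q := some 0) (by decide)
  have := simple_fix2
  rw [GVUW_eq]
  exact ((Subgroup.equivMapOfInjective _ _ permHom_injective).symm.trans e).isSimpleGroup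

theorem ncard_orbit_UW : (orbit ↥(GU ⊓ GW) vV).ncard = 1024 := by
  have h : {s | s ∈ GC ∧ none ∉ s ∧ some 0 ∉ s}.ncard = 1024 := by
    have := ncard_GC (fun s => none ∉ s ∧ some 0 ∉ s) (fun m => !m.testBit 23 && !m.testBit 0)
      (fun m _ => by
        rw [mem_toSet, mem_toSet, show ix none = 23 from rfl, show ix (some 0) = 0 from rfl]
        simp)
    exact this.trans (by decide +kernel)
  rw [← h]
  symm
  have hpos : ∀ i, 0 < (vV : V) i := by decide +kernel
  refine Set.ncard_congr (fun c hc => mkL (sgn c vV) ((isL_coe vV).sgn hc.1)) ?_ ?_ ?_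
  · rintro c ⟨hc, h1, h2⟩
    obtain ⟨g, -, e⟩ := real_monoMap hc (one_mem M24)
    have he : ∀ p, p ∉ c → g • e8 p = e8 p := fun p hp => Subtype.ext (by
      rw [e]
      funext i
      simp only [monoMap, sgn, Equiv.Perm.one_apply, e8, coe_mkL, sg]
      split_ifs with a b
      · exact absurd (b ▸ a) hp
      · rfl
      · rfl
      · rfl)
    exact ⟨⟨g, mem_UW_iff.mpr ⟨he _ h1, he _ h2⟩⟩, Subtype.ext (e vV)⟩
  · intro c d _ _ e
    ext i
    have := congrFun (congrArg Subtype.val e) i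
    have a := hpos i
    simp only [coe_mkL, sgn] at this
    split_ifs at this with h1 h2 h2
    · simp [h1, h2]
    · omega
    · omega
    · simp [h1, h2]
  · rintro _ ⟨⟨g, hg⟩, rfl⟩
    obtain ⟨h4, h5⟩ := mem_UW_iff.mp hg
    obtain ⟨c, hc, τ, -, e⟩ := monomial_of_fix h4
    have key : ∀ p, g • e8 p = e8 p → p ∉ c ∧ τ p = p := fun p hp => by
      have := congrFun (e (e8 p)) p
      rw [hp] at this
      simp only [monoMap, sgn, e8, coe_mkL, sg, if_true] at this
      by_cases a : p ∈ c <;> by_cases b : τ p = p <;> simp [a, b] at this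
      exact ⟨a, b⟩
    refine ⟨c, ⟨hc, (key _ h4).1, (key _ h5).1⟩, Subtype.ext ?_⟩
    change sgn c vV = ((g • vV : L) : V)
    rw [e, monoMap]
    congr 1
    funext i
    rw [coe_vV]
    have : τ i = none ↔ i = none :=
      ⟨fun a => τ.injective (a.trans (key _ h4).2.symm), fun a => by rw [a, (key _ h4).2]⟩
    simp only [this]

theorem card_GUW : Nat.card ↥(GU ⊓ GW) = 454164480 := by
  rw [card_sub_eq_orbit_mul _ vV, ncard_orbit_UW,
    show GU ⊓ GW ⊓ stabilizer Co0 vV = GV ⊓ GU ⊓ GW by rw [inf_comm, inf_assoc], card_GVUW]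

/-! ### Second moments -/

theorem sum_sh_smul {n : ℤ} (g : Co0) (f : L → ℤ) :
    ∑ z ∈ (sh_finite n).toFinset, f (g • z) = ∑ z ∈ (sh_finite n).toFinset, f z := by
  refine sum_bijective (fun z => g • z) (MulAction.bijective g) (fun z => ?_) fun _ _ => rfl
  simp only [Set.Finite.mem_toFinset, sh, Set.mem_ofPred_eq, co_norm]

theorem exists_sep {i j : GolayPt} (h : i ≠ j) : ∃ c ∈ GC, i ∈ c ∧ j ∉ c := by
  have key : ∀ i j : GolayPt, i ≠ j → ∃ b ∈ rows, b.testBit (ix i) ≠ b.testBit (ix j) := by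
    decide +kernel
  obtain ⟨b, hb, e⟩ := key i j h
  by_cases a : b.testBit (ix i) = true
  · exact ⟨_, rows_mem_GC b hb, mem_toSet.mpr a, fun c => e (a.trans (mem_toSet.mp c).symm)⟩
  · refine ⟨_, compl_mem_GC (rows_mem_GC b hb), by simpa using a, ?_⟩
    simp only [mem_compl, mem_toSet, not_not]
    revert e a
    cases b.testBit (ix i) <;> cases b.testBit (ix j) <;> simp

theorem exists_M24_map (i j : GolayPt) : ∃ σ : M24, σ • i = j := by
  obtain ⟨g, hg, e⟩ := exists_map_eq [i] [j] (by simp) (by simp) rfl (by simp)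
  exact ⟨⟨g, hg⟩, by simpa using e⟩

theorem exists_M24_map_two {i j k l : GolayPt} (h : i ≠ j) (h' : k ≠ l) :
    ∃ σ : M24, σ • i = k ∧ σ • j = l := by
  obtain ⟨g, hg, e⟩ := exists_map_eq [i, j] [k, l] (by simp [h]) (by simp [h']) rfl (by simp)
  exact ⟨⟨g, hg⟩, by simpa using e⟩

theorem sum_mul_coord (i j : GolayPt) : ∑ z ∈ (sh_finite 32).toFinset, (z : V) i * (z : V) j =
    if i = j then 262080 else 0 := by
  split_ifs with h
  · subst h
    have h1 : ∀ k, ∑ z ∈ (sh_finite 32).toFinset, (z : V) k * (z : V) k =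
        ∑ z ∈ (sh_finite 32).toFinset, (z : V) i * (z : V) i := fun k => by
      obtain ⟨σ, e⟩ := exists_M24_map i k
      rw [← sum_sh_smul (permHom σ)]
      have : σ.1⁻¹ k = i := by rw [Equiv.Perm.inv_eq_iff_eq]; exact e.symm
      simp only [permHom_apply, this]
    have h2 : ∑ k, ∑ z ∈ (sh_finite 32).toFinset, (z : V) k * (z : V) k = 196560 * 32 := by
      rw [sum_comm, sum_congr rfl (g := fun _ => 32), sum_const,
        ← Set.ncard_eq_toFinset_card _ (sh_finite 32), ncard_sh, ncard_shell_32]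
      · rfl
      · intro z hz
        exact (dotInt_self _).trans ((sh_finite 32).mem_toFinset.mp hz)
    simp only [h1, sum_const, card_univ, card_golayPt, nsmul_eq_mul] at h2
    omega
  · obtain ⟨c, hc, h1, h2⟩ := exists_sep h
    obtain ⟨g, -, e⟩ := real_monoMap hc (one_mem M24)
    have := sum_sh_smul (n := 32) g fun z => (z : V) i * (z : V) j
    simp only [e, monoMap, sgn, if_pos h1, if_neg h2, Equiv.Perm.one_apply, neg_mul,
      sum_neg_distrib] at this
    omega

theorem sum_dot_sq (v : V) :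
    ∑ z ∈ (sh_finite 32).toFinset, dotInt (z : V) v ^ 2 = 262080 * sqNorm v := by
  have : ∀ z : V, dotInt z v ^ 2 = ∑ i, ∑ j, v i * v j * (z i * z j) := fun z => by
    rw [sq, dotInt_def, sum_mul_sum]
    exact sum_congr rfl fun i _ => sum_congr rfl fun j _ => by ring
  simp only [this]
  rw [sum_comm, sqNorm_def, mul_sum]
  refine sum_congr rfl fun i _ => ?_
  rw [sum_comm]
  simp only [← mul_sum, sum_mul_coord, mul_ite, mul_zero, sum_ite_eq, mem_univ, if_true]
  ring

theorem sum_fiber_le (v : V) (T : Finset ℤ) :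
    ∑ t ∈ T, ({z ∈ sh 32 | dotInt (z : V) v = t}.ncard : ℤ) * t ^ 2 ≤ 262080 * sqNorm v := by
  classical
  rw [← sum_dot_sq]
  refine le_trans (le_of_eq ?_) (sum_le_sum_of_subset_of_nonneg
    (filter_subset (fun z : L => dotInt (z : V) v ∈ T) _) fun _ _ _ => sq_nonneg _)
  rw [← sum_fiberwise_of_maps_to (g := fun z : L => dotInt (z : V) v) (t := T)
    (fun z hz => (mem_filter.mp hz).2)]
  refine sum_congr rfl fun t ht => ?_
  rw [sum_congr rfl (g := fun _ => t ^ 2) (fun z hz => by rw [(mem_filter.mp hz).2]), sum_const,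
    nsmul_eq_mul, ← Set.ncard_coe_finset]
  congr 3
  ext z
  simp only [Set.mem_ofPred_eq, coe_filter, mem_filter, Set.Finite.mem_toFinset]
  exact ⟨fun h => ⟨⟨h.1, h.2 ▸ ht⟩, h.2⟩, fun h => ⟨h.1.1, h.2⟩⟩

theorem neg_mem_sh {n : ℤ} {z : L} (hz : z ∈ sh n) : -z ∈ sh n := (sqNorm_neg _).trans hz

theorem ncard_fiber_neg (v : V) (t : ℤ) : {z ∈ sh 32 | dotInt (z : V) v = -t}.ncard =
    {z ∈ sh 32 | dotInt (z : V) v = t}.ncard := by
  refine Set.ncard_congr (fun z _ => -z) (fun z hz => ⟨neg_mem_sh hz.1, ?_⟩)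
    (fun a b _ _ h => neg_injective h) fun z hz => ⟨-z, ⟨neg_mem_sh hz.1, ?_⟩, neg_neg z⟩
  · rw [AddSubgroup.coe_neg, dotInt_neg_left, hz.2, neg_neg]
  · rw [AddSubgroup.coe_neg, dotInt_neg_left, hz.2]

theorem ncard_orbit_neg (K : Subgroup Co0) (r : L) : (orbit K (-r)).ncard = (orbit K r).ncard := by
  symm
  refine Set.ncard_congr (fun z _ => -z) ?_ (fun a b _ _ h => neg_injective h) ?_
  · rintro _ ⟨g, rfl⟩
    exact ⟨g, co_neg g.1 r⟩
  · rintro _ ⟨g, rfl⟩
    exact ⟨g • r, ⟨g, rfl⟩, (co_neg g.1 r).symm⟩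

/-- Negation, as an automorphism of the lattice. -/
noncomputable def negCo : Co0 := real_neg.choose

theorem negCo_smul (v : L) : negCo • v = -v := Subtype.ext (real_neg.choose_spec.2 v)

theorem negCo_mem_center : negCo ∈ Subgroup.center Co0 := by
  rw [Subgroup.mem_center_iff]
  intro g
  refine eq_of_fix_e8 fun p => ?_
  rw [mul_smul, mul_smul, negCo_smul, negCo_smul, co_neg]

theorem dot_smul_fix {g : Co0} {x : L} (hx : g • x = x) (y : L) :
    dotInt ((g • y : L) : V) (x : V) = dotInt (y : V) (x : V) := by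
  rw [← co_dot g y x, hx]

end Cfsg.Agent.H3
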