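/-
Orders and simplicity of the Conway groups and of the stabilisers of triangles.
-/
import Cfsg.Agent.H3.Stab
import Cfsg.Agent.H3.OrbB
import Cfsg.Agent.H3.OrbC

set_option autoImplicit false

namespace Cfsg.Agent.H3

open Cfsg Cfsg.Agent.H1 Finset MulAction

theorem orbit_subset_sh {n : ℤ} (K : Subgroup Co0) {r : L} (hr : r ∈ sh n) : orbit K r ⊆ sh n :=
  fun _ ⟨k, hk⟩ => hk ▸ smul_mem_sh k.1 hr

theorem orbit_finite (K : Subgroup Co0) (r : L) : (orbit K r).Finite := Set.finite_range _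

theorem GUY_eq : GU ⊓ stabilizer Co0 vY = GV ⊓ GU := by
  ext g
  constructor
  · rintro ⟨h1, h2⟩
    refine ⟨?_, h1⟩
    change g • (vU + vY) = vU + vY
    rw [co_add, mem_stabilizer_iff.mp h1, mem_stabilizer_iff.mp h2]
  · rintro ⟨h1, h2⟩
    exact ⟨h2, fix_of_add h2 h1⟩

/-- Suborbit lengths for the stabiliser of `vU` acting on the orbit of `vY`. -/
def sB (t : ℤ) : ℕ := if t = 32 then 1 else if t = 16 then 2025 else if t = 8 then 15400
  else if t = 0 then 22275 else if t = -8 then 7128 else 275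

theorem repsB : ∀ t ∈ ({32, 16, 8, 0, -8, -16} : Finset ℤ), ∃ r ∈ orbit GU vY,
    dotInt (r : V) (vY : V) = t ∧ sB t ≤ (orbit ↥(GV ⊓ GU) r).ncard := by
  simp only [mem_insert, mem_singleton, forall_eq_or_imp, forall_eq]
  exact ⟨⟨vY, mem_orbit_self _, by decide +kernel, one_le_ncard_orbit _⟩, orbCo2_16, orbCo2_8,
    orbCo2_0, orbCo2_m8, orbCo2_m16⟩

theorem dot_invB : ∀ h ∈ GV ⊓ GU, ∀ y : L,
    dotInt ((h • y : L) : V) (vY : V) = dotInt (y : V) (vY : V) := fun _ hh y =>
  dot_smul_fix (GUY_eq.ge hh).2 y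

theorem le_ncard_orbit_UY : 47104 ≤ (orbit GU vY).ncard :=
  sum_le_ncard (H := ↥(GV ⊓ GU)) (orbit_finite GU vY) (φ := fun y => dotInt (y : V) (vY : V))
    (fun h _ hy => mapsTo_smul_orbit (⟨h.1, h.2.2⟩ : GU) vY hy) (fun h y _ => dot_invB h.1 h.2 y)
    repsB

/-- Suborbit lengths for the whole group acting on the minimal vectors. -/
def sA (t : ℤ) : ℕ := if t = 32 ∨ t = -32 then 1 else if t = 16 ∨ t = -16 then 4600
  else if t = 8 ∨ t = -8 then 47104 else 93150

theorem neg_mem_orbit {r x : L} (h : r ∈ orbit Co0 x) : -r ∈ orbit Co0 x := by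
  rw [← negCo_smul]; exact mapsTo_smul_orbit negCo x h

theorem repsA : ∀ t ∈ ({32, 16, 8, 0, -8, -16, -32} : Finset ℤ), ∃ r ∈ orbit Co0 vU,
    dotInt (r : V) (vU : V) = t ∧ sA t ≤ (orbit GU r).ncard := by
  have neg : ∀ (t : ℤ) (n : ℕ), (∃ r ∈ orbit Co0 vU, dotInt (r : V) (vU : V) = t ∧
      n ≤ (orbit GU r).ncard) → ∃ r ∈ orbit Co0 vU, dotInt (r : V) (vU : V) = -t ∧
      n ≤ (orbit GU r).ncard := fun t n ⟨r, h1, h2, h3⟩ =>
    ⟨-r, neg_mem_orbit h1, by rw [AddSubgroup.coe_neg, dotInt_neg_left, h2],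
      by rwa [ncard_orbit_neg]⟩
  have h32 : ∃ r ∈ orbit Co0 vU, dotInt (r : V) (vU : V) = 32 ∧ 1 ≤ (orbit GU r).ncard :=
    ⟨vU, mem_orbit_self _, by decide +kernel, one_le_ncard_orbit _⟩
  have h16 := orbCo0_16
  have h0 := orbCo0_0
  have h8 : ∃ r ∈ orbit Co0 vU, dotInt (r : V) (vU : V) = -8 ∧ 47104 ≤ (orbit GU r).ncard :=
    ⟨vY, by rw [← orbit_top_eq (G := Co0)]; exact vY_mem_orbit, by decide +kernel,
      le_ncard_orbit_UY⟩
  rw [orbit_top_eq] at h16 h0
  simp only [mem_insert, mem_singleton, forall_eq_or_imp, forall_eq]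
  exact ⟨h32, h16, neg _ _ h8, h0, h8, neg _ _ h16, neg _ _ h32⟩

theorem ncard_sh32 : (sh 32).ncard = 196560 := (ncard_sh 32).trans ncard_shell_32

theorem ncard_sh48 : (sh 48).ncard = 16773120 := (ncard_sh 48).trans ncard_shell_48

theorem orbit_vU : orbit Co0 vU = sh 32 := by
  have hsub : orbit Co0 vU ⊆ sh 32 := fun _ ⟨k, hk⟩ => hk ▸ smul_mem_sh k vU_sh
  refine Set.eq_of_subset_of_ncard_le hsub ?_ (sh_finite 32)
  rw [ncard_sh32]
  exact sum_le_ncard (H := GU) ((sh_finite 32).subset hsub) (φ := fun y => dotInt (y : V) (vU : V))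
    (fun h _ hy => mapsTo_smul_orbit h.1 vU hy) (fun h y _ => dot_smul_fix h.2 y) repsA

theorem ncard_orbit_vU : (orbit Co0 vU).ncard = 196560 := by rw [orbit_vU, ncard_sh32]

theorem decompA : Decomp GU (orbit Co0 vU) (fun y => dotInt (y : V) (vU : V))
    {32, 16, 8, 0, -8, -16, -32} sA :=
  decomp_of (Set.finite_range _) (fun h _ hy => mapsTo_smul_orbit h.1 vU hy)
    (fun h y _ => dot_smul_fix h.2 y) repsA ncard_orbit_vU.le

theorem ncard_orbit_GU {y : L} (hy : y ∈ sh 32) :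
    (orbit GU y).ncard = sA (dotInt (y : V) (vU : V)) :=
  decompA.ncard_orbit (fun h _ hy => mapsTo_smul_orbit h.1 vU hy) (orbit_vU ▸ hy)

theorem ncard_orbit_UY : (orbit GU vY).ncard = 47104 :=
  (ncard_orbit_GU vY_sh).trans (by decide +kernel)

theorem card_GU : Nat.card GU = 42305421312000 := by
  rw [card_sub_eq_orbit_mul _ vW, ncard_orbit_GU vW_sh, card_GUW]
  decide +kernel

theorem card_Co0 : Nat.card Co0 = 8315553613086720000 := by
  rw [card_eq_ncard_orbit_mul vU, ncard_orbit_vU, card_GU]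

theorem card_GVU : Nat.card ↥(GV ⊓ GU) = 898128000 := by
  have h := card_sub_eq_orbit_mul GU vY
  rw [card_GU, ncard_orbit_UY, GUY_eq] at h
  omega

/-! ### The stabiliser of a triangle of type 2, 2, 3 -/

theorem ncard_orbit_VU_W : (orbit ↥(GV ⊓ GU) vW).ncard = 2025 := by
  have h := card_sub_eq_orbit_mul (GV ⊓ GU) vW
  rw [card_GVU, card_GVUW] at h
  omega

/-- Suborbit lengths in degree 2025. -/
def sC (t : ℤ) : ℕ := if t = 32 then 1 else if t = 16 then 462 else if t = 8 then 1232 else 330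

theorem simple_GVU : IsSimpleGroup ↥(GV ⊓ GU) := by
  have D : Decomp (stabilizer ↥(GV ⊓ GU) vW) (orbit ↥(GV ⊓ GU) vW)
      (fun y => dotInt (y : V) (vW : V)) {32, 16, 8, 0} sC := by
    refine decomp_of_sub _ _ vW rfl (orbit_finite _ _) (fun h hh y => dot_smul_fix hh.2 y) ?_
      ncard_orbit_VU_W.le
    simp only [mem_insert, mem_singleton, forall_eq_or_imp, forall_eq]
    exact ⟨⟨vW, mem_orbit_self _, by decide +kernel, one_le_ncard_orbit _⟩, orbMcL_16, orbMcL_8,
      orbMcL_0⟩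
  have := simple_GVUW
  exact D.simple (stabEquiv _ vW).isSimpleGroup ncard_orbit_VU_W (t0 := 32) (by decide +kernel)
    (by decide +kernel) (by decide +kernel)
    (not_regCond_two 3 5 (by norm_num) (by norm_num) (by norm_num) (by norm_num) (by norm_num)
      (by decide +kernel))

/-! ### The stabiliser of a minimal vector -/

theorem simple_GU : IsSimpleGroup GU := by
  have D : Decomp (stabilizer GU vY) (orbit GU vY) (fun y => dotInt (y : V) (vY : V))
      {32, 16, 8, 0, -8, -16} sB :=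
    decomp_of_sub _ _ vY GUY_eq (orbit_finite _ _) dot_invB repsB ncard_orbit_UY.le
  have : IsSimpleGroup ↥(GU ⊓ stabilizer Co0 vY) := GUY_eq ▸ simple_GVU
  exact D.simple (stabEquiv _ vY).isSimpleGroup ncard_orbit_UY (t0 := 32) (by decide +kernel)
    (by decide +kernel) (by decide +kernel)
    (not_regCond_one 23 (by norm_num) (by norm_num) (by norm_num) (by decide +kernel))

/-! ### The stabiliser of a vector of type 3 -/

theorem orbit_V_subset {y : L} (hy : y ∈ sh 32) :
    orbit GV y ⊆ {z ∈ sh 32 | dotInt (z : V) (vV : V) = dotInt (y : V) (vV : V)} := by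
  rintro _ ⟨g, rfl⟩
  exact ⟨smul_mem_sh g.1 hy, dot_smul_fix g.2 y⟩

theorem GV_arith {g oZ oW oU f8 f16 f24 : ℕ} (a3 : 495766656000 ≤ g) (b1 : g = oZ * 10200960)
    (b2 : 11178 ≤ oW) (b3 : g = oU * 898128000) (c1 : oZ ≤ f8) (c2 : oW ≤ f16) (c3 : oU ≤ f24)
    (d : (f8 : ℤ) * 8 ^ 2 + ((f8 : ℤ) * (-8) ^ 2 + ((f16 : ℤ) * 16 ^ 2 + ((f16 : ℤ) * (-16) ^ 2 +
      ((f24 : ℤ) * 24 ^ 2 + (f24 : ℤ) * (-24) ^ 2)))) ≤ 262080 * 48) :
    g = 495766656000 ∧ oU = 552 ∧ oW = 11178 ∧ f16 ≤ oW := by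
  have h1 : 48600 ≤ oZ := by omega
  have h2 : 552 ≤ oU := by omega
  have h3 : 128 * f8 + 512 * f16 + 1152 * f24 ≤ 12579840 := by omega
  have h4 : oZ = 48600 := by omega
  have h5 : oU = 552 := by omega
  exact ⟨by omega, h5, by omega, by omega⟩

theorem GV_facts : Nat.card GV = 495766656000 ∧ (orbit GV vU).ncard = 552 ∧
    (orbit GV vW).ncard = 11178 ∧ orbit Co0 vV = sh 48 ∧
    orbit GV vW = {z ∈ sh 32 | dotInt (z : V) (vV : V) = 16} := by
  have hsub : orbit Co0 vV ⊆ sh 48 := fun _ ⟨k, hk⟩ => hk ▸ smul_mem_sh k vV_sh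
  have a1 : Nat.card Co0 = (orbit Co0 vV).ncard * Nat.card GV :=
    card_eq_ncard_orbit_mul (G := Co0) vV
  have a2 := Set.ncard_le_ncard hsub (sh_finite 48)
  rw [card_Co0] at a1
  rw [ncard_sh48] at a2
  have a3 : 495766656000 ≤ Nat.card GV := by
    by_contra h
    have := Nat.mul_le_mul a2 (Nat.le_of_lt_succ (show Nat.card GV < 495766655999 + 1 by omega))
    rw [← a1] at this
    exact absurd this (by norm_num)
  have b1 := card_sub_eq_orbit_mul GV vZ
  have b3 := card_sub_eq_orbit_mul GV vU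
  rw [card_GVZ] at b1
  rw [card_GVU] at b3
  obtain ⟨r, hr, -, b2⟩ := orbCo3W
  rw [orbit_eq_iff.mpr hr] at b2
  have fin : ∀ t, {z ∈ sh 32 | dotInt (z : V) (vV : V) = t}.Finite := fun t =>
    (sh_finite 32).subset (Set.sep_subset _ _)
  have s1 := orbit_V_subset vZ_sh
  have s2 := orbit_V_subset vW_sh
  have s3 := orbit_V_subset vU_sh
  rw [show dotInt (vZ : V) (vV : V) = 8 by decide +kernel] at s1
  rw [show dotInt (vW : V) (vV : V) = 16 by decide +kernel] at s2
  rw [show dotInt (vU : V) (vV : V) = 24 by decide +kernel] at s3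
  have c1 := Set.ncard_le_ncard s1 (fin _)
  have c2 := Set.ncard_le_ncard s2 (fin _)
  have c3 := Set.ncard_le_ncard s3 (fin _)
  have d := sum_fiber_le vV {8, -8, 16, -16, 24, -24}
  rw [sum_insert (by decide), sum_insert (by decide), sum_insert (by decide),
    sum_insert (by decide), sum_insert (by decide), sum_singleton, ncard_fiber_neg,
    ncard_fiber_neg, ncard_fiber_neg, show sqNorm (vV : V) = 48 from vV_sh] at d
  obtain ⟨e, e1, e2, e3⟩ := GV_arith a3 b1 b2 b3 c1 c2 c3 d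
  refine ⟨e, e1, e2, Set.eq_of_subset_of_ncard_le hsub ?_ (sh_finite 48),
    Set.eq_of_subset_of_ncard_le s2 e3 (fin _)⟩
  rw [ncard_sh48]
  rw [e] at a1
  exact (Nat.eq_of_mul_eq_mul_right (m := 495766656000) (by norm_num) (Eq.trans (by norm_num) a1)).le

theorem card_GVW : Nat.card ↥(GV ⊓ GW) = 44352000 := by
  have h : Nat.card GV = (orbit GV vW).ncard * Nat.card ↥(GV ⊓ GW) :=
    card_sub_eq_orbit_mul GV vW
  rw [GV_facts.1, GV_facts.2.2.1] at h
  omega

theorem GVWU_eq : GV ⊓ GW ⊓ stabilizer Co0 vU = GV ⊓ GU ⊓ GW := inf_right_comm _ _ _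

theorem ncard_orbit_VW_U : (orbit ↥(GV ⊓ GW) vU).ncard = 100 := by
  have h := card_sub_eq_orbit_mul (GV ⊓ GW) vU
  rw [card_GVW, GVWU_eq, card_GVUW] at h
  omega

/-- Suborbit lengths in degree 100. -/
def sD (t : ℤ) : ℕ := if t = 32 then 1 else if t = 16 then 77 else 22

theorem decompD : Decomp (stabilizer ↥(GV ⊓ GW) vU) (orbit ↥(GV ⊓ GW) vU)
    (fun y => dotInt (y : V) (vU : V)) {32, 16, 8} sD := by
  refine decomp_of_sub _ _ vU GVWU_eq (orbit_finite _ _) (fun h hh y => dot_smul_fix hh.1.2 y) ?_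
    ncard_orbit_VW_U.le
  simp only [mem_insert, mem_singleton, forall_eq_or_imp, forall_eq]
  exact ⟨⟨vU, mem_orbit_self _, by decide +kernel, one_le_ncard_orbit _⟩, orbHS_16, orbHS_8⟩

theorem simple_GVW : IsSimpleGroup ↥(GV ⊓ GW) := by
  have : IsSimpleGroup ↥(GV ⊓ GW ⊓ stabilizer Co0 vU) := GVWU_eq ▸ simple_GVUW
  exact decompD.simple (stabEquiv _ vU).isSimpleGroup ncard_orbit_VW_U (t0 := 32)
    (by decide +kernel) (by decide +kernel) (by decide +kernel)
    (not_regCond_one 5 (by norm_num) (by norm_num) (by norm_num) (by decide +kernel))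

/-- Suborbit lengths in degree 552. -/
def sE (t : ℤ) : ℕ := if t = 32 ∨ t = -8 then 1 else 275

theorem vY_mem_orbit_V : vY ∈ orbit GV vU := by
  obtain ⟨g, hg, g', hg', e⟩ := exists_sq_vU
  exact ⟨⟨g, hg⟩ * ⟨g, hg⟩ * ⟨g', hg'⟩ * ⟨g', hg'⟩, by simp only [mul_smul]; exact e⟩

theorem decompE : Decomp (stabilizer GV vU) (orbit GV vU) (fun y => dotInt (y : V) (vU : V))
    {32, 16, 8, -8} sE := by
  refine decomp_of_sub _ _ vU rfl (orbit_finite _ _) (fun h hh y => dot_smul_fix hh.2 y) ?_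
    GV_facts.2.1.le
  simp only [mem_insert, mem_singleton, forall_eq_or_imp, forall_eq]
  exact ⟨⟨vU, mem_orbit_self _, by decide +kernel, one_le_ncard_orbit _⟩, orbCo3_16, orbCo3_8,
    ⟨vY, vY_mem_orbit_V, by decide +kernel, one_le_ncard_orbit _⟩⟩

theorem no_central_swap {t : Co0} (ht : t ∈ GV) (h1 : t • vU = vY)
    (h2 : ∀ g ∈ GV, g * t = t * g) : False := by
  let x : ZMod 23 → L := fun j => mkL (sg none 4 + sg (some j) 4) (isL_sg_add _ _)
  have hx : ∀ j, t • x j = vV - x j := fun j => by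
    obtain ⟨σ, a, b⟩ := exists_M24_map_two (i := none) (j := some 0) (k := none) (l := some j)
      (by simp) (by simp)
    have e1 : permHom σ • vU = x j := by
      refine Subtype.ext (funext fun i => ?_)
      have a' : σ.1 none = none := a
      have b' : σ.1 (some 0) = some j := b
      rw [permHom_apply]
      simp only [vU, x, coe_mkL, Pi.add_apply, sg, Equiv.Perm.inv_eq_iff_eq, a', b']
    have e2 : vY = vV - vU := by rw [vV]; simp
    rw [← e1, ← mul_smul, ← h2 _ (permHom_vV a), mul_smul, h1, e2, co_sub, permHom_vV a]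
  have hs : ∑ j, x j = (4 : ℤ) • vV + (9 : ℤ) • e8 none := by
    refine Subtype.ext ?_
    rw [AddSubmonoidClass.coe_finsetSum]
    decide +kernel
  have h3 : ∑ j, (vV - x j) = (4 : ℤ) • vV + (9 : ℤ) • (t • e8 none) := by
    rw [← sum_congr rfl fun j _ => hx j, ← co_sum, hs, co_add, co_zsmul, co_zsmul,
      mem_stabilizer_iff.mp ht]
  rw [sum_sub_distrib, hs] at h3
  have h4 := congrFun (congrArg Subtype.val h3) (some 0)
  have h5 : ((∑ _j : ZMod 23, vV - ((4 : ℤ) • vV + (9 : ℤ) • e8 none) : L) : V) (some 0) = 19 := by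
    rw [AddSubgroup.coe_sub, AddSubmonoidClass.coe_finsetSum]
    decide +kernel
  have h6 : (vV : V) (some 0) = 1 := by decide +kernel
  rw [h5] at h4
  simp only [AddSubgroup.coe_add, AddSubgroupClass.coe_zsmul, Pi.add_apply, Pi.smul_apply,
    smul_eq_mul, h6] at h4
  omega

theorem simple_GV : IsSimpleGroup GV := by
  have hH : IsSimpleGroup (stabilizer GV vU) := by
    have := simple_GVU
    exact (stabEquiv _ vU).isSimpleGroup
  have : Nontrivial GV := (stabilizer GV vU).subtype_injective.nontrivial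
  refine ⟨fun N hN => ?_⟩
  obtain ⟨I, h1, h2, h3, h4, h5⟩ := decompE.normal_orbit N
  rw [GV_facts.2.1] at h3
  have hU : dotInt (vU : V) (vU : V) = 32 := by decide +kernel
  have hY : dotInt (vY : V) (vU : V) = -8 := by decide +kernel
  simp only [hU] at h2
  have key : ∀ I ∈ ({32, 16, 8, -8} : Finset ℤ).powerset, 32 ∈ I → (∑ t ∈ I, sE t) ∣ 552 →
      ∑ t ∈ I, sE t = 1 ∨ (∑ t ∈ I, sE t = 2 ∧ -8 ∈ I) ∨ (∑ t ∈ I, sE t = 276 ∧ -8 ∉ I) ∨
        I = {32, 16, 8, -8} := by decide +kernel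
  have hYI := h5 vY vY_mem_orbit_V
  simp only [hY] at hYI
  rcases key I (mem_powerset.mpr h1) h2 h3 with h | ⟨h, h'⟩ | ⟨h, h'⟩ | h
  · exact Or.inl (decompE.eq_bot_of_fix hH (by decide +kernel) N (h4.trans h))
  · exfalso
    rcases stab_le_or_inf_eq_bot hH N with a | a
    · have := decompE.le_of_stab_le N a (t := 16) (by decide)
      rw [h4, h] at this
      exact absurd this (by decide)
    · obtain ⟨⟨t, ht⟩, e⟩ := hYI.mpr h'
      have e' : t • vU = vY := e
      have hne : vU ≠ vY := fun c => by rw [← c, hU] at hY; omega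
      have horb : orbit N vU = {vU, vY} := by
        symm
        refine Set.eq_of_subset_of_ncard_le ?_ (by rw [h4, h, Set.ncard_pair hne])
          (Set.finite_range _)
        rintro _ (rfl | rfl)
        · exact mem_orbit_self _
        · exact hYI.mpr h'
      refine no_central_swap t.2 e' fun g hg => ?_
      have hc := hN.conj_mem t ht ⟨g, hg⟩
      have hm : (⟨g, hg⟩ * t * ⟨g, hg⟩⁻¹ : GV) • vU ∈ orbit N vU := ⟨⟨_, hc⟩, rfl⟩
      rw [horb] at hm
      rcases hm with b | b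
      · have := a _ hc b
        rw [mul_inv_eq_one, mul_eq_left] at this
        rw [this, one_smul] at e'
        exact absurd e' hne
      · have := a _ (N.mul_mem (N.inv_mem ht) hc) (by rw [mul_smul, b, ← e', inv_smul_smul])
        rw [inv_mul_eq_one, eq_mul_inv_iff_mul_eq] at this
        exact congrArg Subtype.val this.symm
  · exfalso
    obtain ⟨g, hg, g', hg', e⟩ := exists_sq_vU
    have h6 : 2 * (orbit N vU).ncard = (orbit GV vU).ncard := by rw [h4, h, GV_facts.2.1]
    have := sq_smul_mem_of_half N (orbit_finite _ _) h6 ⟨g, hg⟩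
      (sq_smul_mem_of_half N (orbit_finite _ _) h6 ⟨g', hg'⟩ (mem_orbit_self vU))
    exact h' (hYI.mp (e ▸ this))
  · refine Or.inr (decompE.eq_top_of_trans hH ?_ N fun y hy =>
      (h5 y hy).mpr (h ▸ decompE.mem y hy))
    rw [GV_facts.2.1]
    simp only [hU]
    exact not_regCond_one 3 (by norm_num) (by norm_num) (by norm_num) (by decide +kernel)

/-! ### The centre and the central quotient -/

theorem eq_one_of_central {z : Co0} (hz : z ∈ Subgroup.center Co0) (h : z • vU = vU) : z = 1 := by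
  have h1 : ∀ y ∈ sh 32, z • y = y := fun y hy => by
    rw [← orbit_vU] at hy
    obtain ⟨g, rfl⟩ := hy
    change z • g • vU = g • vU
    rw [← mul_smul, ← Subgroup.mem_center_iff.mp hz g, mul_smul, h]
  refine eq_of_fix_e8 fun p => ?_
  obtain ⟨q, hq⟩ := exists_ne p
  have e : e8 p = mkL _ (isL_sg_add p q) + mkL _ (isL_sg_sub p q) := by
    refine Subtype.ext (funext fun i => ?_)
    simp only [e8, coe_mkL, AddSubgroup.coe_add, Pi.add_apply, Pi.sub_apply, sg]
    split_ifs <;> rfl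
  have hd : dotInt (sg p 4) (sg q 4) = 0 := by simp [dotInt_def, sg, hq]
  have n1 : mkL _ (isL_sg_add p q) ∈ sh 32 := by
    change sqNorm (sg p 4 + sg q 4) = 32
    rw [sqNorm_add, hd, sqNorm_sg, sqNorm_sg]; rfl
  have n2 : mkL _ (isL_sg_sub p q) ∈ sh 32 := by
    change sqNorm (sg p 4 - sg q 4) = 32
    rw [sub_eq_add_neg, sqNorm_add, dotInt_neg_right, hd, sqNorm_neg, sqNorm_sg, sqNorm_sg]; rfl
  rw [one_smul, e, co_add, h1 _ n1, h1 _ n2]

theorem vU_ne_neg : vU ≠ -vU := fun h => by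
  have := congrFun (congrArg Subtype.val h) none
  revert this
  decide +kernel

theorem negCo_ne_one : negCo ≠ 1 := fun h => vU_ne_neg (by rw [← negCo_smul, h, one_smul])

theorem eq_neg_of_dot {y : L} (hy : y ∈ sh 32) (h : sA (dotInt (y : V) (vU : V)) = 1) :
    y = vU ∨ y = -vU := by
  have hm := decompA.mem y (orbit_vU ▸ hy)
  have : dotInt (y : V) (vU : V) = 32 ∨ dotInt (y : V) (vU : V) = -32 := by
    revert hm h
    generalize dotInt (y : V) (vU : V) = t
    revert t
    have : ∀ t ∈ ({32, 16, 8, 0, -8, -16, -32} : Finset ℤ), sA t = 1 → t = 32 ∨ t = -32 := by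
      decide +kernel
    exact fun t a b => this t b a
  have hy' : sqNorm (y : V) = 32 := hy
  have hU : sqNorm (vU : V) = 32 := vU_sh
  rcases this with a | a
  · left
    have := sqNorm_add (y : V) (-(vU : V))
    rw [dotInt_neg_right, sqNorm_neg, a, hy', hU] at this
    exact Subtype.ext (add_neg_eq_zero.mp (sqNorm_eq_zero this))
  · right
    have := sqNorm_add (y : V) (vU : V)
    rw [a, hy', hU] at this
    exact Subtype.ext (eq_neg_of_add_eq_zero_left (sqNorm_eq_zero this))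

theorem mem_center_iff {z : Co0} : z ∈ Subgroup.center Co0 ↔ z = 1 ∨ z = negCo := by
  refine ⟨fun hz => ?_, fun h => h.elim (fun e => e ▸ one_mem _) fun e => e ▸ negCo_mem_center⟩
  have h1 : orbit GU (z • vU) = {z • vU} := by
    refine Set.eq_singleton_iff_unique_mem.mpr ⟨mem_orbit_self _, ?_⟩
    rintro _ ⟨g, rfl⟩
    change g.1 • z • vU = z • vU
    rw [← mul_smul, Subgroup.mem_center_iff.mp hz, mul_smul, mem_stabilizer_iff.mp g.2]
  have h2 := ncard_orbit_GU (smul_mem_sh z vU_sh)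
  rw [h1, Set.ncard_singleton] at h2
  rcases eq_neg_of_dot (smul_mem_sh z vU_sh) h2.symm with h | h
  · exact Or.inl (eq_one_of_central hz h)
  · right
    have := eq_one_of_central (mul_mem (inv_mem negCo_mem_center) hz)
      (by rw [mul_smul, h, ← negCo_smul, inv_smul_smul])
    exact (inv_mul_eq_one.mp this).symm

theorem card_center : Nat.card (Subgroup.center Co0) = 2 := by
  rw [← SetLike.coe_sort_coe, Nat.card_coe_set_eq, ← Set.ncard_pair negCo_ne_one.symm]
  congr 1
  ext z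
  exact mem_center_iff

theorem normal_Co0 (N : Subgroup Co0) [N.Normal] (hle : Subgroup.center Co0 ≤ N) :
    N = Subgroup.center Co0 ∨ N = ⊤ := by
  obtain ⟨I, h1, h2, h3, h4, h5⟩ := decompA.normal_orbit N
  rw [ncard_orbit_vU] at h3
  have hU : dotInt (vU : V) (vU : V) = 32 := by decide +kernel
  simp only [hU] at h2
  have key : ∀ I ∈ ({32, 16, 8, 0, -8, -16, -32} : Finset ℤ).powerset, 32 ∈ I →
      (∑ t ∈ I, sA t) ∣ 196560 → ∑ t ∈ I, sA t ≤ 2 ∨ I = {32, 16, 8, 0, -8, -16, -32} := by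
    decide +kernel
  rcases key I (mem_powerset.mpr h1) h2 h3 with h | h
  · left
    rcases stab_le_or_inf_eq_bot simple_GU N with a | a
    · have := (decompA.le_of_stab_le N a (t := 16) (by decide)).trans (h4.le.trans h)
      exact absurd this (by decide)
    · have horb : orbit N vU = {vU, -vU} := by
        symm
        refine Set.eq_of_subset_of_ncard_le ?_ (by rw [h4, Set.ncard_pair vU_ne_neg]; exact h)
          (Set.finite_range _)
        rintro _ (rfl | rfl)
        · exact mem_orbit_self _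
        · exact ⟨⟨negCo, hle negCo_mem_center⟩, negCo_smul vU⟩
      refine le_antisymm (fun n hn => ?_) hle
      have hm : n • vU ∈ orbit N vU := ⟨⟨n, hn⟩, rfl⟩
      rw [horb] at hm
      rw [mem_center_iff]
      rcases hm with b | b
      · exact Or.inl (a n hn b)
      · have := a _ (N.mul_mem (N.inv_mem (hle negCo_mem_center)) hn)
          (by rw [mul_smul, b, ← negCo_smul, inv_smul_smul])
        exact Or.inr (inv_mul_eq_one.mp this).symm
  · refine Or.inr (decompA.eq_top_of_trans simple_GU ?_ N fun y hy =>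
      (h5 y hy).mpr (h ▸ decompA.mem y hy))
    rw [ncard_orbit_vU]
    simp only [hU]
    exact not_regCond_one 13 (by norm_num) (by norm_num) (by norm_num) (by decide +kernel)

theorem card_Co1 : Nat.card (Co0 ⧸ Subgroup.center Co0) = 4157776806543360000 := by
  have h := Subgroup.card_eq_card_quotient_mul_card_subgroup (Subgroup.center Co0)
  rw [card_Co0, card_center] at h
  omega

theorem simple_Co1 : IsSimpleGroup (Co0 ⧸ Subgroup.center Co0) := by
  have : Nontrivial (Co0 ⧸ Subgroup.center Co0) := by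
    rw [← Finite.one_lt_card_iff_nontrivial, card_Co1]; norm_num
  refine ⟨fun N hN => ?_⟩
  have hs := QuotientGroup.mk'_surjective (Subgroup.center Co0)
  rcases normal_Co0 (N.comap (QuotientGroup.mk' _)) (QuotientGroup.le_comap_mk' _ N) with h | h
  · left
    rw [← Subgroup.map_comap_eq_self_of_surjective hs N, h, QuotientGroup.map_mk'_self]
  · right
    rw [← Subgroup.map_comap_eq_self_of_surjective hs N, h, Subgroup.map_top_of_surjective _ hs]

/-! ### Transitivity -/

theorem exists_smul_eq_vU {v : L} (hv : v ∈ sh 32) : ∃ g : Co0, g • vU = v := by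
  rw [← orbit_vU] at hv; exact hv

theorem exists_smul_eq_vV {v : L} (hv : v ∈ sh 48) : ∃ g : Co0, g • vV = v := by
  rw [← GV_facts.2.2.2.1] at hv; exact hv

theorem exists_smul_pair_UY {v w : L} (hv : v ∈ sh 32) (hw : w ∈ sh 32)
    (h : dotInt (v : V) (w : V) = -8) : ∃ g : Co0, g • vU = v ∧ g • vY = w := by
  obtain ⟨g, rfl⟩ := exists_smul_eq_vU hv
  have h1 : dotInt ((g⁻¹ • w : L) : V) (vU : V) = -8 := by
    rw [← co_dot g, smul_inv_smul, dotInt_comm, h]
  obtain ⟨k, e⟩ := decompA.trans vY (orbit_vU ▸ vY_sh) (g⁻¹ • w) (orbit_vU ▸ smul_mem_sh _ hw)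
    (h1.symm ▸ (by decide +kernel))
  have e' : k.1 • vY = g⁻¹ • w := e
  exact ⟨g * k.1, by rw [mul_smul, mem_stabilizer_iff.mp k.2], by rw [mul_smul, e', smul_inv_smul]⟩

theorem exists_smul_pair_VW {v z : L} (hv : v ∈ sh 48) (hz : z ∈ sh 32)
    (h : dotInt (z : V) (v : V) = 16) : ∃ g : Co0, g • vV = v ∧ g • vW = z := by
  obtain ⟨g, rfl⟩ := exists_smul_eq_vV hv
  have h1 : g⁻¹ • z ∈ orbit GV vW := by
    rw [GV_facts.2.2.2.2]
    exact ⟨smul_mem_sh _ hz, by rw [← co_dot g, smul_inv_smul, h]⟩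
  obtain ⟨k, e⟩ := h1
  have e' : k.1 • vW = g⁻¹ • z := e
  exact ⟨g * k.1, by rw [mul_smul, mem_stabilizer_iff.mp k.2], by rw [mul_smul, e', smul_inv_smul]⟩

end Cfsg.Agent.H3
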