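import Cfsg.Agent.H5.GWc7
import Cfsg.Agent.H5.Q8Ext
import Cfsg.Agent.H4.Plane

/-! Commutator subgroups of groups with dihedral Sylow `2`-subgroups; recognition of `SL(2, 3)`. -/

set_option autoImplicit false
set_option linter.unusedSectionVars false
set_option linter.unusedVariables false

namespace Cfsg.Agent.H3.GT

open Subgroup GW H7 H9 H5
open scoped MatrixGroups commutatorElement

theorem cyc_aut (F : Type*) [Field F] [Finite F] : IsCyclic (RingAut F) := by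
  obtain ⟨p, hp⟩ := CharP.exists F
  have : Fact p.Prime := ⟨CharP.char_is_prime F p⟩
  let : Algebra (ZMod p) F := ZMod.algebra _ _
  let f : (F ≃ₐ[ZMod p] F) →* RingAut F := MonoidHom.mk' (fun e => e.toRingEquiv) fun _ _ => rfl
  exact isCyclic_of_surjective f fun ψ => ⟨AlgEquiv.ofRingEquiv (f := ψ) fun x =>
    DFunLike.congr_fun (RingHom.ext_zmod ((ψ : F →+* F).comp (algebraMap _ _)) (algebraMap _ _)) x, rfl⟩

variable {G : Type*} [Group G] [Finite G]

theorem out_ab (h : DS G) (hns : ¬ Group.IsSolvable G) (h0 : pPrimeCore 2 G = ⊥)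
    (hA : ¬ ∀ y, orderOf y = 2 → y ∈ layerOf (⊤ : Subgroup G)) : commutator G ≤ layerOf (⊤ : Subgroup G) ∧
      ∃ (F : Type) (_ : Field F) (_ : Fintype F), Odd (Fintype.card F) ∧
        Nonempty (layerOf (⊤ : Subgroup G) ≃* PSL(2, F)) := by
  obtain ⟨hE, hs, hc⟩ := layer_of_ds h hns h0
  obtain ⟨F, i1, i2, h1, ⟨e⟩⟩ : ∃ (F : Type) (_ : Field F) (_ : Fintype F), Odd (Fintype.card F) ∧
      Nonempty (layerOf (⊤ : Subgroup G) ≃* PSL(2, F)) := by
    obtain ⟨t, s, K, hb⟩ := (gw hc (h.subgroup _)).resolve_right fun e => hA fun y =>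
      (acomp_top h hE e).inner y trivial
    obtain ⟨F, i1, i2, h1, -, h2⟩ := psl_of_bsw hb (quasisimple_iff.mp (QS.of_isSimpleGroup hc)).1
    exact ⟨F, i1, i2, h1, h2⟩
  refine ⟨?_, F, i1, i2, h1, ⟨e⟩⟩
  have hz : center (layerOf (⊤ : Subgroup G)) = ⊥ :=
    (hs.eq_bot_or_eq_top_of_normal (center _) inferInstance).resolve_right fun e =>
      hc ⟨⟨fun a b => (mem_center_iff.1 (e ▸ mem_top b) a)⟩⟩
  obtain ⟨P, M⟩ := exists_model h hE (two_ne_zero_of_odd_card h1)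
    (((QuotientGroup.quotientMulEquivOfEq hz).trans QuotientGroup.quotientBot).trans e)
  rw [opp_top, h0] at M
  have hn : (layerOf (⊤ : Subgroup G)).Normal := layerOf_top (G := G) ▸ inferInstance
  generalize layerOf (⊤ : Subgroup G) = E at *
  obtain ⟨Ψ, hΨ⟩ := M.exists_psi
  have := cyc_aut F
  have key : ∀ {a Y}, MLin (P a) Y → IsSquare Y.det → a ∈ E := fun hY hs => by
    obtain ⟨B, -, -, -, hB⟩ := hY.exists_cs hs
    obtain ⟨e, he, he'⟩ := M.onS B
    rw [← inv_mul_eq_one.1 (mem_bot.1 ((M.eq_iff trivial trivial).1 (he'.trans hB.symm)))]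
    exact he
  have k2 : ∀ k, Ψ ⟨k, trivial⟩ = 1 → ∀ g, g * k * g⁻¹ * k ∈ E := fun k hk g => by
    obtain ⟨Y, hY⟩ := ((hΨ _ _).2 hk).lin
    obtain ⟨ψ, hψ⟩ := M.pg g trivial
    refine key (Y := P g Y * Y) (by rw [M.mul _ trivial _ trivial, M.conj trivial trivial]; exact (hY.conj _).mul hY) ?_
    rw [Matrix.det_mul, hψ.det]
    by_cases hs : IsSquare Y.det
    · exact (hs.map ψ).mul hs
    · exact H6.isSquare_mul_of_not (fun e => hs (by simpa using e.map ψ.symm)) hs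
  let f : G ⧸ E →* RingAut F := QuotientGroup.lift E (Ψ.comp topEquiv.symm.toMonoidHom) fun x hx => by
    obtain ⟨A, hA⟩ := M.toS x hx
    obtain ⟨ψ, hψ⟩ := M.pg x trivial
    exact ((hΨ ⟨x, trivial⟩ ψ).1 hψ).trans (hψ.eq_one (hA ▸ lin_cs A))
  have hf : f.ker ≤ center _ := fun x hx => mem_center_iff.2 fun g => by
    obtain ⟨k, rfl⟩ := QuotientGroup.mk'_surjective E x
    obtain ⟨g, rfl⟩ := QuotientGroup.mk'_surjective E g
    have h2 := (QuotientGroup.eq_one_iff _).2 (mul_mem (k2 k hx g) (inv_mem (k2 k hx 1)))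
    rw [← mul_inv_eq_one, ← map_mul, ← map_mul, ← map_inv, ← map_mul,
      show g * k * (k * g)⁻¹ = g * k * g⁻¹ * k * (1 * k * 1⁻¹ * k)⁻¹ by group]
    exact h2
  refine commutator_le.2 fun a _ b _ => (QuotientGroup.eq_one_iff _).1 ?_
  rw [← QuotientGroup.mk'_apply, map_commutatorElement, commutatorElement_eq_one_iff_mul_comm]
  exact (f.isMulCommutative_of_isCyclic_of_ker_le_center hf).is_comm.comm _ _

omit [Finite G] in
/-- Relations in `SL(2, 3)`. -/
structure R24 (i j d : G) : Prop where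
  i4 : i ^ 4 = 1
  j2 : j ^ 2 = i ^ 2
  ji : j * i * j⁻¹ = i⁻¹
  d3 : d ^ 3 = 1
  di : d * i * d⁻¹ = j
  dj : d * j * d⁻¹ = i * j

theorem R24.card {i j d : G} (h : R24 i j d) (hi : i ^ 2 ≠ 1) : Nat.card ↥(zpowers i ⊔ zpowers j ⊔ zpowers d) = 24 := by
  have nc : j * i ≠ i * j := fun e => hi (by
    have := h.ji
    rw [e, mul_inv_cancel_right] at this
    rw [sq]; nth_rewrite 2 [this]; exact mul_inv_cancel i)
  obtain ⟨e⟩ := nonempty_equiv_quaternion (n := 2) (orderOf_eq_prime_pow (p := 2) (n := 1) (by simpa using hi)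
    (by simpa using h.i4)) (by rintro ⟨k, rfl⟩; exact nc (Commute.self_zpow i k).symm) h.j2 h.ji
  set Q := zpowers i ⊔ zpowers j with hQ
  have hiQ : i ∈ Q := mem_sup_left (mem_zpowers i)
  have hjQ : j ∈ Q := mem_sup_right (mem_zpowers j)
  have c1 : Nat.card Q = 8 := by
    rw [Nat.card_congr e.toEquiv, Nat.card_eq_fintype_card, QuaternionGroup.card]
  have hdQ : d ∉ Q := fun hd => by
    have h8 : d ^ 8 = 1 := by
      rw [← c1]; exact congrArg Subtype.val (pow_card_eq_one' (x := (⟨d, hd⟩ : Q)))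
    have hd1 : d = 1 := by
      calc d = d ^ 9 * (d ^ 8)⁻¹ := by group
        _ = (d ^ 3) ^ 3 * (d ^ 8)⁻¹ := by rw [← pow_mul]
        _ = 1 := by rw [h.d3, h8]; simp
    have := h.di
    rw [hd1, one_mul, inv_one, mul_one] at this
    exact nc (by rw [this])
  have : Fact (Nat.Prime 3) := ⟨Nat.prime_three⟩
  rw [card_sup_zpowers (p := 3) (mem_normalizer_sup_zpowers hQ (h.di ▸ hjQ) (h.dj ▸ mul_mem hiQ hjQ)) hdQ
    (h.d3 ▸ one_mem _), c1]

theorem R24.equiv {i j d : G} (h : R24 i j d) (hi : i ^ 2 ≠ 1) :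
    Nonempty (↥(zpowers i ⊔ zpowers j ⊔ zpowers d) ≃* SL(2, ZMod 3)) := by
  let i' : SL(2, ZMod 3) := ⟨!![0, 1; 2, 0], by decide⟩
  let j' : SL(2, ZMod 3) := ⟨!![1, 1; 1, 2], by decide⟩
  let d' : SL(2, ZMod 3) := ⟨!![0, 1; 2, 2], by decide⟩
  have h' : R24 i' j' d' := by
    constructor <;> exact Subtype.ext (by decide)
  have hi' : i' ^ 2 ≠ 1 := fun e => absurd (congrArg Subtype.val e) (by decide)
  have c := R24.card (i := (i', i)) (j := (j', j)) (d := (d', d)) ⟨Prod.ext h'.i4 h.i4, Prod.ext h'.j2 h.j2,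
    Prod.ext h'.ji h.ji, Prod.ext h'.d3 h.d3, Prod.ext h'.di h.di, Prod.ext h'.dj h.dj⟩ fun e => hi (congrArg Prod.snd e)
  have ht := eq_top_of_card_eq _ ((h'.card hi').trans H4.card_SL2_three.symm)
  obtain ⟨φ, hφ⟩ := exists_hom_of_graph (zpowers (i', i) ⊔ zpowers (j', j) ⊔ zpowers (d', d)) (by
    simp only [Subgroup.map_sup, MonoidHom.map_zpowers]
    exact ht) (by rw [c, H4.card_SL2_three])
  have hr : φ.range = zpowers i ⊔ zpowers j ⊔ zpowers d := by
    rw [MonoidHom.range_eq_map, ← ht]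
    simp only [Subgroup.map_sup, MonoidHom.map_zpowers]
    rw [hφ _ (mem_sup_left (mem_sup_left (mem_zpowers (i', i)))), hφ _ (mem_sup_left (mem_sup_right (mem_zpowers (j', j)))),
      hφ _ (mem_sup_right (mem_zpowers (d', d)))]
  rw [← hr]
  exact ⟨(MulEquiv.ofBijective φ.rangeRestrict ((Nat.bijective_iff_surjective_and_card _).2 ⟨φ.rangeRestrict_surjective,
    by rw [hr, h.card hi, H4.card_SL2_three]⟩)).symm⟩

end Cfsg.Agent.H3.GT
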