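import Cfsg.Agent.H3.GT1
import Cfsg.Agent.H3.GT2

/-! Two commuting quaternion subgroups of a Sylow `2`-subgroup: the quotients with dihedral Sylow subgroups. -/

set_option autoImplicit false
set_option linter.unusedSectionVars false
set_option linter.unusedVariables false

namespace Cfsg.Agent.H3.GT

open Subgroup Cfsg.Agent.FT Cfsg.Agent.L0 Cfsg.Agent.H8 Cfsg.Agent.BS Cfsg.Agent.H3.DD
open scoped commutatorElement MatrixGroups

universe u

local instance : Fact (Nat.Prime 2) := Nat.fact_prime_two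

variable {G : Type u} [Group G] [Finite G] {S : Sylow 2 G} {A B K N : Subgroup G} {z x α β c j c' j' a b s u v g d l : G}

local notation "𝛒" => QuotientGroup.mk' (CC c)

/-- all conjugates of `c` lie in the quaternion group generated by `c` and `j` -/
def NB (z c j : G) : Prop := ∀ u, IsConj c u → ∃ a, (a = c ∨ a = j ∨ a = c * j) ∧ (u = a ∨ u = a * z)

theorem rho1 : 𝛒 g = 1 ↔ g ∈ CC c := QuotientGroup.eq_one_iff g

theorem rho : 𝛒 a = 𝛒 b ↔ a⁻¹ * b ∈ CC c := QuotientGroup.eq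

namespace Sd

variable (h : Sd S A B z x α c j c')
include h

theorem rA (ha : a ∈ A) (e : 𝛒 a = 1) : a = 1 ∨ a = z := h.disj ha (h.SC (h.le ha) (rho1.1 e))

theorem αz : ¬ (α = 1 ∨ α = z) := fun e => h.nz1 h.cc (h.iz.mem_zpowers_iff.1
  (zpowers_le.2 (h.iz.mem_zpowers_iff.2 e) h.cα))

theorem jc : j * c * j⁻¹ = c * z := by rw [h.inv h.hj h.nj h.cα, h.invz h.cc]

theorem cc2 (hs : s ∈ (S : Subgroup G)) (hu : u ∈ (S : Subgroup G)) (e : s * c ≠ c * s) (e' : u * c ≠ c * u) :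
    s * u * c = c * (s * u) := by
  have k : ∀ {s}, s ∈ (S : Subgroup G) → s * c ≠ c * s → s * c * s⁻¹ = c * z := fun hs e =>
    (h.nc hs).resolve_left fun e' => e (mul_inv_eq_iff_eq_mul.1 e')
  rw [← mul_inv_eq_iff_eq_mul, show s * u * c * (s * u)⁻¹ = s * (u * c * u⁻¹) * s⁻¹ by group, k hu e', ← conj_mul, k hs e,
    h.cz, h.iz.mul_mul']

theorem leG : A ≤ commutator G := h.gen fun a _ ha => by
  obtain ⟨g, rfl⟩ := isConj_iff.1 ha
  refine (inferInstance : (commutator G).Normal).conj_mem _ (zpowers_le.2 ?_ h.cα) g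
  rw [eq_mul_inv_of_mul_eq (h.out j h.hj h.nj).2.1.symm]
  exact commutator_mem_commutator (mem_top x) (mem_top j)

variable (h' : Sd S B A z x β c' j' c)
include h'

theorem rB (hb : b ∈ B) : 𝛒 b = 1 := rho1.2 (h'.leC h hb)

theorem cC (hu : IsConj c u) : u ∈ CC c' := mem_CC.2 fun v hv => (h.pf h' hu hv).symm

theorem zx (hs : s ∈ (S : Subgroup G)) (e : s * c = c * s) : 𝛒 s ∈ zpowers (𝛒 x) := by
  obtain ⟨i, b, hb, rfl⟩ := h.cen1 s hs e
  rw [map_mul, h.rB h' hb, mul_one, map_zpow]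
  exact zpow_mem_zpowers _ i

theorem ds : GW.DS (G ⧸ CC c) := by
  refine H5.ds_of_cdw (isSylowIn_top (S.mapSurjective (QuotientGroup.mk'_surjective (CC c)))) (ρ := 𝛒 x)
    ⟨mem_map_of_mem _ h.hx, ?_, ?_⟩
  · rintro _ ⟨s, hs, rfl⟩ h1
    rw [← map_mul, h.rB h' (h.cen2 s hs fun e => h1 (h.zx h' hs e))]
  · rintro _ ⟨s, hs, rfl⟩ _ ⟨u, hu, rfl⟩ h1 h2
    rw [← map_mul]
    exact h.zx h' (mul_mem hs hu) (h.cc2 hs hu (fun e => h1 (h.zx h' hs e)) fun e => h2 (h.zx h' hu e))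

theorem OX : pPrimeCore 2 (G ⧸ CC c) = ⊥ := eq_bot_iff.2 fun y hy => by
  obtain ⟨o, rfl⟩ := QuotientGroup.mk'_surjective _ y
  have ho : Odd #|pPrimeCore 2 (G ⧸ CC c)| := Nat.odd_iff.2 (by have := not_dvd_card_pPrimeCore (p := 2) (G := G ⧸ CC c); omega)
  refine rho1.2 (mem_CC.2 fun u hu => (mem_cent1.1 (mem_of_pow (odd_orderOf_of_mem ho hy) 1
    (mem_cent1.2 (mem_CC.1 (rho1.1 (by rw [map_pow, pow_orderOf_eq_one])) u hu).symm) (h.sqc (h.oz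
      (N := (pPrimeCore 2 (G ⧸ CC c)).comap 𝛒 ⊓ CC c') (fun s hs hn => h.rA (h'.SC hs hn.2) ?_) ⟨?_, ?_⟩)))).symm)
  · obtain ⟨k, hk⟩ := two_elt hs
    exact zpowers_eq_bot.1 (eq_bot_of_isPGroup_of_not_dvd (H9.isPGroup_zpowers ⟨k, by rw [← map_pow, hk, map_one]⟩)
      (L0.not_dvd_card_of_le (zpowers_le.2 hn.1) not_dvd_card_pPrimeCore))
  · rw [commutatorElement_def, mul_assoc, mul_assoc, ← mul_assoc u]
    have : o ∈ (pPrimeCore 2 (G ⧸ CC c)).comap 𝛒 := hy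
    exact Subgroup.mul_mem _ this (Normal.conj_mem inferInstance _ (Subgroup.inv_mem _ this) u)
  · exact Subgroup.mul_mem _ ((CC_normal c').conj_mem u (h.cC h' hu) o) (Subgroup.inv_mem _ (h.cC h' hu))

theorem ir (hu : IsConj c u) : Invo (𝛒 u) := ⟨by rw [← map_mul, h.csq hu h.cc, h.rB h' h'.zA],
  fun e => h.nz1 (h.csq hu h.cc) (h.inf h' (rho1.1 e) (h.cC h' hu))⟩

theorem rjc : 𝛒 j ≠ 𝛒 c := fun e => h.nj (by
  rcases h.rA (mul_mem (inv_mem h.cA) h.hj) (by rw [map_mul, map_inv, e, inv_mul_cancel]) with e | e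
  exacts [inv_mul_eq_one.1 e ▸ h.cα, inv_mul_eq_iff_eq_mul.1 e ▸ mul_mem h.cα h.zα])

theorem nb (hV : pCore 2 (G ⧸ CC c) ≠ ⊥) : NB z c j := by
  have hS := pCore_le_sylow (S.mapSurjective (QuotientGroup.mk'_surjective (CC c)))
  have k : ∀ t ∈ pCore 2 (G ⧸ CC c), orderOf t = 2 → 𝛒 x * t = t * 𝛒 x → t = 𝛒 c := fun t ht h1 h2 => by
    obtain ⟨g, hg, rfl⟩ := hS ht
    by_cases h3 : g * c = c * g
    · exact ZG.invo_eq_of_cyc (h.zx h' hg h3) (h.zx h' (h.le h.cA) rfl) (.of_orderOf h1) (h.ir h' (.refl c))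
    obtain ⟨i, hi⟩ := h.zx h' (mul_mem (h.le h.hj) hg) (h.cc2 (h.le h.hj) hg (fun e => h.iz.2 (by
      have := h.jc
      rwa [e, mul_inv_cancel_right, left_eq_mul] at this)) h3)
    have h4 : 𝛒 x * 𝛒 j * (𝛒 x)⁻¹ = 𝛒 j := by
      rw [mul_inv_eq_iff_eq_mul, ← mul_left_inj (𝛒 g), mul_assoc, mul_assoc, h2, ← mul_assoc (𝛒 j), ← map_mul, ← hi]
      exact ((Commute.refl _).zpow_right i).eq
    rw [← map_inv, ← map_mul, ← map_mul, (h.out j h.hj h.nj).2.1, map_mul, mul_eq_right] at h4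
    exact (h.αz (h.rA h.hα h4)).elim
  obtain ⟨t, ht, h1, h2, -⟩ := H9.exists_orderOf_centralized (S.mapSurjective (QuotientGroup.mk'_surjective (CC c))).2
    pCore_isPGroup (le_top.trans (normalizer_eq_top _).ge) hV
  have h3 : ∀ u, IsConj c u → 𝛒 u ∈ pCore 2 (G ⧸ CC c) := fun u hu => by
    obtain ⟨g, rfl⟩ := isConj_iff.1 hu
    rw [map_mul, map_mul, map_inv, ← k t ht h1 (h2 _ (mem_map_of_mem _ h.hx))]
    exact Normal.conj_mem inferInstance _ ht _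
  rcases (h.ds h').four_or_char pCore_isPGroup hV with ⟨t, w, ht, hw, hP⟩ | ⟨t, ht, h4, h5⟩
  swap
  · rw [normalizer_eq_top, top_le_iff] at h5
    have h6 : ∀ y, y * t = t * y := fun y => GW.mem_Cz.1 (h5 ▸ mem_top y)
    obtain ⟨g, e⟩ := isConj_iff.1 h.cj
    exact (h.rjc h' (by rw [← e, map_mul, map_mul, map_inv, ← k t ht h4 (h6 _), h6, mul_inv_cancel_right])).elim
  have r : GW.Refl (𝛒 c) (𝛒 j) := ⟨(h.ir h' h.cj).orderOf_eq, by
    rw [← mul_inv_eq_iff_eq_mul, ← map_inv, ← map_mul, ← map_mul, h.jc, map_mul, h.rB h' h'.zA, mul_one], h.rjc h'⟩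
  have o := (h.ir h' (.refl c)).orderOf_eq
  have e : pCore 2 (G ⧸ CC c) = GW.four t w := Subgroup.ext fun x => by rw [hP, GW.mem_four ht hw]
  rw [← eq_of_le_of_card_ge (GW.four_le.2 ⟨h3 c (.refl c), h3 j h.cj⟩) (by rw [e, GW.card_four ht hw, GW.card_four o r])] at h3
  intro u hu
  have k2 : ∀ a ∈ A, 𝛒 u = 𝛒 a → u = a ∨ u = a * z := fun a ha e =>
    (h.inf h' (rho.1 e.symm) (mul_mem (inv_mem (h.leC h' ha)) (h.cC h' hu))).imp (fun e => (inv_mul_eq_one.1 e).symm)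
      inv_mul_eq_iff_eq_mul.1
  rcases (GW.mem_four o r).1 (h3 u hu) with e | e | e | e
  exacts [((h.ir h' hu).2 e).elim, ⟨_, .inl rfl, k2 _ h.cA e⟩, ⟨_, .inr (.inl rfl), k2 _ h.hj e⟩,
    ⟨_, .inr (.inr rfl), k2 _ (mul_mem h.cA h.hj) e⟩]

theorem scc (hs : s ∈ (S : Subgroup G)) (e : 𝛒 s ∈ (CC c').map 𝛒) : ∃ a ∈ A, ∃ b ∈ B, a * b = s := by
  have h1 := ((isSylowIn_top S).inf_of_le_normalizer (N := CC c') (normalizer_eq_top _).ge).map 𝛒
  rw [top_inf_eq] at h1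
  obtain ⟨a, ha, e⟩ := (h1.max (S.1.map 𝛒 ⊓ (CC c').map 𝛒) inf_le_right ((S.2.map _).to_le inf_le_left)
    (le_inf (map_mono inf_le_left) (map_mono inf_le_right))).le ⟨mem_map_of_mem _ hs, e⟩
  exact ⟨a, h'.SC ha.1 ha.2, _, h.SC (mul_mem (inv_mem ha.1) hs) (rho.1 e), mul_inv_cancel_left _ _⟩

theorem caseA (hn : ¬ NB z c j) : (∀ g ∈ commutator G, ∃ l ∈ commutator G ⊓ CC c', l⁻¹ * g ∈ CC c) ∧
    ∃ (F : Type) (_ : Field F) (_ : Fintype F), Odd (Fintype.card F) ∧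
      Nonempty (↥(commutator G ⊓ CC c') ≃* SL(2, F)) := by
  have hd := h.ds h'
  have h0 := h.OX h'
  have hns : ¬ Group.IsSolvable (G ⧸ CC c) := fun hs => by
    have : Nontrivial (G ⧸ CC c) := ⟨_, _, h.rjc h'⟩
    exact (IsPSolvable.pCore_ne_bot_or (isPSolvable_of_isSolvable (p := 2))).elim (fun e => hn (h.nb h' e)) fun e => e h0
  obtain ⟨hE, hs, hc⟩ := H5.layer_of_ds hd hns h0
  have hN : (H7.layerOf (⊤ : Subgroup (G ⧸ CC c))).Normal := H7.layerOf_top (G := G ⧸ CC c) ▸ inferInstance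
  have mn : ∀ N : Subgroup G, N.Normal → α ∈ N → H7.layerOf ⊤ ≤ N.map 𝛒 := fun N hN' hα => by
    have := hN'.map _ (QuotientGroup.mk'_surjective (CC c))
    refine subgroupOf_eq_top.1 ((hs.eq_bot_or_eq_top_of_normal _ inferInstance).resolve_left fun e => h.αz (h.rA h.hα ?_))
    have := GW.inf_centralizer_layer hd hE (mem_inf.2 ⟨mem_top (𝛒 α), fun y hy =>
      (commute_of_normal_of_disjoint _ _ this hN (subgroupOf_eq_bot.1 e) _ _ (mem_map_of_mem _ hα) hy).symm⟩)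
    rwa [H7.opp_top, h0] at this
  obtain ⟨h1, F, i1, i2, h2, ⟨e⟩⟩ := out_ab hd hns h0 fun hi => by
    obtain ⟨a, ha, b, hb, e⟩ := h.scc h' h.hx (mn _ inferInstance (h.leC h' h.hα) (GW.mem_layer_of_inner hd hE
      (fun y _ => hi y) (mem_top _) ((two_elt h.hx).imp fun k hk => by rw [← map_pow, hk, map_one])))
    exact h.nx a ha b hb e
  have h3 : ∀ g ∈ commutator G, 𝛒 g ∈ H7.layerOf ⊤ := fun g hg => h1 (by
    rw [_root_.commutator_def, ← map_top_of_surjective _ (QuotientGroup.mk'_surjective (CC c)), ← map_commutator]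
    exact mem_map_of_mem _ hg)
  have h4 := mn (commutator G ⊓ CC c') inferInstance ⟨h.leG h.hα, h.leC h' h.hα⟩
  refine ⟨fun g hg => (h4 (h3 g hg)).imp fun l hl => ⟨hl.1, rho.1 hl.2⟩, F, i1, i2, h2, H5.DC.equiv_SL
    (π := ((𝛒).comp (commutator G ⊓ CC c').subtype).codRestrict _ fun l => h3 l l.2.1) (z := ⟨z, h.leG h.zA, h.leC h' h.zA⟩)
    ⟨fun y => ?_, fun l => ?_, by rw [← orderOf_coe, h.iz.orderOf_eq], fun l hl => ?_⟩ (H5.two_ne_zero_of_odd_card h2) e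
    (H7.quasisimple_iff.mp (H7.QS.of_isSimpleGroup hc)).1 (H5.two_dvd_card_of_simple hc)⟩
  · obtain ⟨l, hl, e⟩ := h4 y.2
    exact ⟨⟨l, hl⟩, Subtype.ext e⟩
  · rw [Subtype.ext_iff, Subtype.ext_iff, Subtype.ext_iff]
    refine ⟨fun e => h.inf h' (rho1.1 e) l.2.2, ?_⟩
    rintro (e | e) <;> change 𝛒 l = 1 <;> rw [e]
    exacts [map_one _, h.rB h' h'.zA]
  · rw [Subtype.ext_iff, Subtype.ext_iff]
    have hl : l.1 * l.1 = 1 := congrArg Subtype.val hl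
    obtain ⟨a, ha, e⟩ := h.two h' l.2.2 ⟨1, by rwa [pow_one, pow_two]⟩
    obtain ⟨g, e'⟩ := isConj_iff.1 e
    have := h.uniq ha (conj_eq_one_iff.1 (conj_mul.symm.trans (e'.symm ▸ hl)))
    rwa [h.cfix this e]

end Sd

end Cfsg.Agent.H3.GT
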