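import Cfsg.Agent.H3.GT3

/-! Two commuting quaternion subgroups of a Sylow `2`-subgroup: the commutator subgroup. -/

set_option autoImplicit false
set_option linter.unusedSectionVars false
set_option linter.unusedVariables false

namespace Cfsg.Agent.H3.GT

open Subgroup Cfsg.Agent.FT Cfsg.Agent.L0 Cfsg.Agent.H8 Cfsg.Agent.BS Cfsg.Agent.H3.DD
open scoped commutatorElement MatrixGroups

universe u

local instance : Fact (Nat.Prime 2) := Nat.fact_prime_two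

variable {G : Type u} [Group G] [Finite G] {S : Sylow 2 G} {A B K N : Subgroup G} {z x α β c j c' j' a b s u v g d l : G}

theorem pig {T : Type*} {p q r w₁ w₂ w₃ w : T} (h₁ : w₁ = p ∨ w₁ = q ∨ w₁ = r) (h₂ : w₂ = p ∨ w₂ = q ∨ w₂ = r)
    (h₃ : w₃ = p ∨ w₃ = q ∨ w₃ = r) (h : w = p ∨ w = q ∨ w = r) (n₁ : w₁ ≠ w₂) (n₂ : w₁ ≠ w₃) (n₃ : w₂ ≠ w₃) :
    w = w₁ ∨ w = w₂ ∨ w = w₃ := by
  rcases h₁ with rfl | rfl | rfl <;> rcases h₂ with rfl | rfl | rfl <;> rcases h₃ with rfl | rfl | rfl <;> tauto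

theorem cjz (g u : G) : H8.cj g (zpowers u) = zpowers (g * u * g⁻¹) := MonoidHom.map_zpowers _ _

theorem cj_iff {H : Subgroup G} : H8.cj g H = H8.cj a H ↔ a⁻¹ * g ∈ 𝐍(H) := by
  rw [← cj_eq_self_iff, cj_mul, ← (cj_injective a).eq_iff (b := H), cj_cj_inv]

namespace Sd

variable (h : Sd S A B z x α c j c')
include h

theorem mem4 (e : u * u = z) (hv : v ∈ zpowers u) : (v = 1 ∨ v = z) ∨ v = u ∨ v = u * z := by
  obtain ⟨k, rfl⟩ := hv
  obtain ⟨i, rfl | rfl⟩ := Int.even_or_odd' k <;> simp only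
  · rw [zpow_mul, zpow_two, e]; exact .inl (h.iz.mem_zpowers_iff.1 (zpow_mem_zpowers z i))
  · rw [add_comm, zpow_add, zpow_mul, zpow_two, e, zpow_one]
    exact .inr ((h.iz.mem_zpowers_iff.1 (zpow_mem_zpowers z i)).imp (fun e => by rw [e, mul_one]) fun e => by rw [e])

theorem nmem (ha : a ∈ A) (hn : a ∉ zpowers α) (hu : u ∈ zpowers α) (e : u ∈ zpowers a) : u = 1 ∨ u = z := by
  rcases h.mem4 (h.out a ha hn).1 e with e | rfl | rfl
  exacts [e, (hn hu).elim, (hn ((mul_mem_cancel_right h.zα).1 hu)).elim]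

theorem ne1 (hn : a ∉ zpowers α) : zpowers c ≠ zpowers a := fun e => hn (zpowers_le.2 h.cα (e ▸ mem_zpowers a))

theorem SN : (S : Subgroup G) ≤ 𝐍(zpowers c) := fun s hs => nz (h.nu hs h.cα)

theorem CN : CC c ≤ 𝐍(zpowers c) := fun s hs => nz (by
  rw [← mem_CC.1 hs c (.refl c), mul_inv_cancel_right]; exact mem_zpowers c)

theorem nN (hg : g ∉ 𝐍(zpowers c)) : g * c * g⁻¹ ∉ zpowers α := fun e => hg (nz (by
  rcases h.sqz e (h.csq (cjc g c) h.cc) with e | e <;> rw [e]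
  exacts [mem_zpowers c, h.invz h.cc ▸ inv_mem (mem_zpowers c)]))

theorem Nn (hg : g * c * g⁻¹ ∉ zpowers α) : g ∉ 𝐍(zpowers c) := fun e =>
  hg (zpowers_le.2 h.cα ((mem_normalizer_iff.1 e c).1 (mem_zpowers c)))

variable (nb : NB z c j)
include nb

theorem nbA (hu : IsConj c u) : u ∈ A := by
  obtain ⟨a, h1, h2⟩ := nb u hu
  have : a ∈ A := by rcases h1 with rfl | rfl | rfl; exacts [h.cA, h.hj, mul_mem h.cA h.hj]
  rcases h2 with rfl | rfl
  exacts [this, mul_mem this h.zA]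

theorem An (ha : a ∈ A) (hu : IsConj a u) : u ∈ A := by
  obtain ⟨g, rfl⟩ := isConj_iff.1 hu
  exact h.gen (K := A.comap (MulAut.conj g).toMonoidHom) (fun a _ ha => h.nbA nb (ha.trans (cjc g a))) ha

theorem tri (g : G) (hu : IsConj c u) : H8.cj g (zpowers u) = zpowers c ∨ H8.cj g (zpowers u) = zpowers j ∨
    H8.cj g (zpowers u) = zpowers (c * j) := by
  obtain ⟨a, h1, h2⟩ := nb _ (hu.trans (cjc g u))
  have : H8.cj g (zpowers u) = zpowers a := by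
    have e := h.csq (hu.trans (cjc g u)) h.cc
    rw [cjz]
    rcases h2 with h2 | h2
    · rw [h2]
    · rw [← zpowers_inv, h.invz e, h2, h.iz.mul_mul']
  rw [this]
  rcases h1 with rfl | rfl | rfl <;> simp

theorem tri1 (hu : IsConj c u) : zpowers u = zpowers c ∨ zpowers u = zpowers j ∨ zpowers u = zpowers (c * j) :=
  cj_one (zpowers u) ▸ h.tri nb 1 hu

theorem adj0 (h1 : g ∈ 𝐍(zpowers c)) (h2 : g ∈ 𝐍(zpowers j)) : ∃ a ∈ A, a⁻¹ * g ∈ CC c := by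
  have k : ∀ u, IsConj c u → g ∈ 𝐍(zpowers u) → g * u * g⁻¹ = u ∨ g * u * g⁻¹ = u * z := fun u hu hg =>
    (h.mem4 (h.csq hu h.cc) ((mem_normalizer_iff.1 hg u).1 (mem_zpowers u))).resolve_left
      (h.nz1 (h.csq (hu.trans (cjc g u)) h.cc))
  have k2 : ∀ a ∈ A, g * c * g⁻¹ = a * c * a⁻¹ → g * j * g⁻¹ = a * j * a⁻¹ → ∃ a ∈ A, a⁻¹ * g ∈ CC c :=
    fun a ha e e' => ⟨a, ha, mem_CC.2 fun u hu => by
      have k3 : ∀ v, g * v * g⁻¹ = a * v * a⁻¹ → v ∈ 𝐂[a⁻¹ * g] := fun v e => mem_cent1.2 (by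
        rw [mul_assoc a⁻¹, eq_mul_of_mul_inv_eq e]; group)
      obtain ⟨b, h1, h2⟩ := nb u hu
      have : b ∈ 𝐂[a⁻¹ * g] := by rcases h1 with rfl | rfl | rfl; exacts [k3 _ e, k3 _ e', mul_mem (k3 _ e) (k3 _ e')]
      rcases h2 with rfl | rfl
      exacts [mem_cent1.1 this, mem_cent1.1 (mul_mem this (mem_cent1.2 (h.zc _).symm))]⟩
  have e1 := h.jc
  have e2 : c * j * c⁻¹ = j * z := by
    rw [mul_inv_eq_iff_eq_mul, mul_assoc, ← h.zc, ← mul_assoc, eq_mul_of_mul_inv_eq e1, mul_assoc c, ← h.zc, mul_assoc c,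
      h.iz.mul_mul']
  rcases k c (.refl c) h1 with e | e <;> rcases k j h.cj h2 with e' | e'
  · exact k2 1 (one_mem _) (by simpa using e) (by simpa using e')
  · exact k2 c h.cA (by simpa using e) (e'.trans e2.symm)
  · exact k2 j h.hj (e.trans e1.symm) (by simpa using e')
  · refine k2 _ (mul_mem h.cA h.hj) (e.trans ?_) (e'.trans ?_)
    · rw [show c * j * c * (c * j)⁻¹ = c * (j * c * j⁻¹) * c⁻¹ by group, e1, ← conj_mul, h.cz, mul_inv_cancel_right]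
    · rw [← e2]; group

theorem ncj (h1 : g ∈ 𝐍(zpowers c)) : zpowers c ≠ H8.cj g (zpowers j) := fun e =>
  h.ne1 h.nj (cj_injective g ((cj_eq_self h1).trans e))

theorem adj (h1 : g ∈ 𝐍(zpowers c)) : ∃ a ∈ A, a⁻¹ * g ∈ CC c ∨ a⁻¹ * (x⁻¹ * g) ∈ CC c := by
  rcases pig (h.tri1 nb (.refl c)) (h.tri1 nb h.cj) (h.tri nb x h.cj) (h.tri nb g h.cj) (h.ne1 h.nj) (h.ncj nb (h.SN h.hx))
    (fun e => h.αz (h.nmem h.hj h.nj (mem_zpowers α) ((mul_mem_cancel_right (mem_zpowers j)).1 (by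
      rw [← (h.out j h.hj h.nj).2.1, e]; exact conj_mem_cj x (mem_zpowers j))))) with e | e | e
  · exact (h.ncj nb h1 e.symm).elim
  · exact (h.adj0 nb h1 (cj_eq_self_iff.1 e)).imp fun a ha => ⟨ha.1, .inl ha.2⟩
  · exact (h.adj0 nb (mul_mem (inv_mem (h.SN h.hx)) h1) (cj_iff.1 e)).imp fun a ha => ⟨ha.1, .inr ha.2⟩

theorem mvc (h1 : g ∉ 𝐍(zpowers c)) : ⁅g⁻¹, x⁆ ∉ 𝐍(zpowers c) := fun e => by
  rw [commutatorElement_def, inv_inv, mul_mem_cancel_right (inv_mem (h.SN h.hx)), mul_assoc, ← cj_iff, cj_mul, cjz] at e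
  exact h.αz (h.nmem (h.nbA nb (cjc g c)) (h.nN h1) (mem_zpowers α) ((mul_mem_cancel_right (mem_zpowers _)).1 (by
    rw [← (h.out _ (h.nbA nb (cjc g c)) (h.nN h1)).2.1]; nth_rewrite 1 [← e]; exact conj_mem_cj x (mem_zpowers _))))

variable (h' : Sd S B A z x β c' j' c)
include h'

theorem two' (hl : l ∈ CC c') (e : l * l ∈ A) : l ∈ A := by
  obtain ⟨a, ha, h1⟩ := h.two h' hl ((two_elt (h.le e)).elim fun k hk => ⟨k + 1, by rwa [pow_succ', pow_mul, pow_two]⟩)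
  exact h.An nb ha h1

theorem fix (hl : l ∈ CC c') (h1 : l ∈ 𝐍(zpowers c)) : l ∈ A := by
  have h2 : l * l ∈ 𝐍(zpowers j) := by
    by_cases h2 : l ∈ 𝐍(zpowers j)
    · exact mul_mem h2 h2
    rcases pig (h.tri1 nb (.refl c)) (h.tri1 nb h.cj) (h.tri nb l h.cj) (h.tri nb (l * l) h.cj) (h.ne1 h.nj) (h.ncj nb h1)
      (fun e => h2 (cj_eq_self_iff.1 e.symm)) with e | e | e
    exacts [(h.ncj nb (mul_mem h1 h1) e.symm).elim, cj_eq_self_iff.1 e, (h2 (by simpa using cj_iff.1 e)).elim]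
  obtain ⟨a, ha, h3⟩ := h.adj0 nb (mul_mem h1 h1) h2
  refine h.two' nb h' hl ((mul_mem_cancel_left (inv_mem ha)).1 ?_)
  rcases h.inf h' h3 (mul_mem (inv_mem (h.leC h' ha)) (mul_mem hl hl)) with e | e <;> rw [e]
  exacts [one_mem _, h.zA]

variable (hd : d ∈ CC c') (nd : d ∉ 𝐍(zpowers c))
include hd nd

theorem nd2 : d * d ∉ 𝐍(zpowers c) := fun e => nd (h.SN (h.le (h.two' nb h' hd (h.fix nb h' (mul_mem hd hd) e))))

theorem orb0 (hu : IsConj c u) : zpowers u = zpowers c ∨ zpowers u = H8.cj d (zpowers c) ∨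
    zpowers u = H8.cj (d * d) (zpowers c) :=
  pig (h.tri1 nb (.refl c)) (h.tri nb d (.refl c)) (h.tri nb (d * d) (.refl c)) (h.tri1 nb hu)
    (fun e => nd (cj_eq_self_iff.1 e.symm)) (fun e => h.nd2 nb h' hd nd (cj_eq_self_iff.1 e.symm))
    fun e => nd (by simpa using cj_iff.1 e.symm)

theorem orb (g : G) : ∃ e ∈ zpowers d, e⁻¹ * g ∈ 𝐍(zpowers c) ∧ (e = 1 ∨ e = d ∨ e = d * d) := by
  rcases h.orb0 nb h' hd nd (cjc g c) with e | e | e <;> rw [← cjz] at e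
  exacts [⟨1, one_mem _, by simpa using cj_eq_self_iff.1 e, .inl rfl⟩, ⟨d, mem_zpowers d, cj_iff.1 e, .inr (.inl rfl)⟩,
    ⟨_, mul_mem (mem_zpowers d) (mem_zpowers d), cj_iff.1 e, .inr (.inr rfl)⟩]

theorem leK (h1 : c ∈ K) (h2 : d ∈ K) : CC c' ≤ K := fun l hl => by
  have hA : A ≤ K := h.gen fun u _ hu => by
    have h3 := zpowers_le.2 h1
    rcases h.orb0 nb h' hd nd hu with e | e | e
    exacts [h3 (e ▸ mem_zpowers u), cj_le_of_mem h2 h3 (e ▸ mem_zpowers u), cj_le_of_mem (mul_mem h2 h2) h3 (e ▸ mem_zpowers u)]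
  obtain ⟨e, he, h3, -⟩ := h.orb nb h' hd nd l
  exact (mul_mem_cancel_left (inv_mem (zpowers_le.2 h2 he))).1
    (hA (h.fix nb h' (mul_mem (inv_mem (zpowers_le.2 hd he)) hl) h3))

theorem iso3 (d3 : d ^ 3 = 1) : Nonempty (CC c' ≃* SL(2, ZMod 3)) := by
  have k : ∀ {i e}, i ∈ A → i ∉ zpowers α → (e = d ∨ e = d⁻¹) → e * c * e⁻¹ = i → e * i * e⁻¹ = c * i →
      Nonempty (CC c' ≃* SL(2, ZMod 3)) := fun {i e} hi ni he e1 e2 => by
    rw [show CC c' = zpowers c ⊔ zpowers i ⊔ zpowers e from le_antisymm (h.leK nb h' hd nd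
      (mem_sup_left (mem_sup_left (mem_zpowers c))) (mem_sup_right (by rcases he with rfl | rfl <;> simp)))
      (sup_le (sup_le (zpowers_le.2 (h.leC h' h.cA)) (zpowers_le.2 (h.leC h' hi)))
        (zpowers_le.2 (by rcases he with rfl | rfl; exacts [hd, inv_mem hd])))]
    refine R24.equiv ⟨by rw [show 4 = 2 * 2 from rfl, pow_mul, pow_two c, pow_two, h.cc, h.iz.1], by
      rw [pow_two, pow_two, h.cc, (h.out i hi ni).1], h.inv hi ni h.cα, ?_, e1, e2⟩ (by rw [pow_two, h.cc]; exact h.iz.2)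
    rcases he with rfl | rfl
    exacts [d3, by rw [inv_pow, d3, inv_one]]
  have h1 := h.nbA nb (cjc d c)
  have h2 := h.nN nd
  have h3 := h.nbA nb (cjc (d * d) c)
  have h4 := h.nN (h.nd2 nb h' hd nd)
  have h5 := h.out _ (mul_mem h.cA h1) (h.mulo h.cα h2)
  rcases h.orb0 nb h' hd nd h5.2.2 with e | e | e
  · exact (h.ne1 (h.mulo h.cα h2) e.symm).elim
  · rw [cjz] at e
    exact (h.nz1 h.cc (h.nmem h1 h2 h.cα ((mul_mem_cancel_right (mem_zpowers _)).1 (e ▸ mem_zpowers _)))).elim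
  rw [cjz] at e
  rcases h.mem4 h5.1 (e ▸ mem_zpowers (d * d * c * (d * d)⁻¹)) with e | e | e
  · exact (h.nz1 (h.out _ h3 h4).1 e).elim
  · exact k h1 h2 (.inl rfl) rfl (by rw [← e]; group)
  · refine k h3 h4 (.inr rfl) ?_ ?_
    · rw [show d * d = d⁻¹ by rw [eq_inv_iff_mul_eq_one, ← d3, pow_three']]
    · nth_rewrite 2 [e]
      rw [← mul_assoc c, ← mul_assoc c, h.cc, ← h.zc, h.iz.mul_mul']; group

theorem iso : Nonempty (CC c' ≃* SL(2, ZMod 3)) := by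
  have h1 : d ^ 3 ∈ 𝐍(zpowers c) := by
    obtain ⟨e, -, h1, rfl | rfl | rfl⟩ := h.orb nb h' hd nd (d ^ 3)
    exacts [by simpa using h1, (h.nd2 nb h' hd nd (by simpa [pow_three] using h1)).elim,
      (nd (by simpa [pow_three, mul_assoc] using h1)).elim]
  obtain ⟨k, hk⟩ := two_elt (h.le (h.fix nb h' (pow_mem hd 3) h1))
  obtain ⟨m, hm⟩ : ∃ m, 2 ^ k * 2 ^ k = 3 * m + 1 := ⟨2 ^ k * 2 ^ k / 3, by
    have : 2 ^ k * 2 ^ k % 3 = 1 := by rw [← mul_pow, Nat.pow_mod]; simp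
    omega⟩
  refine h.iso3 nb h' (pow_mem hd (3 * m + 1)) (fun e => nd ?_) (by rw [← hm, ← pow_mul, mul_comm, pow_mul, pow_mul, hk, one_pow])
  rwa [pow_succ, pow_mul, mul_mem_cancel_left (pow_mem h1 m)] at e

omit hd nd in
theorem exd : ∃ d ∈ commutator G ⊓ CC c', d ∉ 𝐍(zpowers c) := by
  by_cases nb' : NB z c' j'
  · obtain ⟨g, h1, -, h2⟩ := h.mv
    have k : ∀ s ∈ (S : Subgroup G), s⁻¹ * g ∈ CC c' → ∃ d ∈ commutator G ⊓ CC c', d ∉ 𝐍(zpowers c) := fun s hs e =>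
      ⟨⁅(s⁻¹ * g)⁻¹, x⁆, ⟨commutator_mem_commutator trivial trivial, by
        rw [commutatorElement_def, mul_assoc, mul_assoc, ← mul_assoc x, inv_inv]
        exact Subgroup.mul_mem _ (inv_mem e) ((CC_normal c').conj_mem _ e x)⟩,
        h.mvc nb fun e => h.Nn h2 ((mul_mem_cancel_left (inv_mem (h.SN hs))).1 e)⟩
    obtain ⟨b, hb, e | e⟩ := h'.adj nb' (g := g) (nz (by
      rcases h1 with e | e <;> rw [e]
      exacts [mem_zpowers c', h.invz h'.cc ▸ inv_mem (mem_zpowers c')]))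
    exacts [k b (h'.le hb) e, k (x * b) (mul_mem h.hx (h'.le hb)) (by rwa [mul_inv_rev, mul_assoc])]
  · obtain ⟨g, e⟩ := isConj_iff.1 h.cj
    have hg : ⁅g⁻¹, x⁆ ∈ commutator G := commutator_mem_commutator trivial trivial
    obtain ⟨l, hl, h1⟩ := (h'.caseA h nb').1 _ hg
    exact ⟨_, mem_inf.2 ⟨mul_mem (inv_mem (mem_inf.1 hl).1) hg, h1⟩, fun e' =>
      h.mvc nb (h.Nn (e ▸ h.nj)) ((mul_mem_cancel_left (inv_mem (h.CN hl.2))).1 e')⟩

omit hd nd in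
theorem leG' : CC c' ≤ commutator G := by
  obtain ⟨d, hd, nd⟩ := h.exd nb h'
  exact h.leK nb h' hd.2 nd (h.leG h.cA) hd.1

omit nb hd nd in
theorem sl : ∃ (F : Type) (_ : Field F) (_ : Fintype F), Odd (Fintype.card F) ∧
    Nonempty (↥(commutator G ⊓ CC c') ≃* SL(2, F)) := by
  by_cases nb : NB z c j
  · obtain ⟨d, hd, nd⟩ := h.exd nb h'
    have : Fact (Nat.Prime 3) := ⟨Nat.prime_three⟩
    rw [inf_eq_right.2 (h.leG' nb h')]
    exact ⟨ZMod 3, inferInstance, inferInstance, by decide, h.iso nb h' hd.2 nd⟩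
  · exact (h.caseA h' nb).2

omit nb hd nd in
theorem supA (nb : ¬ NB z c j) : commutator G ⊓ CC c' ⊔ commutator G ⊓ CC c = commutator G :=
  le_antisymm (sup_le inf_le_left inf_le_left) fun g hg => by
    obtain ⟨l, hl, e⟩ := (h.caseA h' nb).1 g hg
    simpa using mul_mem_sup hl (mem_inf.2 ⟨mul_mem (inv_mem hl.1) hg, e⟩)

omit nb hd nd in
theorem final : ∃ L₁ L₂ : Subgroup G, L₁.Normal ∧ L₂.Normal ∧
    (∃ (F : Type) (_ : Field F) (_ : Fintype F), Odd (Fintype.card F) ∧ Nonempty (L₁ ≃* SL(2, F))) ∧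
    (∃ (F : Type) (_ : Field F) (_ : Fintype F), Odd (Fintype.card F) ∧ Nonempty (L₂ ≃* SL(2, F))) ∧
    ⁅L₁, L₂⁆ = ⊥ ∧ L₁ ⊔ L₂ = commutator G := by
  refine ⟨_, _, inferInstance, inferInstance, h.sl h', h'.sl h, eq_bot_iff.2 (commutator_le.2 fun a ha b hb =>
    commutatorElement_eq_one_iff_mul_comm.2 (h.ccomm h' ha.2 hb.2)), ?_⟩
  by_cases nb : NB z c j
  swap
  · exact h.supA h' nb
  by_cases nb' : NB z c' j'
  swap
  · rw [sup_comm]; exact h'.supA h nb'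
  rw [inf_eq_right.2 (h.leG' nb h'), inf_eq_right.2 (h'.leG' nb' h)]
  refine le_antisymm (sup_le (h.leG' nb h') (h'.leG' nb' h)) ?_
  obtain ⟨d, hd, nd⟩ := h.exd nb h'
  have k : ∀ g, QuotientGroup.mk' (CC c' ⊔ CC c) g ∈ zpowers (QuotientGroup.mk' (CC c' ⊔ CC c) x) := fun g => by
    have k1 : ∀ g ∈ CC c' ⊔ CC c, QuotientGroup.mk' (CC c' ⊔ CC c) g = 1 := fun g => (QuotientGroup.eq_one_iff g).2
    obtain ⟨e, he, h1, -⟩ := h.orb nb h' hd.2 nd g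
    obtain ⟨a, ha, h2 | h2⟩ := h.adj nb h1 <;> have := k1 _ (mem_sup_right h2) <;>
      simp only [map_mul, map_inv, k1 a (mem_sup_left (h.leC h' ha)), k1 e (mem_sup_left (zpowers_le.2 hd.2 he)), inv_one,
        one_mul, inv_mul_eq_one] at this
    exacts [this ▸ one_mem _, this ▸ mem_zpowers _]
  refine commutator_le.2 fun a _ b _ => (QuotientGroup.eq_one_iff _).1 ?_
  rw [← QuotientGroup.mk'_apply, map_commutatorElement, commutatorElement_eq_one_iff_mul_comm]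
  exact ZG.zp_comm (k a) (k b)

end Sd

end Cfsg.Agent.H3.GT
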