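import Cfsg.Agent.H3.GT4
import Cfsg.Agent.H4.G2g

/-! The model group: the two quaternion subgroups. -/

set_option autoImplicit false
set_option linter.unusedSectionVars false
set_option linter.unusedVariables false
set_option linter.unusedSimpArgs false

namespace Cfsg.Agent.H3.GT

open Subgroup Cfsg.Agent.H4.G2 Cfsg.Agent.H4.G2.Mo

variable {Z : Type*} [CommRing Z] {h k : Z}

/-- the first quaternion subgroup -/
def Q1 (H : ZH h k) : Subgroup (Mo Z) where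
  carrier := {v | v.e = v.d ∧ v.a - v.b = bif v.d then h else 0}
  one_mem' := ⟨rfl, sub_self _⟩
  mul_mem' := by
    rintro ⟨a, b, e, d⟩ ⟨a', b', e', d'⟩ ⟨rfl : e = d, h1⟩ ⟨rfl : e' = d', h2⟩
    cases e <;> cases e' <;> refine ⟨rfl, ?_⟩ <;>
      simp only [mul_def, sg_true, sg_false, cond_true, cond_false, Bool.xor_self, Bool.xor_false, Bool.false_xor] at * <;>
      first | linear_combination h1 + h2 | linear_combination h1 + h2 + H.hh
  inv_mem' := by
    rintro ⟨a, b, e, d⟩ ⟨rfl : e = d, h1⟩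
    cases e <;> refine ⟨rfl, ?_⟩ <;>
      simp only [inv_def, sg_true, sg_false, cond_true, cond_false] at * <;>
      first | linear_combination -h1 | linear_combination -h1 - H.hh

/-- the second quaternion subgroup -/
def Q2 (H : ZH h k) : Subgroup (Mo Z) where
  carrier := {v | v.e = false ∧ v.a + v.b = bif v.d then h else 0}
  one_mem' := ⟨rfl, add_zero _⟩
  mul_mem' := by
    rintro ⟨a, b, e, _ | _⟩ ⟨a', b', e', _ | _⟩ ⟨rfl, h1⟩ ⟨rfl, h2⟩ <;> refine ⟨rfl, ?_⟩ <;>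
      simp only [mul_def, sg_true, sg_false, cond_true, cond_false, Bool.xor_self, Bool.xor_false, Bool.false_xor] at * <;>
      first | linear_combination h1 + h2 | linear_combination h1 + h2 + H.hh
  inv_mem' := by
    rintro ⟨a, b, e, _ | _⟩ ⟨rfl, h1⟩ <;> refine ⟨rfl, ?_⟩ <;>
      simp only [inv_def, sg_true, sg_false, cond_true, cond_false] at * <;>
      first | linear_combination -h1 | linear_combination -h1 - H.hh

/-- the symmetry -/
def sw : Mo Z →* Mo Z := MonoidHom.mk' (fun v => ⟨v.a, -v.b, xor v.e v.d, v.d⟩) (by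
  rintro ⟨a, b, _ | _, _ | _⟩ ⟨a', b', _ | _, _ | _⟩ <;> simp [mul_def, add_comm])

theorem sw_def (a b : Z) (e d : Bool) : sw (⟨a, b, e, d⟩ : Mo Z) = ⟨a, -b, xor e d, d⟩ := rfl

theorem sw_sw (v : Mo Z) : sw (sw v) = v := by
  obtain ⟨a, b, _ | _, _ | _⟩ := v <;> simp [sw_def]

theorem pow_T (a b : Z) (n : ℕ) : (⟨a, b, false, false⟩ : Mo Z) ^ n = ⟨n * a, n * b, false, false⟩ := by
  induction n with
  | zero => simp [one_def]
  | succ n ih => rw [pow_succ, ih, mul_def]; simp [add_mul]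

theorem zp_T {a b : Z} {v : Mo Z} (hv : v ∈ zpowers (⟨a, b, false, false⟩ : Mo Z)) : ∃ i, v = ⟨i * a, i * b, false, false⟩ := by
  obtain ⟨i, rfl⟩ := hv
  obtain ⟨n, rfl | rfl⟩ := i.eq_nat_or_neg
  · exact ⟨n, by simp [pow_T]⟩
  · exact ⟨-n, by simp [pow_T, inv_def]⟩

variable (H : ZH h k)

theorem mem1 {a b : Z} {e d : Bool} : (⟨a, b, e, d⟩ : Mo Z) ∈ Q1 H ↔ e = d ∧ a - b = bif d then h else 0 := Iff.rfl
theorem mem2 {a b : Z} {e d : Bool} : (⟨a, b, e, d⟩ : Mo Z) ∈ Q2 H ↔ e = false ∧ a + b = bif d then h else 0 := Iff.rfl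

theorem map12 : (Q1 H).map sw = Q2 H := le_antisymm (by
    rintro _ ⟨⟨a, b, e, d⟩, ⟨rfl : e = d, h1⟩, rfl⟩
    exact ⟨Bool.xor_self _, (sub_eq_add_neg a b).symm.trans h1⟩) (by
    rintro ⟨a, b, e, d⟩ ⟨rfl, h1⟩
    exact ⟨_, (mem1 H).2 ⟨Bool.false_xor d, (sub_neg_eq_add a b).trans h1⟩, sw_sw ⟨a, b, false, d⟩⟩)

theorem map21 : (Q2 H).map sw = Q1 H := by
  rw [← map12, map_map, show (sw : Mo Z →* Mo Z).comp sw = MonoidHom.id _ from MonoidHom.ext sw_sw, map_id]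

local notation "𝓏" => (Mo.mk h h false false : Mo Z)
local notation "𝓊" => (Mo.mk h 0 false false : Mo Z)
local notation "𝓉" => (Mo.mk 0 0 true true : Mo Z)
local notation "𝒸" => (Mo.mk k k false false : Mo Z)
local notation "𝒹" => (Mo.mk k (-k) false false : Mo Z)
local notation "𝓍" => (Mo.mk 1 0 false false : Mo Z)
local notation "𝒶" => (Mo.mk 1 1 false false : Mo Z)
local notation "𝒿" => (Mo.mk h 0 true true : Mo Z)

include H

theorem m_comm {a b : Mo Z} (ha : a ∈ Q1 H) (hb : b ∈ Q2 H) : a * b = b * a := by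
  obtain ⟨a, a', e, _ | _⟩ := a <;> obtain ⟨b, b', e', _ | _⟩ := b <;> obtain ⟨rfl, h1⟩ := (mem1 H).1 ha <;> obtain ⟨rfl, h2⟩ := (mem2 H).1 hb <;>
    simp only [mul_def, sg_true, sg_false, cond_true, cond_false, Mo.mk.injEq, and_true, Bool.xor_self, Bool.xor_false,
      Bool.false_xor] at * <;> refine ⟨?_, ?_⟩ <;>
    first | ring1 | linear_combination h1 | linear_combination -h1 | linear_combination -h2 | linear_combination h1 - h2 |
      linear_combination -h1 - h2 - H.hh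

theorem m_out {a : Mo Z} (ha : a ∈ Q1 H) (hd : a.d = true) :
    a * a = 𝓏 ∧ 𝓍 * a * 𝓍⁻¹ = 𝒶 * a ∧ ∃ g, g * 𝒿 * g⁻¹ = a := by
  obtain ⟨a, b, e, d⟩ := a
  obtain rfl : d = true := hd
  obtain ⟨rfl, h1⟩ := (mem1 H).1 ha
  obtain rfl : a = h + b := eq_add_of_sub_eq h1
  exact ⟨by simp [mul_def, H.neg], by simp [mul_def, inv_def, add_comm], ⟨b, 0, false, false⟩, by simp [mul_def, inv_def, add_comm]⟩

theorem m_in {a : Mo Z} (ha : a ∈ Q1 H) (hd : a.d = false) : ∃ i, a = ⟨i, i, false, false⟩ := by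
  obtain ⟨a, b, e, d⟩ := a
  obtain rfl : d = false := hd
  obtain ⟨rfl, h1⟩ := (mem1 H).1 ha
  exact ⟨b, by rw [sub_eq_zero.1 h1]⟩

omit H in
theorem m_na (s : Mo Z) : s * 𝒶 * s⁻¹ = 𝒶 ∨ s * 𝒶 * s⁻¹ = 𝒶⁻¹ := by
  obtain ⟨a, b, _ | _, _ | _⟩ := s <;> simp [mul_def, inv_def]

theorem m_nd (s : Mo Z) : s * 𝒹 * s⁻¹ = 𝒹 ∨ s * 𝒹 * s⁻¹ = 𝒹 * 𝓏 := by
  have h1 : k + h = -k := by linear_combination H.kk + H.hh
  have h2 : -k + h = k := by linear_combination -H.kk
  obtain ⟨a, b, _ | _, _ | _⟩ := s <;> simp [mul_def, inv_def, h1, h2]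

theorem m_cent {s : Mo Z} (h1 : 𝒶 * s = s * 𝒶) (h2 : 𝒿 * s = s * 𝒿) : s ∈ Q2 H := by
  obtain ⟨a, b, _ | _, _ | _⟩ := s <;>
    simp only [mul_def, sg_true, sg_false, cond_true, cond_false, Mo.mk.injEq, mem2, true_and] at *
  · linear_combination -h2.1
  · linear_combination -h2.1
  all_goals exact (H.h0 (by linear_combination k * h1.1 - H.kk)).elim

theorem m_tor {v : Mo Z} (e : v * v = 𝓏) (hd : v.d = false) : (v = 𝒸 ∨ v = 𝒸 * 𝓏) ∨ v = 𝒹 ∨ v = 𝒹 * 𝓏 := by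
  have h1 : k + h = -k := by linear_combination H.kk + H.hh
  have h2 : -k + h = k := by linear_combination -H.kk
  obtain ⟨a, b, _ | _, d⟩ := v <;> obtain rfl : d = false := hd <;>
    simp only [mul_def, sg_true, sg_false, cond_true, cond_false, Mo.mk.injEq] at e
  · rcases H.two (a - k) (by linear_combination e.1 - H.kk) with e1 | e1 <;>
      rcases H.two (b - k) (by linear_combination e.2.1 - H.kk) with e2 | e2 <;>
      simp [eq_add_of_sub_eq' e1, eq_add_of_sub_eq' e2, mul_def, h1, h2]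
  · exact (H.h0 (by linear_combination -e.1)).elim

theorem m_root {s : Mo Z} (e : s * s = 𝓏) : s ∈ Q1 H ∨ s ∈ Q2 H := by
  cases hd : s.d
  · rcases m_tor H e hd with (rfl | rfl) | rfl | rfl <;> simp [mul_def, mem1, mem2]
    exact .inr (by linear_combination H.hh)
  · obtain ⟨a, b, _ | _, d⟩ := s <;> obtain rfl : d = true := hd <;>
      simp only [mul_def, sg_true, sg_false, cond_true, cond_false, Mo.mk.injEq] at e
    exacts [.inr ⟨rfl, e.1⟩, .inl ⟨rfl, (sub_eq_add_neg a b).trans e.1⟩]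

theorem m_nrm {v : Mo Z} (e : 𝓍 * v * 𝓍⁻¹ = v ∨ 𝓍 * v * 𝓍⁻¹ = v * 𝓏) (e' : v * v = 𝓏) : v.d = false := by
  obtain ⟨a, b, _ | _, _ | _⟩ := v <;> try rfl
  all_goals
    simp only [mul_def, inv_def, sg_true, sg_false, cond_true, cond_false, Mo.mk.injEq, Bool.false_xor] at e
    refine (H.h0 ?_).elim
    rcases e with e | e
  · linear_combination h * e.1
  · linear_combination 2 * k * e.1 - H.kk + k * H.hh
  · linear_combination h * e.1
  · linear_combination 2 * k * e.1 - H.kk - k * H.hh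

theorem m_cen {s : Mo Z} : s * 𝒸 = 𝒸 * s ↔ s.e = false := by
  obtain ⟨a, b, _ | _, _ | _⟩ := s <;> simp only [mul_def, sg_true, sg_false, cond_true, cond_false, Mo.mk.injEq]
  · simp [add_comm]
  · simp [add_comm]
  all_goals exact ⟨fun e => (H.h0 (by linear_combination -e.1 - H.kk)).elim, fun e => absurd e (by decide)⟩

theorem m_cen2 {s : Mo Z} (e : s.e = true) : s * s ∈ Q2 H := by
  obtain ⟨a, b, e', _ | _⟩ := s <;> obtain rfl : e' = true := e <;> simp [mul_def, mem2]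

theorem m_nx {a b : Mo Z} (ha : a ∈ Q1 H) (hb : b ∈ Q2 H) : a * b ≠ 𝓍 := fun e => by
  obtain ⟨a, a', e, _ | _⟩ := a <;> obtain ⟨b, b', e', _ | _⟩ := b <;> obtain ⟨rfl, h1⟩ := (mem1 H).1 ha <;> obtain ⟨rfl, h2⟩ := (mem2 H).1 hb <;>
    simp only [mul_def, sg_true, sg_false, cond_true, cond_false, Mo.mk.injEq] at e h1 h2
  · exact H.h0 (by linear_combination -h * e.1 - h * e.2.1 + h * h1 + h * h2 + a' * H.hh)
  all_goals simp at e

variable (hZ : ∀ i : Z, ∃ n : ℕ, i = n)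
include hZ

omit H in
theorem m_zp (i : Z) (a b : Z) : (⟨i * a, i * b, false, false⟩ : Mo Z) ∈ zpowers (⟨a, b, false, false⟩ : Mo Z) := by
  obtain ⟨n, rfl⟩ := hZ i
  exact pow_T a b n ▸ npow_mem_zpowers _ n

theorem m_cen1 {s : Mo Z} (e : s.e = false) : ∃ u ∈ zpowers 𝓍, ∃ b ∈ Q2 H, s = u * b := by
  obtain ⟨a, b, e', _ | _⟩ := s <;> obtain rfl : e' = false := e
  · exact ⟨_, m_zp hZ (a + b) 1 0, ⟨-b, b, false, false⟩, by simp [mem2], by simp [mul_def]⟩
  · exact ⟨_, m_zp hZ (a + b - h) 1 0, ⟨h - b, b, false, true⟩, by simp [mem2], by simp [mul_def]⟩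

theorem m_pw {κ : ℕ} (hκ : (κ : Z) = k) : (∀ a ∈ Q1 H, a ^ (2 * κ) = 1 ∨ a ^ (2 * κ) = 𝓏) ∧ ∀ s : Mo Z,
    (∃ a ∈ Q1 H, ∃ b ∈ Q2 H, a * b = s) ∨ s * s = 1 ∨ (s ^ (2 * κ) ≠ 1 ∧ s ^ (2 * κ) ≠ 𝓏) := by
  have par : ∀ i : Z, ∃ c, i = c + c ∨ i = c + c + 1 := fun i => by
    obtain ⟨n, rfl⟩ := hZ i
    obtain ⟨c, rfl | rfl⟩ := Nat.even_or_odd' n
    exacts [⟨c, .inl (by push_cast; ring)⟩, ⟨c, .inr (by push_cast; ring)⟩]
  refine ⟨fun a ha => ?_, ?_⟩
  · obtain ⟨i, e⟩ : ∃ i, a * a = ⟨i + i, i + i, false, false⟩ := by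
      cases hd : a.d
      · obtain ⟨i, rfl⟩ := m_in H ha hd
        exact ⟨i, rfl⟩
      · exact ⟨k, by rw [(m_out H ha hd).1, H.kk]⟩
    rw [pow_mul, pow_two, e, pow_T, hκ]
    rcases H.two (k * (i + i)) (by linear_combination 2 * i * H.kk + i * H.hh) with e | e <;> simp [e, one_def]
  rintro ⟨a, b, _ | _, _ | _⟩ <;> obtain ⟨i, e | e⟩ := par (a + b)
  · exact .inl ⟨⟨i, i, false, false⟩, by simp [mem1], ⟨a - i, b - i, false, false⟩, ⟨rfl, by
      simp only [cond_false]; linear_combination e⟩, by simp [mul_def]⟩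
  · refine .inr (.inr ?_)
    simp only [pow_T, one_def, Ne, Mo.mk.injEq, and_true, Nat.cast_mul, hκ, Nat.cast_ofNat]
    exact ⟨fun e' => H.h0 (by linear_combination e'.1 + e'.2 - 2 * k * e - (2 * i + 1) * H.kk - i * H.hh),
      fun e' => H.h0 (by linear_combination e'.1 + e'.2 - 2 * k * e - (2 * i + 1) * H.kk - (i - 1) * H.hh)⟩
  · exact .inl ⟨⟨i - k, i - k, false, false⟩, by simp [mem1], ⟨a - (i - k), b - (i - k), false, true⟩, ⟨rfl, by
      simp only [cond_true]; linear_combination e + H.kk⟩, by simp [mul_def]⟩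
  · refine .inr (.inr ?_)
    simp only [pow_mul, pow_two, mul_def, sg_false, cond_true, Bool.xor_self, pow_T, one_def, Ne, Mo.mk.injEq, and_true, hκ]
    exact ⟨fun e' => H.h0 (by linear_combination 2 * e'.1 - 2 * k * e - (2 * i + 1) * H.kk - i * H.hh),
      fun e' => H.h0 (by linear_combination 2 * e'.1 - 2 * k * e - (2 * i + 1) * H.kk - (i - 1) * H.hh)⟩
  · exact .inr (.inl (by simp [mul_def, one_def]))
  · exact .inr (.inl (by simp [mul_def, one_def]))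
  · exact .inl ⟨⟨a - (i - b - k), b + (i - b - k), true, true⟩, ⟨rfl, by simp only [cond_true]; linear_combination e + H.kk⟩,
      ⟨i - b - k, -(i - b - k), false, false⟩, by simp [mem2], by simp [mul_def, -neg_sub]⟩
  · refine .inr (.inr ?_)
    simp only [pow_mul, pow_two, mul_def, sg_true, cond_true, Bool.xor_self, pow_T, one_def, Ne, Mo.mk.injEq, and_true, hκ]
    exact ⟨fun e' => H.h0 (by linear_combination 2 * e'.1 - 2 * k * e - (2 * (i - b) + 1) * H.kk - (i - b) * H.hh),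
      fun e' => H.h0 (by linear_combination 2 * e'.1 - 2 * k * e - (2 * (i - b) + 1) * H.kk - (i - b - 1) * H.hh)⟩

end Cfsg.Agent.H3.GT
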