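import Cfsg.Agent.H3.GT5

/-! Fusion in the centralizer of the central involution. -/

set_option autoImplicit false
set_option linter.unusedSectionVars false
set_option linter.unusedVariables false
set_option linter.unusedSimpArgs false

namespace Cfsg.Agent.H3.GT

open Subgroup Cfsg.Agent.FT Cfsg.Agent.L0 Cfsg.Agent.H8 Cfsg.Agent.BS Cfsg.Agent.H3.DD
open Cfsg.Agent.H4.G2 Cfsg.Agent.H4.G2.Mo Cfsg.Agent.H4.G2.Fm
open scoped MatrixGroups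

universe u

local instance : Fact (Nat.Prime 2) := Nat.fact_prime_two

variable {Z : Type*} [CommRing Z] {h k : Z} {G : Type u} [Group G] [Finite G] {F : Fm (Mo Z) G} {S : Sylow 2 G}

/-- the symmetric identification -/
def Fsw (F : Fm (Mo Z) G) : Fm (Mo Z) G where
  φ := F.φ.comp sw
  inj := F.inj.comp (Function.LeftInverse.injective sw_sw)
  syl := by
    rw [MonoidHom.range_comp, MonoidHom.range_eq_top.2 (Function.RightInverse.surjective sw_sw), ← MonoidHom.range_eq_map]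
    exact F.syl

local notation "𝓏" => (Mo.mk h h false false : Mo Z)
local notation "𝓊" => (Mo.mk h 0 false false : Mo Z)
local notation "𝓋" => (Mo.mk 0 h false false : Mo Z)
local notation "𝓈" => (Mo.mk 0 0 false true : Mo Z)
local notation "𝓉" => (Mo.mk 0 0 true true : Mo Z)
local notation "𝒸" => (Mo.mk k k false false : Mo Z)
local notation "𝒹" => (Mo.mk k (-k) false false : Mo Z)
local notation "𝓍" => (Mo.mk 1 0 false false : Mo Z)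
local notation "𝒶" => (Mo.mk 1 1 false false : Mo Z)
local notation "𝒿" => (Mo.mk h 0 true true : Mo Z)

variable (H : ZH h k)
include H

theorem toU {r g : Mo Z} (hr : F.R r 𝓏) (h1 : r ≠ 𝓏) (h2 : g * r = r * g) (h3 : g * g = 𝓏) :
    ∃ x, x * F.φ r * x⁻¹ = F.φ 𝓏 ∧ x * F.φ 𝓏 * x⁻¹ = F.φ 𝓊 := by
  obtain ⟨x, τ, hτ, e⟩ := ext_cent (syl_z H.cz) hr
  have e1 := hτ r rfl
  have e2 := hτ _ (H.cz r).symm
  rw [e] at e1
  rcases H.tau_z hτ e h1 h2 h3 with e | e <;> rw [e] at e2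
  · exact ⟨x, e1, e2⟩
  · refine ⟨F.φ 𝓈 * x, ?_, ?_⟩ <;> rw [mul_inv_rev, mul_assoc _ x, mul_assoc (F.φ 𝓈), ← mul_assoc _ x⁻¹]
    · rw [e1, ← mul_assoc, comm (H.cz _), mul_inv_cancel_right]
    · rw [e2, ← map_inv, ← map_mul, ← map_mul]; simp [mul_def, inv_def]

theorem tu (h1 : ∀ x y : G, orderOf x = 2 → orderOf y = 2 → IsConj x y) :
    ∃ g ∈ centralizer {F.φ 𝓏}, g * F.φ 𝓉 * g⁻¹ = F.φ 𝓊 := by
  obtain ⟨x, e1, e2⟩ := toU H (F := F) (r := 𝓊) (g := 𝒸) (h1 _ _ (ord H.uu H.u1) (ord H.zz H.z1)) H.uz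
    (by simp [mul_def, add_comm]) (by simp [mul_def, H.kk])
  obtain ⟨y, e3, e4⟩ := toU H (F := F) (r := 𝓉) (g := 𝒹) (h1 _ _ (ord (by simp [mul_def, one_def]) (by simp [one_def]))
    (ord H.zz H.z1)) (by simp) (by simp [mul_def]) (by simp [mul_def, H.kk, ← neg_add, H.neg])
  refine ⟨x⁻¹ * y, mem_centralizer_singleton_iff.2 (mul_inv_eq_iff_eq_mul.1 (cj_inj (g := x) ?_)), cj_inj (g := x) ?_⟩
  · rw [e2, ← e4]; group
  · rw [e1, ← e3]; group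

theorem cc : 𝒸 * 𝒸 = 𝓏 := by simp [mul_def, H.kk]
theorem dd : 𝒹 * 𝒹 = 𝓏 := by simp [mul_def, H.kk, ← neg_add, H.neg]

variable (zc : ∀ g, g * F.φ ⟨h, h, false, false⟩ = F.φ ⟨h, h, false, false⟩ * g)
include zc

theorem tz {g : G} {N : Mo Z → Prop} {τ : Mo Z → Mo Z} (hτ : F.Cj g N τ) (hz : N 𝓏) : τ 𝓏 = 𝓏 :=
  F.inj (by rw [← hτ _ hz, zc, mul_inv_cancel_right])

theorem ncd (hS : (S : Subgroup G) = F.φ.range) : ¬ F.R 𝒸 𝒹 := fun hc => by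
  have : Finite (Mo Z) := Finite.of_injective _ F.inj
  have k1 : ∀ {v : Mo Z} {g w}, v * v = 𝓏 → (g * F.φ w * g⁻¹ = F.φ v ∨ g * F.φ w * g⁻¹ = F.φ (v * 𝓏)) →
      g * F.φ w * g⁻¹ ∈ zpowers (F.φ v) := fun {v g w} e e' => by
    rcases e' with e' | e' <;> rw [e']
    exacts [mem_zpowers _, by rw [← e, map_mul, map_mul]; exact mul_mem (mem_zpowers _) (mul_mem (mem_zpowers _) (mem_zpowers _))]
  have k2 : ∀ {v : Mo Z}, v * v = 𝓏 → (∀ s, s * v * s⁻¹ = v ∨ s * v * s⁻¹ = v * 𝓏) → F.φ.range ≤ 𝐍(zpowers (F.φ v)) := by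
    rintro v e e' _ ⟨s, rfl⟩
    exact nz (k1 e (by rw [← map_inv, ← map_mul, ← map_mul]; exact (e' s).imp (congrArg _) (congrArg _)))
  have c1 := k2 (cc H) fun s => by simpa [sw_def, sw_sw, H.neg] using (m_nd H (sw s)).imp (congrArg sw) (congrArg sw)
  have c2 := k2 (dd H) (m_nd H)
  obtain ⟨g, e⟩ := isConj_iff.1 hc
  obtain ⟨n, hn, e1⟩ := H6.burnside_fusion_subgroup S (X := zpowers (F.φ 𝒸)) (g := g) (hS ▸ c1) (by rw [cjz, e]; exact hS ▸ c2)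
  rw [cjz g, e] at e1
  rw [hS] at hn
  obtain ⟨v, hv⟩ := (mem_normalizer_iff.1 hn _).1 ⟨𝒹, rfl⟩
  obtain ⟨s, hs⟩ := (mem_normalizer_iff.1 (inv_mem hn) _).1 ⟨𝓍, rfl⟩
  have e2 : v * v = 𝓏 := F.inj (by rw [map_mul, hv, conj_mul, ← map_mul, dd H, zc, mul_inv_cancel_right])
  have e3 : F.φ (𝓍 * v * 𝓍⁻¹) = n * F.φ (s * 𝒹 * s⁻¹) * n⁻¹ := by simp only [map_mul, map_inv, hv, hs]; group
  have k3 : zpowers (F.φ 𝒹) ≠ zpowers (F.φ 𝒸) := fun e => by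
    obtain ⟨_, h1, h2⟩ : F.φ 𝒹 ∈ (zpowers 𝒸).map F.φ := by rw [MonoidHom.map_zpowers, ← e]; exact mem_zpowers _
    obtain ⟨i, rfl⟩ := zp_T h1
    have := F.inj h2
    simp only [Mo.mk.injEq] at this
    exact H.h0 (by linear_combination this.2.1 - this.1 - H.kk)
  rcases m_tor H e2 (m_nrm H ((m_nd H s).imp (fun e => F.inj (by rw [e3, e, hv])) fun e => F.inj (by
    rw [e3, e, map_mul, map_mul, hv, ← conj_mul, zc n, mul_inv_cancel_right])) e2) with e4 | e4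
  · obtain ⟨o, r, ho, -, h3⟩ := ZG.two_part n
    have h4 : n ^ o ∈ F.φ.range := F.syl.le_of_le_normalizer' (H9.isPGroup_zpowers ⟨r, by
      rw [← h3, pow_orderOf_eq_one]⟩) le_top (zpowers_le.2 (pow_mem hn o)) (mem_zpowers _)
    refine k3 (e1.symm.trans (cj_eq_self (mem_of_pow ho 1 (c1 h4) (mem_normalizer_of_cj_le ?_))))
    rw [pow_one, pow_two, cj_mul, e1, cjz]
    exact zpowers_le.2 (k1 (cc H) (hv ▸ e4.imp (congrArg _) (congrArg _)))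
  · exact k3 (cj_injective n ((cj_eq_self (nz (k1 (dd H) (hv ▸ e4.imp (congrArg _) (congrArg _))))).trans e1.symm))

theorem syl_u : IsSylowIn 2 ((centralizer {𝓊}).map F.φ) (centralizer {F.φ 𝓊}) := syl_cent fun w hw => by
  have : Finite (Mo Z) := Finite.of_injective _ F.inj
  have h1 : (centralizer {𝓊}).index = 2 := index_eq_two_iff.2 ⟨𝓈, by
    rintro ⟨a, b, _ | _, _ | _⟩ <;> simp [mem_centralizer_singleton_iff, mul_def, H.neg, H.h0, add_comm, H.h0.symm]⟩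
  have h2 : (centralizer {w}).index ≠ 1 := fun e => by
    rcases H.central (hw.sq H.uu) (fun x => mem_centralizer_singleton_iff.1 (index_eq_one.1 e ▸ mem_top x)) with rfl | rfl
    · exact hw.ne_one H.u1 rfl
    · obtain ⟨g, e⟩ := isConj_iff.1 hw.symm
      exact H.uz (F.inj (by rw [← e, zc, mul_inv_cancel_right]))
  have h3 := (centralizer {𝓊}).card_mul_index.trans (centralizer {w}).card_mul_index.symm
  have h4 := (centralizer {w}).index_ne_zero_of_finite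
  rw [h1] at h3
  exact Nat.le_of_mul_le_mul_right (h3 ▸ Nat.mul_le_mul_left _ (by omega)) two_pos

theorem fus (hS : (S : Subgroup G) = F.φ.range) (hP : F.R 𝓉 𝓊) : ∃ g, (g * F.φ 𝒹 * g⁻¹ = F.φ 𝒹 ∨
    g * F.φ 𝒹 * g⁻¹ = F.φ 𝒹 * F.φ 𝓏) ∧ ∃ a ∈ Q1 H, a.d = true ∧ g * F.φ 𝒸 * g⁻¹ = F.φ a := by
  obtain ⟨g, τ, hτ, e⟩ := ext_cent (syl_u H zc) hP
  have h1 : k + h = -k := by linear_combination H.kk + H.hh
  have h2 : -k + h = k := by linear_combination -H.kk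
  have m1 : 𝒹 * 𝓉 = 𝓉 * 𝒹 := by simp [mul_def]
  have e1 := hτ.mul_eq m1 m1 (H.cz _).symm (dd H)
  rw [tz H zc hτ (H.cz _).symm] at e1
  have e2 := hτ _ (show 𝒹 * 𝓉 * 𝓉 = 𝓉 * (𝒹 * 𝓉) by rw [← mul_assoc, m1])
  rw [hτ.mul m1 rfl (by rw [← mul_assoc, m1]), e] at e2
  have e3 := hτ _ m1
  have k1 : ∀ {v w}, g * F.φ v * g⁻¹ = F.φ w → g⁻¹ * F.φ w * g⁻¹⁻¹ = F.φ v := fun e => by rw [← e]; group
  have k2 : ∀ {v w}, g * F.φ v * g⁻¹ = F.φ (w * 𝓏) → g⁻¹ * F.φ w * g⁻¹⁻¹ = F.φ (v * 𝓏) := fun {v w} e => k1 (by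
    rw [map_mul, ← conj_mul, e, zc, mul_inv_cancel_right, ← map_mul, mul_assoc, H.zz, mul_one])
  rcases m_tor H e1 (H.comm_uv (.inl rfl) (e ▸ (hτ.comm_iff m1 rfl).2 m1)) with e4 | e4 | e4
  · refine (ncd H zc hS (R.trans ?_ (hτ.r m1).symm)).elim
    rcases e4 with e4 | e4 <;> rw [e4]
    exacts [R.refl _, R.of ⟨𝓉, by simp [mul_def, inv_def, h1]⟩]
  · rw [e4] at e2 e3
    exact ⟨g⁻¹, .inl (k1 e3), 𝒹 * 𝓉 * 𝓏, ⟨rfl, by simp [mul_def, H.kk]⟩, rfl, k2 (e2.trans (congrArg _ (by simp [mul_def, h1])))⟩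
  · rw [e4] at e2 e3
    exact ⟨g⁻¹, .inr ((k2 e3).trans (map_mul _ _ _)), 𝒹 * 𝓉, ⟨rfl, by simp [mul_def, H.kk]⟩, rfl,
      k1 (e2.trans (congrArg _ (by simp [mul_def, h1, h2])))⟩

theorem sd (hO : pPrimeCore 2 G = ⊥) (hS : (S : Subgroup G) = F.φ.range) (hP : F.R 𝓉 𝓊) (hZ : ∀ i : Z, ∃ n : ℕ, i = n) :
    Sd S ((Q1 H).map F.φ) ((Q2 H).map F.φ) (F.φ 𝓏) (F.φ 𝓍) (F.φ 𝒶) (F.φ 𝒸) (F.φ 𝒿) (F.φ 𝒹) := by
  have zp : ∀ {u v}, F.φ v ∈ zpowers (F.φ u) ↔ v ∈ zpowers u := fun {u v} => by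
    rw [← MonoidHom.map_zpowers, mem_map_iff_mem F.inj]
  have k1 : ∀ {v}, v.d = true → F.φ v ∉ zpowers (F.φ 𝒶) := fun hd e => by
    obtain ⟨i, rfl⟩ := zp_T (zp.1 e)
    exact absurd hd (by simp)
  have hα : 𝒶 ∈ Q1 H := ⟨rfl, sub_self _⟩
  have hj : 𝒿 ∈ Q1 H := ⟨rfl, sub_zero _⟩
  obtain ⟨g, g1, a₀, g2, g3, g4⟩ := fus H zc hS hP
  obtain ⟨κ, hκ⟩ := hZ k
  obtain ⟨p1, p2⟩ := m_pw H hZ hκ.symm
  refine ⟨hO, ⟨sq H.zz, ne_one H.z1⟩, zc, hS ▸ map_le_range _ _, ?_, mem_map_of_mem _ hα, mem_map_of_mem _ hj, k1 rfl,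
    zp.2 (by simpa using m_zp hZ k 1 1), by rw [← map_mul, cc H], hS ▸ ⟨_, rfl⟩, ?_, ?_, ?_, ?_, ?_, ⟨2 * κ, ?_, ?_⟩, ?_, ?_,
    ncd H zc hS, g, g1, g4 ▸ mem_map_of_mem _ g2, g4 ▸ k1 g3⟩
  · rintro _ ⟨a, ha, rfl⟩ _ ⟨b, hb, rfl⟩
    exact comm (m_comm H ha hb)
  · rintro _ ⟨a, ha, rfl⟩ _ ⟨b, hb, rfl⟩ e
    exact m_nx H ha hb (F.inj ((map_mul _ _ _).trans e))
  · rintro _ ⟨a, ha, rfl⟩ hn
    have hd : a.d = true := eq_true_of_ne_false fun hd => hn (by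
      obtain ⟨i, rfl⟩ := m_in H ha hd
      exact zp.2 (by simpa using m_zp hZ i 1 1))
    obtain ⟨e1, e2, e3⟩ := m_out H ha hd
    exact ⟨by rw [← map_mul, e1], by rw [← map_inv, ← map_mul, ← map_mul, e2, map_mul],
      R.trans (R.trans (R.of_eq g4) (R.of (m_out H g2 g3).2.2).symm) (R.of e3)⟩
  all_goals try rw [hS]
  · rintro _ ⟨s, rfl⟩
    rw [← map_inv, ← map_mul, ← map_mul, zp]
    rcases m_na s with e | e <;> rw [e]
    exacts [mem_zpowers _, inv_mem (mem_zpowers _)]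
  · rintro _ ⟨s, rfl⟩ e
    exact mem_map_of_mem _ (m_cent H (F.inj (by simpa only [map_mul] using e _ (mem_map_of_mem _ hα)))
      (F.inj (by simpa only [map_mul] using e _ (mem_map_of_mem _ hj))))
  · rintro _ ⟨s, rfl⟩ e
    exact (m_root H (F.inj ((map_mul _ _ _).trans e))).imp (mem_map_of_mem _) (mem_map_of_mem _)
  · rintro _ ⟨a, ha, rfl⟩
    exact (p1 a ha).imp (fun e => by rw [← map_pow, e, map_one]) fun e => by rw [← map_pow, e]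
  · rintro _ ⟨s, rfl⟩
    refine (p2 s).imp (fun ⟨a, ha, b, hb, e⟩ => ⟨_, mem_map_of_mem _ ha, _, mem_map_of_mem _ hb, by rw [← map_mul, e]⟩)
      (Or.imp sq fun e => ?_)
    rw [← map_pow]
    exact ⟨ne_one e.1, fun e' => e.2 (F.inj e')⟩
  · rintro _ ⟨s, rfl⟩ e
    obtain ⟨_, ⟨i, rfl⟩, b, hb, rfl⟩ := m_cen1 H hZ ((m_cen H).1 (F.inj (by simpa only [map_mul] using e)))
    exact ⟨i, _, mem_map_of_mem _ hb, by rw [map_mul, map_zpow]⟩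
  · rintro _ ⟨s, rfl⟩ e
    rw [← map_mul]
    exact mem_map_of_mem _ (m_cen2 H (eq_true_of_ne_false fun e' => e (comm ((m_cen H).2 e'))))

omit zc in
theorem main (F : Fm (Mo Z) G) (h1 : ∀ x y : G, orderOf x = 2 → orderOf y = 2 → IsConj x y) (hZ : ∀ i : Z, ∃ n : ℕ, i = n)
    {C : Subgroup G} (hC : C = centralizer {F.φ 𝓏}) : ∃ L₁ L₂ : Subgroup (C ⧸ pPrimeCore 2 C), L₁.Normal ∧ L₂.Normal ∧
    (∃ (F : Type) (_ : Field F) (_ : Fintype F), Odd (Fintype.card F) ∧ Nonempty (L₁ ≃* SL(2, F))) ∧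
    (∃ (F : Type) (_ : Field F) (_ : Fintype F), Odd (Fintype.card F) ∧ Nonempty (L₂ ≃* SL(2, F))) ∧
    ⁅L₁, L₂⁆ = ⊥ ∧ L₁ ⊔ L₂ = commutator _ := by
  have hm : ∀ v, F.φ v ∈ C := fun v => hC ▸ mem_centralizer_singleton_iff.2 (comm (H.cz v))
  have hπ := QuotientGroup.mk'_surjective (pPrimeCore 2 C)
  have hs : IsSylowIn 2 (F.φ.codRestrict C hm).range ⊤ := by
    have := isSylowIn_top (F.syl.of_le (by rintro _ ⟨v, rfl⟩; exact hm v) (le_top (a := C))).toSylow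
    convert this using 1
    ext x
    exact ⟨fun ⟨v, e⟩ => ⟨v, congrArg Subtype.val e⟩, fun ⟨v, e⟩ => ⟨v, Subtype.ext e⟩⟩
  let F' : Fm (Mo Z) (C ⧸ pPrimeCore 2 C) := ⟨(QuotientGroup.mk' _).comp (F.φ.codRestrict C hm),
    (injective_iff_map_eq_one _).2 fun v hv => F.inj ((congrArg Subtype.val (zpowers_eq_bot.1 (eq_bot_of_isPGroup_of_not_dvd
      (hs.pgroup.to_le (zpowers_le.2 ⟨v, rfl⟩)) (L0.not_dvd_card_of_le (zpowers_le.2 ((QuotientGroup.eq_one_iff _).1 hv))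
        not_dvd_card_pPrimeCore)))).trans (map_one _).symm), by
    rw [MonoidHom.range_comp, ← map_top_of_surjective _ hπ]; exact hs.map _⟩
  obtain ⟨S, hS⟩ := F'.syl.exists_sylow_top
  have zc : ∀ g, g * F'.φ 𝓏 = F'.φ 𝓏 * g := fun g => by
    obtain ⟨g, rfl⟩ := hπ g
    exact ((map_mul _ _ _).symm.trans (congrArg _ (Subtype.ext (mem_centralizer_singleton_iff.1 (hC.le g.2))))).trans
      (map_mul _ _ _)
  have k : ∀ {g v w}, g ∈ centralizer {F.φ 𝓏} → g * F.φ v * g⁻¹ = F.φ w → F'.R v w := fun {g v w} hg e =>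
    MonoidHom.map_isConj (QuotientGroup.mk' _) (isConj_iff.2 ⟨⟨g, hC.ge hg⟩, Subtype.ext e⟩)
  have sz : sw 𝓏 = 𝓏 := by simp [sw_def, H.neg]
  obtain ⟨g, hg, e⟩ := tu H (F := F) h1
  obtain ⟨g', hg', e'⟩ := tu H (F := Fsw F) h1
  have l := sd H zc pPrimeCore_quotient_pPrimeCore hS (k hg e) hZ
  have r := sd H (F := Fsw F') (S := S) (fun g => by simpa only [Fsw, MonoidHom.comp_apply, sz] using zc g)
    pPrimeCore_quotient_pPrimeCore (by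
      rw [hS, Fsw, MonoidHom.range_comp F'.φ, MonoidHom.range_eq_top.2 (Function.RightInverse.surjective sw_sw),
        ← MonoidHom.range_eq_map]) (k (by simpa only [Fsw, MonoidHom.comp_apply, sz] using hg') e') hZ
  simp only [Fsw, ← map_map (g := F'.φ), map12, map21, MonoidHom.comp_apply (g := F'.φ), sz, sw_def, neg_neg, neg_zero,
    Bool.xor_self] at r
  exact l.final r

end Cfsg.Agent.H3.GT
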