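/-
Lower bounds for orbits of short lattice vectors by computation: vectors are coded as natural
numbers (24 digits in base 16), a walk through the orbit is replayed, and the classes met under a
rotation of order 11 are counted with a search tree.
-/
import Cfsg.Agent.H3.Co0

set_option autoImplicit false

namespace Cfsg.Agent.H3

open Cfsg Cfsg.Agent.H1 Finset

/-! ### Codes of vectors -/

/-- Position of a point in the code of a vector. -/
def pos (p : GolayPt) : ℕ :=
  [22, 0, 1, 8, 2, 11, 9, 20, 3, 5, 12, 15, 10, 7, 21, 19, 4, 14, 6, 18, 13, 17, 16, 23].getD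
    (ix p) 0

/-- The point at a given position. -/
def unpos (n : ℕ) : GolayPt :=
  pt ([1, 2, 4, 8, 16, 9, 18, 13, 3, 6, 12, 5, 10, 20, 17, 11, 22, 21, 19, 15, 7, 14, 0, 23].getD
    n 0)

theorem pos_lt (p : GolayPt) : pos p < 24 := by revert p; decide

theorem unpos_pos (p : GolayPt) : unpos (pos p) = p := by revert p; decide

theorem pos_unpos {n : ℕ} (h : n < 24) : pos (unpos n) = n := by revert n; decide

/-- The `n`-th digit in base 16. -/
def dig (c n : ℕ) : ℕ := (c >>> (4 * n)) % 16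

/-- The vector with a given code. -/
def dec (c : ℕ) : V := fun p => (dig c (pos p) : ℤ) - 8

/-- The number with base-16 digits `f i, f (i+1), ...` (`n` of them). -/
def hor (f : ℕ → ℕ) : ℕ → ℕ → ℕ
  | 0, _ => 0
  | n + 1, i => f i + 16 * hor f n (i + 1)

theorem dig_succ (c i : ℕ) : dig c (i + 1) = dig (c / 16) i := by
  unfold dig
  rw [Nat.mul_succ, Nat.add_comm, Nat.shiftRight_add, Nat.shiftRight_eq_div_pow c 4]

theorem dig_zero (c : ℕ) : dig c 0 = c % 16 := rfl

theorem dig_lt (c n : ℕ) : dig c n < 16 := Nat.mod_lt _ (by norm_num)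

theorem hor_spec (f : ℕ → ℕ) (n i : ℕ) (hf : ∀ j < n, f (i + j) < 16) :
    hor f n i < 16 ^ n ∧ ∀ j < n, dig (hor f n i) j = f (i + j) := by
  induction n generalizing i with
  | zero => simp [hor]
  | succ n ih =>
    have h0 := hf 0 (by omega)
    rw [Nat.add_zero] at h0
    obtain ⟨h1, h2⟩ := ih (i + 1) fun j hj => by
      rw [Nat.add_assoc, Nat.add_comm 1 j]; exact hf (j + 1) (by omega)
    refine ⟨by rw [hor, pow_succ]; omega, fun j hj => ?_⟩
    cases j with
    | zero => rw [dig_zero, hor]; simp only [Nat.add_zero]; omega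
    | succ j =>
      rw [dig_succ, hor, show (f i + 16 * hor f n (i + 1)) / 16 = hor f n (i + 1) by omega,
        h2 j (by omega)]
      congr 1; omega

theorem eq_of_dig (n : ℕ) {a b : ℕ} (ha : a < 16 ^ n) (hb : b < 16 ^ n)
    (h : ∀ j < n, dig a j = dig b j) : a = b := by
  induction n generalizing a b with
  | zero => omega
  | succ n ih =>
    have h0 := h 0 (by omega)
    rw [dig_zero, dig_zero] at h0
    rw [pow_succ] at ha hb
    have := @ih (a / 16) (b / 16) (by omega) (by omega) fun j hj => by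
      rw [← dig_succ, ← dig_succ]; exact h _ (by omega)
    omega

theorem dec_inj {a b : ℕ} (ha : a < 16 ^ 24) (hb : b < 16 ^ 24) (h : dec a = dec b) : a = b := by
  refine eq_of_dig 24 ha hb fun j hj => ?_
  have := congrFun h (unpos j)
  simp only [dec, pos_unpos hj] at this
  omega

/-- The code of a vector with entries between `-8` and `7`. -/
def enc (y : V) : ℕ := hor (fun n => (y (unpos n) + 8).toNat) 24 0

theorem enc_spec {y : V} (hy : ∀ p, -8 ≤ y p ∧ y p < 8) : enc y < 16 ^ 24 ∧ dec (enc y) = y := by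
  obtain ⟨h1, h2⟩ := hor_spec (fun n => (y (unpos n) + 8).toNat) 24 0 fun j _ => by
    have := hy (unpos (0 + j)); omega
  refine ⟨h1, funext fun p => ?_⟩
  have := hy p
  unfold dec enc
  rw [h2 _ (pos_lt p), Nat.zero_add, unpos_pos]
  omega

theorem abs_le_of_norm {y : V} (hy : sqNorm y = 32) (p : GolayPt) : -5 ≤ y p ∧ y p ≤ 5 := by
  have := sq_le_sqNorm y p
  rw [hy] at this
  constructor <;> nlinarith

/-- `c` is the code of a member of `Y`. -/
def Cod (Y : Set L) (c : ℕ) : Prop := c < 16 ^ 24 ∧ ∃ v ∈ Y, (v : V) = dec c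

/-- The operation `op` on codes describes the function `f` on short vectors. -/
def OpOK (f : V → V) (op : ℕ → ℕ) : Prop :=
  ∀ c < 16 ^ 24, sqNorm (dec c) = 32 → sqNorm (f (dec c)) = 32 →
    op c < 16 ^ 24 ∧ dec (op c) = f (dec c)

theorem opOK_enc (f : V → V) : OpOK f fun c => enc (f (dec c)) := fun c _ _ h =>
  enc_spec fun p => by have := abs_le_of_norm h p; omega

/-- The operation `op` on codes describes the action of some element of `K` on short vectors. -/
def RealOp (K : Subgroup Co0) (op : ℕ → ℕ) : Prop :=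
  ∃ g ∈ K, ∀ c < 16 ^ 24, ∀ v ∈ sh 32, (v : V) = dec c →
    op c < 16 ^ 24 ∧ ((g • v : L) : V) = dec (op c)

theorem RealOp.of {K : Subgroup Co0} {f : V → V} (hf : Real K f) {op : ℕ → ℕ} (hop : OpOK f op) :
    RealOp K op := by
  obtain ⟨g, hg, hgf⟩ := hf
  refine ⟨g, hg, fun c hc v hv e => ?_⟩
  have h1 : sqNorm (dec c) = 32 := e ▸ hv
  have h2 : sqNorm (f (dec c)) = 32 := by rw [← e, ← hgf]; exact smul_mem_sh g hv
  obtain ⟨h3, h4⟩ := hop c hc h1 h2
  exact ⟨h3, by rw [h4, hgf, e]⟩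

theorem RealOp.id (K : Subgroup Co0) : RealOp K fun c => c :=
  ⟨1, K.one_mem, fun _ hc _ _ e => ⟨hc, by rw [one_smul, e]⟩⟩

theorem RealOp.comp {K : Subgroup Co0} {op op' : ℕ → ℕ} (h : RealOp K op) (h' : RealOp K op') :
    RealOp K fun c => op (op' c) := by
  obtain ⟨g, hg, e⟩ := h
  obtain ⟨g', hg', e'⟩ := h'
  refine ⟨g * g', K.mul_mem hg hg', fun c hc v hv hvc => ?_⟩
  obtain ⟨h1, h2⟩ := e' c hc v hv hvc
  rw [mul_smul]
  exact e _ h1 _ (smul_mem_sh g' hv) h2

theorem RealOp.mono {K K' : Subgroup Co0} {op : ℕ → ℕ} (h : RealOp K op) (hle : K ≤ K') :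
    RealOp K' op := let ⟨g, hg, e⟩ := h; ⟨g, hle hg, e⟩

theorem RealOp.stab {K : Subgroup Co0} {op : ℕ → ℕ} (h : RealOp K op) {v : L} (hv : v ∈ sh 32)
    {c : ℕ} (hc : c < 16 ^ 24) (hvc : (v : V) = dec c) (e : op c = c) :
    RealOp (K ⊓ MulAction.stabilizer Co0 v) op := by
  obtain ⟨g, hg, hgf⟩ := h
  refine ⟨g, ⟨hg, Subtype.ext ?_⟩, hgf⟩
  rw [(hgf c hc v hv hvc).2, e, hvc]

theorem cod_op {K : Subgroup Co0} {r : L} (hr : r ∈ sh 32) {op : ℕ → ℕ} (hop : RealOp K op)
    (c : ℕ) (hc : Cod (MulAction.orbit K r) c) : Cod (MulAction.orbit K r) (op c) := by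
  obtain ⟨hc, v, ⟨k, hk⟩, e⟩ := hc
  obtain ⟨g, hg, hgf⟩ := hop
  have hv : v ∈ sh 32 := hk ▸ smul_mem_sh k.1 hr
  obtain ⟨h3, h4⟩ := hgf c hc v hv e
  refine ⟨h3, g • v, ⟨⟨g, hg⟩ * k, ?_⟩, h4⟩
  rw [← hk]
  exact mul_smul _ _ _

/-- Digit of a monomial operation: `t` codes the source positions, `sm` the sign changes. -/
def monoD (t sm c n : ℕ) : ℕ :=
  bif sm.testBit n then 16 - dig c (ap t n) else dig c (ap t n)

/-- The tables `t`, `sm` (by position) agree with the tables `m`, `cτ` (by point number). -/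
def monoChk (m cτ t sm : ℕ) : Bool :=
  decide (∀ p : GolayPt, ap t (pos p) = pos (pt (ap cτ (ix p))) ∧
    sm.testBit (pos p) = m.testBit (ix p))

theorem opOK_mono {m cτ t sm : ℕ} (h : monoChk m cτ t sm = true) {op : ℕ → ℕ}
    (hop : ∀ c, op c = hor (monoD t sm c) 24 0) : OpOK (monoFn m cτ) op := by
  intro c _ hn _
  rw [monoChk, decide_eq_true_eq] at h
  have hd : ∀ p, 3 ≤ dig c (pos p) := fun p => by
    have := abs_le_of_norm hn p
    unfold dec at this
    omega
  obtain ⟨h1, h2⟩ := hor_spec (monoD t sm c) 24 0 fun j hj => by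
    rw [Nat.zero_add, ← pos_unpos hj]
    unfold monoD
    rw [(h _).1]
    have a := hd (pt (ap cτ (ix (unpos j))))
    have b := dig_lt c (pos (pt (ap cτ (ix (unpos j)))))
    cases sm.testBit (pos (unpos j))
    · exact b
    · simp only [cond_true]; omega
  rw [hop]
  refine ⟨h1, funext fun p => ?_⟩
  unfold dec monoFn
  rw [h2 _ (pos_lt p), Nat.zero_add]
  unfold monoD
  rw [(h p).1, (h p).2]
  have b := dig_lt c (pos (pt (ap cτ (ix p))))
  cases m.testBit (ix p)
  · rfl
  · simp only [cond_true]; omega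

/-! ### The rotation of order 11 -/

/-- Rotation of the two blocks of eleven digits by `s / 4` places. -/
def Rk (s c : ℕ) : ℕ :=
  Nat.add (Nat.add (Nat.mod (Nat.shiftLeft (Nat.mod c 17592186044416) s) 17592186044415)
    (Nat.shiftLeft (Nat.mod (Nat.shiftLeft (Nat.mod (Nat.shiftRight c 44) 17592186044416) s)
      17592186044415) 44)) (Nat.shiftLeft (Nat.shiftRight c 88) 88)

theorem Rk_eq (s c : ℕ) : Rk s c = (c % 17592186044416 * 2 ^ s) % 17592186044415 +
    (c / 17592186044416 % 17592186044416 * 2 ^ s) % 17592186044415 * 17592186044416 +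
    c / 309485009821345068724781056 * 309485009821345068724781056 := by
  change (c % 17592186044416) <<< s % 17592186044415 +
    (((c >>> 44) % 17592186044416) <<< s % 17592186044415) <<< 44 + (c >>> 88) <<< 88 = _
  simp only [Nat.shiftLeft_eq, Nat.shiftRight_eq_div_pow]

/-- The function on vectors described by the rotation. -/
def rotV : V → V := monoFn 0 970567384681219435340729552166356352

theorem real_rotV : Real ⊤ rotV := real_monoFn (by decide +kernel)

/-- Both blocks are reduced modulo `16^11 - 1`. -/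
def Good (c : ℕ) : Prop := c < 16 ^ 24 ∧ c % 17592186044416 < 17592186044415 ∧
  c / 17592186044416 % 17592186044416 < 17592186044415

theorem Rk_parts (s c : ℕ) :
    Rk s c % 17592186044416 = (c % 17592186044416 * 2 ^ s) % 17592186044415 ∧
    Rk s c / 17592186044416 % 17592186044416 =
      (c / 17592186044416 % 17592186044416 * 2 ^ s) % 17592186044415 ∧
    Rk s c / 309485009821345068724781056 = c / 309485009821345068724781056 := by
  rw [Rk_eq]
  generalize c % 17592186044416 * 2 ^ s = a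
  generalize c / 17592186044416 % 17592186044416 * 2 ^ s = b
  omega

theorem Good.Rk {c : ℕ} (h : Good c) (s : ℕ) : Good (Rk s c) := by
  obtain ⟨h1, h2, h3⟩ := Rk_parts s c
  refine ⟨?_, by rw [h1]; omega, by rw [h2]; omega⟩
  have := h.1
  omega

theorem Rk_Rk (s t c : ℕ) : Rk s (Rk t c) = Rk (t + s) c := by
  obtain ⟨h1, h2, h3⟩ := Rk_parts t c
  rw [Rk_eq s, h1, h2, h3, Rk_eq (t + s), Nat.mod_mul_mod, Nat.mod_mul_mod, pow_add, mul_assoc,
    mul_assoc]

theorem Good.Rk_zero {c : ℕ} (h : Good c) : H3.Rk 0 c = c := by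
  obtain ⟨-, h2, h3⟩ := h
  rw [Rk_eq]; omega

theorem Good.Rk_44 {c : ℕ} (h : Good c) : H3.Rk 44 c = c := by
  obtain ⟨-, h2, h3⟩ := h
  have e : ∀ u, u < 17592186044415 → u * 2 ^ 44 % 17592186044415 = u := fun u hu => by
    rw [show u * 2 ^ 44 = u + 17592186044415 * u by ring, Nat.add_mul_mod_self_left,
      Nat.mod_eq_of_lt hu]
  rw [Rk_eq, e _ h2, e _ h3]; omega

theorem Good.iterate {c : ℕ} (h : Good c) (k : ℕ) : (H3.Rk 4)^[k] c = H3.Rk (4 * k) c := by
  induction k with
  | zero => exact h.Rk_zero.symm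
  | succ k ih => rw [Function.iterate_succ_apply', ih, Rk_Rk]; rfl

theorem good_of_norm {c : ℕ} (hc : c < 16 ^ 24) (hn : sqNorm (dec c) = 32) : Good c := by
  have h0 := abs_le_of_norm hn (unpos 0)
  have h1 := abs_le_of_norm hn (unpos 11)
  simp only [dec, pos_unpos (show 0 < 24 by norm_num), pos_unpos (show 11 < 24 by norm_num), dig,
    Nat.shiftRight_eq_div_pow] at h0 h1
  refine ⟨hc, ?_, ?_⟩ <;> omega

/-- Source position of a digit under the rotation. -/
def rotSrc (n : ℕ) : ℕ := if n = 0 then 10 else if n = 11 then 21 else if n < 22 then n - 1 else n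

theorem rot_block {u : ℕ} (hu : u < 17592186044415) :
    u * 2 ^ 4 % 17592186044415 = u % 1099511627776 * 16 + u / 1099511627776 := by omega

theorem dig_mod (u : ℕ) {k n : ℕ} (hn : n < k) : dig (u % 16 ^ k) n = dig u n := by
  induction n generalizing u k with
  | zero =>
    rw [dig_zero, dig_zero, Nat.mod_mod_of_dvd _ (dvd_pow_self 16 (by omega))]
  | succ n ih =>
    obtain ⟨k, rfl⟩ : ∃ j, k = j + 1 := ⟨k - 1, by omega⟩
    rw [dig_succ, dig_succ, pow_succ', Nat.mod_mul_right_div_self, ih _ (by omega)]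

theorem dig_rot_block {u : ℕ} (hu : u < 17592186044415) {n : ℕ} (hn : n < 11) :
    dig (u * 2 ^ 4 % 17592186044415) n = dig u (rotSrc n) := by
  rw [rot_block hu]
  cases n with
  | zero =>
    change _ % 16 = (u >>> 40) % 16
    rw [Nat.shiftRight_eq_div_pow]; omega
  | succ n =>
    have e : ∀ n < 10, rotSrc (n + 1) = n := by decide
    rw [e n (by omega), dig_succ,
      show (u % 1099511627776 * 16 + u / 1099511627776) / 16 = u % 16 ^ 10 by omega,
      dig_mod _ (by omega)]

theorem dig_low (c : ℕ) {n : ℕ} (hn : n < 11) : dig c n = dig (c % 17592186044416) n :=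
  (dig_mod c (k := 11) hn).symm

theorem dig_mid (c : ℕ) {n : ℕ} (hn : n < 11) :
    dig c (n + 11) = dig (c / 17592186044416 % 17592186044416) n := by
  rw [← dig_low _ hn]
  unfold dig
  simp only [Nat.shiftRight_eq_div_pow]
  rw [Nat.div_div_eq_div_mul, show 17592186044416 * 2 ^ (4 * n) = 2 ^ (4 * (n + 11)) by ring]

theorem dig_top (c n : ℕ) : dig c (n + 22) = dig (c / 309485009821345068724781056) n := by
  unfold dig
  simp only [Nat.shiftRight_eq_div_pow]
  rw [Nat.div_div_eq_div_mul,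
    show 309485009821345068724781056 * 2 ^ (4 * n) = 2 ^ (4 * (n + 22)) by ring]

theorem Good.dig_Rk {c : ℕ} (h : Good c) {n : ℕ} (hn : n < 24) :
    dig (H3.Rk 4 c) n = dig c (rotSrc n) := by
  obtain ⟨h1, h2, h3⟩ := Rk_parts 4 c
  have e : ∀ m < 11, rotSrc m < 11 ∧ rotSrc (m + 11) = rotSrc m + 11 := by decide
  have e' : ∀ m < 2, rotSrc (m + 22) = m + 22 := by decide
  by_cases a : n < 11
  · have : rotSrc n < 11 := (e n a).1
    rw [dig_low _ a, h1, dig_rot_block h.2.1 a, ← dig_low _ this]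
  · by_cases b : n < 22
    · obtain ⟨m, rfl⟩ : ∃ m, n = m + 11 := ⟨n - 11, by omega⟩
      obtain ⟨h4, h5⟩ := e m (by omega)
      rw [dig_mid _ (by omega), h2, dig_rot_block h.2.2 (by omega), h5, dig_mid _ h4]
    · obtain ⟨m, rfl⟩ : ∃ m, n = m + 22 := ⟨n - 22, by omega⟩
      rw [e' m (by omega), dig_top, dig_top, h3]

theorem opOK_rot : OpOK rotV (Rk 4) := by
  intro c hc hn _
  have h := good_of_norm hc hn
  refine ⟨(h.Rk 4).1, funext fun p => ?_⟩
  have e : ∀ p, rotSrc (pos p) = pos (pt (ap 970567384681219435340729552166356352 (ix p))) := by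
    decide +kernel
  unfold dec rotV monoFn
  rw [h.dig_Rk (pos_lt p), e]
  simp

/-- Two homogeneous forms of degree 11 in the two blocks, modulo `16^11 - 1`. -/
def keyAux (a u v : ℕ) : ℕ :=
  Nat.add (Nat.mul (Nat.mod (Nat.mul a u) 17592186044415) 17592186044416)
    (Nat.mod (Nat.mul a v) 17592186044415)

/-- A rotation invariant of the pair of blocks. -/
def keyBlk (u v : ℕ) : ℕ :=
  keyAux (Nat.mod (Nat.pow (Nat.add u (Nat.mul 1000003 v)) 10) 17592186044415) u v

theorem keyBlk_eq (u v : ℕ) : keyBlk u v =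
    (u + 1000003 * v) ^ 10 * u % 17592186044415 * 17592186044416 +
      (u + 1000003 * v) ^ 10 * v % 17592186044415 := by
  unfold keyBlk keyAux
  have hm : ∀ a b : ℕ, Nat.mod a b = a % b := fun _ _ => rfl
  simp only [Nat.add_eq, Nat.mul_eq, hm, Nat.pow_eq, Nat.mod_mul_mod]

theorem keyBlk_rot (u v : ℕ) :
    keyBlk (u * 2 ^ 4 % 17592186044415) (v * 2 ^ 4 % 17592186044415) = keyBlk u v := by
  have e3 : u * 2 ^ 4 % 17592186044415 + 1000003 * (v * 2 ^ 4 % 17592186044415) ≡
      (u + 1000003 * v) * 16 [MOD 17592186044415] := by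
    rw [show (u + 1000003 * v) * 16 = u * 2 ^ 4 + 1000003 * (v * 2 ^ 4) by ring]
    exact (Nat.mod_modEq _ _).add ((Nat.mod_modEq _ _).mul_left _)
  have e4 : 16 ^ 11 ≡ 1 [MOD 17592186044415] := by decide
  have e5 : ∀ w, (u * 2 ^ 4 % 17592186044415 + 1000003 * (v * 2 ^ 4 % 17592186044415)) ^ 10 *
      (w * 2 ^ 4 % 17592186044415) ≡ (u + 1000003 * v) ^ 10 * w [MOD 17592186044415] := fun w => by
    refine ((e3.pow 10).mul (Nat.mod_modEq _ _)).trans ?_
    rw [show ((u + 1000003 * v) * 16) ^ 10 * (w * 2 ^ 4) =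
      (u + 1000003 * v) ^ 10 * w * 16 ^ 11 by ring]
    simpa using e4.mul_left ((u + 1000003 * v) ^ 10 * w)
  rw [keyBlk_eq, keyBlk_eq, e5 u, e5 v]

/-- An invariant of the rotation; the lowest bit records whether the code is fixed. -/
def key (c : ℕ) : ℕ :=
  Nat.add (Nat.mul 2 (Nat.add (Nat.mul (keyBlk (Nat.mod c 17592186044416)
    (Nat.mod (Nat.shiftRight c 44) 17592186044416)) 256)
    (Nat.shiftRight c 88))) (Bool.rec 0 1 (Nat.beq (Rk 4 c) c))

theorem key_eq (c : ℕ) : key c = 2 * (keyBlk (c % 17592186044416)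
    (c / 17592186044416 % 17592186044416) * 256 +
    c / 309485009821345068724781056) + if Rk 4 c = c then 1 else 0 := by
  unfold key
  have hm : ∀ a b : ℕ, Nat.mod a b = a % b := fun _ _ => rfl
  simp only [Nat.add_eq, Nat.mul_eq, hm, Nat.shiftRight_eq]
  have e : ∀ a b : ℕ, (Bool.rec 0 1 (Nat.beq a b) : ℕ) = if a = b then 1 else 0 := fun a b => by
    split_ifs with h
    · rw [h, Nat.beq_refl]
    · rw [Bool.eq_false_iff.mpr (mt Nat.eq_of_beq_eq_true h)]
  rw [e, Nat.shiftRight_eq_div_pow, Nat.shiftRight_eq_div_pow]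

theorem Good.key_Rk {c : ℕ} (h : Good c) : key (H3.Rk 4 c) = key c := by
  obtain ⟨h1, h2, h3⟩ := Rk_parts 4 c
  rw [key_eq, key_eq, h1, h2, h3, keyBlk_rot]
  have e1 : H3.Rk 4 (H3.Rk 4 c) = H3.Rk 4 c ↔ H3.Rk 4 c = c := by
    refine ⟨fun e => ?_, fun e => by rw [e, e]⟩
    have := congrArg (H3.Rk 40) e
    rw [Rk_Rk 40 4, (h.Rk 4).Rk_44, Rk_Rk, h.Rk_44] at this
    exact this
  simp only [e1]

/-- Size of the class with a given invariant. -/
def wt (k : ℕ) : ℕ := Nat.sub 11 (Nat.mul 10 (Nat.mod k 2))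

theorem sum_wt_le (D : Finset ℕ) (hD : ∀ c ∈ D, Good c ∧ Rk 4 c ∈ D) (s : Finset ℕ)
    (hs : ∀ k ∈ s, ∃ c ∈ D, key c = k) : ∑ k ∈ s, wt k ≤ D.card := by
  refine le_trans ?_ (card_filter_le D (fun c => key c ∈ s))
  rw [card_eq_sum_card_fiberwise (f := key) (s := D.filter fun c => key c ∈ s) (t := s)
    (fun c hc => (mem_filter.mp hc).2)]
  refine sum_le_sum fun k hk => ?_
  obtain ⟨c, hc, rfl⟩ := hs k hk
  have hit : ∀ j, (Rk 4)^[j] c ∈ D ∧ key ((Rk 4)^[j] c) = key c := fun j => by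
    induction j with
    | zero => exact ⟨hc, rfl⟩
    | succ j ih =>
      rw [Function.iterate_succ_apply']
      exact ⟨(hD _ ih.1).2, (hD _ ih.1).1.key_Rk.trans ih.2⟩
  have hw : wt (key c) = 11 - 10 * (key c % 2) := rfl
  by_cases h : Rk 4 c = c
  · have : key c % 2 = 1 := by rw [key_eq, if_pos h]; omega
    rw [hw, this]
    exact card_pos.mpr ⟨c, by simp [hc, hk]⟩
  · have : key c % 2 = 0 := by rw [key_eq, if_neg h]; omega
    rw [hw, this]
    have hp : Function.minimalPeriod (Rk 4) c = 11 := by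
      have : Fact (Nat.Prime 11) := ⟨by norm_num⟩
      refine Function.minimalPeriod_eq_prime ?_ h
      exact ((hD c hc).1.iterate 11).trans (hD c hc).1.Rk_44
    have hinj := Function.iterate_injOn_Iio_minimalPeriod (f := Rk 4) (x := c)
    rw [hp] at hinj
    refine le_trans (card_range 11).ge (card_le_card_of_injOn (fun j => (Rk 4)^[j] c) ?_ ?_)
    · intro j _
      simp [(hit j).1, (hit j).2, hk]
    · intro i hi j hj e
      exact hinj (by simpa using hi) (by simpa using hj) e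

/-! ### Search trees and walks -/

/-- Evaluate a number before passing it on. -/
noncomputable def frc {α : Type} (x : ℕ) (f : ℕ → α) : α :=
  Nat.rec (f 0) (fun k _ => f (Nat.succ k)) x

theorem frc_eq {α : Type} (x : ℕ) (f : ℕ → α) : frc x f = f x := by cases x <;> rfl

/-- Binary trees of numbers. -/
inductive Tr where
  | leaf : Tr
  | node : Tr → ℕ → Tr → Tr

/-- All entries of the tree have the property `P`. -/
def Tr.All (P : ℕ → Prop) : Tr → Prop
  | .leaf => True
  | .node l v r => l.All P ∧ P v ∧ r.All P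

/-- Insertion into a search tree, in continuation-passing form. -/
noncomputable def insK (x : ℕ) (t : Tr) : (Tr → ℕ) → ℕ :=
  Tr.rec (fun k => k (Tr.node .leaf x .leaf)) (fun l v r il ir k =>
    Bool.rec (ir fun r' => k (Tr.node l v r')) (il fun l' => k (Tr.node l' v r)) (Nat.ble x v)) t

theorem insK_le {P : ℕ → Prop} {x : ℕ} (hx : P x) {N : ℕ} (t : Tr) (ht : t.All P) (k : Tr → ℕ)
    (hk : ∀ t', t'.All P → k t' ≤ N) : insK x t k ≤ N := by
  induction t generalizing k with
  | leaf => exact hk _ ⟨trivial, hx, trivial⟩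
  | node l v r il ir =>
    change (Bool.rec (insK x r fun r' => k (Tr.node l v r'))
      (insK x l fun l' => k (Tr.node l' v r)) (Nat.ble x v) : ℕ) ≤ N
    cases Nat.ble x v
    · exact ir ht.2.2 _ fun t' h => hk _ ⟨ht.1, ht.2.1, h⟩
    · exact il ht.1 _ fun t' h => hk _ ⟨h, ht.2.1, ht.2.2⟩

/-- Total weight of the entries of a search tree, all strictly between `lo` and `hi`. -/
noncomputable def cntT (w : ℕ → ℕ) (t : Tr) : ℕ → ℕ → ℕ :=
  Tr.rec (fun _ _ => 0) (fun _ v _ il ir lo hi =>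
    Bool.rec 0 (Bool.rec 0 (Nat.add (w v) (Nat.add (il lo v) (ir v hi))) (Nat.ble (Nat.succ v) hi))
      (Nat.ble (Nat.succ lo) v)) t

theorem cntT_spec {P : ℕ → Prop} (w : ℕ → ℕ) (t : Tr) (ht : t.All P) (lo hi : ℕ) :
    ∃ s : Finset ℕ, (∀ k ∈ s, P k ∧ lo < k ∧ k < hi) ∧ cntT w t lo hi = ∑ k ∈ s, w k := by
  induction t generalizing lo hi with
  | leaf => exact ⟨∅, by simp, rfl⟩
  | node l v r il ir =>
    change ∃ s : Finset ℕ, (∀ k ∈ s, P k ∧ lo < k ∧ k < hi) ∧ (Bool.rec 0 (Bool.rec 0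
      (w v + (cntT w l lo v + cntT w r v hi)) (Nat.ble (v + 1) hi)) (Nat.ble (lo + 1) v) : ℕ) = _
    cases h1 : Nat.ble (lo + 1) v
    · exact ⟨∅, by simp, rfl⟩
    cases h2 : Nat.ble (v + 1) hi
    · exact ⟨∅, by simp, rfl⟩
    have h1 := Nat.le_of_ble_eq_true h1
    have h2 := Nat.le_of_ble_eq_true h2
    obtain ⟨a, ha, ea⟩ := il ht.1 lo v
    obtain ⟨b, hb, eb⟩ := ir ht.2.2 v hi
    refine ⟨insert v (a ∪ b), fun k hk => ?_, ?_⟩
    · simp only [mem_insert, mem_union] at hk
      rcases hk with rfl | hk | hk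
      · exact ⟨ht.2.1, h1, h2⟩
      · have := ha k hk
        exact ⟨this.1, this.2.1, by omega⟩
      · have := hb k hk
        exact ⟨this.1, by omega, this.2.2⟩
    · rw [sum_insert, sum_union, ea, eb]
      · refine disjoint_left.mpr fun k h3 h4 => ?_
        have := ha k h3
        have := hb k h4
        omega
      · simp only [mem_union, not_or]
        exact ⟨fun h => by have := ha v h; omega, fun h => by have := hb v h; omega⟩

/-- Apply the `g`-th operation of the list. -/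
noncomputable def sel (ops : List (ℕ → ℕ)) : ℕ → ℕ → ℕ :=
  List.rec (fun _ c => c) (fun f _ ih g c => Nat.rec (f c) (fun g' _ => ih g' c) g) ops

theorem sel_spec {P : ℕ → Prop} (ops : List (ℕ → ℕ)) (h : ∀ f ∈ ops, ∀ c, P c → P (f c))
    (g c : ℕ) (hc : P c) : P (sel ops g c) := by
  induction ops generalizing g with
  | nil => exact hc
  | cons f l ih =>
    cases g with
    | zero => exact h f List.mem_cons_self c hc
    | succ g => exact ih (fun f hf => h f (List.mem_cons_of_mem _ hf)) g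

/-- Replay a walk of `n` steps; each byte of `cert` gives a rotation, a flag and an operation. -/
noncomputable def walk (ops : List (ℕ → ℕ)) (n : ℕ) : ℕ → ℕ → Tr → ℕ :=
  Nat.rec (fun _ _ t => cntT wt t 0 1267650600228229401496703205376) (fun _ ih cert c t =>
    frc (Rk (Nat.mul 4 (Nat.mod cert 16)) c) fun c1 =>
    frc (sel ops (Nat.mod (Nat.shiftRight cert 5) 8) c1) fun c2 =>
    frc (Nat.shiftRight cert 8) fun cert' =>
    Nat.rec (ih cert' c2 t) (fun _ _ => frc (key c2) fun k => insK k t (ih cert' c2))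
      (Nat.mod (Nat.shiftRight cert 4) 2)) n

theorem walk_le {P : ℕ → Prop} {N : ℕ} (ops : List (ℕ → ℕ)) (h : ∀ f ∈ ops, ∀ c, P c → P (f c))
    (hR : ∀ k c, P c → P (Rk (4 * k) c))
    (hN : ∀ t : Tr, t.All (fun k => ∃ c, P c ∧ key c = k) →
      cntT wt t 0 1267650600228229401496703205376 ≤ N)
    (n cert c : ℕ) (hc : P c) (t : Tr) (ht : t.All fun k => ∃ c, P c ∧ key c = k) :
    walk ops n cert c t ≤ N := by
  induction n generalizing cert c t with
  | zero => exact hN t ht
  | succ n ih =>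
    change (frc (Rk (4 * (cert % 16)) c) fun c1 =>
      frc (sel ops (Nat.mod (Nat.shiftRight cert 5) 8) c1) fun c2 =>
      frc (Nat.shiftRight cert 8) fun cert' =>
      Nat.rec (walk ops n cert' c2 t) (fun _ _ => frc (key c2) fun k =>
        insK k t (walk ops n cert' c2)) (Nat.mod (Nat.shiftRight cert 4) 2)) ≤ N
    simp only [frc_eq]
    have h2 := sel_spec ops h (Nat.mod (Nat.shiftRight cert 5) 8) _ (hR (cert % 16) c hc)
    cases Nat.mod (Nat.shiftRight cert 4) 2 with
    | zero => exact ih _ _ h2 t ht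
    | succ _ => exact insK_le ⟨_, h2, rfl⟩ t ht _ fun t' ht' => ih _ _ h2 t' ht'

/-- Lower bound for the size of an orbit of short vectors. -/
theorem le_ncard_orbit {K : Subgroup Co0} (hK : RealOp K (Rk 4)) {r : L} (hr : r ∈ sh 32)
    (ops : List (ℕ → ℕ)) (h : ∀ op ∈ ops, RealOp K op) {c : ℕ} (hc : c < 16 ^ 24)
    (hrc : (r : V) = dec c) (n cert : ℕ) :
    walk ops n cert c .leaf ≤ (MulAction.orbit K r).ncard := by
  classical
  set Y := MulAction.orbit K r with hY
  have hYsub : Y ⊆ sh 32 := fun v ⟨k, hk⟩ => hk ▸ smul_mem_sh k.1 hr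
  have hgood : ∀ c, Cod Y c → Good c := fun c ⟨hc, v, hv, e⟩ =>
    good_of_norm hc (e ▸ hYsub hv)
  have hrot : ∀ c, Cod Y c → Cod Y (Rk 4 c) := cod_op hr hK
  refine walk_le (P := Cod Y) ops (fun op hop => ?_) (fun k c hc => ?_) (fun t ht => ?_) n cert c
    ⟨hc, r, MulAction.mem_orbit_self r, hrc⟩ .leaf trivial
  · exact cod_op hr (h op hop)
  · rw [← (hgood c hc).iterate]
    induction k with
    | zero => exact hc
    | succ k ih => rw [Function.iterate_succ_apply']; exact hrot _ ih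
  · obtain ⟨s, hs, e⟩ := cntT_spec wt t ht 0 1267650600228229401496703205376
    let D := (range (16 ^ 24)).filter (Cod Y)
    have hD : ∀ c, c ∈ D ↔ Cod Y c := fun c =>
      ⟨fun h => (mem_filter.mp h).2, fun h => mem_filter.mpr ⟨mem_range.mpr h.1, h⟩⟩
    rw [e]
    refine (sum_wt_le D (fun c hc => ⟨hgood c ((hD c).mp hc), (hD _).mpr (hrot c ((hD c).mp hc))⟩)
      s fun k hk => ?_).trans ?_
    · obtain ⟨c, hc, e⟩ := (hs k hk).1
      exact ⟨c, (hD c).mpr hc, e⟩
    · rw [← Set.ncard_coe_finset, ← Set.ncard_image_of_injective Y Subtype.val_injective]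
      refine Set.ncard_le_ncard_of_injOn dec ?_ ?_
        (((sh_finite 32).subset hYsub).image _)
      · intro c hc
        obtain ⟨-, v, hv, e⟩ := (hD c).mp hc
        exact ⟨v, hv, e⟩
      · intro a ha b hb e
        exact dec_inj ((hD a).mp ha).1 ((hD b).mp hb).1 e

theorem RealOp.Rk {K : Subgroup Co0} (hK : RealOp K (Rk 4)) (k : ℕ) : RealOp K (Rk (4 * k)) := by
  have h : RealOp K (H3.Rk 4)^[k] := by
    induction k with
    | zero => exact RealOp.id K
    | succ k ih => exact ih.comp hK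
  obtain ⟨g, hg, e⟩ := h
  refine ⟨g, hg, fun c hc v hv hvc => ?_⟩
  rw [← (good_of_norm hc (hvc ▸ hv)).iterate]
  exact e c hc v hv hvc

/-- Apply a word; each letter gives a rotation and an operation. -/
noncomputable def applyW (ops : List (ℕ → ℕ)) (w : List ℕ) : ℕ → ℕ :=
  List.rec (fun c => c) (fun a _ ih c =>
    frc (Rk (Nat.mul 4 (Nat.mod a 16)) c) fun c1 => frc (sel ops (Nat.div a 16) c1) ih) w

theorem realOp_sel {K : Subgroup Co0} (ops : List (ℕ → ℕ)) (h : ∀ op ∈ ops, RealOp K op) (g : ℕ) :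
    RealOp K (sel ops g) := by
  induction ops generalizing g with
  | nil => exact RealOp.id K
  | cons f l ih =>
    cases g with
    | zero => exact h f List.mem_cons_self
    | succ g => exact ih (fun f hf => h f (List.mem_cons_of_mem _ hf)) g

theorem realOp_applyW {K : Subgroup Co0} (hK : RealOp K (Rk 4)) (ops : List (ℕ → ℕ))
    (h : ∀ op ∈ ops, RealOp K op) (w : List ℕ) : RealOp K (applyW ops w) := by
  induction w with
  | nil => exact RealOp.id K
  | cons a w ih =>
    have e : applyW ops (a :: w) = fun c =>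
        applyW ops w (sel ops (Nat.div a 16) (Rk (4 * Nat.mod a 16) c)) := by
      funext c
      change frc (Rk (4 * Nat.mod a 16) c) (fun c1 =>
        frc (sel ops (Nat.div a 16) c1) (applyW ops w)) = _
      simp only [frc_eq]
    rw [e]
    exact (ih.comp (realOp_sel ops h _)).comp (hK.Rk _)

/-- A member of an orbit of `K`, with a lower bound for the size of its orbit under `H`. -/
theorem orbit_pack {K H : Subgroup Co0} {opsK opsH : List (ℕ → ℕ)}
    (hK : RealOp K (Rk 4) ∧ ∀ op ∈ opsK, RealOp K op)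
    (hH : RealOp H (Rk 4) ∧ ∀ op ∈ opsH, RealOp H op) {x : L} (hx : x ∈ sh 32) {c : ℕ}
    (hc : c < 16 ^ 24) (hxc : (x : V) = dec c) (w : List ℕ) {c' : ℕ} (hw : applyW opsK w c = c')
    (n cert : ℕ) {N : ℕ} (hN : walk opsH n cert c' .leaf = N) :
    ∃ r ∈ MulAction.orbit K x, (r : V) = dec c' ∧ N ≤ (MulAction.orbit H r).ncard := by
  obtain ⟨h1, r, hr, e⟩ := cod_op hx (realOp_applyW hK.1 opsK hK.2 w) c
    ⟨hc, x, MulAction.mem_orbit_self x, hxc⟩
  rw [hw] at h1 e
  refine ⟨r, hr, e, hN ▸ le_ncard_orbit hH.1 ?_ opsH hH.2 h1 e n cert⟩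
  obtain ⟨k, hk⟩ := hr
  exact hk ▸ smul_mem_sh k.1 hx

end Cfsg.Agent.H3
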