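import Cfsg.Agent.H8.Hall
import Cfsg.Agent.H8.Constraint
import Cfsg.Agent.FT.Main

/-! π-homogeneous groups whose π-subgroups are 2-closed: reduction to simple groups. -/

set_option autoImplicit false
set_option linter.unusedSectionVars false

namespace Cfsg.Agent.H3

open Subgroup Cfsg.Agent.L0 Cfsg.Agent.H8

universe u

/-- the hypotheses -/
structure PiH (π : Set ℕ) (G : Type*) [Group G] : Prop where
  two : 2 ∈ π
  cl : ∀ H T : Subgroup G, IsPiNum π (Nat.card H) → IsSylowIn 2 T H → H ≤ normalizer (T : Set G)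
  hom : ∀ H P : Subgroup G, IsPiNum π (Nat.card H) → IsPiNum πᶜ (Nat.card P) → P ≤ normalizer (H : Set G) →
    P ≤ centralizer (H : Set G)

/-- `K` is a normal Hall `π'`-subgroup of `M` -/
structure NH (π : Set ℕ) {G : Type*} [Group G] (K M : Subgroup G) : Prop where
  le : K ≤ M
  norm : M ≤ normalizer (K : Set G)
  pi : IsPiNum πᶜ (Nat.card K)
  idx : IsPiNum π (K.relIndex M)

variable {G G' : Type*} [Group G] [Group G'] {π : Set ℕ}

theorem le_normalizer_of_map {f : G →* G'} (hf : Function.Injective f) {H T : Subgroup G}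
    (h : H.map f ≤ normalizer ((T.map f : Subgroup G') : Set G')) : H ≤ normalizer (T : Set G) := by
  intro g hg
  rw [mem_normalizer_iff]
  intro x
  have := mem_normalizer_iff.mp (h (mem_map_of_mem f hg)) (f x)
  rw [← map_inv, ← map_mul, ← map_mul, mem_map_iff_mem hf, mem_map_iff_mem hf] at this
  exact this

theorem le_centralizer_of_map {f : G →* G'} (hf : Function.Injective f) {H T : Subgroup G}
    (h : H.map f ≤ centralizer ((T.map f : Subgroup G') : Set G')) : H ≤ centralizer (T : Set G) := by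
  intro g hg x hx
  apply hf
  rw [map_mul, map_mul]
  exact h (mem_map_of_mem f hg) _ (mem_map_of_mem f hx)

theorem map_le_centralizer_map {H T : Subgroup G} (h : H ≤ centralizer (T : Set G)) (f : G →* G') :
    H.map f ≤ centralizer ((T.map f : Subgroup G') : Set G') := by
  rintro _ ⟨g, hg, rfl⟩ _ ⟨x, hx, rfl⟩
  rw [← map_mul, ← map_mul, h hg x hx]

theorem odd_of_pi' (h2 : 2 ∈ π) {n : ℕ} (h : IsPiNum πᶜ n) : Odd n :=
  Nat.not_even_iff_odd.mp fun e => h 2 Nat.prime_two e.two_dvd h2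

theorem piNum_pgroup {p : ℕ} [Fact p.Prime] (hp : p ∈ π) {P : Type*} [Group P] [Finite P] (h : IsPGroup p P) :
    IsPiNum π (Nat.card P) :=
  (isPGroup_iff_isPiNum.mp h).mono (Set.singleton_subset_iff.mpr hp)

variable [Finite G] [Finite G']

theorem PiH.of_injective (h : PiH π G') (f : G →* G') (hf : Function.Injective f) : PiH π G := by
  have := Fact.mk Nat.prime_two
  refine ⟨h.two, fun H T hH hT => le_normalizer_of_map hf (h.cl _ _ ?_ (hT.map f)),
    fun H P hH hP hn => le_centralizer_of_map hf (h.hom _ _ ?_ ?_ (map_le_normalizer_map hn f))⟩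
  all_goals rwa [card_map_of_injective hf]

theorem exists_lift {f : G →* G'} (hf : Function.Surjective f) {H : Subgroup G'}
    (hc : (Nat.card f.ker).Coprime (Nat.card H)) : ∃ B : Subgroup G, B.map f = H ∧ Nat.card B = Nat.card H := by
  have h1 : f.ker.relIndex (H.comap f) = Nat.card H := by
    have h2 := relIndex_mul_card_of_le (ker_le_comap f H)
    rw [card_comap_of_surjective f hf, mul_comm] at h2
    exact Nat.eq_of_mul_eq_mul_left Nat.card_pos h2
  obtain ⟨B, -, h2, -, h3⟩ := exists_complement_in (ker_le_comap f H) le_normalizer_of_normal (h1 ▸ hc)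
  refine ⟨B, ?_, h3.trans h1⟩
  have := congrArg (Subgroup.map f) h2
  rwa [Subgroup.map_sup, map_comap_eq_self_of_surjective hf, (Subgroup.map_eq_bot_iff _).mpr le_rfl, bot_sup_eq] at this

theorem PiH.cl_map (h : PiH π G) (f : G →* G') {B : Subgroup G} (hB : IsPiNum π (Nat.card B)) {T : Subgroup G'}
    (hT : IsSylowIn 2 T (B.map f)) : B.map f ≤ normalizer (T : Set G') := by
  have := Fact.mk Nat.prime_two
  obtain ⟨S, hS⟩ := exists_isSylowIn 2 B
  have h1 := map_le_normalizer_map (h.cl B S hB hS) f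
  obtain ⟨k, hk, rfl⟩ := (hS.map f).exists_cj_eq hT
  rwa [cj_eq_self (h1 hk)]

theorem PiH.quot_pi (h : PiH π G) {f : G →* G'} (hf : Function.Surjective f) (hk : IsPiNum π (Nat.card f.ker)) :
    PiH π G' := by
  refine ⟨h.two, fun H T hH hT => ?_, fun H P hH hP hn => ?_⟩
  · have h1 : IsPiNum π (Nat.card (H.comap f)) := (hk.mul hH).of_dvd (card_comap_dvd f H)
    rw [← map_comap_eq_self_of_surjective hf H] at hT ⊢
    exact h.cl_map f h1 hT
  · have h1 : IsPiNum π (Nat.card (H.comap f)) := (hk.mul hH).of_dvd (card_comap_dvd f H)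
    obtain ⟨B, rfl, hB⟩ := exists_lift hf (hk.coprime hP)
    have h2 := h.hom (H.comap f) B h1 (hB ▸ hP) ((map_le_iff_le_comap.mp hn).trans (le_normalizer_comap f))
    have h3 := map_le_centralizer_map h2 f
    rwa [map_comap_eq_self_of_surjective hf] at h3

theorem PiH.quot_pi' (h : PiH π G) {f : G →* G'} (hf : Function.Surjective f) (hk : IsPiNum πᶜ (Nat.card f.ker)) :
    PiH π G' := by
  refine ⟨h.two, fun H T hH hT => ?_, fun H P hH hP hn => ?_⟩
  · obtain ⟨B, rfl, hB⟩ := exists_lift hf (hH.coprime hk).symm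
    exact h.cl_map f (hB ▸ hH) hT
  · obtain ⟨B, rfl, hB⟩ := exists_lift hf (hH.coprime hk).symm
    rw [← hB] at hH
    have hc : CopAct B f.ker := ⟨le_normalizer_of_normal, hH.coprime hk, Or.inr (FT.odd_solvable (odd_of_pi' h.two hk))⟩
    have h1 := CopAct.map_inf_normalizer f hc (ker_le_comap f P)
    rw [map_comap_eq_self_of_surjective hf, inf_eq_left.mpr hn] at h1
    rw [h1]
    exact map_le_centralizer_map (h.hom _ _ hH (((hk.mul hP).of_dvd (card_comap_dvd f P)).of_dvd
      (card_dvd_of_le inf_le_left)) inf_le_right) f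

namespace NH

variable {K M X : Subgroup G}

omit [Finite G] in
theorem of_sub {K : Subgroup M} (h : NH π K ⊤) : NH π (K.map M.subtype) M := by
  refine ⟨map_subtype_le _, ?_, by rw [card_map_subtype]; exact h.pi, ?_⟩
  · have := map_le_normalizer_map h.norm M.subtype
    rwa [← MonoidHom.range_eq_map, range_subtype] at this
  · have := h.idx
    rw [relIndex_top_right] at this
    rwa [relIndex, ← comap_subtype, comap_map_eq_self_of_injective M.subtype_injective]

theorem le_of (h : NH π K M) (hX : X ≤ M) (hp : IsPiNum πᶜ (Nat.card X)) : X ≤ K :=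
  le_of_card_coprime_relIndex hX (normal_subgroupOf_of_le_normalizer h.norm) (h.idx.coprime hp).symm

theorem mem_of (h : NH π K M) {x : G} (hx : x ∈ M) (hp : IsPiNum πᶜ (orderOf x)) : x ∈ K :=
  h.le_of (zpowers_le.mpr hx) (by rwa [Nat.card_zpowers]) (mem_zpowers x)

theorem norm_le (h : NH π K M) : normalizer (M : Set G) ≤ normalizer (K : Set G) := fun g hg =>
  mem_normalizer_of_cj_le (h.le_of (cj_le_of_mem_normalizer hg h.le) (by rw [card_cj]; exact h.pi))

theorem exists_compl (h : NH π K M) : ∃ B, B ≤ M ∧ K ⊔ B = M ∧ IsPiNum π (Nat.card B) ∧ IsHallIn π B M := by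
  obtain ⟨B, h1, h2, h3, h4⟩ := exists_complement_in h.le h.norm (h.idx.coprime h.pi).symm
  refine ⟨B, h1, h2, h4 ▸ h.idx, h1, h4 ▸ h.idx, ?_⟩
  rw [← h2, relIndex_sup_eq_relIndex (h1.trans h.norm)]
  exact h.pi.of_dvd (relIndex_dvd_card _ _)

omit [Finite G] in
theorem pi_of_bot (h : NH π ⊥ M) : IsPiNum π (Nat.card M) := by
  have := h.idx
  rwa [relIndex_bot_left] at this

omit [Finite G'] in
theorem comap {f : G →* G'} (hf : Function.Surjective f) {K : Subgroup G'} (h : NH π K ⊤)
    (hk : IsPiNum πᶜ (Nat.card f.ker)) : NH π (K.comap f) ⊤ := by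
  refine ⟨le_top, ?_, (hk.mul h.pi).of_dvd (card_comap_dvd f K), ?_⟩
  · have : K.Normal := normalizer_eq_top_iff.mp (eq_top_iff.mpr h.norm)
    exact le_normalizer_of_normal
  · have := h.idx
    rw [relIndex_top_right] at this ⊢
    rwa [index_comap_of_surjective _ hf]

end NH

omit [Finite G] in
theorem nh_bot (h : IsPiNum π (Nat.card G)) : NH π (⊥ : Subgroup G) ⊤ :=
  ⟨le_top, le_normalizer_of_normal, by rw [card_bot]; exact IsPiNum.one, by rwa [relIndex_bot_left, card_top]⟩

omit [Finite G] in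
theorem nh_top (h : IsPiNum πᶜ (Nat.card G)) : NH π (⊤ : Subgroup G) ⊤ :=
  ⟨le_top, le_normalizer_of_normal, by rwa [card_top], by rw [relIndex_self]; exact IsPiNum.one⟩

theorem card_quot_lt {N : Subgroup G} [N.Normal] (h : N ≠ ⊥) : Nat.card (G ⧸ N) < Nat.card G := by
  rw [card_eq_card_quotient_mul_card_subgroup N]
  exact lt_mul_of_one_lt_right Nat.card_pos (one_lt_card_iff_ne_bot N |>.mpr h)

theorem card_sub_lt {M : Subgroup G} (h : M ≠ ⊤) : Nat.card M < Nat.card G := by
  rw [← card_top (G := G)]; exact card_lt_of_lt (lt_top_iff_ne_top.mpr h)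

/-- the statement for simple groups -/
def PiSimple (π : Set ℕ) : Prop :=
  ∀ (G : Type u) [Group G] [Finite G], IsSimpleGroup G → ¬ IsMulCommutative G → PiH π G →
    (∀ M : Subgroup G, M ≠ ⊤ → ∃ K, NH π K M) → False

theorem pi_aux (hs : PiSimple.{u} π) (n : ℕ) : ∀ (G : Type u) [Group G] [Finite G], Nat.card G = n → PiH π G →
    ∃ K : Subgroup G, NH π K ⊤ := by
  induction n using Nat.strong_induction_on with
  | _ n ih =>
  intro G _ _ hn h
  have hsub : ∀ M : Subgroup G, M ≠ ⊤ → ∃ K, NH π K M := fun M hM => by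
    obtain ⟨K, hK⟩ := ih _ (hn ▸ card_sub_lt hM) M rfl (h.of_injective M.subtype M.subtype_injective)
    exact ⟨_, hK.of_sub⟩
  by_cases h1 : ∃ N : Subgroup G, N.Normal ∧ N ≠ ⊥ ∧ IsPiNum πᶜ (Nat.card N)
  · obtain ⟨N, _, h2, h3⟩ := h1
    rw [← QuotientGroup.ker_mk' N] at h3
    obtain ⟨K, hK⟩ := ih _ (hn ▸ card_quot_lt h2) (G ⧸ N) rfl (h.quot_pi' (QuotientGroup.mk'_surjective N) h3)
    exact ⟨_, hK.comap (QuotientGroup.mk'_surjective N) h3⟩
  have h2 : ∀ K M : Subgroup G, M.Normal → NH π K M → K = ⊥ := fun K M hM hK => by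
    by_contra e
    exact h1 ⟨K, normalizer_eq_top_iff.mp (eq_top_iff.mpr (le_normalizer_of_normal.trans hK.norm_le)), e, hK.pi⟩
  by_cases h3 : ∃ N : Subgroup G, N.Normal ∧ N ≠ ⊥ ∧ N ≠ ⊤
  · obtain ⟨N, hN, h4, h5⟩ := h3
    obtain ⟨K, hK⟩ := hsub N h5
    have h6 := h2 K N hN hK
    subst h6
    have h7 := hK.pi_of_bot
    have h8 := h7
    rw [← QuotientGroup.ker_mk' N] at h8
    obtain ⟨K, hK⟩ := ih _ (hn ▸ card_quot_lt h4) (G ⧸ N) rfl (h.quot_pi (QuotientGroup.mk'_surjective N) h8)
    obtain ⟨B, hB, hBc⟩ := exists_lift (QuotientGroup.mk'_surjective N) (h8.coprime hK.pi)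
    have hBp : IsPiNum πᶜ (Nat.card B) := hBc ▸ hK.pi
    have h9 : B ≤ centralizer (N : Set G) := h.hom N B h7 hBp le_normalizer_of_normal
    have : K.Normal := normalizer_eq_top_iff.mp (eq_top_iff.mpr hK.norm)
    have h10 : K.comap (QuotientGroup.mk' N) = B ⊔ N := by rw [← hB, comap_map_eq, QuotientGroup.ker_mk']
    have h11 : NH π B (B ⊔ N) := by
      have hn : N ≤ normalizer (B : Set G) := (le_centralizer_iff.mp h9).trans (centralizer_le_normalizer _)
      refine ⟨le_sup_left, sup_le le_normalizer hn, hBp, ?_⟩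
      rw [relIndex_sup_of_le_normalizer hn]
      exact h7.of_dvd (relIndex_dvd_card _ _)
    have h12 := h2 B _ (h10 ▸ inferInstance) h11
    subst h12
    rw [Subgroup.map_bot] at hB
    subst hB
    refine ⟨⊥, nh_bot ?_⟩
    rw [card_eq_card_quotient_mul_card_subgroup N]
    have := hK.pi_of_bot
    rw [card_top] at this
    exact this.mul h7
  rcases subsingleton_or_nontrivial G with h4 | h4
  · exact ⟨⊥, nh_bot (by rw [Nat.card_of_subsingleton (1 : G)]; exact IsPiNum.one)⟩
  have hG : IsSimpleGroup G := ⟨fun N hN => by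
    by_contra e
    push Not at e
    exact h3 ⟨N, hN, e⟩⟩
  by_cases hc : IsMulCommutative G
  · have hp : (Nat.card G).Prime := by
      let : CommGroup G := { (inferInstance : Group G) with mul_comm := hc.is_comm.comm }
      exact IsSimpleGroup.prime_card
    by_cases e : Nat.card G ∈ π
    · exact ⟨⊥, nh_bot fun q hq hd => (Nat.prime_dvd_prime_iff_eq hq hp).mp hd ▸ e⟩
    · exact ⟨⊤, nh_top fun q hq hd => (Nat.prime_dvd_prime_iff_eq hq hp).mp hd ▸ e⟩
  · exact (hs G hG hc h hsub).elim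

end Cfsg.Agent.H3
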