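import Cfsg.Agent.H3.Pi1
import Cfsg.Agent.H6.Count
import Cfsg.Agent.H8.Dich3
import Cfsg.Agent.BS.SEMain

/-! π-homogeneous groups whose π-subgroups are 2-closed: the local analysis in a simple group. -/

set_option autoImplicit false
set_option linter.unusedSectionVars false

namespace Cfsg.Agent.H3

open Subgroup Cfsg.Agent.L0 Cfsg.Agent.H8 MulAction

universe u

variable {G : Type u} [Group G] [Finite G] {π : Set ℕ}

local instance : Fact (Nat.Prime 2) := Nat.fact_prime_two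

theorem PiH.not_inv (h : PiH π G) {x g : G} {r : ℕ} (hr : r.Prime) (hr2 : r ≠ 2) (hπ : r ∈ π) (hx : orderOf x = r)
    (hg : g * g = 1) (hi : g * x * g = x⁻¹) : False := by
  have := Fact.mk hr
  have hg' : g⁻¹ = g := inv_eq_of_mul_eq_one_right hg
  have hgp : IsPGroup 2 (zpowers g) := SF.pgroup_zpowers_of_pow (by rw [pow_two, hg])
  have hxp : IsPGroup r (zpowers x) := SF.pgroup_zpowers_of_pow (by rw [← hx, pow_orderOf_eq_one])
  have hn : zpowers g ≤ normalizer ((zpowers x : Subgroup G) : Set G) := by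
    refine zpowers_le.mpr (mem_normalizer_of_cj_le ?_)
    rw [cj, MonoidHom.map_zpowers, zpowers_le]
    change g * x * g⁻¹ ∈ _
    rw [hg', hi]; exact inv_mem (mem_zpowers x)
  have hH := isPiNum_card_sup hn (piNum_pgroup h.two hgp) (piNum_pgroup hπ hxp)
  obtain ⟨T, hT, hgT⟩ := exists_isSylowIn_ge hgp (le_sup_left (b := zpowers x))
  have h1 := le_centralizer_of_normalize_of_coprime (hT.le.trans (sup_le hn le_normalizer))
    (le_sup_right.trans (h.cl _ T hH hT)) (IsPGroup.coprime_card_of_ne 2 r hr2.symm _ _ hT.pgroup hxp)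
  have h2 : x * g = g * x := h1 (hgT (mem_zpowers g)) x (mem_zpowers x)
  rw [← h2, mul_assoc, hg, mul_one] at hi
  have h3 : x ^ 2 = 1 := by rw [pow_two]; nth_rewrite 1 [hi]; exact inv_mul_cancel x
  exact hr2 ((Nat.prime_dvd_prime_iff_eq hr Nat.prime_two).mp (hx ▸ orderOf_dvd_of_pow_eq_one h3))

theorem PiH.inv_pi' (h : PiH π G) {k g : G} (ho : Odd (orderOf k)) (hg : g * g = 1) (hi : g * k * g = k⁻¹) :
    IsPiNum πᶜ (orderOf k) := fun r hr hd hπ =>
  h.not_inv hr (fun e => ho.not_two_dvd_nat (e ▸ hd)) hπ (orderOf_pow_orderOf_div (orderOf_pos k).ne' hd) hg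
    (BS.inverts_pow hg hi _)

theorem PiH.se_false (h : PiH π G) (hM : ∀ M : Subgroup G, M ≠ ⊤ → ∃ K, NH π K M) {Ω : Type*} [MulAction G Ω]
    (se : BS.SE G Ω) (h4 : BS.Four (⊤ : Subgroup G)) : False := by
  obtain ⟨z1, -, z2, -, h1, h2, hne, hc⟩ := h4
  obtain ⟨a, ha⟩ := se.exists_fix h1
  have ha2 := se.mem_Ia_of_comm ha h2 hc.symm
  obtain ⟨b, hb⟩ := se.exists_ne a
  obtain ⟨v, hv⟩ := se.exists_Ia b
  obtain ⟨w1, hw1, e1, -⟩ := se.exists_swap hb hv ha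
  obtain ⟨w2, hw2, e2, -⟩ := se.exists_swap hb hv ha2
  have hka : (w2 * w1) • a = a := by rw [mul_smul, hw1.2.2, hw2.2.1]
  have hkb : (w2 * w1) • b = b := by rw [mul_smul, hw1.2.1, hw2.2.2]
  obtain ⟨K, hK⟩ := hM (stabilizer G a) fun e => by
    obtain ⟨g, rfl⟩ := se.trans a b
    exact hb (show g ∈ stabilizer G a from e ▸ mem_top g)
  have hk : w2 * w1 ∈ K := hK.mem_of hka (h.inv_pi' (se.odd_orderOf hb hkb hka) hw1.1.1 (by
    rw [mul_inv_rev, hw1.1.inv_eq, hw2.1.inv_eq, mul_assoc, hw1.1.mul_mul']))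
  have h3 : z2 * z1 ∈ K := by
    have := mul_mem hk (conj_mem_of_le_normalizer hK.norm (show z1 ∈ stabilizer G a from ha.2) (inv_mem hk))
    have e3 : w1 * z1 * w1 = v := by
      rw [← e1, show w1 * (w1 * v * w1) * w1 = (w1 * w1) * v * (w1 * w1) by group, hw1.1.1, one_mul, mul_one]
    rwa [mul_inv_rev, hw1.1.inv_eq, hw2.1.inv_eq, h1.inv_eq,
      show w2 * w1 * (z1 * (w1 * w2) * z1) = w2 * (w1 * z1 * w1) * w2 * z1 by group, e3, e2] at this
  exact BS.not_invo_of_odd (odd_of_pi' h.two hK.pi) h3 (h2.mul_of_comm h1 hc.symm hne.symm)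

theorem PiH.sylow_conj (h : PiH π G) {K M T1 T2 : Subgroup G} (hK : NH π K M) (h1 : IsSylowIn 2 T1 M)
    (h2 : IsSylowIn 2 T2 M) : ∃ k ∈ K, cj k T1 = T2 := by
  obtain ⟨B, hB, hKB, hp, hh⟩ := hK.exists_compl
  obtain ⟨T, hT⟩ := exists_isSylowIn 2 B
  have hT' := hh.isSylowIn_of_isSylowIn h.two hT
  have key : ∀ T1, IsSylowIn 2 T1 M → ∃ k ∈ K, cj k T = T1 := fun T1 h1 => by
    obtain ⟨m, hm, rfl⟩ := hT'.exists_cj_eq h1
    obtain ⟨k, hk, b, hb, rfl⟩ := (mem_sup_of_le_normalizer (hB.trans hK.norm)).mp (hKB.ge hm)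
    exact ⟨k, hk, by rw [cj_mul, cj_eq_self (h.cl B T hp hT hb)]⟩
  obtain ⟨k1, hk1, rfl⟩ := key T1 h1
  obtain ⟨k2, hk2, rfl⟩ := key T2 h2
  exact ⟨k2 * k1⁻¹, mul_mem hk2 (inv_mem hk1), by rw [cj_mul, cj_inv_cj]⟩

theorem PiH.solvable (h : PiH π G) {K M : Subgroup G} (hK : NH π K M) : Group.IsSolvable M := by
  obtain ⟨B, hB, hKB, hp, -⟩ := hK.exists_compl
  obtain ⟨T, hT⟩ := exists_isSylowIn 2 B
  obtain ⟨C, hC, hTC, -, hc⟩ := exists_complement_in hT.le (h.cl B T hp hT) (by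
    obtain ⟨n, hn⟩ := IsPGroup.iff_card.mp hT.pgroup
    rw [hn]
    exact Nat.Coprime.pow_left n ((Nat.Prime.coprime_iff_not_dvd Nat.prime_two).mpr hT.not_dvd_relIndex))
  rw [← hKB]
  refine solvable_sup (hB.trans hK.norm) (FT.odd_solvable (odd_of_pi' h.two hK.pi)) ?_
  rw [← hTC]
  exact solvable_sup (hC.trans (h.cl B T hp hT)) (solvable_of_pgroup hT.pgroup)
    (FT.odd_solvable (Dich.odd_iff.mpr (hc ▸ hT.not_dvd_relIndex)))

/-- `Ω₁(Z(S))` -/
def om (S : Subgroup G) : Subgroup G where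
  carrier := {z | z ∈ S ∧ z * z = 1 ∧ S ≤ centralizer {z}}
  one_mem' := ⟨one_mem _, mul_one _, fun _ _ => Dich.mem_cent.mpr (by simp)⟩
  mul_mem' := fun {a b} ha hb => ⟨mul_mem ha.1 hb.1, by
      rw [show a * b * (a * b) = a * (b * a) * b by group, ← Dich.mem_cent.mp (hb.2.2 ha.1),
        show a * (a * b) * b = (a * a) * (b * b) by group, ha.2.1, hb.2.1, mul_one],
    fun s hs => Dich.mem_cent.mpr (by
      rw [← mul_assoc, Dich.mem_cent.mp (ha.2.2 hs), mul_assoc, Dich.mem_cent.mp (hb.2.2 hs), mul_assoc])⟩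
  inv_mem' := fun {a} ha => by rwa [inv_eq_of_mul_eq_one_right ha.2.1]

omit [Finite G] in
theorem om_le (S : Subgroup G) : om S ≤ S := fun _ h => h.1

omit [Finite G] in
theorem cj_om_le (g : G) (S : Subgroup G) : cj g (om S) ≤ om (cj g S) := by
  rintro _ ⟨z, hz, rfl⟩
  refine ⟨conj_mem_cj g hz.1, ?_, ?_⟩
  · rw [← map_mul, hz.2.1, map_one]
  · have := cj_mono g hz.2.2
    rwa [cj_centralizer_singleton] at this

omit [Finite G] in
theorem cj_om (g : G) (S : Subgroup G) : cj g (om S) = om (cj g S) := by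
  refine le_antisymm (cj_om_le g S) ?_
  have := cj_mono g (cj_om_le g⁻¹ (cj g S))
  rwa [cj_cj_inv, cj_inv_cj] at this

theorem om_ne_bot {S : Subgroup G} (hS : IsPGroup 2 S) (h1 : S ≠ ⊥) : om S ≠ ⊥ := by
  obtain ⟨z, hz, h2, h3⟩ := H7.exists_orderOf_eq_center hS h1
  intro e
  have : z ∈ om S := ⟨hz, by rw [← pow_two, Dich.sq_of_order h2], h3⟩
  exact Dich.ne_one_of_order h2 (by rwa [e, mem_bot] at this)

variable [IsSimpleGroup G]

/-- weak closure: `N(U)/C(U)` is 2-closed for all nontrivial 2-subgroups `U` -/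
theorem zlemma (hL : ∀ U T1 T2 : Subgroup G, IsPGroup 2 U → U ≠ ⊥ → IsSylowIn 2 T1 (normalizer (U : Set G)) →
      IsSylowIn 2 T2 (normalizer (U : Set G)) → ∃ k ∈ centralizer (U : Set G), cj k T1 = T2)
    {a : G} (ha : a ≠ 1) (U : Subgroup G) : ∀ S1 S2 : Subgroup G, S1 ⊓ S2 = U → IsSylowIn 2 S1 ⊤ →
      IsSylowIn 2 S2 ⊤ → a ∈ S1 → a ∈ S2 → S1 ≤ centralizer {a} → S2 ≤ centralizer {a} := by
  induction U using WellFoundedGT.induction with
  | _ U ih =>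
  intro S1 S2 hU h1 h2 a1 a2 hc
  by_cases e : S1 = S2
  · exact e ▸ hc
  have l1 : U < S1 := lt_of_le_of_ne (hU ▸ inf_le_left) fun e' =>
    e (h1.max S2 le_top h2.pgroup (by rw [← e', ← hU]; exact inf_le_right)).symm
  have l2 : U < S2 := lt_of_le_of_ne (hU ▸ inf_le_right) fun e' =>
    e (h2.max S1 le_top h1.pgroup (by rw [← e', ← hU]; exact inf_le_left))
  have aU : a ∈ U := hU ▸ ⟨a1, a2⟩
  have l1' := lt_inf_normalizer_of_pgroup h1.pgroup l1
  have l2' := lt_inf_normalizer_of_pgroup h2.pgroup l2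
  obtain ⟨T1, hT1, m1⟩ := exists_isSylowIn_ge h1.pgroup.to_inf_left (inf_le_right (b := normalizer (U : Set G)))
  obtain ⟨T2, hT2, m2⟩ := exists_isSylowIn_ge h2.pgroup.to_inf_left (inf_le_right (b := normalizer (U : Set G)))
  obtain ⟨k, hk, rfl⟩ := hL U T1 T2 (h1.pgroup.to_le l1.le) (fun e' => ha (by rwa [e', mem_bot] at aU)) hT1 hT2
  obtain ⟨S3, h3, m3⟩ := exists_isSylowIn_ge hT1.pgroup le_top
  have c3 := ih _ (l1'.trans_le (le_inf inf_le_left (m1.trans m3))) S1 S3 rfl h1 h3 a1 (m3 (m1 (l1'.le aU))) hc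
  have h4 := h3.cj k
  rw [cj_top] at h4
  refine ih _ (l2'.trans_le (le_inf (m2.trans (cj_mono k m3)) inf_le_left)) _ S2 rfl h4 h2
    (cj_mono k m3 (m2 (l2'.le aU))) a2 ?_
  have := cj_mono k c3
  rwa [cj_centralizer_singleton, ← hk a aU, mul_inv_cancel_right] at this

variable (hc : ¬ IsMulCommutative G) (h : PiH π G) (hM : ∀ M : Subgroup G, M ≠ ⊤ → ∃ K, NH π K M)
include hc h hM

theorem PiH.zl {a : G} {S1 S2 : Subgroup G} (h1 : IsSylowIn 2 S1 ⊤) (h2 : IsSylowIn 2 S2 ⊤) (a1 : a ∈ om S1)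
    (a2 : a ∈ S2) : a ∈ om S2 := by
  by_cases ha : a = 1
  · exact ha ▸ one_mem _
  refine ⟨a2, a1.2.1, zlemma (fun U T1 T2 hU hU1 hT1 hT2 => ?_) ha _ S1 S2 rfl h1 h2 a1.1 a2 a1.2.2⟩
  obtain ⟨K, hK⟩ := hM _ (H6.normalizer_ne_top_of_pgroup hc hU hU1)
  obtain ⟨k, hk, e⟩ := h.sylow_conj hK hT1 hT2
  exact ⟨k, h.hom U K (piNum_pgroup h.two hU) hK.pi hK.le hk, e⟩

omit h hM in
theorem cent_ne_top {t : G} (ht : orderOf t = 2) : centralizer ({t} : Set G) ≠ ⊤ := by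
  rw [← SF.normalizer_zp_two ht]
  exact H6.normalizer_ne_top_of_pgroup hc (SF.pgroup_zpowers_of_pow (Dich.sq_of_order ht))
    (by rw [Ne, zpowers_eq_bot]; exact Dich.ne_one_of_order ht)

omit h hM in
theorem sylow_ne_bot {S : Subgroup G} (hS : IsSylowIn 2 S ⊤) : S ≠ ⊥ := by
  refine hS.ne_bot ?_
  rw [card_top]
  by_contra e
  have := FT.odd_solvable (G := G) (Dich.odd_iff.mpr e)
  exact hc ⟨⟨IsSimpleGroup.comm_iff_isSolvable.mpr this⟩⟩

omit h hM in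
theorem four_top : BS.Four (⊤ : Subgroup G) := by
  obtain ⟨S, hS⟩ := exists_isSylowIn 2 (⊤ : Subgroup G)
  obtain ⟨z, -, h2, -⟩ := H7.exists_orderOf_eq_center hS.pgroup (sylow_ne_bot hc hS)
  exact BS.four_of_simple hc (BS.Invo.of_orderOf h2)

theorem PiH.rank_le : PRankLE 2 2 G := by
  by_contra hr
  have hcon : ∀ t : G, orderOf t = 2 → IsPConstrained 2 (centralizer ({t} : Set G)) := fun t ht => by
    obtain ⟨K, hK⟩ := hM _ (cent_ne_top hc ht)
    have := h.solvable hK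
    exact IsPSolvable.isPConstrained isPSolvable_of_isSolvable
  obtain ⟨S, hS⟩ := exists_isSylowIn 2 (⊤ : Subgroup G)
  have h1 := sylow_ne_bot hc hS
  refine h.se_false hM (BS.se_of_stronglyEmbedded (Dich.stronglyEmbedded_of (M := normalizer (om S : Set G))
    (H6.normalizer_ne_top_of_pgroup hc (hS.pgroup.to_le (om_le S)) (om_ne_bot hS.pgroup h1)) hS h1
    (fun g hg => ?_) fun t htS ht g hg => ?_)) (four_top hc)
  · rw [← cj_eq_self_iff, cj_om, cj_eq_self hg]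
  obtain ⟨K, hK⟩ := hM _ (cent_ne_top hc ht)
  have h2 := Dich.core_eq_bot hcon BS.bs0 (Dich.index_ne_two_simple hc)
    (BS.pPrimeCore_eq_bot_of_simple (BS.Invo.of_orderOf ht)) hr ht
  have h3 : K = ⊥ := eq_bot_iff.mpr (h2 ▸ SF.le_Opp hK.le hK.norm (odd_of_pi' h.two hK.pi).not_two_dvd_nat)
  subst h3
  obtain ⟨T, hT, hZT⟩ := exists_isSylowIn_ge (hS.pgroup.to_le (om_le S))
    (show om S ≤ centralizer {t} from fun z hz => Dich.mem_cent.mpr (Dich.mem_cent.mp (hz.2.2 htS)).symm)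
  obtain ⟨S', hS', hTS⟩ := exists_isSylowIn_ge hT.pgroup le_top
  have h4 : om S = om S' := by
    refine eq_of_le_of_card_ge (fun z hz => h.zl hc hM hS hS' hz (hTS (hZT hz))) ?_
    obtain ⟨m, -, rfl⟩ := hS.exists_cj_eq hS'
    rw [← cj_om, card_cj]
  refine mem_normalizer_of_cj_le fun z hz => ?_
  have h5 := hS.cj g
  rw [cj_top] at h5
  rw [h4]
  exact h.zl hc hM h5 hS' (cj_om_le g S hz) (hTS (cj_le_of_mem_normalizer (h.cl _ T hK.pi_of_bot hT hg) hZT hz))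

theorem PiH.central (S : Sylow 2 G) : ∀ t ∈ (S : Subgroup G), t * t = 1 → ∀ s ∈ (S : Subgroup G), s * t = t * s := by
  have hS := isSylowIn_top S
  obtain ⟨z, hz, hz1⟩ := exists_mem_ne_one (om_ne_bot hS.pgroup (sylow_ne_bot hc hS))
  obtain ⟨g, hg, hne⟩ : ∃ g : G, g * z * g⁻¹ ∈ (S : Subgroup G) ∧ g * z * g⁻¹ ≠ z := by
    by_contra e
    push Not at e
    exact (H7.Isolated.of_sylow S hz.2.1 e).eq_one_or_comm.elim hz1 hc
  have h5 := hS.cj g
  rw [cj_top] at h5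
  have hz' := h.zl hc hM h5 hS (cj_om_le g _ (conj_mem_cj g hz)) hg
  intro t ht ht2 s hs
  have hE : IsElementaryAbelian 2 (om (S : Subgroup G)) :=
    elemAb_of (fun a ha b hb => Dich.mem_cent.mp (hb.2.2 ha.1)) fun a ha => by rw [pow_two, ha.2.1]
  have hE2 : IsElementaryAbelian 2 (om (S : Subgroup G) ⊔ zpowers t) :=
    elemAb_sup hE (elemAb_zpowers (by rw [pow_two, ht2])) fun a ha b hb =>
      (Dich.mem_cent.mp (ha.2.2 (zpowers_le.mpr ht hb))).symm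
  have h4 : 2 ^ 2 ≤ Nat.card (om (S : Subgroup G)) := by
    refine pow_succ_le_card_of_lt (elemAb_pgroup hE) ?_
    have hzo : orderOf z = 2 := H4.orderOf_eq_two_of hz.2.1 hz1
    refine lt_of_eq_of_lt (show 2 ^ 1 = Nat.card (zpowers z) by rw [Nat.card_zpowers, hzo]; rfl) ?_
    refine card_lt_of_lt (lt_of_le_of_ne (zpowers_le.mpr hz) fun e => ?_)
    rw [← e, (BS.Invo.of_orderOf hzo).mem_zpowers_iff] at hz'
    exact hz'.elim (fun e' => hz1 (by simpa using e')) hne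
  have h6 := h.rank_le hc hM _ hE2.1 hE2.2
  have h7 : om (S : Subgroup G) = om (S : Subgroup G) ⊔ zpowers t := eq_of_le_of_card_ge le_sup_left (h6.trans h4)
  have h8 : t ∈ om (S : Subgroup G) := h7 ▸ mem_sup_right (mem_zpowers t)
  exact Dich.mem_cent.mp (h8.2.2 hs)

end Cfsg.Agent.H3
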