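import Mathlib

/-! In `PSL(2, q)`, `q > 3` odd: real elements of order three, or a torus normalizing a `3`-subgroup. -/

set_option autoImplicit false

namespace Cfsg.Agent.H3

open Subgroup Matrix Polynomial MatrixGroups

variable {F : Type*} [Field F]

theorem psl_mk_neg (A B : SL(2, F)) (h : (A : Matrix (Fin 2) (Fin 2) F) = -B) :
    (QuotientGroup.mk A : PSL(2, F)) = QuotientGroup.mk B := by
  rw [QuotientGroup.eq, mem_center_iff]
  intro g
  have : ((A⁻¹ * B : SL(2, F)) : Matrix (Fin 2) (Fin 2) F) = -1 := by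
    have h1 : (B : Matrix (Fin 2) (Fin 2) F) = -A := by rw [h, neg_neg]
    rw [Matrix.SpecialLinearGroup.coe_mul, h1, mul_neg, ← Matrix.SpecialLinearGroup.coe_mul, inv_mul_cancel,
      Matrix.SpecialLinearGroup.coe_one]
  apply Matrix.SpecialLinearGroup.ext
  intro i j
  rw [Matrix.SpecialLinearGroup.coe_mul, Matrix.SpecialLinearGroup.coe_mul _ g, this]; simp

theorem psl_mk_eq {A B : SL(2, F)} (h : (QuotientGroup.mk A : PSL(2, F)) = QuotientGroup.mk B) :
    ∃ r : F, (B : Matrix (Fin 2) (Fin 2) F) = r • A := by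
  rw [QuotientGroup.eq, Matrix.SpecialLinearGroup.mem_center_iff] at h
  obtain ⟨r, -, h⟩ := h
  refine ⟨r, ?_⟩
  have : B = A * (A⁻¹ * B) := by group
  rw [this, Matrix.SpecialLinearGroup.coe_mul, ← h]
  simp [Matrix.scalar_apply, ← Matrix.smul_eq_mul_diagonal]

/-- a matrix of determinant one -/
def sl2 (a b c d : F) (h : a * d - b * c = 1) : SL(2, F) := ⟨!![a, b; c, d], by rw [det_fin_two_of, h]⟩

theorem coe_sl2 (a b c d : F) (h : a * d - b * c = 1) :
    ((sl2 a b c d h : SL(2, F)) : Matrix (Fin 2) (Fin 2) F) = !![a, b; c, d] := rfl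

/-- unipotent matrices -/
def uh : Multiplicative F →* SL(2, F) where
  toFun x := sl2 1 x.toAdd 0 1 (by simp)
  map_one' := by ext i j; fin_cases i <;> fin_cases j <;> simp [coe_sl2]
  map_mul' x y := by ext i j; fin_cases i <;> fin_cases j <;> simp [coe_sl2, Matrix.mul_apply, Fin.sum_univ_two, add_comm]

/-- diagonal matrices -/
def dh : Fˣ →* SL(2, F) where
  toFun x := sl2 x 0 0 (x⁻¹ : Fˣ) (by simp)
  map_one' := by ext i j; fin_cases i <;> fin_cases j <;> simp [coe_sl2]
  map_mul' x y := by ext i j; fin_cases i <;> fin_cases j <;> simp [coe_sl2, Matrix.mul_apply, Fin.sum_univ_two, mul_comm]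

theorem coe_uh (x : Multiplicative F) : ((uh x : SL(2, F)) : Matrix (Fin 2) (Fin 2) F) = !![1, x.toAdd; 0, 1] := rfl

theorem coe_dh (x : Fˣ) : ((dh x : SL(2, F)) : Matrix (Fin 2) (Fin 2) F) = !![(x : F), 0; 0, (x⁻¹ : Fˣ)] := rfl

theorem psl_real_three {a b : F} (hab : a ^ 2 + a * b + b ^ 2 = -1) :
    ∃ x g : PSL(2, F), orderOf x = 3 ∧ g * g = 1 ∧ g * x * g = x⁻¹ := by
  let u : SL(2, F) := sl2 0 (-1) 1 (-1) (by simp)
  let j : SL(2, F) := sl2 a b (a + b) (-a) (by linear_combination -hab)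
  refine ⟨QuotientGroup.mk u, QuotientGroup.mk j, ?_, ?_, ?_⟩
  · have := Fact.mk Nat.prime_three
    refine orderOf_eq_prime ?_ fun e => ?_
    · rw [← QuotientGroup.mk_pow, show u ^ 3 = 1 from ?_, QuotientGroup.mk_one]
      ext i k; fin_cases i <;> fin_cases k <;> simp [coe_sl2, u, pow_succ, Matrix.mul_apply, Fin.sum_univ_two]
    · obtain ⟨r, hr⟩ := psl_mk_eq (e : (QuotientGroup.mk u : PSL(2, F)) = QuotientGroup.mk 1)
      have := congrFun (congrFun hr 0) 0
      simp [coe_sl2, u] at this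
  · rw [← QuotientGroup.mk_mul, ← QuotientGroup.mk_one]
    refine psl_mk_neg _ _ ?_
    ext i k; fin_cases i <;> fin_cases k <;> simp [coe_sl2, j, Matrix.mul_apply, Fin.sum_univ_two]
    all_goals first | ring1 | linear_combination hab
  · rw [eq_inv_iff_mul_eq_one, ← QuotientGroup.mk_mul, ← QuotientGroup.mk_mul, ← QuotientGroup.mk_mul,
      ← QuotientGroup.mk_one]
    refine psl_mk_neg _ _ ?_
    ext i k; fin_cases i <;> fin_cases k <;> simp [coe_sl2, j, u, Matrix.mul_apply, Fin.sum_univ_two]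
    all_goals first | ring1 | linear_combination hab

theorem psl_false [Fintype F] (hF : Odd (Fintype.card F)) (h3 : Fintype.card F ≠ 3) {π : Set ℕ} (hπ : 3 ∈ π)
    (hA : ∀ (x g : PSL(2, F)) (r : ℕ), r.Prime → r ≠ 2 → r ∈ π → orderOf x = r → g * g = 1 → g * x * g = x⁻¹ → False)
    (hB : ∀ (H : Subgroup PSL(2, F)) (x : PSL(2, F)) (r : ℕ), IsPGroup 3 H → r.Prime → r ∉ π → orderOf x = r →
      x ∈ normalizer (H : Set PSL(2, F)) → x ∈ centralizer (H : Set PSL(2, F))) : False := by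
  classical
  have hF' : Fintype.card F % 2 = 1 := Nat.odd_iff.mp hF
  have hch : ringChar F ≠ 2 := fun h => by
    have := FiniteField.even_card_iff_char_two.mp h
    omega
  have h2 : (2 : F) ≠ 0 := Ring.two_ne_zero hch
  have key : ∀ a b : F, a ^ 2 + a * b + b ^ 2 ≠ -1 := fun a b hab => by
    obtain ⟨x, g, h1, h2, h3⟩ := psl_real_three hab
    exact hA x g 3 Nat.prime_three (by norm_num) hπ h1 h2 h3
  have h0 : (3 : F) = 0 := by
    by_contra h0
    obtain ⟨a, b, h⟩ := FiniteField.exists_root_sum_quadratic (f := X ^ 2 - C (-4 : F)) (g := C 3 * X ^ 2)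
      (degree_X_pow_sub_C two_pos _) (degree_C_mul_X_pow 2 h0) hF'
    simp only [eval_sub, eval_pow, eval_X, eval_C, eval_mul] at h
    refine key ((a - b) / 2) b ?_
    field_simp
    linear_combination h
  have h4 : Fintype.card F % 4 = 3 := by
    by_contra e
    obtain ⟨a, ha⟩ := FiniteField.isSquare_neg_one_iff.mpr e
    exact key a 0 (by rw [ha]; ring)
  obtain ⟨r, hr, hd⟩ := Nat.exists_prime_and_dvd (show Fintype.card F / 2 ≠ 1 by omega)
  have hr2 : r ≠ 2 := by rintro rfl; omega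
  have := Fact.mk hr
  obtain ⟨l, hl⟩ := exists_prime_orderOf_dvd_card (G := Fˣ) r (by
    rw [Fintype.card_units]
    exact hd.trans ⟨2, by omega⟩)
  have hl2 : (l : F) ≠ (l : F)⁻¹ := fun e => by
    have : l ^ 2 = 1 := Units.ext (by
      rw [Units.val_pow_eq_pow_val, pow_two, Units.val_one]; nth_rewrite 1 [e]; exact inv_mul_cancel₀ l.ne_zero)
    exact hr2 ((Nat.prime_dvd_prime_iff_eq hr Nat.prime_two).mp (hl ▸ orderOf_dvd_of_pow_eq_one this))
  let f : SL(2, F) →* PSL(2, F) := QuotientGroup.mk' _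
  have hx : orderOf (f (dh l)) = r := by
    refine orderOf_eq_prime (by rw [← map_pow, ← map_pow, ← hl, pow_orderOf_eq_one, map_one, map_one]) fun e => ?_
    obtain ⟨s, hs⟩ := psl_mk_eq (e.symm : (QuotientGroup.mk 1 : PSL(2, F)) = QuotientGroup.mk (dh l))
    have e1 := congrFun (congrFun hs 0) 0
    have e2 := congrFun (congrFun hs 1) 1
    simp [coe_dh] at e1 e2
    exact hl2 (e1.trans e2.symm)
  by_cases hrπ : r ∈ π
  · let w : SL(2, F) := sl2 0 1 (-1) 0 (by simp)
    refine hA (f (dh l)) (f w) r hr hr2 hrπ hx ?_ ?_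
    · rw [← map_mul, ← map_one f]
      refine psl_mk_neg _ _ ?_
      ext i k; fin_cases i <;> fin_cases k <;> simp [coe_sl2, w, Matrix.mul_apply, Fin.sum_univ_two]
    · rw [eq_inv_iff_mul_eq_one, ← map_mul, ← map_mul, ← map_mul, ← map_one f]
      refine psl_mk_neg _ _ ?_
      ext i k; fin_cases i <;> fin_cases k <;> simp [coe_sl2, w, coe_dh, Matrix.mul_apply, Fin.sum_univ_two]
  · have hc : ∀ (m : Fˣ) (x : Multiplicative F), dh m * uh x * (dh m)⁻¹ = uh (Multiplicative.ofAdd (m * m * x.toAdd)) := by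
      intro m x
      rw [← map_inv]
      ext i k; fin_cases i <;> fin_cases k <;> simp [coe_uh, coe_dh, Matrix.mul_apply, Fin.sum_univ_two]
      ring
    have hn : ∀ (m : Fˣ), ∀ y ∈ (f.comp uh).range, f (dh m) * y * (f (dh m))⁻¹ ∈ (f.comp uh).range := by
      rintro m _ ⟨x, rfl⟩
      exact ⟨Multiplicative.ofAdd (m * m * x.toAdd), by
        rw [MonoidHom.comp_apply, MonoidHom.comp_apply, ← hc m x, map_mul, map_mul, map_inv]⟩
    have h5 := hB (f.comp uh).range (f (dh l)) r (by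
      rintro ⟨_, x, rfl⟩
      refine ⟨1, Subtype.ext ?_⟩
      change (f.comp uh x) ^ 3 ^ 1 = 1
      rw [← map_pow, show x ^ 3 ^ 1 = 1 from ?_, map_one]
      apply Multiplicative.toAdd.injective
      rw [toAdd_pow, toAdd_one, pow_one, nsmul_eq_mul, Nat.cast_ofNat, h0, zero_mul]) hr hrπ hx (by
      rw [mem_normalizer_iff]
      refine fun y => ⟨hn l y, fun hy => ?_⟩
      have := hn l⁻¹ _ hy
      rw [map_inv, map_inv] at this
      simpa [mul_assoc] using this)
    have h6 := h5 _ ⟨Multiplicative.ofAdd 1, rfl⟩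
    rw [MonoidHom.comp_apply, ← map_mul, ← map_mul] at h6
    obtain ⟨s, hs⟩ := psl_mk_eq h6
    have e1 := congrFun (congrFun hs 0) 0
    have e2 := congrFun (congrFun hs 0) 1
    simp [coe_uh, coe_dh, Matrix.mul_apply, Fin.sum_univ_two] at e1 e2
    rw [e1, one_mul] at e2
    exact hl2 e2

theorem card_psl_dvd [Fintype F] (h3 : Fintype.card F = 3) : Nat.card PSL(2, F) ∣ 48 := by
  classical
  refine (card_quotient_dvd_card _).trans ((card_dvd_of_injective _ Matrix.SpecialLinearGroup.toGL_injective).trans ?_)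
  rw [Matrix.card_GL_field, h3]
  decide

end Cfsg.Agent.H3
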