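import Cfsg.Agent.H3.Pi2
import Cfsg.Agent.H3.Pi3
import Cfsg.Agent.WA.IR2
import Cfsg.Agent.GW.IMain
import Cfsg.Agent.L0.Char5

/-! π-homogeneous groups whose π-subgroups are 2-closed are π'-closed. -/

set_option autoImplicit false

namespace Cfsg.Agent.H3

open Subgroup Cfsg.Agent.L0 Cfsg.Agent.H8 MulAction

universe u

variable {G : Type u} [Group G] [Finite G] {π : Set ℕ}

local instance : Fact (Nat.Prime 2) := Nat.fact_prime_two

theorem ds_of_four (h : ∀ T : Subgroup G, IsSylowIn 2 T ⊤ → IsElementaryAbelian 2 T ∧ Nat.card T = 4) : GW.DS G := by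
  intro P hP
  by_cases h0 : P = ⊥
  · subst h0
    exact ⟨1, one_mem _, fun x hx h1 => (h1 (by rw [mem_bot.mp hx]; exact one_mem _)).elim,
      fun x hx _ _ h1 => (h1 (by rw [mem_bot.mp hx]; exact one_mem _)).elim⟩
  obtain ⟨ρ, hρ, h1⟩ := exists_mem_ne_one h0
  obtain ⟨T, hT, hPT⟩ := exists_isSylowIn_ge hP le_top
  obtain ⟨h2, h3⟩ := h T hT
  have h4 := relIndex_mul_card_of_le (zpowers_le.mpr (hPT hρ))
  rw [h3, Nat.card_zpowers, elemAb_orderOf h2 (hPT hρ) h1] at h4
  refine ⟨ρ, hρ, fun x hx _ => by rw [← pow_two, elemAb_pow h2 (hPT hx)], fun x hx y hy hx1 hy1 => ?_⟩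
  exact (mul_mem_iff_of_index_two (H := (zpowers ρ).subgroupOf T) (show (zpowers ρ).relIndex T = 2 by omega)
    (a := ⟨x, hPT hx⟩) (b := ⟨y, hPT hy⟩)).mpr (iff_of_false hx1 hy1)

theorem PiH.three_mem (h : PiH π G) (hG : commutator G = ⊤) (S : Sylow 2 G) (hE : IsElementaryAbelian 2 (S : Subgroup G))
    (h4 : Nat.card (S : Subgroup G) = 4) : 3 ∈ π := by
  by_contra h3
  refine H6.not_hasNormalPComplement_of_perfect hG (p := 2) ((show 2 ∣ 4 by norm_num).trans (h4 ▸ card_subgroup_dvd_card _))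
    (H6.hasNormalPComplement_of_normalizer_le_centralizer S (le_of_forall_isSylowIn_le fun p hp _ => ?_))
  by_cases e2 : p = 2
  · subst e2
    exact ⟨S, (isSylowIn_top S).of_le le_normalizer le_top, fun x hx y hy => elemAb_mul_comm hE hy hx⟩
  have := Fact.mk hp
  obtain ⟨P, hP⟩ := exists_isSylowIn p (normalizer ((S : Subgroup G) : Set G))
  refine ⟨P, hP, ?_⟩
  by_cases e3 : p = 3
  · subst e3
    exact h.hom _ P (piNum_pgroup h.two S.2) (piNum_pgroup (π := πᶜ) h3 hP.pgroup) hP.le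
  refine le_of_card_coprime_relIndex hP.le (normal_subgroupOf_of_le_normalizer (normalizer_le_normalizer_centralizer _)) ?_
  have h5 := (H6.relIndex_centralizer_dvd_card_mulAut (S : Subgroup G)).trans
    (card_dvd_of_injective (MulAut.toPerm (S : Subgroup G)) fun a b e => MulEquiv.ext fun x => congrFun (congrArg DFunLike.coe e) x)
  rw [Nat.card_perm, h4] at h5
  obtain ⟨n, hn⟩ := IsPGroup.iff_card.mp hP.pgroup
  rw [hn]
  refine Nat.Coprime.pow_left n (Nat.Coprime.coprime_dvd_right h5 ((Nat.Prime.coprime_iff_not_dvd hp).mpr fun hd => ?_))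
  have h6 := (Nat.Prime.dvd_factorial hp).mp hd
  have h7 := hp.two_le
  interval_cases p
  all_goals first | exact e2 rfl | exact e3 rfl | exact absurd hp (by norm_num)

theorem piSimple (π : Set ℕ) : PiSimple.{u} π := by
  intro G _ _ hs hc h hM
  obtain ⟨S⟩ := (inferInstance : Nonempty (Sylow 2 G))
  rcases WA.rank2 hc S (h.central hc hM S) (h.rank_le hc hM) with h4 | ⟨M, hse⟩
  swap
  · exact h.se_false hM (BS.se_of_stronglyEmbedded hse) (four_top hc)
  have hT : ∀ T : Subgroup G, IsSylowIn 2 T ⊤ → IsElementaryAbelian 2 T ∧ Nat.card T = 4 := fun T hT => by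
    obtain ⟨E, hE, hE4⟩ := not_prankLE_iff_top.mp (four_top hc).not_pRankLE
    obtain ⟨T', hT', hET⟩ := exists_isSylowIn_ge (elemAb_pgroup hE) le_top
    have h1 := hT'.card_eq_card (isSylowIn_top S)
    have h2 : E = T' := eq_of_le_of_card_ge hET (by rw [h1, h4]; exact hE4)
    obtain ⟨m, -, rfl⟩ := hT'.exists_cj_eq hT
    exact ⟨elemAb_cj (h2 ▸ hE) m, by rw [card_cj, h1, h4]⟩
  have h3 := h.three_mem (H6.perfect_of_simple hc) S (hT _ (isSylowIn_top S)).1 h4
  rcases GW.gw_psl hc (ds_of_four hT) with ⟨F, _, _, hF, ⟨e⟩⟩ | h5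
  · have h' := h.of_injective e.symm.toMonoidHom e.symm.injective
    refine psl_false hF (fun h6 => ?_) h3 (fun x g r h1 h2 h3 h4 h5 h6 => h'.not_inv h1 h2 h3 h4 h5 h6)
      fun H x r h1 h2 h7 h4 h5 => ?_
    · have h7 := card_psl_dvd h6
      rw [← Nat.card_congr e.toEquiv] at h7
      refine hc ⟨⟨IsSimpleGroup.comm_iff_isSolvable.mpr (isSolvable_of_primes Nat.prime_two Nat.prime_three
        fun r hr hd => ?_)⟩⟩
      rcases (Nat.Prime.dvd_mul hr).mp (hd.trans h7 : r ∣ 2 ^ 4 * 3) with h8 | h8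
      · exact Or.inl ((Nat.prime_dvd_prime_iff_eq hr Nat.prime_two).mp (hr.dvd_of_dvd_pow h8))
      · exact Or.inr ((Nat.prime_dvd_prime_iff_eq hr Nat.prime_three).mp h8)
    · have := Fact.mk Nat.prime_three
      refine h'.hom H (zpowers x) (piNum_pgroup h3 h1) (fun q hq hd => ?_) (zpowers_le.mpr h5) (mem_zpowers x)
      rw [Nat.card_zpowers, h4] at hd
      exact (Nat.prime_dvd_prime_iff_eq hq h2).mp hd ▸ h7
  · have h6 := S.card_eq_multiplicity
    rw [h4, h5, show 2520 = 2 ^ 3 * 315 by norm_num, Nat.factorization_mul (by norm_num) (by norm_num),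
      Nat.Prime.factorization_pow Nat.prime_two] at h6
    simp only [Finsupp.coe_add, Pi.add_apply, Finsupp.single_eq_same, pow_add] at h6
    omega

theorem PiH.closed (h : PiH π G) : ∃ K : Subgroup G, NH π K ⊤ := pi_aux (piSimple π) _ G rfl h

end Cfsg.Agent.H3
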