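import Cfsg.Agent.H5.T333
import Cfsg.Agent.L0.Char6

/-! Exceptional characters of a strongly self-centralizing subgroup. -/

set_option autoImplicit false
set_option linter.unusedSectionVars false

namespace Cfsg.Agent.H3.Sz

open Subgroup Cfsg.Agent.L0 Cfsg.Agent.H5
open scoped ComplexConjugate Classical

variable {G : Type*} [Group G] {A : Subgroup G}

/-- strongly self-centralizing -/
def SSC (A : Subgroup G) : Prop := ∀ a ∈ A, a ≠ 1 → centralizer ({a} : Set G) = A

/-- conjugate to a non-identity element of `A` -/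
def U (A : Subgroup G) (g : G) : Prop := ∃ a ∈ A, a ≠ 1 ∧ IsConj g a

theorem U.conj {g h : G} (hU : U A g) (e : IsConj h g) : U A h := by
  obtain ⟨a, ha, h1, h2⟩ := hU
  exact ⟨a, ha, h1, e.trans h2⟩

theorem not_U_one : ¬ U A 1 := fun ⟨_, _, h1, h2⟩ => h1 (isConj_one_right.1 h2)

theorem SSC.mem (h : SSC A) {a x : G} (ha : a ∈ A) (h1 : a ≠ 1) : x ∈ A ↔ x * a = a * x := by
  rw [← mem_centralizer_singleton_iff, h a ha h1]

theorem SSC.comm (h : SSC A) : ∀ a ∈ A, ∀ b ∈ A, a * b = b * a := fun a ha b hb => by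
  by_cases h1 : b = 1
  · simp [h1]
  · exact (h.mem hb h1).1 ha

theorem SSC.ti (h : SSC A) : TIs A := fun g a ha h1 hg => by
  rw [mem_normalizer_iff]
  intro x
  rw [h.mem ha h1, h.mem hg (fun e => h1 (by simpa using e))]
  constructor
  · intro e
    calc _ = g * (x * a) * g⁻¹ := by group
      _ = _ := by rw [e]; group
  · intro e
    calc _ = g⁻¹ * (g * x * g⁻¹ * (g * a * g⁻¹)) * g := by group
      _ = _ := by rw [e]; group

theorem lin_one [Finite G] (h : SSC A) (l : IrrCharacter A) : l.1 1 = 1 := by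
  obtain ⟨φ, e⟩ := exists_hom h.comm l; rw [e, map_one]

theorem SSC.reg [Finite G] (h : SSC A) {l : IrrCharacter A} (hl : l ≠ irrOne A)
    (n : normalizer (A : Set G)) : cj n l = l ↔ (n : G) ∈ A := by
  refine cj_eq_iff h.comm le_rfl (fun n hn a ha => (mem_normalizer_iff.1 hn a).1 ha)
    (fun n _ a ha h1 e => (h.mem ha h1).2 (by rw [← mul_inv_eq_iff_eq_mul, e])) ?_ n
  by_contra hc
  push Not at hc
  exact hl (Subtype.ext (funext fun a => hc a a.2))

theorem SSC.cf (h : SSC A) (f : A → ℂ) : IsClassFunction A f := fun a b => by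
  congr 1
  ext
  change (b : G) * a * (b : G)⁻¹ = a
  rw [h.comm _ b.2 _ a.2, mul_inv_cancel_right]

theorem card_norm [Finite G] (A : Subgroup G) : Nat.card (normalizer (A : Set G)) =
    Nat.card A * A.relIndex (normalizer (A : Set G)) := by
  rw [relIndex, ← card_mul_index (A.subgroupOf (normalizer (A : Set G))),
    Nat.card_congr (subgroupOfEquivOfLe le_normalizer).toEquiv]

theorem orb_const [Finite G] [Fintype (normalizer (A : Set G))] {f : A → ℂ} {a : A} {r : ℂ}
    (h : ∀ n : normalizer (A : Set G), f (A.normalizerMonoidHom n a) = r) :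
    orb f a = A.relIndex (normalizer (A : Set G)) * r := by
  rw [orb, Finset.sum_congr rfl fun n _ => h n, Finset.sum_const, Finset.card_univ,
    ← Nat.card_eq_fintype_card, card_norm, nsmul_eq_mul]
  have := natCard_ne_zero A
  push_cast
  field_simp

theorem SSC.sumU [Fintype G] (h : SSC A) {f : G → ℂ} (hf : IsClassFunction G f) {r : ℂ}
    (hr : ∀ a ∈ A, a ≠ 1 → f a = r) :
    (A.relIndex (normalizer (A : Set G)) * Nat.card A : ℂ) * ∑ g with U A g, f g =
      Nat.card G * (Nat.card A - 1) * r := by
  have := Fintype.ofFinite A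
  have := Fintype.ofFinite (normalizer (A : Set G))
  set φ : A → ℂ := fun a => if a = 1 then 0 else 1 with hφ
  have h1 := sum_indFun_mul A φ hf
  have h2 : ∀ g, indFun A φ g * f g =
      if U A g then A.relIndex (normalizer (A : Set G)) * f g else 0 := fun g => by
    split_ifs with hg
    · obtain ⟨a, ha, a1, e⟩ := hg
      rw [IsClassFunction.eq_of_isConj (indFun_isClassFunction A φ) e]
      have a1' : (⟨a, ha⟩ : A) ≠ 1 := fun e => a1 (congrArg Subtype.val e)
      have := indFun_eq_orb h.ti φ ⟨a, ha⟩ a1'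
      rw [orb_const (r := 1) (fun n => by simp [hφ, a1']), mul_one] at this
      exact congrArg (· * f g) this
    · rw [indFun_eq_zero (fun x hx => by
        by_contra hc
        exact hg ⟨x, x.2, fun e => hc (by simp [hφ, show x = 1 from Subtype.ext e]), hx⟩), zero_mul]
  have h3 : ∑ x : A, φ x * f x = (Nat.card A - 1) * r := by
    rw [Finset.sum_congr rfl (g := fun x => r - if x = 1 then r else 0) fun x _ => by
      by_cases e : x = 1
      · simp [hφ, e]
      · simp [hφ, e, hr x x.2 fun e' => e (Subtype.ext e')]]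
    simp [Finset.sum_sub_distrib, Nat.card_eq_fintype_card]
    ring
  rw [Finset.sum_congr rfl fun g _ => h2 g, ← Finset.sum_filter, ← Finset.mul_sum, h3] at h1
  rw [← A.card_mul_index]
  push_cast
  linear_combination (Nat.card A : ℂ) * h1

/-- the exceptional characters -/
structure Exc [Fintype G] (A : Subgroup G) (e k : ℕ) where
  E : Finset (IrrCharacter G)
  ψ : IrrCharacter G
  ε : ℤ
  c : ℤ
  d : IrrCharacter G → ℤ
  hε : ε = 1 ∨ ε = -1
  card : E.card = k
  ψ_mem : ψ ∈ E
  agree : ∀ χ ∈ E, ∀ g, ¬ U A g → χ.1 g = ψ.1 g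
  const : ∀ χ ∉ E, ∀ a ∈ A, a ≠ 1 → χ.1 a = d χ
  dE : ∀ χ ∈ E, d χ = ε * (c - if χ = ψ then 1 else 0)
  norm : ∑ χ, d χ ^ 2 = e + 1
  van : ∀ g, ¬ U A g → ∑ χ, (d χ : ℂ) * χ.1 g = 0
  pair : ∀ f, IsClassFunction G f → ∀ r : ℂ, (∀ a ∈ A, a ≠ 1 → f a = r) →
    ∑ χ, (d χ : ℂ) * classInner f χ.1 = r

theorem SSC.exc [Fintype G] (h : SSC A) (hA : 1 < Nat.card A) :
    ∃ k, A.relIndex (normalizer (A : Set G)) * k + 1 = Nat.card A ∧
      Nonempty (Exc A (A.relIndex (normalizer (A : Set G))) k) := by
  have := Fintype.ofFinite A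
  have := Fintype.ofFinite (normalizer (A : Set G))
  set e := A.relIndex (normalizer (A : Set G)) with he
  have one := lin_one h
  have cardI : Fintype.card (IrrCharacter A) = Nat.card A := by
    have := sum_irr_degree_sq (G := A)
    simp only [one, one_pow, Finset.sum_const, Finset.card_univ, nsmul_eq_mul, mul_one] at this
    exact_mod_cast this
  obtain ⟨m, hm⟩ := Fintype.exists_ne_of_one_lt_card (cardI ▸ hA) (irrOne A)
  obtain ⟨ψ, ε, hε, hx⟩ := exceptional h.ti h.comm (· ≠ irrOne A) (fun l hl => h.reg hl) hm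
  have : Nonempty (IrrCharacter G) := ⟨ψ⟩
  choose! X hX using hx
  have ε0 : ε ≠ 0 := by rcases hε with h | h <;> simp [h]
  have εc : conj ε = ε := by rcases hε with h | h <;> simp [h]
  have ε2 : ε * ε = 1 := by rcases hε with h | h <;> simp [h]
  have res : ∀ l l' : IrrCharacter A, (fun a : A => (indFun A l.1 - indFun A l'.1) a) =
      orb l.1 - orb l'.1 := fun l l' => by
    funext a
    by_cases ha : a = 1
    · subst ha
      simp [indFun_apply_one, orb, one]
    · simp [indFun_eq_orb h.ti _ a ha]
  have cf : ∀ l l' : IrrCharacter A, IsClassFunction G (indFun A l.1 - indFun A l'.1) :=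
    fun l l' => IsClassFunction.sub (indFun_isClassFunction _ _) (indFun_isClassFunction _ _)
  have zer : ∀ l l' : IrrCharacter A, ∀ g, ¬ U A g → (indFun A l.1 - indFun A l'.1) g = 0 :=
    fun l l' g hg => by
      rw [← indFun_sub]
      refine indFun_eq_zero fun x hx => ?_
      by_cases e : x = 1
      · simp [e, one]
      · exact absurd ⟨x, x.2, fun e' => e (Subtype.ext e'), hx⟩ hg
  have cj1 : ∀ n : normalizer (A : Set G), cj n (irrOne A) = irrOne A := fun n => rfl
  have ne1 : ∀ {l : IrrCharacter A} {n}, l ≠ irrOne A → cj n l ≠ irrOne A := fun {l n} hl e =>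
    hl (by rw [← cj_one l, ← mul_inv_cancel n, cj_mul, e, cj1])
  have diff : ∀ l l', l ≠ irrOne A → l' ≠ irrOne A →
      indFun A l.1 - indFun A l'.1 = ε • ((X l).1 - (X l').1) := fun l l' hl hl' => by
    have : indFun A l.1 - indFun A l'.1 =
      (indFun A l.1 - indFun A m.1) - (indFun A l'.1 - indFun A m.1) := by abel
    rw [this, hX l hl, hX l' hl', ← smul_sub]; congr 1; abel
  have Xm : X m = ψ := by
    have := hX m hm
    rw [sub_self, eq_comm, smul_eq_zero_iff_right ε0, sub_eq_zero] at this
    exact Subtype.ext this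
  have fib : ∀ l l', l ≠ irrOne A → l' ≠ irrOne A → (X l = X l' ↔ ∃ n, cj n l' = l) :=
    fun l l' hl hl' => by
      have h1 := classInner_indFun_right A l.1 (cf l l')
      rw [res, classInner_sub_left (orb l.1), inner_orb_reg (h.reg hl), inner_orb_reg (h.reg hl'),
        if_pos ⟨1, cj_one l⟩] at h1
      constructor
      · intro e
        rw [diff l l' hl hl', e, sub_self, smul_zero, classInner_zero_left] at h1
        by_contra hc
        rw [if_neg hc] at h1
        norm_num at h1
      · rintro ⟨n, rfl⟩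
        have h2 : indFun A (cj n l').1 - indFun A l'.1 = 0 := by
          funext g
          by_cases hg : U A g
          · obtain ⟨a, ha, -, e⟩ := hg
            rw [IsClassFunction.eq_of_isConj (cf _ _) e]
            have := congrFun (res (cj n l') l') ⟨a, ha⟩
            rw [orb_cj, sub_self] at this
            exact this
          · exact zer _ _ g hg
        rw [diff _ _ hl hl', smul_eq_zero_iff_right ε0, sub_eq_zero] at h2
        exact Subtype.ext h2
  have ocard : ∀ l, l ≠ irrOne A →
      (Finset.univ.filter fun l' => ∃ n : normalizer (A : Set G), cj n l = l').card = e :=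
    fun l hl => by
      have h1 := IsClassFunction.apply_eq_sum_irr (h.cf (orb l.1)) 1
      simp only [inner_orb_reg (h.reg hl), one, mul_one, Finset.sum_boole] at h1
      rw [orb_const (r := 1) (fun n => by rw [map_one, one]), mul_one] at h1
      exact_mod_cast h1.symm
  set E := (Finset.univ.erase (irrOne A)).image X with hE
  have memE : ∀ {χ}, χ ∈ E ↔ ∃ l, l ≠ irrOne A ∧ X l = χ := by simp [hE]
  set η := indFun A (irrOne A).1 - indFun A m.1 with hη
  have gη : IsGeneralizedCharacter G η :=
    IsGeneralizedCharacter.sub (IsGeneralizedCharacter.indFun (IsIrrCharacter.isGeneralized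
      (irrOne A).2)) (IsGeneralizedCharacter.indFun (IsIrrCharacter.isGeneralized m.2))
  obtain ⟨d, hd, hd1, hd2⟩ := IsGeneralizedCharacter.exists_eq_sum_zsmul gη
  have hd' : ∀ χ : IrrCharacter G, classInner χ.1 η = d χ := fun χ => by
    rw [← conj_classInner, hd, map_intCast]
  have o1 : orb (irrOne A).1 = (e : ℂ) • (irrOne A).1 := by
    funext a
    rw [orb_const (r := 1) (fun n => rfl)]; simp [irrOne_val, he]
  obtain ⟨ε', hε', hε''⟩ : ∃ ε' : ℤ, (ε' : ℂ) = ε ∧ (ε' = 1 ∨ ε' = -1) := by
    rcases hε with h | h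
    · exact ⟨1, by simp [h], Or.inl rfl⟩
    · exact ⟨-1, by simp [h], Or.inr rfl⟩
  refine ⟨E.card, ?_, ⟨⟨E, ψ, ε', ε' * d ψ + 1, d, hε'', rfl, memE.2 ⟨m, hm, Xm⟩, ?_, ?_, ?_, ?_,
    ?_, ?_⟩⟩⟩
  · have h1 := Finset.card_eq_sum_card_image X (Finset.univ.erase (irrOne A))
    rw [Finset.sum_congr rfl (g := fun _ => e) fun χ hχ => by
      obtain ⟨l, hl, rfl⟩ := memE.1 hχ
      rw [← ocard l hl]
      congr 1
      ext l'
      simp only [Finset.mem_filter, Finset.mem_erase, Finset.mem_univ, and_true, true_and]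
      exact ⟨fun h => (fib _ _ h.1 hl).1 h.2, fun ⟨n, e⟩ =>
        ⟨e ▸ ne1 hl, (fib _ _ (e ▸ ne1 hl) hl).2 ⟨n, e⟩⟩⟩, Finset.sum_const, smul_eq_mul,
      Finset.card_erase_of_mem (Finset.mem_univ _), Finset.card_univ, cardI] at h1
    rw [mul_comm, ← h1]; omega
  · intro χ hχ g hg
    obtain ⟨l, hl, rfl⟩ := memE.1 hχ
    have := zer l m g hg
    rw [hX l hl] at this
    simpa [ε0, sub_eq_zero] using this
  · intro χ hχ a ha a1
    have cχ := IsIrrCharacter.isClassFunction χ.2
    have h1 : ∀ l, l ≠ irrOne A →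
        classInner (fun x : A => χ.1 x) l.1 = classInner (fun x : A => χ.1 x) m.1 := fun l hl => by
      rw [← classInner_indFun_right _ _ cχ, ← classInner_indFun_right _ _ cχ, ← sub_eq_zero,
        ← classInner_sub_right, hX l hl, classInner_smul_right, classInner_sub_right,
        classInner_irr, classInner_irr, if_neg fun e => hχ (memE.2 ⟨l, hl, e.symm⟩),
        if_neg fun e => hχ (memE.2 ⟨m, hm, Xm.trans e.symm⟩)]
      simp
    have h2 := IsClassFunction.apply_eq_sum_irr (h.cf fun x : A => χ.1 x) ⟨a, ha⟩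
    have h3 := sum_irr_degree_mul (G := A) ⟨a, ha⟩
    rw [if_neg fun e => a1 (congrArg Subtype.val e)] at h3
    simp only [one, one_mul] at h3
    rw [← Finset.add_sum_erase _ _ (Finset.mem_univ (irrOne A))] at h2 h3
    rw [Finset.sum_congr rfl fun l hl => by rw [h1 l (Finset.ne_of_mem_erase hl)],
      ← Finset.mul_sum] at h2
    have h4 := hd' χ
    rw [hη, classInner_sub_right, classInner_indFun_right _ _ cχ,
      classInner_indFun_right _ _ cχ] at h4
    rw [irrOne_val, Pi.one_apply] at h2 h3
    rw [irrOne_val] at h4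
    linear_combination h2 + h4 + classInner (fun x : A => χ.1 x) m.1 * h3
  · intro χ hχ
    obtain ⟨l, hl, rfl⟩ := memE.1 hχ
    have h1 : classInner η (indFun A l.1 - indFun A m.1) = 1 - if X l = ψ then 1 else 0 := by
      rw [classInner_sub_right, classInner_indFun_right _ _ (cf _ _),
        classInner_indFun_right _ _ (cf _ _), res, classInner_sub_left, classInner_sub_left, o1,
        classInner_smul_left, classInner_smul_left, classInner_irr, classInner_irr,
        if_neg hl.symm, if_neg hm.symm, inner_orb_reg (h.reg hm), inner_orb_reg (h.reg hm),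
        if_pos (⟨1, cj_one m⟩ : ∃ n, cj n m = m), ← Xm]
      simp only [fib l m hl hm]
      ring
    rw [hX l hl, classInner_smul_right, classInner_sub_right, hd, hd, εc, ← hε'] at h1
    have h2 : ε' * ε' = 1 := by rcases hε'' with h | h <;> simp [h]
    have h3 : ε' * (d (X l) - d ψ) = 1 - if X l = ψ then 1 else 0 := by exact_mod_cast h1
    linear_combination ε' * h3 - d (X l) * h2
  · rw [hη, classInner_sub_right, classInner_indFun_right _ _ (cf _ _),
      classInner_indFun_right _ _ (cf _ _), res, classInner_sub_left, classInner_sub_left, o1,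
      classInner_smul_left, classInner_smul_left, classInner_irr, classInner_irr, if_pos rfl,
      if_neg hm.symm, inner_orb_reg (h.reg hm), inner_orb_reg (h.reg hm),
      if_pos (⟨1, cj_one m⟩ : ∃ n, cj n m = m), if_neg fun ⟨n, e⟩ => ne1 hm e] at hd2
    have : ((∑ χ, d χ ^ 2 : ℤ) : ℂ) = ((e + 1 : ℤ) : ℂ) := by rw [← hd2]; push_cast; ring
    exact_mod_cast this
  · intro g hg
    have := zer (irrOne A) m g hg
    rw [← hη, hd1, Finset.sum_apply] at this
    simpa using this
  · intro f hf r hr
    have h1 := IsClassFunction.classInner_eq_sum (θ := f) (cf (irrOne A) m)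
    simp only [← hη, hd, map_intCast] at h1
    rw [Finset.sum_congr rfl fun χ _ => mul_comm _ _, ← h1, hη, ← indFun_sub,
      classInner_indFun_right _ _ hf]
    have h2 : classInner (fun x : A => f x) ((irrOne A).1 - m.1) =
        classInner (r • (irrOne A).1) ((irrOne A).1 - m.1) := by
      simp only [classInner_def]
      congr 1
      refine Finset.sum_congr rfl fun x _ => ?_
      by_cases e : x = 1
      · simp [e, one]
      · simp [irrOne_val, hr x x.2 fun e' => e (Subtype.ext e')]
    rw [h2, classInner_smul_left, classInner_sub_right, classInner_irr, classInner_irr,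
      if_pos rfl, if_neg hm.symm]
    ring

end Cfsg.Agent.H3.Sz
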