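import Mathlib

/-! Arithmetic for the self-centralization system of type `(2,4,4)`. -/

set_option autoImplicit false

namespace Cfsg.Agent.H3.Sz

theorem qq {k c : ℤ} (hk : 2 ≤ k) (h : k * c ^ 2 - 2 * c ≤ 3) : c = 0 ∨ c = 1 := by
  have h1 : c < 2 := by by_contra; nlinarith
  have h2 : -1 < c := by by_contra; nlinarith
  omega

theorem sq01 {k X r : ℤ} (hk : 2 ≤ k) (h : (X - 1) ^ 2 + k * X ^ 2 + r = 3) (hr : 0 ≤ r) :
    X = 0 ∨ X = 1 ∧ k ≤ 3 := by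
  have h1 : X < 2 := by by_contra; nlinarith
  have h2 : -1 < X := by by_contra; nlinarith
  rcases (by omega : X = 0 ∨ X = 1) with rfl | rfl
  · exact Or.inl rfl
  · exact Or.inr ⟨rfl, by linarith⟩

theorem zz {k Z r : ℤ} (hk : 2 ≤ k) (h : k * Z ^ 2 + r = 2) (hr : 0 ≤ r) :
    Z = 0 ∨ k = 2 ∧ r = 0 ∧ (Z = 1 ∨ Z = -1) := by
  have h1 : Z < 2 := by by_contra; nlinarith
  have h2 : -2 < Z := by by_contra; nlinarith
  rcases (by omega : Z = 0 ∨ Z = 1 ∨ Z = -1) with rfl | rfl | rfl <;> omega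

theorem zz1 {k Z r : ℤ} (hk : 2 ≤ k) (h : k * Z ^ 2 + r ≤ 1) (hr : 0 ≤ r) : Z = 0 := by
  by_contra h0
  have : 0 < Z ^ 2 := by positivity
  nlinarith

theorem theta_bd {k1 k2 k3 X2 X3 c2 c3 Y Z s2 s3 p : ℤ} (h1 : 2 ≤ k1) (h2 : 2 ≤ k2) (h3 : 2 ≤ k3)
    (h23 : k2 ≠ k3) (hs2 : 0 ≤ s2) (hs3 : 0 ≤ s3)
    (e2 : (X2 - 1) ^ 2 + k1 * X2 ^ 2 + (k2 * c2 ^ 2 - 2 * c2) + k3 * Z ^ 2 + s2 = 3)
    (e3 : (X3 - 1) ^ 2 + k1 * X3 ^ 2 + (k3 * c3 ^ 2 - 2 * c3) + k2 * Y ^ 2 + s3 = 3)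
    (e : 1 + (X2 - 1) * (X3 - 1) + k1 * (X2 * X3) + Y * (k2 * c2 - 1) + Z * (k3 * c3 - 1) + p = 0) :
    s2 + s3 + p ≤ 2 ∧ (X2 = 0 ∨ X2 = 1 ∧ k1 ≤ 3) ∧ (X3 = 0 ∨ X3 = 1 ∧ k1 ≤ 3) := by
  have a1 : 0 ≤ k1 * X2 ^ 2 := by positivity
  have a2 : 0 ≤ k1 * X3 ^ 2 := by positivity
  have a3 : 0 ≤ k3 * Z ^ 2 := by positivity
  have a4 : 0 ≤ k2 * Y ^ 2 := by positivity
  have a5 := sq_nonneg (X2 - 1)
  have a6 := sq_nonneg (X3 - 1)
  have b2 := qq h2 (c := c2) (by linarith)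
  have b3 := qq h3 (c := c3) (by linarith)
  have q2 : 0 ≤ k2 * c2 ^ 2 - 2 * c2 := by rcases b2 with rfl | rfl <;> linarith
  have q3 : 0 ≤ k3 * c3 ^ 2 - 2 * c3 := by rcases b3 with rfl | rfl <;> linarith
  have x2 := sq01 h1 (X := X2) (r := k2 * c2 ^ 2 - 2 * c2 + k3 * Z ^ 2 + s2) (by linarith)
    (by linarith)
  have x3 := sq01 h1 (X := X3) (r := k3 * c3 ^ 2 - 2 * c3 + k2 * Y ^ 2 + s3) (by linarith)
    (by linarith)
  refine ⟨?_, x2, x3⟩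
  have zZ : X2 = 0 → _ := fun h =>
    zz h3 (Z := Z) (r := k2 * c2 ^ 2 - 2 * c2 + s2) (by rw [h] at e2; linarith) (by linarith)
  have zY : X3 = 0 → _ := fun h =>
    zz h2 (Z := Y) (r := k3 * c3 ^ 2 - 2 * c3 + s3) (by rw [h] at e3; linarith) (by linarith)
  have zZ' : X2 = 1 → Z = 0 := fun h =>
    zz1 h3 (r := k2 * c2 ^ 2 - 2 * c2 + s2) (by rw [h] at e2; linarith) (by linarith)
  have zY' : X3 = 1 → Y = 0 := fun h =>
    zz1 h2 (r := k3 * c3 ^ 2 - 2 * c3 + s3) (by rw [h] at e3; linarith) (by linarith)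
  rcases x2 with rfl | ⟨rfl, -⟩ <;> rcases x3 with rfl | ⟨rfl, -⟩
  · rcases zZ rfl with rfl | ⟨rfl, a, rfl | rfl⟩ <;> rcases zY rfl with rfl | ⟨rfl, b, rfl | rfl⟩ <;>
      rcases b2 with rfl | rfl <;> rcases b3 with rfl | rfl <;> omega
  · obtain rfl := zY' rfl
    rcases zZ rfl with rfl | ⟨rfl, a, rfl | rfl⟩ <;>
      rcases b2 with rfl | rfl <;> rcases b3 with rfl | rfl <;> omega
  · obtain rfl := zZ' rfl
    rcases zY rfl with rfl | ⟨rfl, a, rfl | rfl⟩ <;>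
      rcases b2 with rfl | rfl <;> rcases b3 with rfl | rfl <;> omega
  · obtain rfl := zZ' rfl
    obtain rfl := zY' rfl
    rcases b2 with rfl | rfl <;> rcases b3 with rfl | rfl <;> omega

theorem kw_bd {k w j m N : ℤ} (hN : 0 < N) (hk : 0 < k) (hj : j = 1 ∨ j = 2) (hw : 0 < w)
    (hm : m ≤ 3 * N) (hjm : j * N < m) (h1 : k * m ≤ w ^ 2 * N)
    (h2 : j ≤ w → (w - j) ^ 2 * N ≤ (k + 3) * (m - j * N)) : k ≤ 18 ∧ w ≤ 7 := by
  have h0 : k * j < w ^ 2 := by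
    by_contra hc
    nlinarith
  have hjw : j ≤ w := by
    by_contra hc
    obtain rfl : j = 2 := by omega
    obtain rfl : w = 1 := by omega
    omega
  have h3 := h2 hjw
  have h4 : (w - j) ^ 2 ≤ (k + 3) * (3 - j) := by
    by_contra hc
    have : (k + 3) * (m - j * N) ≤ (k + 3) * ((3 - j) * N) := by
      apply mul_le_mul_of_nonneg_left <;> linarith
    nlinarith
  have h5 : k * (w - j) ^ 2 ≤ (k + 3) * (w ^ 2 - j * k) := by
    by_contra hc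
    have a1 : (k + 3) * (k * m - k * (j * N)) ≤ (k + 3) * (w ^ 2 * N - k * (j * N)) := by
      apply mul_le_mul_of_nonneg_left <;> linarith
    have a2 := mul_le_mul_of_nonneg_left h3 hk.le
    nlinarith
  rcases hj with rfl | rfl
  · have h6 : k ≤ 3 * w := by by_contra; nlinarith
    have h7 : w ≤ 8 := by by_contra; nlinarith
    have h8 : w ≠ 8 := by rintro rfl; nlinarith
    refine ⟨?_, by omega⟩
    by_contra
    have : w ≤ 7 := by omega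
    nlinarith
  · have h6 : k ≤ 3 * w := by by_contra; nlinarith
    have h7 : w ≤ 6 := by by_contra; nlinarith
    omega

/-- the conditions on the numbers -/
def Cond (k1 k2 k3 x T ν w : ℤ) : Prop :=
  let N := (2 * k1 + 1) * ((4 * k2 + 1) * (4 * k3 + 1))
  let m := T * ν ^ 2
  (T * ν) % w = 0 ∧ (k1 + k2 + k3) * m ≤ w ^ 2 * N ∧
    (∃ j ∈ [1, 2], 0 ≤ m * N - j * N ^ 2 - k1 * x ^ 2 - (x - 1) ^ 2 - 1 ∧
      ((w - j) * N - |x - 1| - k1 * |x| ≤ 0 ∨ ((w - j) * N - |x - 1| - k1 * |x|) ^ 2 ≤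
        (k2 + k3 + 2) * (m * N - j * N ^ 2 - k1 * x ^ 2 - (x - 1) ^ 2 - 1))) ∧
    ∃ a ∈ [x - T * ν / w, x + T * ν / w], 1 + (a - 1) ^ 2 + k1 * a ^ 2 ≤ ν * (T * ν / w)

instance (k1 k2 k3 x T ν w : ℤ) : Decidable (Cond k1 k2 k3 x T ν w) := by
  unfold Cond; infer_instance

/-- loop with early exit -/
def loop (T B : ℤ) (f : ℕ → Bool) : ℕ → ℕ → Bool
  | 0, ν => decide (B < T * ν ^ 2)
  | n + 1, ν => decide (B < T * ν ^ 2) || (f ν && loop T B f n (ν + 1))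

theorem loop_spec {T B : ℤ} (hT : 0 ≤ T) {f : ℕ → Bool} : ∀ n ν, loop T B f n ν = true →
    ∀ μ : ℕ, ν ≤ μ → T * μ ^ 2 ≤ B → f μ = true := by
  have key : ∀ ν μ : ℕ, ν ≤ μ → T * μ ^ 2 ≤ B → ¬ B < T * ν ^ 2 := fun ν μ h1 h2 h3 => by
    have : T * (ν : ℤ) ^ 2 ≤ T * μ ^ 2 := by gcongr
    omega
  intro n
  induction n with
  | zero => intro ν h μ h1 h2; exact absurd (by simpa [loop] using h) (key ν μ h1 h2)
  | succ n ih =>
    intro ν h μ h1 h2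
    simp only [loop, Bool.or_eq_true, decide_eq_true_eq, Bool.and_eq_true] at h
    obtain ⟨h3, h4⟩ := h.resolve_left (key ν μ h1 h2)
    rcases h1.eq_or_lt with rfl | h1
    · exact h3
    · exact ih _ h4 μ h1 h2

/-- check of one degree -/
def core (k1 k2 k3 x : ℤ) : Bool :=
  !(decide (x % (2 * k1 + 1) = 2) && decide (x % (4 * k2 + 1) ≤ 1)) ||
    loop (x * (x - 1) / ((4 * k2 + 1) * (4 * k3 + 1)))
      (3 * ((2 * k1 + 1) * ((4 * k2 + 1) * (4 * k3 + 1))))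
      (fun ν => [1, 2, 3, 4, 5, 6, 7].all fun w =>
        !decide (Cond k1 k2 k3 x (x * (x - 1) / ((4 * k2 + 1) * (4 * k3 + 1))) ν w)) 200 1

/-- all triples -/
def tri (l : List ℕ) (f : ℕ → ℕ → ℕ → Bool) : Bool :=
  l.all fun k1 => (List.range' 2 13).all fun k2 => (List.range' 2 13).all fun k3 =>
    !(decide (k1 + k2 + k3 ≤ 18) && decide (Nat.gcd (2 * k1 + 1) (4 * k2 + 1) = 1) &&
      decide (Nat.gcd (2 * k1 + 1) (4 * k3 + 1) = 1) &&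
      decide (Nat.gcd (4 * k2 + 1) (4 * k3 + 1) = 1)) || f k1 k2 k3

theorem chkA : tri (List.range' 2 13) (fun k1 k2 k3 => (List.range (4 * k1 + 2)).all fun s =>
    core k1 k2 k3 ((s - (2 * k1 + 1)) * ((4 * k2 + 1) * (4 * k3 + 1)))) = true := by
  decide +kernel

theorem chkB : tri [2, 3] (fun k1 k2 k3 =>
    (List.range (2 * ((2 * k1 + 1) * (4 * k2 + 1)))).all fun s =>
      core k1 k2 k3 ((s - (2 * k1 + 1) * (4 * k2 + 1)) * (4 * k3 + 1)) &&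
      core k1 k2 k3 ((s - (2 * k1 + 1) * (4 * k2 + 1)) * (4 * k3 + 1) + 1)) = true := by
  decide +kernel

end Cfsg.Agent.H3.Sz
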