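import Cfsg.Agent.H3.Sz2

/-! Arithmetic for the self-centralization system of type `(2,4,4)`: no degree `n₁ n₂ n₃`. -/

set_option autoImplicit false

namespace Cfsg.Agent.H3.Sz

theorem tri_spec {l : List ℕ} {f : ℕ → ℕ → ℕ → Bool} (h : tri l f = true) {k1 k2 k3 : ℕ}
    (h0 : k1 ∈ l) (h1 : 2 ≤ k1) (h2 : 2 ≤ k2) (h3 : 2 ≤ k3) (hs : k1 + k2 + k3 ≤ 18)
    (c12 : Nat.Coprime (2 * k1 + 1) (4 * k2 + 1)) (c13 : Nat.Coprime (2 * k1 + 1) (4 * k3 + 1))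
    (c23 : Nat.Coprime (4 * k2 + 1) (4 * k3 + 1)) : f k1 k2 k3 = true := by
  simp only [tri, List.all_eq_true] at h
  have := h k1 h0 k2 (by simp [List.mem_range'_1]; omega) k3 (by simp [List.mem_range'_1]; omega)
  simpa [hs, c12.gcd_eq_one, c13.gcd_eq_one, c23.gcd_eq_one] using this

theorem core_spec {k1 k2 k3 x T ν w : ℤ} (h : core k1 k2 k3 x = true)
    (h1 : x % (2 * k1 + 1) = 2) (h2 : x % (4 * k2 + 1) ≤ 1)
    (hT : x * (x - 1) / ((4 * k2 + 1) * (4 * k3 + 1)) = T) (T0 : 0 ≤ T) (hν : 0 < ν)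
    (hw : 0 < w) (hw' : w ≤ 7)
    (hm : T * ν ^ 2 ≤ 3 * ((2 * k1 + 1) * ((4 * k2 + 1) * (4 * k3 + 1)))) :
    ¬ Cond k1 k2 k3 x T ν w := by
  simp only [core, h1, h2, hT, decide_true, Bool.and_self, Bool.not_true, Bool.false_or] at h
  obtain ⟨ν, rfl⟩ := Int.eq_ofNat_of_zero_le hν.le
  have := loop_spec T0 _ _ h ν (by omega) hm
  simp only [List.all_eq_true] at this
  simpa using this w (by simp; omega)

theorem fin {k1 k2 k3 : ℕ} (h1 : 2 ≤ k1) (h2 : 2 ≤ k2) (h3 : 2 ≤ k3) (hs : k1 + k2 + k3 ≤ 18)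
    (c12 : Nat.Coprime (2 * k1 + 1) (4 * k2 + 1)) (c13 : Nat.Coprime (2 * k1 + 1) (4 * k3 + 1))
    (c23 : Nat.Coprime (4 * k2 + 1) (4 * k3 + 1)) {x T ν w X2 X3 : ℤ}
    (d1 : (2 * k1 + 1 : ℤ) ∣ x - 2) (d2 : (4 * k2 + 1 : ℤ) ∣ x - X2) (d3 : (4 * k3 + 1 : ℤ) ∣ x - X3)
    (hX2 : X2 = 0 ∨ X2 = 1 ∧ (k1 : ℤ) ≤ 3) (hX3 : X3 = 0 ∨ X3 = 1 ∧ (k1 : ℤ) ≤ 3)
    (hx : |x| < (2 * k1 + 1) * ((4 * k2 + 1) * (4 * k3 + 1)))
    (hT : x * (x - 1) = (4 * k2 + 1) * (4 * k3 + 1) * T) (T0 : 0 ≤ T) (hν : 0 < ν)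
    (hw : 0 < w) (hw' : w ≤ 7)
    (hm : T * ν ^ 2 ≤ 3 * ((2 * k1 + 1) * ((4 * k2 + 1) * (4 * k3 + 1)))) :
    ¬ Cond k1 k2 k3 x T ν w := by
  have m1 : x % (2 * k1 + 1) = 2 := by
    rw [(Int.modEq_iff_dvd.2 d1).symm, Int.emod_eq_of_lt (by omega) (by omega)]
  have m2 : x % (4 * k2 + 1) ≤ 1 := by
    rw [(Int.modEq_iff_dvd.2 d2).symm, Int.emod_eq_of_lt (by omega) (by omega)]; omega
  have hT' : x * (x - 1) / ((4 * k2 + 1) * (4 * k3 + 1)) = T := by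
    rw [hT, Int.mul_ediv_cancel_left _ (by positivity)]
  refine core_spec ?_ m1 m2 hT' T0 hν hw hw' hm
  rw [abs_lt] at hx
  by_cases hk : k1 ≤ 3
  · have := tri_spec chkB (by simp; omega) h1 h2 h3 hs c12 c13 c23
    simp only [List.all_eq_true, Bool.and_eq_true, List.mem_range] at this
    obtain ⟨σ, hσ⟩ := d3
    have p3 : (0 : ℤ) < 4 * k3 + 1 := by positivity
    have b1 : -((2 * k1 + 1) * (4 * k2 + 1)) ≤ σ := by
      by_contra hc
      have : σ + 1 ≤ -((2 * k1 + 1) * (4 * k2 + 1)) := by omega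
      have := mul_le_mul_of_nonneg_left this p3.le
      have : X3 ≤ 1 := by omega
      linarith [hx.1]
    have b2 : σ < (2 * k1 + 1) * (4 * k2 + 1) := by
      by_contra hc
      have := mul_le_mul_of_nonneg_left (not_lt.1 hc) p3.le
      have : 0 ≤ X3 := by omega
      linarith [hx.2]
    obtain ⟨s, hs⟩ := Int.eq_ofNat_of_zero_le (a := σ + (2 * k1 + 1) * (4 * k2 + 1)) (by omega)
    have := this s (by zify; omega)
    rw [← hs, add_sub_cancel_right] at this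
    rcases hX3 with rfl | ⟨rfl, -⟩
    · convert this.1 using 2; linarith
    · convert this.2 using 2; linarith
  · have := tri_spec chkA (by simp [List.mem_range'_1]; omega) h1 h2 h3 hs c12 c13 c23
    simp only [List.all_eq_true, List.mem_range] at this
    obtain rfl : X2 = 0 := by omega
    obtain rfl : X3 = 0 := by omega
    rw [sub_zero] at d2 d3
    have cop : IsCoprime (4 * k2 + 1 : ℤ) (4 * k3 + 1) := by exact_mod_cast Nat.isCoprime_iff_coprime.2 c23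
    obtain ⟨α, rfl⟩ := cop.mul_dvd d2 d3
    have p3 : (0 : ℤ) < (4 * k2 + 1) * (4 * k3 + 1) := by positivity
    have b1 : -(2 * k1 + 1 : ℤ) < α := by by_contra; nlinarith
    have b2 : α < 2 * k1 + 1 := by by_contra; nlinarith
    obtain ⟨s, hs⟩ := Int.eq_ofNat_of_zero_le (a := α + (2 * k1 + 1)) (by omega)
    have := this s (by omega)
    rw [← hs, add_sub_cancel_right, mul_comm] at this
    exact this

theorem cs3 {u v R Q k M : ℤ} (hk : 0 ≤ k) (hM : 0 < M) (h : R ^ 2 ≤ M * Q) :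
    (u + k * v + R) ^ 2 ≤ (1 + k + M) * (u ^ 2 + k * v ^ 2 + Q) := by
  refine le_of_mul_le_mul_left ?_ hM
  have a1 : 0 ≤ M * k * (u - v) ^ 2 + (M * u - R) ^ 2 + k * (M * v - R) ^ 2 := by positivity
  have a2 := mul_le_mul_of_nonneg_left h (show 0 ≤ 1 + k + M by omega)
  nlinarith

theorem arith {k1 k2 k3 : ℕ} (h1 : 2 ≤ k1) (h2 : 2 ≤ k2) (h3 : 2 ≤ k3)
    (c12 : Nat.Coprime (2 * k1 + 1) (4 * k2 + 1)) (c13 : Nat.Coprime (2 * k1 + 1) (4 * k3 + 1))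
    (c23 : Nat.Coprime (4 * k2 + 1) (4 * k3 + 1)) {N g K c j R Q x a X2 X3 : ℤ}
    (hN : N = (2 * k1 + 1) * ((4 * k2 + 1) * (4 * k3 + 1)))
    (d1 : (2 * k1 + 1 : ℤ) ∣ x - 2) (d2 : (4 * k2 + 1 : ℤ) ∣ x - X2) (d3 : (4 * k3 + 1 : ℤ) ∣ x - X3)
    (hX2 : X2 = 0 ∨ X2 = 1 ∧ (k1 : ℤ) ≤ 3) (hX3 : X3 = 0 ∨ X3 = 1 ∧ (k1 : ℤ) ≤ 3)
    (hg : g = c * K) (c0 : 0 < c) (K0 : 0 < K) (Ng : N ∣ g) (cop : IsCoprime N c)
    (hle : g ≤ 3 * N ^ 2) (x0 : 0 < x * (x - 1)) (xg : x ∣ g) (xg' : x - 1 ∣ g)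
    (ord : (x - a) ^ 2 * K ^ 2 = (2 * k1 + 1) * g * (x * (x - 1)))
    (hk : (k1 + k2 + k3) * g ≤ K ^ 2) (hj : 1 ≤ j)
    (fs : K ≤ |x - 1| + k1 * |x| + R + j * N) (hR : R ^ 2 ≤ (k2 + k3 + 2) * Q)
    (Q0 : 0 ≤ Q) (hsq : g = 1 + (x - 1) ^ 2 + k1 * x ^ 2 + Q + j * N ^ 2)
    (col : 1 + (a - 1) ^ 2 + k1 * a ^ 2 ≤ c) : False := by
  have N0 : 0 < N := by rw [hN]; positivity
  have N2 : 0 < N ^ 2 := by positivity
  have p1 : 0 ≤ k1 * x ^ 2 := by positivity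
  have p2 := sq_nonneg (x - 1)
  have hj' : j = 1 ∨ j = 2 := by
    have : j < 3 := lt_of_mul_lt_mul_right (a := N ^ 2) (by linarith) N2.le
    omega
  obtain ⟨w, rfl⟩ : N ∣ K := cop.dvd_of_dvd_mul_left (hg ▸ Ng)
  have w0 : 0 < w := (mul_pos_iff_of_pos_left N0).1 K0
  set m := c * w with hm
  have gm : g = m * N := by rw [hg, hm]; ring
  have m3 : m ≤ 3 * N := le_of_mul_le_mul_right (by linarith) N0
  have jm : j * N < m := lt_of_mul_lt_mul_right (a := N) (by linarith) N0.le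
  have km : (k1 + k2 + k3) * m ≤ w ^ 2 * N :=
    le_of_mul_le_mul_right (by rw [gm] at hk; linarith) N0
  obtain ⟨b1, b2⟩ := kw_bd (k := k1 + k2 + k3) N0 (by omega) hj' w0 m3 jm km fun hjw => by
    have a1 := cs3 (u := |x - 1|) (v := |x|) (k := k1) (by positivity) (by positivity) hR
    rw [sq_abs, sq_abs] at a1
    have a2 : ((w - j) * N) ^ 2 ≤ (|x - 1| + k1 * |x| + R) ^ 2 :=
      pow_le_pow_left₀ (mul_nonneg (by omega) N0.le) (by linarith) 2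
    have a3 : (x - 1) ^ 2 + k1 * x ^ 2 + Q ≤ (m - j * N) * N := by linarith
    have a4 := mul_le_mul_of_nonneg_left a3 (show (0 : ℤ) ≤ 1 + k1 + (k2 + k3 + 2) by positivity)
    refine le_of_mul_le_mul_right ?_ N0
    linarith
  have cop23 : IsCoprime (4 * k2 + 1 : ℤ) (4 * k3 + 1) := by
    exact_mod_cast Nat.isCoprime_iff_coprime.2 c23
  have dd : ∀ {n X : ℤ}, n ∣ x - X → (X = 0 ∨ X = 1 ∧ (k1 : ℤ) ≤ 3) → n ∣ x * (x - 1) := by
    rintro n X h (rfl | ⟨rfl, -⟩)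
    · exact (by simpa using h : n ∣ x).mul_right _
    · exact h.mul_left _
  obtain ⟨T, hT⟩ := cop23.mul_dvd (dd d2 hX2) (dd d3 hX3)
  set P : ℤ := (4 * k2 + 1) * (4 * k3 + 1) with hP
  have P0 : 0 < P := by positivity
  have T0 : 0 < T := (mul_pos_iff_of_pos_left P0).1 (hT ▸ x0)
  have e1 : (w * (x - a)) ^ 2 = m * T := by
    have : (w * (x - a)) ^ 2 * (N * N) = m * T * (N * N) := by
      rw [gm, hT] at ord
      linear_combination ord - m * T * N * hN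
    exact mul_right_cancel₀ (by positivity) this
  have Tm : T ∣ m := by
    have a1 : x * (x - 1) ∣ g := IsCoprime.mul_dvd ⟨1, -1, by ring⟩ xg xg'
    rw [hT, gm, hN, show m * ((2 * k1 + 1) * P) = P * ((2 * k1 + 1) * m) by ring,
      mul_dvd_mul_iff_left P0.ne'] at a1
    refine IsCoprime.dvd_of_dvd_mul_left ?_ a1
    obtain ⟨u, hu⟩ := d1
    refine ⟨-k1 * P, 1 + k1 * u * (x + 1), ?_⟩
    linear_combination (k1 : ℤ) * hT - k1 * (x + 1) * hu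
  obtain ⟨u, hu⟩ := Tm
  obtain ⟨ν, hν⟩ : T ∣ w * |x - a| := by
    rw [← Int.pow_dvd_pow_iff (two_ne_zero), mul_pow, sq_abs, ← mul_pow, e1, hu]
    exact ⟨u, by ring⟩
  have e2 : m = T * ν ^ 2 := by
    have : (w * |x - a|) ^ 2 = m * T := by rw [mul_pow, sq_abs, ← mul_pow, e1]
    rw [hν] at this
    exact mul_right_cancel₀ T0.ne' (by linear_combination -this)
  have ν0 : 0 < ν := by
    have a1 : 0 ≤ T * ν := hν ▸ by positivity
    have a2 : 0 ≤ ν := (mul_nonneg_iff_of_pos_left T0).1 a1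
    rcases a2.eq_or_lt with rfl | h
    · have : 0 < m := by positivity
      simp [e2] at this
    · exact h
  have e3 : T * ν / w = |x - a| := by rw [← hν, Int.mul_ediv_cancel_left _ w0.ne']
  refine fin h1 h2 h3 (by omega) c12 c13 c23 d1 d2 d3 hX2 hX3 ?_ hT T0.le ν0 w0 b2
    (by rw [← hP, ← hN, ← e2]; exact m3) ?_
  · rw [← hP, ← hN]
    refine abs_lt_of_sq_lt_sq' ?_ N0.le |> abs_lt.2
    have : 2 * x ^ 2 ≤ k1 * x ^ 2 := by gcongr; exact_mod_cast h1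
    have : 1 * N ^ 2 ≤ j * N ^ 2 := by gcongr
    linarith
  · unfold Cond
    simp only [← hP, ← hN, ← e2, e3]
    refine ⟨by rw [← hν]; simp, km, ⟨j, by simpa using hj', by linarith, ?_⟩, a, ?_, ?_⟩
    · rcases le_or_gt ((w - j) * N - |x - 1| - k1 * |x|) 0 with h | h
      · exact Or.inl h
      · right
        have : ((w - j) * N - |x - 1| - k1 * |x|) ^ 2 ≤ R ^ 2 :=
          pow_le_pow_left₀ h.le (by linarith) 2
        rw [show m * N - j * N ^ 2 - k1 * x ^ 2 - (x - 1) ^ 2 - 1 = Q by linarith]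
        linarith
    · rcases abs_cases (x - a) with h | h <;> simp [h.1]
    · have : c * w = ν * |x - a| * w := by rw [← hm, e2]; linear_combination -ν * hν
      rw [← mul_right_cancel₀ w0.ne' this]; exact col

end Cfsg.Agent.H3.Sz
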