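import Cfsg.Agent.H3.Sz1
import Cfsg.Agent.H9.Basic

/-! Strongly self-centralizing subgroups: involutions and counting. -/

set_option autoImplicit false
set_option linter.unusedSectionVars false

namespace Cfsg.Agent.H3.Sz

open Subgroup Cfsg.Agent.L0 Cfsg.Agent.H5
open scoped ComplexConjugate Classical

variable {G : Type*} [Group G] {A B : Subgroup G}

/-- order of the centralizer -/
noncomputable def cc (g : G) : ℕ := Nat.card (centralizer ({g} : Set G))

theorem cc_eq [Finite G] (g : G) : (cc g : ℂ) = ∑ χ : IrrCharacter G, χ.1 g * conj (χ.1 g) := by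
  rw [sum_irr_mul_conj, if_pos (IsConj.refl g), cc]

theorem cc_conj [Finite G] {g h : G} (e : IsConj g h) : cc g = cc h := by
  have : (cc g : ℂ) = cc h := by
    simp only [cc_eq, fun χ : IrrCharacter G =>
      IsClassFunction.eq_of_isConj (IsIrrCharacter.isClassFunction χ.2) e]
  exact_mod_cast this

theorem cc_cf [Finite G] : IsClassFunction G fun g => (cc g : ℂ) := fun g h =>
  congrArg Nat.cast (cc_conj (isConj_iff.2 ⟨h, rfl⟩ : IsConj g _)).symm

theorem sum_cc [Fintype G] : ∑ g : G, cc g = Nat.card G * Fintype.card (IrrCharacter G) := by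
  have : ((∑ g : G, cc g : ℕ) : ℂ) = (Nat.card G * Fintype.card (IrrCharacter G) : ℕ) := by
    push_cast
    simp only [cc_eq]
    rw [Finset.sum_comm]
    simp only [← card_mul_classInner, classInner_irr, if_true, mul_one, Finset.sum_const,
      Finset.card_univ, nsmul_eq_mul, mul_comm]
  exact_mod_cast this

theorem SSC.cc_U [Finite G] (h : SSC A) {g : G} (hg : U A g) : cc g = Nat.card A := by
  obtain ⟨a, ha, a1, e⟩ := hg
  rw [cc_conj e, cc, h a ha a1]

theorem SSC.not_U [Finite G] (h : SSC A) (hA : Odd (Nat.card A)) {g t : G} (ht : orderOf t = 2)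
    (c : t * g = g * t) : ¬ U A g := fun hg => by
  rw [← h.cc_U hg] at hA
  have := orderOf_dvd_natCard (⟨t, mem_centralizer_singleton_iff.2 c⟩ : centralizer ({g} : Set G))
  rw [← orderOf_coe, ht] at this
  exact (Nat.not_even_iff_odd.2 hA) (even_iff_two_dvd.2 this)

theorem SSC.U_of_prime [Finite G] (h : SSC A) {p : ℕ} (hp : p.Prime) (hd : p ∣ Nat.card A) {g : G}
    (hg : orderOf g = p) : U A g := by
  have := Fact.mk hp
  obtain ⟨a, ha⟩ := exists_prime_orderOf_dvd_card' p hd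
  have ha' : orderOf (a : G) = p := by rw [orderOf_coe, ha]
  have a1 : (a : G) ≠ 1 := fun e => hp.one_lt.ne' (by rw [← ha', e, orderOf_one])
  obtain ⟨P, hP⟩ := (IsPGroup.of_card (n := 1) (by rw [Nat.card_zpowers, ha', pow_one]) :
    IsPGroup p (zpowers (a : G))).exists_le_sylow
  have aP : (a : G) ∈ (P : Subgroup G) := hP (mem_zpowers _)
  have : Nontrivial (P : Subgroup G) := ⟨⟨⟨a, aP⟩, 1, fun e => a1 (congrArg Subtype.val e)⟩⟩
  have := P.2.center_nontrivial
  obtain ⟨z, z1⟩ := exists_ne (1 : center (P : Subgroup G))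
  have zc : ∀ x ∈ (P : Subgroup G), x * z = z * x := fun x hx =>
    congrArg Subtype.val (mem_center_iff.1 z.2 ⟨x, hx⟩)
  have z1' : ((z : (P : Subgroup G)) : G) ≠ 1 := fun e => z1 (Subtype.ext (Subtype.ext e))
  have zA := (h.mem a.2 a1).2 (zc a aP).symm
  obtain ⟨c, -, hc⟩ := H9.exists_conj_mem_sylow P (H := ⊤) (R := zpowers g)
    (IsPGroup.of_card (n := 1) (by rw [Nat.card_zpowers, hg, pow_one])) le_top le_top
  refine ⟨_, (h.mem zA z1').2 (zc _ (hc g (mem_zpowers g))), fun e => ?_,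
    isConj_iff.2 ⟨c⁻¹, by simp⟩⟩
  rw [mul_assoc, inv_mul_eq_one, eq_comm, mul_eq_right] at e
  exact hp.one_lt.ne' (by rw [← hg, e, orderOf_one])

theorem SSC.coprime [Finite G] (h : SSC A) (h' : SSC B) (hd : ∀ g, U A g → ¬ U B g) :
    (Nat.card A).Coprime (Nat.card B) := by
  refine Nat.coprime_of_dvd fun p hp h1 h2 => ?_
  have := Fact.mk hp
  obtain ⟨g, hg⟩ := exists_prime_orderOf_dvd_card' p (h1.trans (card_subgroup_dvd_card A))
  exact hd g (h.U_of_prime hp h1 hg) (h'.U_of_prime hp h2 hg)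

theorem SSC.coprime_cc [Finite G] (h : SSC A) (hA : Odd (Nat.card A)) {t : G} (ht : orderOf t = 2) :
    (Nat.card A).Coprime (cc t) := by
  refine Nat.coprime_of_dvd fun p hp h1 h2 => ?_
  have := Fact.mk hp
  obtain ⟨g, hg⟩ := exists_prime_orderOf_dvd_card' p h2
  exact h.not_U hA ht (mem_centralizer_singleton_iff.1 g.2).symm
    (h.U_of_prime hp h1 (by rw [orderOf_coe, hg]))

theorem SSC.disj (h : SSC A) (h' : SSC B) (hn : ∀ g : G, A.map (MulAut.conj g).toMonoidHom ≠ B)
    (g : G) (h1 : U A g) : ¬ U B g := fun h2 => by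
  obtain ⟨a, ha, a1, e1⟩ := h1
  obtain ⟨b, hb, b1, e2⟩ := h2
  obtain ⟨c, rfl⟩ := isConj_iff.1 (e1.symm.trans e2)
  apply hn c
  ext x
  rw [h'.mem hb b1, mem_map]
  constructor
  · rintro ⟨y, hy, rfl⟩
    have := (h.mem ha a1).1 hy
    change c * y * c⁻¹ * _ = _ * (c * y * c⁻¹)
    calc _ = c * (y * a) * c⁻¹ := by group
      _ = _ := by rw [this]; group
  · intro e
    refine ⟨c⁻¹ * x * c, (h.mem ha a1).2 ?_, by simp [mul_assoc]⟩
    calc _ = c⁻¹ * (x * (c * a * c⁻¹)) * c := by group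
      _ = _ := by rw [e]; group

theorem odd_not_mem [Finite G] (hA : Odd (Nat.card A)) {t : G} (ht : orderOf t = 2) : t ∉ A :=
  fun h => by
    have := orderOf_dvd_natCard (⟨t, h⟩ : A)
    rw [← orderOf_coe, ht] at this
    exact (Nat.not_even_iff_odd.2 hA) (even_iff_two_dvd.2 this)

theorem tt {t : G} (ht : orderOf t = 2) : t * t = 1 := by rw [← sq, ← ht, pow_orderOf_eq_one]

theorem SSC.inv [Finite G] (h : SSC A) (hA : Odd (Nat.card A)) {t : G} (ht : orderOf t = 2)
    (hn : t ∈ normalizer (A : Set G)) {a : G} (ha : a ∈ A) : t * a * t⁻¹ = a⁻¹ := by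
  have h1 := (mem_normalizer_iff.1 hn a).1 ha
  by_contra hc
  refine odd_not_mem hA ht ((h.mem (mul_mem ha h1) fun e => hc (eq_inv_of_mul_eq_one_right e)).2 ?_)
  calc _ = t * a * t⁻¹ * ((t * t) * a * (t * t)⁻¹) * t := by group
    _ = _ := by rw [tt ht, one_mul, inv_one, mul_one, h.comm _ h1 _ ha]

theorem SSC.conj_mul [Finite G] (h : SSC A) (hA : Odd (Nat.card A)) {t : G} (ht : orderOf t = 2)
    (hn : t ∈ normalizer (A : Set G)) {a : G} (ha : a ∈ A) : IsConj t (a * t) := by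
  obtain ⟨m, hm⟩ := hA
  have h1 : a ^ (2 * m + 1) = 1 := by
    have := pow_card_eq_one' (x := (⟨a, ha⟩ : A))
    rw [hm] at this
    exact congrArg Subtype.val this
  refine isConj_iff.2 ⟨a ^ (m + 1), ?_⟩
  have h2 := h.inv ⟨m, hm⟩ ht hn (inv_mem (pow_mem ha (m + 1)))
  calc _ = a ^ (m + 1) * (t * (a ^ (m + 1))⁻¹ * t⁻¹) * t := by group
    _ = a * a ^ (2 * m + 1) * t := by rw [h2]; group
    _ = _ := by rw [h1, mul_one]

theorem SSC.clsMul_eq [Finite G] (h : SSC A) (hA : Odd (Nat.card A)) {t u : G} (ht : orderOf t = 2)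
    (hn : t ∈ normalizer (A : Set G)) (hu : orderOf u = 2) {a : G} (ha : a ∈ A) (a1 : a ≠ 1) :
    clsMul u u a = if IsConj u t then (Nat.card A : ℂ) else 0 := by
  have sq : ∀ {x}, IsConj u x → x * x = 1 := fun {x} e => by
    obtain ⟨c, rfl⟩ := isConj_iff.1 e
    calc _ = c * (u * u) * c⁻¹ := by group
      _ = _ := by rw [tt hu]; group
  have ti : t⁻¹ = t := inv_eq_of_mul_eq_one_right (tt ht)
  have key : ∀ {x y}, IsConj u x → IsConj u y → x * y = a → x * t ∈ A := fun {x y} hx hy e => by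
    rw [h.mem ha a1]
    have h1 : x * a⁻¹ = a * x := by
      rw [← e, mul_inv_rev, inv_eq_of_mul_eq_one_right (sq hx), inv_eq_of_mul_eq_one_right (sq hy),
        mul_assoc]
    calc _ = x * (t * a * t⁻¹) * t := by group
      _ = _ := by rw [h.inv hA ht hn ha, h1, mul_assoc]
  rw [clsMul_apply]
  split_ifs with e
  · congr 1
    refine Nat.card_congr ⟨fun p => ⟨p.1.1 * t, key p.2.1 p.2.2.1 p.2.2.2⟩,
      fun b => ⟨(b * t, b * a⁻¹ * t), e.trans (h.conj_mul hA ht hn b.2),
        e.trans (h.conj_mul hA ht hn (mul_mem b.2 (inv_mem ha))), ?_⟩, fun p => ?_, fun b => ?_⟩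
    · have := h.inv hA ht hn (mul_mem b.2 (inv_mem ha))
      rw [ti] at this
      calc _ = b * (t * (b * a⁻¹) * t) := by group
        _ = _ := by rw [this, mul_inv_rev, inv_inv, ← mul_assoc, h.comm _ b.2 _ ha]; group
    · obtain ⟨⟨x, y⟩, hx, hy, e'⟩ := p
      have h1 := h.inv hA ht hn (inv_mem ha)
      rw [ti, inv_inv] at h1
      ext
      · simp [mul_assoc, tt ht]
      · change x * t * a⁻¹ * t = y
        calc _ = x * (t * a⁻¹ * t) := by group
          _ = _ := by rw [h1, ← e', ← mul_assoc, sq hx, one_mul]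
    · ext; simp [mul_assoc, tt ht]
  · rw [Nat.cast_eq_zero, Nat.card_eq_zero]
    refine Or.inl ⟨fun ⟨⟨x, y⟩, hx, hy, e'⟩ => e (hx.trans ?_)⟩
    have := h.conj_mul hA ht hn (key hx hy e')
    rw [mul_assoc, tt ht, mul_one] at this
    exact this.symm

theorem exists_invol [Finite G] (he : 2 ∣ A.relIndex (normalizer (A : Set G))) :
    ∃ t ∈ normalizer (A : Set G), orderOf t = 2 := by
  obtain ⟨t, ht⟩ := exists_prime_orderOf_dvd_card' (G := normalizer (A : Set G)) 2
    (by rw [card_norm]; exact he.mul_left _)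
  exact ⟨t, t.2, by rw [orderOf_coe, ht]⟩

theorem SSC.four [Finite G] (h : SSC A) (hA : Odd (Nat.card A)) (h1 : 1 < Nat.card A)
    (he : 4 ∣ A.relIndex (normalizer (A : Set G))) :
    ∃ f ∈ normalizer (A : Set G), orderOf f = 4 := by
  obtain ⟨Q, hQ⟩ := Sylow.exists_subgroup_card_pow_prime (G := normalizer (A : Set G)) 2 (n := 2)
    (by rw [card_norm]; exact he.mul_left _)
  by_contra hc
  have o2 : ∀ q : Q, q ≠ 1 → orderOf q = 2 := fun q q1 => by
    obtain ⟨i, hi, e⟩ := (Nat.dvd_prime_pow Nat.prime_two).1 (hQ ▸ orderOf_dvd_natCard q)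
    interval_cases i
    · exact absurd (orderOf_eq_one_iff.1 e) q1
    · exact e
    · exact absurd ⟨_, q.1.2, by rw [orderOf_coe, orderOf_coe, e]; rfl⟩ hc
  have o2' : ∀ q : Q, q ≠ 1 → orderOf ((q : normalizer (A : Set G)) : G) = 2 := fun q q1 => by
    rw [orderOf_coe, orderOf_coe, o2 q q1]
  have := Fintype.ofFinite Q
  obtain ⟨q, r, q1, r1, qr⟩ : ∃ q r : Q, q ≠ 1 ∧ r ≠ 1 ∧ q ≠ r := by
    have : 1 < (Finset.univ.erase (1 : Q)).card := by
      rw [Finset.card_erase_of_mem (Finset.mem_univ _), Finset.card_univ, ← Nat.card_eq_fintype_card,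
        hQ]; norm_num
    obtain ⟨q, hq, r, hr, e⟩ := Finset.one_lt_card.1 this
    exact ⟨q, r, Finset.ne_of_mem_erase hq, Finset.ne_of_mem_erase hr, e⟩
  have := Finite.one_lt_card_iff_nontrivial.1 h1
  obtain ⟨a, a1⟩ := exists_ne (1 : A)
  have a1' : (a : G) ≠ 1 := fun e => a1 (Subtype.ext e)
  refine odd_not_mem hA (o2' (r⁻¹ * q) fun e => qr (inv_mul_eq_one.1 e).symm) ((h.mem a.2 a1').2 ?_)
  have e1 := h.inv hA (o2' q q1) q.1.2 a.2
  have e2 := h.inv hA (o2' r r1) r.1.2 a.2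
  push_cast
  rw [← e2] at e1
  calc _ = (r : G)⁻¹ * (q * a * (q : G)⁻¹) * q := by group
    _ = _ := by rw [e1]; group

theorem many [Fintype G] (P : G → Prop) [DecidablePred P] (hP : ∀ g h, P g → IsConj g h → P h) (s : Finset ℕ)
    (h : ∀ d ∈ s, ∃ y, orderOf y = d ∧ P y) : s.card * Nat.card G ≤ ∑ g with P g, cc g := by
  refine le_trans ?_ (Finset.sum_fiberwise_le_sum_of_sum_fiber_nonneg (t := s) (g := orderOf)
    fun _ _ => Nat.zero_le _)
  rw [← smul_eq_mul]
  refine Finset.card_nsmul_le_sum _ _ _ fun d hd => ?_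
  obtain ⟨y, rfl, hy⟩ := h d hd
  calc _ = ∑ g with IsConj y g, cc g := by
        rw [Finset.sum_congr rfl fun g hg => (cc_conj (Finset.mem_filter.1 hg).2).symm,
          Finset.sum_const, card_filter_isConj, smul_eq_mul, cc, index_mul_card]
    _ ≤ _ := Finset.sum_le_sum_of_subset fun g hg => by
        have e := (Finset.mem_filter.1 hg).2
        obtain ⟨c, rfl⟩ := isConj_iff.1 e
        simpa [hP _ _ hy e] using (MulAut.conj c).orderOf_eq y

theorem invol_le [Fintype G] {t : G} (ht : orderOf t = 2) (d : IrrCharacter G → ℕ)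
    (hd : ∀ χ, χ.1 1 = d χ) : 1 + (centralizer ({t} : Set G)).index ≤ ∑ χ, d χ := by
  have h1 := card_sq_eq (1 : G)
  have h2 : 1 + (centralizer ({t} : Set G)).index ≤ Nat.card {x : G // x ^ 2 = 1} := by
    rw [Nat.card_eq_fintype_card, Fintype.card_subtype, ← card_filter_isConj, add_comm,
      ← Finset.card_insert_of_notMem (a := (1 : G)) (by
        simp only [Finset.mem_filter, Finset.mem_univ, true_and, isConj_one_left]
        rintro rfl; simp at ht)]
    refine Finset.card_le_card fun x hx => ?_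
    rcases Finset.mem_insert.1 hx with rfl | hx
    · simp
    · obtain ⟨c, rfl⟩ := isConj_iff.1 (Finset.mem_filter.1 hx).2
      simp [conj_pow, sq t, tt ht]
  refine h2.trans ?_
  have h3 := congrArg Complex.re h1
  rw [Complex.natCast_re, Complex.re_sum] at h3
  have h4 : (Nat.card {x : G // x ^ 2 = 1} : ℝ) ≤ ∑ χ, (d χ : ℝ) := by
    rw [h3]
    refine Finset.sum_le_sum fun χ _ => ?_
    rw [hd]
    rcases IsIrrCharacter.fsInd_mem χ.2 with h | h | h <;> simp [h]
  exact_mod_cast h4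

end Cfsg.Agent.H3.Sz
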