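import Cfsg.Agent.H3.Sz3
import Cfsg.Agent.H3.Sz4

/-! Exceptional characters for special index two. -/

set_option autoImplicit false
set_option linter.unusedSectionVars false

namespace Cfsg.Agent.H3.Sz

open Subgroup Cfsg.Agent.L0 Cfsg.Agent.H5
open scoped ComplexConjugate Classical

variable {G : Type*} [Group G] [Fintype G] {A B : Subgroup G} {e k e' k' : ℕ}

/-- the degree -/
noncomputable def dg (χ : IrrCharacter G) : ℕ := (IsIrrCharacter.exists_degree χ.2).choose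

theorem dg_eq (χ : IrrCharacter G) : χ.1 1 = dg χ := (IsIrrCharacter.exists_degree χ.2).choose_spec.2.2
theorem dg_pos (χ : IrrCharacter G) : 0 < dg χ := (IsIrrCharacter.exists_degree χ.2).choose_spec.1
theorem dg_dvd (χ : IrrCharacter G) : dg χ ∣ Nat.card G :=
  (IsIrrCharacter.exists_degree χ.2).choose_spec.2.1

theorem dg_one : dg (irrOne G) = 1 := by
  have := dg_eq (irrOne G)
  rw [irrOne_val, Pi.one_apply] at this
  exact_mod_cast this.symm

theorem eq_one_of_dg (hG : commutator G = ⊤) {χ : IrrCharacter G} (h : dg χ = 1) : χ = irrOne G :=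
  Subtype.ext (eq_one_of_apply_one_of_commutator_eq_top (IsIrrCharacter.isCharacter χ.2)
    (by rw [dg_eq, h, Nat.cast_one]) hG)

theorem sum_dg_sq : ∑ χ : IrrCharacter G, (dg χ : ℤ) ^ 2 = Nat.card G := by
  have := sum_irr_degree_sq (G := G)
  simp only [dg_eq] at this
  exact_mod_cast this

namespace Exc

variable (X : Exc A e k)

theorem ε2 : X.ε * X.ε = 1 := by rcases X.hε with h | h <;> simp [h]

theorem dg_E {χ : IrrCharacter G} (h : χ ∈ X.E) : dg χ = dg X.ψ := by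
  have := X.agree χ h 1 not_U_one
  rw [dg_eq, dg_eq] at this
  exact_mod_cast this

theorem other (hk : 2 ≤ k) (χ : IrrCharacter G) : ∃ χ' ∈ X.E, χ' ≠ χ :=
  Finset.exists_mem_ne (by rw [X.card]; exact hk) χ

theorem one_not_mem (hG : commutator G = ⊤) (hk : 2 ≤ k) : irrOne G ∉ X.E := fun h => by
  obtain ⟨χ, h1, h2⟩ := X.other hk (irrOne G)
  exact h2 (eq_one_of_dg hG (by rw [X.dg_E h1, ← X.dg_E h, dg_one]))

theorem d_one (hG : commutator G = ⊤) (hk : 2 ≤ k) {a : G} (ha : a ∈ A) (a1 : a ≠ 1) :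
    X.d (irrOne G) = 1 := by
  have := X.const _ (X.one_not_mem hG hk) a ha a1
  rw [irrOne_val, Pi.one_apply] at this
  exact_mod_cast this.symm

theorem sumE : ∑ χ ∈ X.E, X.d χ = X.ε * (k * X.c - 1) := by
  rw [Finset.sum_congr rfl X.dE, ← Finset.mul_sum, Finset.sum_sub_distrib, Finset.sum_ite_eq',
    if_pos X.ψ_mem, Finset.sum_const, X.card, nsmul_eq_mul]

theorem sumE2 : ∑ χ ∈ X.E, X.d χ ^ 2 = k * X.c ^ 2 - 2 * X.c + 1 := by
  rw [Finset.sum_congr rfl (g := fun χ => X.c ^ 2 - if χ = X.ψ then 2 * X.c - 1 else 0)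
    fun χ h => by
      rw [X.dE χ h, mul_pow, sq X.ε, X.ε2]; split_ifs <;> ring,
    Finset.sum_sub_distrib, Finset.sum_ite_eq', if_pos X.ψ_mem, Finset.sum_const, X.card,
    nsmul_eq_mul]
  ring

theorem dvd {χ : IrrCharacter G} (h : χ ∉ X.E) : (Nat.card A : ℤ) ∣ dg χ - X.d χ :=
  IsGeneralizedCharacter.card_dvd_sub_of_const
    (IsGeneralizedCharacter.restrict (IsIrrCharacter.isGeneralized χ.2) A)
    (by rw [OneMemClass.coe_one, dg_eq]; simp)
    fun g hg => X.const χ h g g.2 fun e => hg (Subtype.ext e)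

theorem disj (Y : Exc B e' k') (hk : 2 ≤ k) (hk' : 2 ≤ k') (hd : ∀ g, U A g → ¬ U B g) :
    Disjoint X.E Y.E := by
  rw [Finset.disjoint_left]
  intro χ h1 h2
  obtain ⟨φ, a1, a2⟩ := X.other hk χ
  obtain ⟨ζ, b1, b2⟩ := Y.other hk' χ
  have : classInner (χ.1 - φ.1) (χ.1 - ζ.1) = 0 := by
    rw [classInner_def, Finset.sum_eq_zero, mul_zero]
    intro g _
    by_cases hg : U A g
    · simp [Y.agree χ h2 g (hd g hg), Y.agree ζ b1 g (hd g hg)]
    · simp [X.agree χ h1 g hg, X.agree φ a1 g hg]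
  simp only [classInner_sub_left, classInner_sub_right, classInner_irr, if_true, if_neg a2,
    if_neg b2.symm] at this
  split_ifs at this <;> norm_num at this

theorem d_const (Y : Exc B e' k') (hXY : Disjoint X.E Y.E) (hd : ∀ g, U A g → ¬ U B g)
    {a : G} (ha : a ∈ A) (a1 : a ≠ 1) {χ : IrrCharacter G} (h : χ ∈ Y.E) : X.d χ = X.d Y.ψ := by
  have := Y.agree χ h a (hd a ⟨a, ha, a1, IsConj.refl a⟩)
  rw [X.const χ (Finset.disjoint_right.1 hXY h) a ha a1,
    X.const _ (Finset.disjoint_right.1 hXY Y.ψ_mem) a ha a1] at this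
  exact_mod_cast this

theorem orth (Y : Exc B e' k') (hd : ∀ g, U A g → ¬ U B g) : ∑ χ, X.d χ * Y.d χ = 0 := by
  have := X.pair (∑ χ : IrrCharacter G, (Y.d χ : ℂ) • χ.1) (isClassFunction_sum _ _ fun χ _ =>
    IsClassFunction.smul (IsIrrCharacter.isClassFunction χ.2) _) 0 fun a ha a1 => by
      simpa [Finset.sum_apply] using Y.van a (hd a ⟨a, ha, a1, IsConj.refl a⟩)
  simp only [classInner_sum_smul_irr] at this
  exact_mod_cast this

end Exc

/-- the data for special index two -/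
structure Two (X : Exc A 2 k) where
  θ : IrrCharacter G
  δ : ℤ
  s : ℤ
  hδ : δ = 1 ∨ δ = -1
  hs : s = 1 ∨ s = -1
  nE : θ ∉ X.E
  ne : θ ≠ irrOne G
  dθ : X.d θ = δ
  d0 : ∀ χ ∉ X.E, χ ≠ irrOne G → χ ≠ θ → X.d χ = 0
  sum : ∀ f : IrrCharacter G → ℂ, (∀ χ ∈ X.E, f χ = f X.ψ) →
    ∑ χ, (X.d χ : ℂ) * f χ = f (irrOne G) + δ * f θ - s * f X.ψ

theorem exists_two (X : Exc A 2 k) (hG : commutator G = ⊤) (hk : 2 ≤ k) {a : G} (ha : a ∈ A)
    (a1 : a ≠ 1) : Nonempty (Two X) := by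
  have h1 := X.one_not_mem hG hk
  have d1 := X.d_one hG hk ha a1
  set R := Finset.univ \ insert (irrOne G) X.E with hR
  have dec : ∀ {M : Type} [AddCommMonoid M] (f : IrrCharacter G → M),
      ∑ χ, f χ = ∑ χ ∈ R, f χ + (f (irrOne G) + ∑ χ ∈ X.E, f χ) := fun f => by
    rw [← Finset.sum_insert h1, Finset.sum_sdiff (Finset.subset_univ _)]
  have sE : ∀ f : IrrCharacter G → ℂ, (∀ χ ∈ X.E, f χ = f X.ψ) →
      ∑ χ ∈ X.E, (X.d χ : ℂ) * f χ = (X.ε * (k * X.c - 1) : ℤ) * f X.ψ := fun f hf => by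
    rw [Finset.sum_congr rfl fun χ h => by rw [hf χ h], ← Finset.sum_mul, ← X.sumE, Int.cast_sum]
  have hn := X.norm
  rw [dec, X.sumE2, d1] at hn
  have S0 : 0 ≤ ∑ χ ∈ R, X.d χ ^ 2 := Finset.sum_nonneg fun _ _ => sq_nonneg _
  have hc := qq (k := k) (c := X.c) (by exact_mod_cast hk) (by push_cast at hn; linarith)
  have hS : ∑ χ ∈ R, X.d χ ^ 2 = 1 ∧ (k * X.c - 1 : ℤ) ^ 2 = 1 := by
    rcases hc with h | h
    · rw [h] at hn ⊢; push_cast at hn; constructor <;> linarith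
    · rw [h] at hn ⊢
      push_cast at hn
      rcases (by omega : k = 2 ∨ k = 3) with rfl | rfl
      · push_cast at hn ⊢; exact ⟨by linarith, trivial⟩
      · exfalso
        have h0 : ∀ χ ∈ R, X.d χ = 0 := fun χ hχ => pow_eq_zero_iff (two_ne_zero) |>.1
          ((Finset.sum_eq_zero_iff_of_nonneg fun _ _ => sq_nonneg _).1 (by push_cast at hn; linarith)
            χ hχ)
        have := X.van 1 not_U_one
        rw [dec, sE (fun χ => χ.1 1) fun χ hχ => X.agree χ hχ 1 not_U_one,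
          Finset.sum_eq_zero fun χ hχ => by rw [h0 χ hχ]; simp, d1, h, dg_eq, dg_eq, dg_one] at this
        have h2 : (0 : ℤ) + (1 * (1 : ℕ) + X.ε * ((3 : ℕ) * 1 - 1) * dg X.ψ) = 0 := by
          exact_mod_cast this
        rcases X.hε with h | h <;> rw [h] at h2 <;> omega
  obtain ⟨θ, h2, h3⟩ := exists_of_sum_sq_eq_one (fun χ : R => X.d χ)
    (by rw [← hS.1, ← Finset.sum_coe_sort R])
  have hθ := θ.2
  simp only [hR, Finset.mem_sdiff, Finset.mem_univ, Finset.mem_insert, true_and, not_or] at hθ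
  have d0 : ∀ χ ∈ R, χ ≠ θ → X.d χ = 0 := fun χ hχ ne => h3 ⟨χ, hχ⟩ fun e => ne (congrArg Subtype.val e)
  refine ⟨⟨θ, X.d θ, -(X.ε * (k * X.c - 1)), h2, ?_, hθ.2, hθ.1, rfl,
    fun χ b1 b2 b3 => d0 χ (by simp [hR, b1, b2]) b3, fun f hf => ?_⟩⟩
  · rcases X.hε with h | h <;> rcases sq_eq_one_iff.1 hS.2 with h' | h' <;> simp [h, h']
  · rw [dec, sE f hf, d1, Finset.sum_eq_single_of_mem _ θ.2 fun χ b1 b2 => by simp [d0 χ b1 b2]]
    push_cast; ring

namespace Two

variable {X : Exc A 2 k} (T : Two X)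

theorem δ2 : T.δ * T.δ = 1 := by rcases T.hδ with h | h <;> simp [h]
theorem s2 : T.s * T.s = 1 := by rcases T.hs with h | h <;> simp [h]

theorem rel {g : G} (hg : ¬ U A g) {a b : ℤ} (ha : X.ψ.1 g = a) (hb : T.θ.1 g = b) :
    T.s * a - 1 = T.δ * b := by
  have := X.van g hg
  rw [T.sum (fun χ => χ.1 g) fun χ hχ => X.agree χ hχ g hg, ha, hb, irrOne_val, Pi.one_apply] at this
  have h : (1 : ℤ) + T.δ * b - T.s * a = 0 := by exact_mod_cast this
  linarith

/-- the signed degree -/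
noncomputable def x : ℤ := T.s * dg X.ψ

theorem x1 : T.x - 1 = T.δ * dg T.θ := T.rel not_U_one (dg_eq _) (dg_eq _)

theorem abs_x : |T.x| = dg X.ψ := by rcases T.hs with h | h <;> simp [x, h]
theorem abs_x1 : |T.x - 1| = dg T.θ := by rw [T.x1]; rcases T.hδ with h | h <;> simp [h]

theorem x_pos : 0 < T.x * (T.x - 1) := by
  have h1 := dg_pos X.ψ
  have h2 := dg_pos T.θ
  have h3 := T.abs_x
  have h4 := T.abs_x1
  have h5 : T.x ≠ 0 := fun e => by rw [e] at h3; simp at h3; omega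
  have h6 : T.x ≠ 1 := fun e => by rw [e] at h4; simp at h4; omega
  rcases (by omega : T.x ≤ -1 ∨ 2 ≤ T.x) with h | h <;> nlinarith

theorem ord {u : G} (hu : ¬ U A u) {r a b : ℤ} (ha : X.ψ.1 u = a) (hb : T.θ.1 u = b)
    (hr : ∀ y ∈ A, y ≠ 1 → clsMul u u y = r) :
    (T.x - T.s * a) ^ 2 * ((centralizer ({u} : Set G)).index : ℤ) ^ 2 =
      r * Nat.card G * (T.x * (T.x - 1)) := by
  have h1 := X.pair _ (isClassFunction_clsMul u u) r hr
  rw [T.sum _ fun χ hχ => by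
    simp only [classInner_clsMul, X.agree χ hχ u hu, X.agree χ hχ 1 not_U_one]] at h1
  simp only [classInner_clsMul] at h1
  simp only [ha, hb, dg_eq, dg_one] at h1
  simp only [irrOne_val, Pi.one_apply, map_one, map_intCast, Nat.cast_one] at h1
  have n1 : (dg T.θ : ℂ) ≠ 0 := by exact_mod_cast (dg_pos _).ne'
  have n2 : (dg X.ψ : ℂ) ≠ 0 := by exact_mod_cast (dg_pos _).ne'
  have n3 := natCard_ne_zero G
  field_simp at h1
  have h2 : ((centralizer ({u} : Set G)).index : ℤ) ^ 2 *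
      (dg T.θ * dg X.ψ + T.δ * b ^ 2 * dg X.ψ - T.s * a ^ 2 * dg T.θ) =
        r * Nat.card G * (dg T.θ * dg X.ψ) := by
    have : (((centralizer ({u} : Set G)).index : ℤ) ^ 2 *
      (dg T.θ * dg X.ψ + T.δ * b ^ 2 * dg X.ψ - T.s * a ^ 2 * dg T.θ) : ℂ) =
        r * Nat.card G * (dg T.θ * dg X.ψ) := by push_cast; linear_combination h1
    exact_mod_cast this
  have e1 := T.rel hu ha hb
  have e2 := T.x1
  have e3 : (dg T.θ : ℤ) = T.δ * (T.x - 1) := by linear_combination -T.δ * e2 - dg T.θ * T.δ2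
  have e4 : (dg X.ψ : ℤ) = T.s * T.x := by rw [x]; linear_combination -(dg X.ψ : ℤ) * T.s2
  have e5 : b = T.δ * (T.s * a - 1) := by linear_combination -T.δ * e1 - b * T.δ2
  rw [e3, e4, e5] at h2
  rcases T.hδ with h | h <;> rcases T.hs with h' | h' <;> rw [h, h'] at h2 <;> rw [h'] <;>
    first | linear_combination h2 | linear_combination -h2

end Two

end Cfsg.Agent.H3.Sz
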