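import Cfsg.Agent.H3.Sz5

/-! A self-centralization system of type `(2,4,4)`: centralizers of involutions are 2-groups. -/

set_option autoImplicit false
set_option linter.unusedSectionVars false

namespace Cfsg.Agent.H3.Sz

open Subgroup Cfsg.Agent.L0 Cfsg.Agent.H5
open scoped ComplexConjugate Classical

variable {G : Type*} [Group G] [Fintype G]

theorem SSC.sumN {A : Subgroup G} (h : SSC A) {k : ℕ}
    (hk : A.relIndex (normalizer (A : Set G)) * k + 1 = Nat.card A)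
    {f : G → ℕ} (hf : IsClassFunction G fun g => f g) (hr : ∀ a ∈ A, a ≠ 1 → f a = Nat.card A) :
    ∑ g with U A g, f g = Nat.card G * k := by
  have h1 := h.sumU hf (r := Nat.card A) fun a ha a1 => by rw [hr a ha a1]
  have h2 : (A.relIndex (normalizer (A : Set G)) : ℂ) ≠ 0 := by
    exact_mod_cast (Subgroup.index_ne_zero_of_finite : A.relIndex (normalizer (A : Set G)) ≠ 0)
  have h3 : (Nat.card A : ℂ) - 1 = A.relIndex (normalizer (A : Set G)) * k := by
    rw [← hk]; push_cast; ring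
  have : ((∑ g with U A g, f g : ℕ) : ℂ) = (Nat.card G * k : ℕ) := by
    refine mul_left_cancel₀ (mul_ne_zero h2 (natCard_ne_zero A)) ?_
    push_cast
    rw [h1, h3]; ring
  exact_mod_cast this

theorem part {P Q R : G → Prop} (h1 : ∀ g, P g → ¬ Q g) (h2 : ∀ g, P g → ¬ R g)
    (h3 : ∀ g, Q g → ¬ R g) (f : G → ℕ) : ∑ g, f g = ∑ g with P g, f g + ∑ g with Q g, f g +
      ∑ g with R g, f g + ∑ g with ¬ P g ∧ ¬ Q g ∧ ¬ R g, f g := by
  simp only [Finset.sum_filter, ← Finset.sum_add_distrib]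
  refine Finset.sum_congr rfl fun g _ => ?_
  have := h1 g
  have := h2 g
  have := h3 g
  by_cases a : P g <;> by_cases b : Q g <;> by_cases c : R g <;> simp_all

theorem one_le_form {a b : ℤ} (h : a ≠ 0 ∨ b ≠ 0) : 1 ≤ a ^ 2 + b ^ 2 + a * b := by
  have : 0 < (a + b) ^ 2 + a ^ 2 + b ^ 2 := by rcases h with h | h <;> positivity
  nlinarith

set_option maxHeartbeats 1600000 in
theorem cit [IsSimpleGroup G] (hG : commutator G = ⊤) {A1 A2 A3 : Subgroup G}
    (s1 : SSC A1) (s2 : SSC A2) (s3 : SSC A3)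
    (e1 : A1.relIndex (normalizer (A1 : Set G)) = 2) (e2 : A2.relIndex (normalizer (A2 : Set G)) = 4)
    (e3 : A3.relIndex (normalizer (A3 : Set G)) = 4) {k1 k2 k3 : ℕ}
    (n1 : 2 * k1 + 1 = Nat.card A1) (n2 : 4 * k2 + 1 = Nat.card A2) (n3 : 4 * k3 + 1 = Nat.card A3)
    (h1 : 2 ≤ k1) (h2 : 2 ≤ k2) (h3 : 2 ≤ k3)
    (X1 : Exc A1 2 k1) (X2 : Exc A2 4 k2) (X3 : Exc A3 4 k3)
    (d12 : ∀ g, U A1 g → ¬ U A2 g) (d13 : ∀ g, U A1 g → ¬ U A3 g) (d23 : ∀ g, U A2 g → ¬ U A3 g)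
    (hb : Nat.card G ≤ 3 * Nat.card A1 ^ 2 * Nat.card A2 ^ 2 * Nat.card A3 ^ 2)
    {t : G} (ht : orderOf t = 2) : IsPGroup 2 (centralizer ({t} : Set G)) := by
  have ex : ∀ A : Subgroup G, 1 < Nat.card A → ∃ a ∈ A, a ≠ 1 := fun A h => by
    have := Finite.one_lt_card_iff_nontrivial.1 h
    obtain ⟨a, a1⟩ := exists_ne (1 : A)
    exact ⟨a, a.2, fun e => a1 (Subtype.ext e)⟩
  obtain ⟨a1, m1, b1⟩ := ex A1 (by omega)
  obtain ⟨a2, m2, b2⟩ := ex A2 (by omega)
  obtain ⟨a3, m3, b3⟩ := ex A3 (by omega)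
  have u1 : U A1 a1 := ⟨a1, m1, b1, IsConj.refl _⟩
  have u2 : U A2 a2 := ⟨a2, m2, b2, IsConj.refl _⟩
  have u3 : U A3 a3 := ⟨a3, m3, b3, IsConj.refl _⟩
  have o1 : Odd (Nat.card A1) := ⟨k1, n1.symm⟩
  have o2 : Odd (Nat.card A2) := ⟨2 * k2, by omega⟩
  have o3 : Odd (Nat.card A3) := ⟨2 * k3, by omega⟩
  have d21 : ∀ g, U A2 g → ¬ U A1 g := fun g a b => d12 g b a
  have d31 : ∀ g, U A3 g → ¬ U A1 g := fun g a b => d13 g b a
  have d32 : ∀ g, U A3 g → ¬ U A2 g := fun g a b => d23 g b a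
  have c12 := s1.coprime s2 d12
  have c13 := s1.coprime s3 d13
  have c23 := s2.coprime s3 d23
  obtain ⟨T⟩ := exists_two X1 hG h1 m1 b1
  have D12 := X1.disj X2 h1 h2 d12
  have D13 := X1.disj X3 h1 h3 d13
  have D23 := X2.disj X3 h2 h3 d23
  have i1 := X1.one_not_mem hG h1
  have i2 := X2.one_not_mem hG h2
  have i3 := X3.one_not_mem hG h3
  have θn : ∀ {B : Subgroup G} {k : ℕ} (Y : Exc B 4 k), 2 ≤ k → Disjoint X1.E Y.E →
      (∀ g, U A1 g → ¬ U B g) → T.θ ∉ Y.E := fun Y hk D d h => by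
    obtain ⟨χ, a, b⟩ := Y.other hk T.θ
    have := T.d0 χ (Finset.disjoint_right.1 D a) (fun e => Y.one_not_mem hG hk (e ▸ a)) b
    rw [X1.d_const Y D d m1 b1 a, ← X1.d_const Y D d m1 b1 h, T.dθ] at this
    rcases T.hδ with h | h <;> omega
  have θ2 := θn X2 h2 D12 d12
  have θ3 := θn X3 h3 D13 d13
  set R := Finset.univ \ insert (irrOne G) (insert T.θ (X1.E ∪ (X2.E ∪ X3.E))) with hR
  have mR : ∀ {χ}, χ ∈ R → χ ≠ irrOne G ∧ χ ≠ T.θ ∧ χ ∉ X1.E ∧ χ ∉ X2.E ∧ χ ∉ X3.E := by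
    simp [hR]
  have dec : ∀ f : IrrCharacter G → ℤ, ∑ χ, f χ = ∑ χ ∈ R, f χ + (f (irrOne G) + (f T.θ +
      (∑ χ ∈ X1.E, f χ + (∑ χ ∈ X2.E, f χ + ∑ χ ∈ X3.E, f χ)))) := fun f => by
    rw [← Finset.sum_union D23, ← Finset.sum_union (Finset.disjoint_union_right.2 ⟨D12, D13⟩),
      ← Finset.sum_insert (by simp [T.nE, θ2, θ3]),
      ← Finset.sum_insert (by simp [T.ne.symm, i1, i2, i3]), Finset.sum_sdiff (Finset.subset_univ _)]
  have cst : ∀ (E : Finset (IrrCharacter G)) {f : IrrCharacter G → ℤ} {r : ℤ}, (∀ χ ∈ E, f χ = r) →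
      ∑ χ ∈ E, f χ = E.card * r := fun E f r h => by
    rw [Finset.sum_congr rfl h, Finset.sum_const, nsmul_eq_mul]
  have p2 := Finset.disjoint_left.1 D12 X1.ψ_mem
  have p3 := Finset.disjoint_left.1 D13 X1.ψ_mem
  have r2 := T.rel (d21 _ u2) (X2.const _ p2 a2 m2 b2) (X2.const _ θ2 a2 m2 b2)
  have r3 := T.rel (d31 _ u3) (X3.const _ p3 a3 m3 b3) (X3.const _ θ3 a3 m3 b3)
  have c21 : ∀ χ ∈ X1.E, X2.d χ = X2.d X1.ψ := fun χ => X2.d_const X1 D12.symm d21 m2 b2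
  have c31 : ∀ χ ∈ X1.E, X3.d χ = X3.d X1.ψ := fun χ => X3.d_const X1 D13.symm d31 m3 b3
  have c23' : ∀ χ ∈ X3.E, X2.d χ = X2.d X3.ψ := fun χ => X2.d_const X3 D23 d23 m2 b2
  have c32' : ∀ χ ∈ X2.E, X3.d χ = X3.d X2.ψ := fun χ => X3.d_const X2 D23.symm d32 m3 b3
  have j2 := X2.d_one hG h2 m2 b2
  have j3 := X3.d_one hG h3 m3 b3
  have N2 := X2.norm
  have N3 := X3.norm
  have O := X2.orth X3 d23
  rw [dec, j2, X2.sumE2, cst X1.E fun χ h => by rw [c21 χ h], cst X3.E fun χ h => by rw [c23' χ h],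
    X1.card, X3.card] at N2
  rw [dec, j3, X3.sumE2, cst X1.E fun χ h => by rw [c31 χ h], cst X2.E fun χ h => by rw [c32' χ h],
    X1.card, X2.card] at N3
  rw [dec, j2, j3, cst X1.E fun χ h => by rw [c21 χ h, c31 χ h], X1.card,
    Finset.sum_congr (s₁ := X2.E) rfl fun χ h => by rw [c32' χ h], ← Finset.sum_mul, X2.sumE,
    Finset.sum_congr (s₁ := X3.E) rfl fun χ h => by rw [c23' χ h], ← Finset.mul_sum, X3.sumE] at O
  obtain ⟨bd, Y2, Y3⟩ := theta_bd (k1 := k1) (k2 := k2) (k3 := k3) (X2 := T.s * X2.d X1.ψ)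
    (X3 := T.s * X3.d X1.ψ) (c2 := X2.c) (c3 := X3.c) (Y := X2.ε * X3.d X2.ψ)
    (Z := X3.ε * X2.d X3.ψ) (s2 := ∑ χ ∈ R, X2.d χ ^ 2) (s3 := ∑ χ ∈ R, X3.d χ ^ 2)
    (p := ∑ χ ∈ R, X2.d χ * X3.d χ) (by omega) (by omega) (by omega)
    (fun e => by
      rw [← n2, ← n3, show k2 = k3 by omega, Nat.coprime_self] at c23; omega)
    (Finset.sum_nonneg fun _ _ => sq_nonneg _) (Finset.sum_nonneg fun _ _ => sq_nonneg _)
    (by
      rw [r2]; push_cast at N2
      linear_combination N2 + X2.d T.θ ^ 2 * T.δ2 + k1 * X2.d X1.ψ ^ 2 * T.s2 +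
        k3 * X2.d X3.ψ ^ 2 * X3.ε2)
    (by
      rw [r3]; push_cast at N3
      linear_combination N3 + X3.d T.θ ^ 2 * T.δ2 + k1 * X3.d X1.ψ ^ 2 * T.s2 +
        k2 * X3.d X2.ψ ^ 2 * X2.ε2)
    (by
      rw [r2, r3]
      linear_combination O + X2.d T.θ * X3.d T.θ * T.δ2 + k1 * X2.d X1.ψ * X3.d X1.ψ * T.s2)
  set Θ := R.filter fun χ => X2.d χ ≠ 0 ∨ X3.d χ ≠ 0 with hΘ
  set Ψ := R.filter fun χ => ¬ (X2.d χ ≠ 0 ∨ X3.d χ ≠ 0) with hΨ
  have cΘ : (Θ.card : ℤ) ≤ 2 := by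
    refine le_trans ?_ bd
    rw [← Finset.sum_add_distrib, ← Finset.sum_add_distrib, Finset.card_filter]
    push_cast
    refine Finset.sum_le_sum fun χ _ => ?_
    split_ifs with h
    · exact one_le_form h
    · push Not at h; simp [h]
  have split : ∀ f : IrrCharacter G → ℤ, ∑ χ ∈ R, f χ = ∑ χ ∈ Θ, f χ + ∑ χ ∈ Ψ, f χ := fun f =>
    (Finset.sum_filter_add_sum_filter_not _ _ _).symm
  obtain ⟨t1, l1, w1⟩ := exists_invol (A := A1) (by rw [e1])
  obtain ⟨t2, l2, w2⟩ := exists_invol (A := A2) (by rw [e2]; norm_num)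
  obtain ⟨t3, l3, w3⟩ := exists_invol (A := A3) (by rw [e3]; norm_num)
  have val : ∀ (χ : IrrCharacter G) {u : G}, orderOf u = 2 → ∃ a : ℤ, χ.1 u = a := fun χ u hu =>
    IsGeneralizedCharacter.exists_int_of_sq_eq_one (IsIrrCharacter.isGeneralized χ.2)
      (by rw [← hu, pow_orderOf_eq_one])
  have cj : ∀ {u : G}, orderOf u = 2 → IsConj u t1 := fun {u} hu => by
    by_contra hc
    obtain ⟨a, ha⟩ := val X1.ψ hu
    obtain ⟨b, hb⟩ := val T.θ hu
    have := T.ord (s1.not_U o1 hu rfl) (r := 0) ha hb fun y hy y1 => by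
      rw [s1.clsMul_eq o1 w1 l1 hu hy y1, if_neg hc, Int.cast_zero]
    have i0 : ((centralizer ({u} : Set G)).index : ℤ) ≠ 0 := by
      exact_mod_cast Subgroup.index_ne_zero_of_finite
    simp only [zero_mul, mul_eq_zero, ne_eq, OfNat.ofNat_ne_zero, not_false_eq_true,
      pow_eq_zero_iff, i0, or_false] at this
    have h4 : a = dg X1.ψ := by
      rw [Two.x] at this
      linear_combination -T.s * this - (a - dg X1.ψ) * T.s2
    have h5 := (IsCharacter.mem_charKer_iff (IsIrrCharacter.isCharacter X1.ψ.2) (g := u)).2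
      (by rw [ha, h4, dg_eq]; simp)
    rw [IsIrrCharacter.charKer_eq_bot_of_isSimpleGroup X1.ψ.2
      (fun e => i1 ((Subtype.ext e : X1.ψ = irrOne G) ▸ X1.ψ_mem)), mem_bot] at h5
    rw [h5, orderOf_one] at hu
    omega
  have g0 : 0 < Nat.card G := Nat.card_pos
  rcases Nat.eq_zero_or_pos Ψ.card with j0 | j0
  · have cI := dec fun _ => 1
    rw [split] at cI
    simp only [Finset.sum_const, Finset.card_univ, X1.card, X2.card, X3.card, j0, nsmul_eq_mul,
      mul_one] at cI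
    have S := part d12 d13 d23 (cc (G := G))
    rw [sum_cc, s1.sumN (e1 ▸ n1) cc_cf fun a ha a1 => s1.cc_U ⟨a, ha, a1, IsConj.refl _⟩,
      s2.sumN (e2 ▸ n2) cc_cf fun a ha a1 => s2.cc_U ⟨a, ha, a1, IsConj.refl _⟩,
      s3.sumN (e3 ▸ n3) cc_cf fun a ha a1 => s3.cc_U ⟨a, ha, a1, IsConj.refl _⟩] at S
    obtain ⟨f, -, hf⟩ := s2.four o2 (by omega) (by rw [e2])
    have nU : ∀ {g u : G}, orderOf u = 2 → u * g = g * u → ¬ U A1 g ∧ ¬ U A2 g ∧ ¬ U A3 g :=
      fun hu c => ⟨s1.not_U o1 hu c, s2.not_U o2 hu c, s3.not_U o3 hu c⟩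
    refine IsPGroup.of_card (Nat.eq_prime_pow_of_unique_prime_dvd Nat.card_pos.ne'
      fun {r} hr hd => ?_)
    by_contra r2
    have := Fact.mk hr
    obtain ⟨ρ, hρ⟩ := exists_prime_orderOf_dvd_card' r hd
    have cρ : (ρ : G) * t = t * ρ := mem_centralizer_singleton_iff.1 ρ.2
    have hρ' : orderOf (ρ : G) = r := by rw [orderOf_coe, hρ]
    have r3 : 3 ≤ r := by have := hr.two_le; omega
    have r4 : r ≠ 4 := by rintro rfl; norm_num at hr
    have M := many (fun g : G => ¬ U A1 g ∧ ¬ U A2 g ∧ ¬ U A3 g)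
      (fun g h a e => ⟨fun b => a.1 (b.conj e), fun b => a.2.1 (b.conj e), fun b => a.2.2 (b.conj e)⟩)
      {1, 2, 4, r, 2 * r} (by
        simp only [Finset.mem_insert, Finset.mem_singleton]
        rintro d (rfl | rfl | rfl | rfl | rfl)
        · exact ⟨1, orderOf_one, nU ht (by simp)⟩
        · exact ⟨t, ht, nU ht rfl⟩
        · exact ⟨f, hf, nU (u := f ^ 2) (by rw [orderOf_pow' _ two_ne_zero, hf]; rfl) (by group)⟩
        · exact ⟨ρ, hρ', nU ht cρ.symm⟩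
        · refine ⟨t * ρ, ?_, nU ht (by rw [mul_assoc, cρ])⟩
          rw [Commute.orderOf_mul_eq_mul_orderOf_of_coprime cρ.symm (by
            rw [ht, hρ']; exact (Nat.coprime_primes Nat.prime_two hr).2 (Ne.symm r2)), ht, hρ'])
    rw [Finset.card_insert_of_notMem (by simp; omega), Finset.card_insert_of_notMem (by simp; omega),
      Finset.card_insert_of_notMem (by simp; omega), Finset.card_pair (by omega)] at M
    have : Fintype.card (IrrCharacter G) ≤ k1 + k2 + k3 + 4 := by omega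
    have := Nat.mul_le_mul_left (Nat.card G) this
    rw [mul_add, mul_add, mul_add] at this
    omega
  · exfalso
    obtain ⟨a, ha⟩ := val X1.ψ w1
    obtain ⟨b, hb'⟩ := val T.θ w1
    have nt := s1.not_U o1 w1 rfl
    set K := (centralizer ({t1} : Set G)).index with hK
    set N : ℤ := (2 * k1 + 1) * ((4 * k2 + 1) * (4 * k3 + 1)) with hN
    have z1 : (Nat.card A1 : ℤ) = 2 * k1 + 1 := by exact_mod_cast n1.symm
    have z2 : (Nat.card A2 : ℤ) = 4 * k2 + 1 := by exact_mod_cast n2.symm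
    have z3 : (Nat.card A3 : ℤ) = 4 * k3 + 1 := by exact_mod_cast n3.symm
    have tri : ∀ {y : ℤ}, (Nat.card A1 : ℤ) ∣ y → (Nat.card A2 : ℤ) ∣ y → (Nat.card A3 : ℤ) ∣ y →
        N ∣ y := fun a b c => by
      rw [hN, ← z1, ← z2, ← z3]
      exact ((Nat.isCoprime_iff_coprime.2 c12).mul_right (Nat.isCoprime_iff_coprime.2 c13)).mul_dvd a
        ((Nat.isCoprime_iff_coprime.2 c23).mul_dvd b c)
    have hle : (Nat.card G : ℤ) ≤ 3 * N ^ 2 := by
      rw [hN, ← z1, ← z2, ← z3]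
      calc _ ≤ ((3 * Nat.card A1 ^ 2 * Nat.card A2 ^ 2 * Nat.card A3 ^ 2 : ℕ) : ℤ) := by
            exact_mod_cast hb
        _ = _ := by push_cast; ring
    have N0 : 0 < N := by positivity
    have dΨ : ∀ χ ∈ Ψ, (dg χ : ℤ) = N := fun χ hχ => by
      obtain ⟨f1, f2⟩ := Finset.mem_filter.1 hχ
      obtain ⟨g1, g2, g3, g4, g5⟩ := mR f1
      push Not at f2
      obtain ⟨u, hu⟩ := tri (y := dg χ) (by simpa [T.d0 χ g3 g1 g2] using X1.dvd g3)
        (by simpa [f2.1] using X2.dvd g4) (by simpa [f2.2] using X3.dvd g5)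
      have q1 : (dg χ : ℤ) ^ 2 ≤ Nat.card G := by
        rw [← sum_dg_sq]
        exact Finset.single_le_sum (f := fun χ : IrrCharacter G => (dg χ : ℤ) ^ 2)
          (fun _ _ => sq_nonneg _) (Finset.mem_univ χ)
      have q2 : (0 : ℤ) < dg χ := by exact_mod_cast dg_pos χ
      have q3 : 0 < u := (mul_pos_iff_of_pos_left N0).1 (hu ▸ q2)
      have q4 : u < 2 := by
        by_contra hc
        have : (2 * N) ^ 2 ≤ (dg χ : ℤ) ^ 2 := by rw [hu, mul_comm]; gcongr; omega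
        have q5 : 0 < N ^ 2 := by positivity
        rw [mul_pow] at this
        omega
      rw [hu, show u = 1 by omega, mul_one]
    set W := X2.E ∪ X3.E ∪ Θ with hW
    have sW : ∀ f : IrrCharacter G → ℤ, ∑ χ ∈ W, f χ =
        ∑ χ ∈ X2.E, f χ + ∑ χ ∈ X3.E, f χ + ∑ χ ∈ Θ, f χ := fun f => by
      rw [hW, Finset.sum_union, Finset.sum_union D23]
      rw [Finset.disjoint_right]
      intro χ hχ
      obtain ⟨-, -, -, g4, g5⟩ := mR (Finset.mem_filter.1 hχ).1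
      simp [g4, g5]
    have cW := sW fun _ => 1
    simp only [Finset.sum_const, X2.card, X3.card, nsmul_eq_mul, mul_one] at cW
    have gK : Nat.card G = cc t1 * K := (card_mul_index _).symm
    have K0 : 0 < K := Nat.pos_of_ne_zero Subgroup.index_ne_zero_of_finite
    have xx : T.x ^ 2 = (dg X1.ψ : ℤ) ^ 2 := by rw [← T.abs_x, sq_abs]
    have xx1 : (T.x - 1) ^ 2 = (dg T.θ : ℤ) ^ 2 := by rw [← T.abs_x1, sq_abs]
    have dx : ∀ {n y : ℤ}, n ∣ dg X1.ψ - y → n ∣ T.x - T.s * y := fun h => by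
      rw [Two.x, ← mul_sub]; exact h.mul_left _
    refine arith h1 h2 h3 (n1 ▸ n2 ▸ c12) (n1 ▸ n3 ▸ c13) (n2 ▸ n3 ▸ c23) hN (g := Nat.card G)
      (K := K) (c := cc t1) (j := Ψ.card) (R := ∑ χ ∈ W, (dg χ : ℤ)) (Q := ∑ χ ∈ W, (dg χ : ℤ) ^ 2)
      (x := T.x) (a := T.s * a) ?_ (dx (z2 ▸ X2.dvd p2)) (dx (z3 ▸ X3.dvd p3)) Y2 Y3
      (by exact_mod_cast gK) (by exact_mod_cast (Nat.card_pos : 0 < cc t1)) (by exact_mod_cast K0)
      (tri (by exact_mod_cast card_subgroup_dvd_card A1) (by exact_mod_cast card_subgroup_dvd_card A2)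
        (by exact_mod_cast card_subgroup_dvd_card A3)) ?_ hle T.x_pos ?_ ?_ ?_ ?_
      (by exact_mod_cast j0) ?_ ?_ (Finset.sum_nonneg fun _ _ => sq_nonneg _) ?_ ?_
    · have := (X1.dvd T.nE).mul_left T.δ
      rw [z1, T.dθ, mul_sub, T.δ2, ← T.x1] at this
      rwa [sub_sub] at this
    · rw [hN, ← z1, ← z2, ← z3]
      exact (Nat.isCoprime_iff_coprime.2 (s1.coprime_cc o1 w1)).mul_left
        ((Nat.isCoprime_iff_coprime.2 (s2.coprime_cc o2 w1)).mul_left
          (Nat.isCoprime_iff_coprime.2 (s3.coprime_cc o3 w1)))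
    · rw [← abs_dvd, T.abs_x]; exact_mod_cast dg_dvd _
    · rw [← abs_dvd, T.abs_x1]; exact_mod_cast dg_dvd _
    · exact T.ord nt ha hb' fun y hy y1 => by
        rw [s1.clsMul_eq o1 w1 l1 w1 hy y1, if_pos (IsConj.refl _), ← z1]; simp
    · set f : G → ℕ := fun c =>
        Nat.card {p : G × G // IsConj t1 p.1 ∧ IsConj t1 p.2 ∧ p.1 * p.2 = c} with hf
      have cf : IsClassFunction G fun g => (f g : ℂ) := isClassFunction_clsMul t1 t1
      have fv : ∀ {A : Subgroup G}, SSC A → Odd (Nat.card A) → ∀ {t : G}, orderOf t = 2 →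
          t ∈ normalizer (A : Set G) → ∀ a ∈ A, a ≠ 1 → f a = Nat.card A :=
        fun s o t w l a ha a1 => by
          have := s.clsMul_eq o w l w1 ha a1
          rw [if_pos (cj w).symm] at this
          exact_mod_cast (show (f a : ℂ) = _ from this)
      have S := part d12 d13 d23 f
      rw [s1.sumN (e1 ▸ n1) cf (fv s1 o1 w1 l1), s2.sumN (e2 ▸ n2) cf (fv s2 o2 w2 l2),
        s3.sumN (e3 ▸ n3) cf (fv s3 o3 w3 l3)] at S
      have S2 : ∑ g, f g = K ^ 2 := by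
        have q1 := classInner_clsMul t1 t1 (irrOne G)
        rw [irrOne_val, classInner_one_right] at q1
        have q2 := natCard_ne_zero G
        simp only [Pi.one_apply, map_one, mul_one, div_one, ← hK] at q1
        field_simp at q1
        have : ((∑ g, f g : ℕ) : ℂ) = (K ^ 2 : ℕ) := by push_cast; exact q1
        exact_mod_cast this
      have : (k1 + k2 + k3) * Nat.card G ≤ K ^ 2 := by
        rw [← S2, S, mul_comm, mul_add, mul_add]; omega
      exact_mod_cast this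
    · have q1 : (1 + K : ℤ) ≤ ∑ χ : IrrCharacter G, (dg χ : ℤ) := by
        exact_mod_cast invol_le w1 dg dg_eq
      rw [dec, split, cst _ dΨ, cst X1.E fun χ h => by rw [X1.dg_E h], X1.card, dg_one] at q1
      rw [sW, T.abs_x, T.abs_x1]
      push_cast at q1
      linarith
    · refine sq_sum_le_card_mul_sum_sq.trans ?_
      gcongr
      omega
    · rw [← sum_dg_sq, dec, split, cst Ψ fun χ h => by rw [dΨ χ h],
        cst X1.E fun χ h => by rw [X1.dg_E h],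
        X1.card, dg_one, sW, xx, xx1]
      push_cast; ring
    · have q1 := sum_irr_norm_sq t1
      choose v hv using fun χ : IrrCharacter G => val χ w1
      have q2 : ∑ χ, v χ ^ 2 = cc t1 := by
        simp only [hv, Complex.norm_intCast, sq_abs] at q1
        exact_mod_cast q1
      have v1 : v (irrOne G) = 1 := by
        have := hv (irrOne G)
        rw [irrOne_val, Pi.one_apply] at this
        exact_mod_cast this.symm
      have v2 : v T.θ = b := by exact_mod_cast (hv _).symm.trans hb'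
      have v3 : ∀ χ ∈ X1.E, v χ = a := fun χ h => by
        exact_mod_cast (hv _).symm.trans ((X1.agree χ h _ nt).trans ha)
      rw [dec, v1, v2, cst X1.E fun χ h => by rw [v3 χ h], X1.card] at q2
      have nn : ∀ s : Finset (IrrCharacter G), 0 ≤ ∑ χ ∈ s, v χ ^ 2 := fun s =>
        Finset.sum_nonneg fun _ _ => sq_nonneg _
      rw [T.rel nt ha hb', mul_pow, mul_pow, sq T.δ, sq T.s, T.δ2, T.s2]
      linarith [nn R, nn X2.E, nn X3.E]

end Cfsg.Agent.H3.Sz
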