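import Cfsg.Agent.H3.Sz6

/-! Exclusion of the linear and alternating groups. -/

set_option autoImplicit false

namespace Cfsg.Agent.H3.Sz

open Subgroup Matrix
open scoped MatrixGroups

variable {F : Type*} [Field F]

theorem sq_zero_of {P Q : Matrix (Fin 2) (Fin 2) F} (t : P.trace = 0) (h : P * Q = 0)
    (hQ : Q ≠ 0) : P * P = 0 := by
  have d : P.det = 0 := by
    by_contra d
    apply hQ
    have := congrArg (P.adjugate * ·) h
    simpa [← Matrix.mul_assoc, adjugate_mul, d] using this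
  rw [trace_fin_two] at t
  rw [det_fin_two] at d
  ext i j
  fin_cases i <;> fin_cases j <;> simp [Matrix.mul_apply, Fin.sum_univ_two]
  · linear_combination P 0 0 * t - d
  · linear_combination P 0 1 * t
  · linear_combination P 1 0 * t
  · linear_combination P 1 1 * t - d

/-- the matrix -/
def v : SL(2, F) →* Matrix (Fin 2) (Fin 2) F := Matrix.SpecialLinearGroup.coeMonoidHom

theorem v_inj : Function.Injective (v (F := F)) := Matrix.SpecialLinearGroup.coeMonoidHom_injective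

theorem v_inv (M : SL(2, F)) : v M⁻¹ = adjugate (v M) := rfl

theorem add_inv (M : SL(2, F)) : v M + v M⁻¹ = (v M).trace • (1 : Matrix (Fin 2) (Fin 2) F) := by
  rw [v_inv, adjugate_fin_two, trace_fin_two]
  ext i j
  fin_cases i <;> fin_cases j <;> simp [add_comm]

theorem sl2_eq_or {M B : SL(2, F)} {n : ℕ} (hn : Odd n) (n0 : (n : F) ≠ 0) (hM : M ^ n = 1)
    (c : Commute M B) (t : (v B).trace = (v M).trace) : M = 1 ∨ B = M ∨ B = M⁻¹ := by
  by_contra hc
  push Not at hc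
  obtain ⟨M1, h1, h2⟩ := hc
  have a1 := add_inv M
  have a2 := add_inv B
  have m1 : v M * v M⁻¹ = 1 := by rw [← map_mul, mul_inv_cancel, map_one]
  have m2 : v M⁻¹ * v M = 1 := by rw [← map_mul, inv_mul_cancel, map_one]
  have m3 : v B * v B⁻¹ = 1 := by rw [← map_mul, mul_inv_cancel, map_one]
  have c1 : v M * v B = v B * v M := c.map v
  have c2 : v M⁻¹ * v B = v B * v M⁻¹ := c.inv_left.map v
  have ti : (v M⁻¹).trace = (v M).trace := by
    rw [v_inv, adjugate_fin_two]; simp [trace_fin_two, add_comm]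
  have k : v B * v B + 1 = v B * v M + v B * v M⁻¹ := by
    rw [← mul_add, a1, ← t, ← a2, mul_add, m3]
  have p1 : (v B - v M⁻¹) * (v B - v M) = 0 := by
    simp only [mul_sub, sub_mul, m2, c2]
    rw [← sub_eq_zero] at k
    rw [← k]; abel
  have p2 : (v B - v M) * (v B - v M⁻¹) = 0 := by
    simp only [mul_sub, sub_mul, m1, c1]
    rw [← sub_eq_zero] at k
    rw [← k]; abel
  have q1 := sq_zero_of (by rw [trace_sub, t, ti, sub_self]) p1
    (fun e => h1 (v_inj (sub_eq_zero.1 e)))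
  have q2 := sq_zero_of (by rw [trace_sub, t, sub_self]) p2
    (fun e => h2 (v_inj (sub_eq_zero.1 e)))
  obtain ⟨D, hD⟩ : ∃ D, D = v M - v M⁻¹ := ⟨_, rfl⟩
  have D2 : D * D = 0 := by
    have : D = (v B - v M⁻¹) - (v B - v M) := by rw [hD]; abel
    rw [this, sub_mul, mul_sub (v B - v M⁻¹), mul_sub (v B - v M), q1, q2, p1, p2]; simp
  have X2 : (v M * D) * (v M * D) = 0 := by
    have : D * v M = v M * D := by rw [hD, sub_mul, mul_sub, m1, m2]
    rw [mul_assoc, ← mul_assoc D, this, mul_assoc, D2]; simp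
  have e1 : v M * v M = 1 + v M * D := by rw [hD, mul_sub, m1]; abel
  have pw : ∀ j : ℕ, (v M * v M) ^ j = 1 + (j : F) • (v M * D) := fun j => by
    induction j with
    | zero => simp
    | succ j ih =>
      rw [pow_succ, ih, e1, add_mul, mul_add, mul_add, smul_mul_assoc, smul_mul_assoc, X2]
      push_cast
      simp [add_smul, add_assoc, add_comm]
  have e2 := pw n
  rw [← sq, ← pow_mul, mul_comm 2, pow_mul, ← map_pow, hM] at e2
  have e3 : v M * D = 0 := by simpa [n0] using e2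
  have e4 : M * M = 1 := v_inj (by rw [map_mul, e1, e3, add_zero, map_one])
  obtain ⟨m, rfl⟩ := hn
  rw [pow_succ, pow_mul, sq, e4, one_pow, one_mul] at hM
  exact M1 hM

theorem psl2_eq_or {g c : PSL(2, F)} {n : ℕ} (hn : Odd n) (n0 : (n : F) ≠ 0) (hg : g ^ n = 1)
    (h : g * (c * g * c⁻¹) = c * g * c⁻¹ * g) : c * g * c⁻¹ = g ∨ c * g * c⁻¹ = g⁻¹ := by
  have z2 : ∀ z ∈ center SL(2, F), z * z = 1 := fun z hz => by
    obtain ⟨r, h1, h2⟩ := Matrix.SpecialLinearGroup.mem_center_iff.1 hz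
    rw [Fintype.card_fin, sq] at h1
    exact v_inj (by rw [map_mul, ← show _ = v z from h2, ← map_mul, h1, map_one, map_one])
  have zn : ∀ z ∈ center SL(2, F), z ^ n = z := fun z hz => by
    obtain ⟨m, rfl⟩ := hn
    rw [pow_succ, pow_mul, sq, z2 z hz, one_pow, one_mul]
  obtain ⟨M0, rfl⟩ := QuotientGroup.mk_surjective g
  obtain ⟨C, rfl⟩ := QuotientGroup.mk_surjective c
  have hz : M0 ^ n ∈ center SL(2, F) := (QuotientGroup.eq_one_iff _).1 hg
  obtain ⟨M, hM, e⟩ : ∃ M : SL(2, F), M ^ n = 1 ∧ (M : PSL(2, F)) = M0 :=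
    ⟨M0 ^ n * M0, by
      rw [Commute.mul_pow (mem_center_iff.1 hz M0).symm, zn _ hz, z2 _ hz], by
      rw [QuotientGroup.mk_mul, (QuotientGroup.eq_one_iff _).2 hz, one_mul]⟩
  rw [← e] at h ⊢
  set B := C * M * C⁻¹ with hB
  have hw : M * B * (B * M)⁻¹ ∈ center SL(2, F) :=
    (QuotientGroup.eq_one_iff _).1 (mul_inv_eq_one.2 h)
  have Bn : B ^ n = 1 := by rw [hB, conj_pow, hM]; group
  have k2 : (M * B * (B * M)⁻¹) ^ n = 1 := by
    have := Commute.mul_pow (mem_center_iff.1 hw B).symm n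
    rw [Bn, mul_one, show M * B * (B * M)⁻¹ * B = M * B * M⁻¹ by group, conj_pow, Bn] at this
    rw [← this]; group
  rw [zn _ hw, mul_inv_eq_one] at k2
  rcases sl2_eq_or hn n0 hM k2 (by
    rw [hB, map_mul, trace_mul_comm, map_mul, ← mul_assoc, ← map_mul, inv_mul_cancel, map_one,
      one_mul]) with h | h | h
  · left; rw [h]; simp
  · exact Or.inl (congrArg QuotientGroup.mk h)
  · exact Or.inr (congrArg QuotientGroup.mk h)

theorem not_psl2 {G : Type*} [Group G] [Finite G] (e : G ≃* PSL(2, F)) {A : Subgroup G} (h : SSC A)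
    (hA : Odd (Nat.card A)) (h1 : 1 < Nat.card A) (he : 4 ∣ A.relIndex (normalizer (A : Set G))) :
    (Nat.card A : F) = 0 := by
  by_contra n0
  obtain ⟨f, hf, f4⟩ := h.four hA h1 he
  have := Finite.one_lt_card_iff_nontrivial.1 h1
  obtain ⟨a, a1⟩ := exists_ne (1 : A)
  have a1' : (a : G) ≠ 1 := fun e => a1 (Subtype.ext e)
  have k := psl2_eq_or (g := e a) (c := e f) hA n0
    (by rw [← map_pow, ← Subgroup.coe_pow, pow_card_eq_one']; simp)
    (by simpa using congrArg e (h.comm _ a.2 _ ((mem_normalizer_iff.1 hf a).1 a.2)))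
  simp only [← map_inv, ← map_mul, e.apply_eq_iff_eq] at k
  refine odd_not_mem hA (t := f ^ 2) (by rw [orderOf_pow' _ two_ne_zero, f4]; rfl)
    ((h.mem a.2 a1').2 ?_)
  rw [← mul_inv_eq_iff_eq_mul]
  calc _ = f * (f * a * f⁻¹) * f⁻¹ := by rw [sq]; group
    _ = _ := by
      rcases k with k | k
      · rw [k, k]
      · rw [k, show f * (a : G)⁻¹ * f⁻¹ = (f * a * f⁻¹)⁻¹ by group, k, inv_inv]

theorem small {a b c : ℕ} (ha : Odd a) (hb : Odd b) (hc : Odd c) (h1 : 5 ≤ a) (h2 : 9 ≤ b)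
    (h3 : 9 ≤ c) (c1 : a.Coprime b) (c2 : a.Coprime c) (c3 : b.Coprime c)
    (d1 : a ∣ 181440) (d2 : b ∣ 181440) (d3 : c ∣ 181440) : False := by
  have k : ∀ {n : ℕ}, Odd n → n ∣ 181440 → n ∈ [1, 3, 5, 7, 9, 15, 21, 27, 35, 45, 63, 81, 105, 135,
      189, 315, 405, 567, 945, 2835] := fun {n} h d => by
    have h1 : n ∣ 2835 := Nat.Coprime.dvd_of_dvd_mul_left (k := n) (m := 2 ^ 6)
      ((Nat.coprime_two_right.2 h).pow_right 6) d
    have h2 : Nat.divisors 2835 = {1, 3, 5, 7, 9, 15, 21, 27, 35, 45, 63, 81, 105, 135,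
      189, 315, 405, 567, 945, 2835} := by decide +kernel
    simpa [h2] using (Nat.mem_divisors.2 ⟨h1, by norm_num⟩ : n ∈ Nat.divisors 2835)
  have : ∀ a ∈ [1, 3, 5, 7, 9, 15, 21, 27, 35, 45, 63, 81, 105, 135, 189, 315, 405, 567, 945, 2835],
      ∀ b ∈ [1, 3, 5, 7, 9, 15, 21, 27, 35, 45, 63, 81, 105, 135, 189, 315, 405, 567, 945, 2835],
      ∀ c ∈ [1, 3, 5, 7, 9, 15, 21, 27, 35, 45, 63, 81, 105, 135, 189, 315, 405, 567, 945, 2835],
      ¬ (5 ≤ a ∧ 9 ≤ b ∧ 9 ≤ c ∧ Nat.gcd a b = 1 ∧ Nat.gcd a c = 1 ∧ Nat.gcd b c = 1) := by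
    decide +kernel
  exact this a (k ha d1) b (k hb d2) c (k hc d3) ⟨h1, h2, h3, c1, c2, c3⟩

theorem card_psl3 [Fintype F] (hF : Fintype.card F = 4) : Nat.card PSL(3, F) ∣ 181440 := by
  classical
  refine (card_quotient_dvd_card _).trans ?_
  have := card_dvd_of_injective _ (Matrix.SpecialLinearGroup.toGL_injective (n := Fin 3) (R := F))
  rw [card_GL_field, hF] at this
  simpa [Fin.prod_univ_three] using this

end Cfsg.Agent.H3.Sz
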