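import Cfsg.Agent.H3.ZG2

/-! Coordinates, when the involutions fix at most two points. -/

set_option autoImplicit false
set_option linter.unusedSectionVars false
set_option linter.unusedVariables false

namespace Cfsg.Agent.H3.ZG

open Subgroup MulAction Cfsg.Agent.FT Cfsg.Agent.L0 Cfsg.Agent.H8 Cfsg.Agent.BS Cfsg.Agent.WA.Te
open scoped commutatorElement

universe u

theorem ring_key {m : ℕ} (σ : ZMod m → ZMod m) (hn : ∀ z, z ≠ 0 → σ (-z) = -σ z)
    (hr : ∀ z, z ≠ 0 → ∃ c : ZMod m, IsUnit c ∧ c * σ z = -z ∧ ∀ k, k * z ≠ 0 → k * z + z ≠ 0 → c * σ (k * z) - z ≠ 0 →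
      z + c * σ (k * z + z) = c * σ (c * σ (k * z) - z)) (k : ℕ) (h0 : 0 < k) (hk : k < m) :
    IsUnit (k : ZMod m) ∧ ∀ z, z ≠ 0 → k * σ (k * z) = σ z := by
  induction k, h0 using Nat.le_induction with
  | base => simp
  | succ k h0 ih =>
    obtain ⟨h1, h2⟩ := ih (by omega)
    obtain ⟨l, hl⟩ := h1.exists_right_inv
    have key : ∀ z : ZMod m, z ≠ 0 → (k + 1) * z ≠ 0 →
        ∃ c, IsUnit c ∧ c * σ z = -z ∧ (k + 1) * (c * σ ((k + 1) * z)) = -z := fun z hz h3 => by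
      obtain ⟨c, hc, h4, h5⟩ := hr z hz
      have h6 : c * σ (k * z) - z = l * -((k + 1) * z) := by
        rw [← h2 z hz] at h4
        linear_combination l * h4 - (c * σ (k * z) - z) * hl
      have h7 : l * -((k + 1) * z) ≠ 0 := fun e => h3 (by linear_combination -k * e - (k + 1) * z * hl)
      have h8 := h5 k (fun e => hz (by linear_combination l * e - z * hl)) (by rwa [add_one_mul] at h3) (h6 ▸ h7)
      rw [h6, ← h2 _ h7, ← mul_assoc (k : ZMod m) l, hl, one_mul, hn _ h3, ← add_one_mul] at h8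
      exact ⟨c, hc, h4, by linear_combination h8⟩
    have h3 : (k : ZMod m) + 1 ≠ 0 := fun e => absurd (Nat.le_of_dvd k.succ_pos
      ((ZMod.natCast_eq_zero_iff _ m).1 (by exact_mod_cast e))) (by omega)
    have h4 : (1 : ZMod m) ≠ 0 := fun e => h3 (by rw [← mul_one (_ + 1), e, mul_zero])
    obtain ⟨c, -, -, h5⟩ := key 1 h4 (by rwa [mul_one])
    have h6 : IsUnit ((k : ZMod m) + 1) := .of_mul_eq_one (-(c * σ ((k + 1) * 1))) (by linear_combination -h5)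
    push_cast
    refine ⟨h6, fun z hz => ?_⟩
    obtain ⟨c, hc, h7, h8⟩ := key z hz (by rwa [Ne, h6.mul_right_eq_zero])
    exact hc.mul_left_cancel (by linear_combination h8 - h7)

/-- involutions fix at most two points -/
def F2 (G Ω : Type u) [Group G] [MulAction G Ω] : Prop :=
  ∀ u : G, Invo u → ∀ α β γ : Ω, α ≠ β → u • α = α → u • β = β → u • γ = γ → γ = α ∨ γ = β

variable {G Ω : Type u} [Group G] [Finite G] [MulAction G Ω] [Finite Ω] {a g x y u v : G} {α β γ : Ω}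

theorem ZH.exists_u (h : ZH Ω a) (hab : α ≠ β) : ∃ u : G, Invo u ∧ u • α = α ∧ u • β = β := by
  obtain ⟨x, hx, h1⟩ := h.exists_odd hab
  obtain ⟨n, hn⟩ := exists_invo_pow_of_even (x := x) (Nat.not_odd_iff_even.1 fun ho => h1 (by
    have := congrArg (sg G Ω) (pow_orderOf_eq_one x)
    rwa [map_pow, Int.units_pow_eq_pow_mod_two, Nat.odd_iff.1 ho, pow_one, map_one] at this))
  exact ⟨_, hn, pow_smul_eq hx.1 n, pow_smul_eq hx.2 n⟩

theorem ZH.der_tr (h : ZH Ω a) (f : F2 G Ω) (hab : α ≠ β) (iu : Invo u) (h1 : u • α = α) (h2 : u • β = β) (hg : γ ≠ α) :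
    ∃ x ∈ der (stabilizer G α), x • β = γ ∧ u * x * u = x⁻¹ := by
  obtain ⟨k, h3, rfl⟩ := h.two α β α γ hab hg.symm
  have h4 : ⁅k, u⁆ ∈ der (stabilizer G α) := commutator_mem_commutator h3 h1
  have h5 : Odd #|der (stabilizer G α)| := by
    refine Odd.of_dvd_nat ?_ (card_dvd_ncard (S := {α}ᶜ) (fun g hg x hx e => hx (smul_left_cancel g (e.trans (der_le _ hg).symm)))
      fun g hg x hx e => h.der_free hg hx e)
    have h2 := Set.ncard_add_ncard_compl {α}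
    rw [Set.ncard_singleton] at h2
    have := h.even
    grind
  obtain ⟨n, hn⟩ := exists_sq_eq_of_odd (odd_orderOf_of_mem h5 h4)
  have h6 : u * ⁅k, u⁆ ^ n * u = (⁅k, u⁆ ^ n)⁻¹ := inverts_pow iu.1 (by
    rw [commutatorElement_inv, commutatorElement_def, commutatorElement_def, iu.inv_eq, mul_assoc, iu.mul_mul']; group) n
  refine ⟨_, pow_mem h4 n, ?_, h6⟩
  have h7 : k * u * k⁻¹ = ⁅k, u⁆ ^ n * u * (⁅k, u⁆ ^ n)⁻¹ := by
    rw [← h6, mul_assoc _ u (u * _ * u), mul_assoc u, iu.mul_mul, ← mul_assoc, hn, commutatorElement_def, iu.inv_eq, iu.mul_mul']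
  refine (f _ (iu.conj k) α (k • β) _ hg.symm (by conv_lhs => rw [← h3, conj_smul_smul, h1, h3])
    (by rw [conj_smul_smul, h2]) (by rw [h7, conj_smul_smul, h2])).resolve_left fun e => hab.symm ?_
  exact smul_left_cancel _ (e.trans (der_le _ (pow_mem h4 n)).symm)

open OnePoint in
theorem ZH.moufang (h : ZH Ω a) (f : F2 G Ω) (hab : α ≠ β) : ∃ (p : ℕ) (_ : Fact p.Prime), Nat.card Ω = p + 1 ∧
    Nonempty (G ≃* (GL (Fin 2) (ZMod p) ⧸ center (GL (Fin 2) (ZMod p)))) ∧ (∀ x ∈ der (stabilizer G α), x ^ p = 1) ∧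
    ∀ s g : G, s • α = β → s • β = α → g • α = α → g • β = β → s * g * s⁻¹ = g⁻¹ := by
  obtain ⟨u, iu, u1, u2⟩ := h.exists_u hab
  obtain ⟨ν, hν⟩ := h.der_cyc α
  obtain ⟨m, hm⟩ : ∃ m, orderOf ν = m := ⟨_, rfl⟩
  obtain ⟨T, hT, hi⟩ : ∃ T : ZMod m → G, (∀ x y, T (x + y) = T x * T y) ∧ ∀ i : ℤ, T i = ν ^ i :=
    ⟨fun x => (ZMod.lift m ⟨zmultiplesHom (Additive G) (.ofMul ν), by simp [← hm, ← ofMul_pow]⟩ x).toMul,
      fun x y => congrArg Additive.toMul (map_add _ x y), fun i => congrArg Additive.toMul (ZMod.lift_coe _ _ i)⟩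
  have T0 : T 0 = 1 := by simpa using hi 0
  have Tm : ∀ x, T x ∈ der (stabilizer G α) := fun x => by
    obtain ⟨i, rfl⟩ := ZMod.intCast_surjective x
    exact hν ▸ ⟨i, (hi i).symm⟩
  have Ta : ∀ x, T x • α = α := fun x => der_le _ (Tm x)
  have Ts : ∀ y ∈ der (stabilizer G α), ∃ x, T x = y := fun y hy => by
    obtain ⟨i, rfl⟩ := hν ▸ hy
    exact ⟨i, hi i⟩
  obtain ⟨π, hπ⟩ : ∃ π : ZMod m → Ω, ∀ x, π x = T x • β := ⟨_, fun _ => rfl⟩
  have p0 : π 0 = β := by rw [hπ, T0, one_smul]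
  have p1 : ∀ b x, T b • π x = π (b + x) := fun b x => by rw [hπ, hπ, hT, mul_smul]
  have p2 : ∀ x, π x ≠ α := fun x e => hab (smul_left_cancel (T x) (by rw [Ta, ← hπ, e]))
  have p3 : Function.Injective π := fun x y e => by
    obtain ⟨i, hi'⟩ := ZMod.intCast_surjective (-y + x)
    have := h.der_free (Tm (-y + x)) hab.symm (by rw [← p0, p1, add_zero, ← p1, e, p1, neg_add_cancel])
    rw [← hi', hi, ← orderOf_dvd_iff_zpow_eq_one, hm, ← ZMod.intCast_zmod_eq_zero_iff_dvd, hi'] at this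
    exact (neg_add_eq_zero.1 this).symm
  have p4 : ∀ γ, γ ≠ α → ∃ x, π x = γ ∧ u • γ = π (-x) := fun γ hg => by
    obtain ⟨y, hy, rfl, h1⟩ := h.der_tr f hab iu u1 u2 hg
    obtain ⟨x, rfl⟩ := Ts y hy
    refine ⟨x, hπ x, ?_⟩
    rw [hπ, eq_inv_of_mul_eq_one_left (show T (-x) * T x = 1 by rw [← hT, neg_add_cancel, T0]), ← h1, mul_smul, mul_smul, u2]
  have p5 : ∀ x, u • π x = π (-x) := fun x => by
    obtain ⟨y, h1, h2⟩ := p4 _ (p2 x)
    rw [h2, p3 h1]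
  have p6 : ∀ g : G, g • α = α → (∀ x, g • π x = π x) → g = 1 := fun g h1 h2 => h.faith g fun ω => by
    by_cases e : ω = α
    · rw [e, h1]
    · obtain ⟨x, rfl, -⟩ := p4 ω e
      exact h2 x
  have mu0 : ∀ g : G, g • α = α → g • β = β → ∃ c, ∀ x, g • π x = π (c * x) := fun g h1 h2 => by
    obtain ⟨c, hc⟩ := hν ▸ (mem_normalizer_iff.1 ((der_normalIn _).2 (show g ∈ stabilizer G α from h1)) ν).1
      (hν ▸ mem_zpowers ν)
    refine ⟨c, fun x => ?_⟩
    obtain ⟨i, rfl⟩ := ZMod.intCast_surjective x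
    rw [hπ, hπ, ← Int.cast_mul, hi, hi, zpow_mul, show ν ^ c = _ from hc, conj_zpow, ← conj_smul_smul, h2]
  have mu : ∀ g : G, g • α = α → g • β = β → ∃ c, IsUnit c ∧ ∀ x, g • π x = π (c * x) := fun g h1 h2 => by
    obtain ⟨c, hc⟩ := mu0 g h1 h2
    obtain ⟨d, hd⟩ := mu0 g⁻¹ (inv_smul_eq_of_smul_eq h1) (inv_smul_eq_of_smul_eq h2)
    exact ⟨c, .of_mul_eq_one d (p3 (by rw [← hc, ← mul_one d, ← hd, smul_inv_smul])), hc⟩
  have sw : ∀ x, x ≠ 0 → ∃ s : G, s * s = 1 ∧ s • α = β ∧ s • β = α ∧ s • π x = π (-x) ∧ s * u = u * s ∧ sg G Ω s = 1 :=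
    fun x hx => by
    have h1 : π x ≠ π (-x) := fun e => (f u iu α β _ hab u1 u2 (by rw [p5, ← e])).elim (p2 x) fun e => hx (p3 (e.trans p0.symm))
    obtain ⟨k, h2, h3⟩ := h.two α β _ _ hab h1
    have i1 := iu.conj k
    have h4 : (k * u * k⁻¹) • π x = π x := by rw [← h2, conj_smul_smul, u1]
    have h5 : (k * u * k⁻¹) • π (-x) = π (-x) := by rw [← h3, conj_smul_smul, u2]
    have h6 : sg G Ω (u * (k * u * k⁻¹)) = 1 := by simp [mul_comm, ← mul_assoc]
    generalize k * u * k⁻¹ = j at i1 h4 h5 h6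
    have h7 : u * j = j * u := mul_inv_eq_iff_eq_mul.1 (h.uniq h1 (i1.conj u) i1
      (by conv_lhs => rw [← neg_neg x, ← p5, conj_smul_smul, h5, p5, neg_neg]) (by rw [← p5, conj_smul_smul, h4]) h4 h5)
    have h8 : j • α = β := (f u iu α β _ hab u1 u2 (smul_fix_of_comm h7.symm u1)).resolve_left fun e =>
      (f j i1 _ _ α h1 h4 h5 e).elim (p2 _).symm (p2 _).symm
    refine ⟨u * j, by rw [mul_assoc, ← mul_assoc j, ← h7, i1.mul_mul', iu.1], by rw [mul_smul, h8, u2],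
      by rw [mul_smul, ← h8, i1.smul_smul, u1], by rw [mul_smul, h4, p5], by rw [mul_assoc, h7], h6⟩
  have h10 : (1 : ZMod m) ≠ 0 := fun e => by
    have h1 : (Set.univ : Set Ω) ⊆ {α, β} := fun ω _ => (eq_or_ne ω α).imp_right fun h1 => by
      obtain ⟨x, rfl, -⟩ := p4 ω h1
      rw [← mul_one x, e, mul_zero]
      exact p0
    have := (Set.ncard_le_ncard h1).trans (Set.ncard_insert_le _ _)
    rw [Set.ncard_univ, Set.ncard_singleton] at this
    exact absurd h.big (by omega)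
  obtain ⟨s, s1, s2, s3, s4, s5, s6⟩ := sw 1 h10
  have ss : ∀ ω : Ω, s • s • ω = ω := fun ω => by rw [← mul_smul, s1, one_smul]
  have : ∀ z, ∃ y, z ≠ 0 → s • π z = π y := fun z => by
    by_cases hz : z = 0
    · exact ⟨0, fun e => absurd hz e⟩
    · obtain ⟨y, hy, -⟩ := p4 (s • π z) fun e => hz (p3 (by rw [p0, ← s2, ← e, ss]))
      exact ⟨y, fun _ => hy.symm⟩
  choose σ hσ using this
  have hr : ∀ z, z ≠ 0 → ∃ c : ZMod m, (IsUnit c ∧ c * σ z = -z ∧ ∀ k, k * z ≠ 0 → k * z + z ≠ 0 → c * σ (k * z) - z ≠ 0 →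
      z + c * σ (k * z + z) = c * σ (c * σ (k * z) - z)) ∧
      ∃ g : G, sg G Ω g = 1 ∧ g • α = α ∧ ∀ x, g • π x = π (c * x) := fun z hz => by
    obtain ⟨r, r1, r2, r3, r4, r5, r6⟩ := sw z hz
    have e1 : (r * s) • α = α := by rw [mul_smul, s2, r3]
    obtain ⟨c, hc, h1⟩ := mu (r * s) e1 (by rw [mul_smul, s3, r2])
    have h2 : ∀ y, y ≠ 0 → r • π y = π (c * σ y) := fun y hy => by rw [← h1, ← hσ y hy, mul_smul, ss]
    have rr : ∀ ω : Ω, r • r • ω = ω := fun ω => by rw [← mul_smul, r1, one_smul]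
    have a1 : (r * T z) • α = β := by rw [mul_smul, Ta, r2]
    have a2 : (r * T z) • β = π (-z) := by rw [mul_smul, ← hπ, r4]
    have a3 : (r * T z) • π (-z) = α := by rw [mul_smul, p1, add_neg_cancel, p0, r3]
    obtain ⟨w, -, h3⟩ := mu (r * T z * (r * T z * (r * T z))) (by rw [mul_smul (r * _), mul_smul (r * _), a1, a2, a3])
      (by rw [mul_smul (r * _), mul_smul (r * _), a2, a3, a1])
    have h4 := p3 ((h3 (-z)).symm.trans (by rw [mul_smul (r * _), mul_smul (r * _), a3, a1, a2]))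
    refine ⟨c, ⟨hc, p3 (by rw [← h2 z hz, r4]), fun k h5 h6 h7 => p3 ?_⟩, r * s, by rw [map_mul, r6, s6, mul_one], e1, h1⟩
    have h8 := h3 (k * z)
    rw [show w * (k * z) = k * z by linear_combination -k * h4] at h8
    simp only [mul_smul] at h8
    rw [← p1, ← h2 _ h6, ← h2 _ h7, sub_eq_neg_add, ← p1 (-z), ← h2 _ h5, add_comm, ← p1]
    conv_rhs => rw [← h8, rr, ← mul_smul (T _), ← hT, neg_add_cancel, T0, one_smul, rr]
  have key := ring_key σ (fun z hz => p3 (by rw [← hσ _ (neg_ne_zero.2 hz), ← p5, ← p5, ← hσ z hz, ← mul_smul, s5, mul_smul]))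
    fun z hz => (hr z hz).imp fun _ h => h.1
  have m0 : 0 < m := hm ▸ orderOf_pos ν
  have hp : Fact m.Prime := ⟨Nat.prime_def_lt.2 ⟨by
    by_contra hc
    obtain rfl : m = 1 := by omega
    exact h10 (Subsingleton.elim _ _), fun k h1 h2 => Nat.Coprime.eq_one_of_dvd
      ((ZMod.isUnit_iff_coprime k m).1 (key k (Nat.pos_of_dvd_of_pos h2 m0) h1).1) h2⟩⟩
  have hs : ∀ z, z ≠ 0 → s • π z = π (-1 / z) := fun z hz => by
    have := (key z.val (ZMod.val_pos.2 hz) (ZMod.val_lt z)).2 1 h10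
    rw [ZMod.natCast_zmod_val, mul_one, p3 ((hσ 1 h10).symm.trans s4)] at this
    rw [hσ z hz, eq_div_of_mul_eq hz ((mul_comm _ _).trans this)]
  have sq : ∀ z, z ≠ 0 → ∃ g : G, sg G Ω g = 1 ∧ g • α = α ∧ ∀ x, g • π x = π (z * z * x) := fun z hz => by
    obtain ⟨c, ⟨-, h1, -⟩, h2⟩ := hr z hz
    rw [p3 ((hσ z hz).symm.trans (hs z hz))] at h1
    field_simp at h1
    rwa [show z * z = c by linear_combination h1]
  let E : OnePoint (ZMod m) ≃ Ω := Equiv.ofBijective (fun x => OnePoint.rec α π x) ⟨fun x y e => by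
    cases x <;> cases y
    exacts [rfl, absurd e (p2 _).symm, absurd e (p2 _), congrArg _ (p3 e)], fun ω => by
      by_cases e : ω = α
      · exact ⟨∞, e.symm⟩
      · obtain ⟨x, rfl, -⟩ := p4 ω e
        exact ⟨x, rfl⟩⟩
  have : FaithfulSMul G Ω := ⟨fun {x y} e => inv_mul_eq_one.1 (h.faith _ fun ω => by rw [mul_smul, ← e, inv_smul_smul])⟩
  refine ⟨m, hp, ?_, pgl_of_gens E (fun b => ⟨T b, Ta b, fun x => (p1 b x).trans (congrArg π (add_comm _ _))⟩) (fun b hb => ?_)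
    (fun g h1 h2 => (mu g h1 (p0 ▸ h2)).imp fun c hc => ⟨hc.1.ne_zero, hc.2⟩) (s2.trans p0.symm) (p0 ▸ s3 : s • π 0 = α) hs,
    fun x hx => orderOf_dvd_iff_pow_eq_one.1 (hm ▸ orderOf_dvd_of_mem_zpowers (hν ▸ hx)), fun r g h1 h2 h3 h4 => ?_⟩
  · rw [← Nat.card_congr E]
    exact Finite.card_option.trans (by rw [Nat.card_zmod])
  · obtain ⟨g, hg, h1⟩ := h.exists_odd hab
    obtain ⟨c, hc, h2⟩ := mu g hg.1 hg.2
    have h3 : ¬ IsSquare c := by
      rintro ⟨z, rfl⟩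
      obtain ⟨k, h3, h4, h5⟩ := sq z (left_ne_zero_of_mul hc.ne_zero)
      rw [← inv_mul_eq_one.1 (p6 (k⁻¹ * g) (by rw [mul_smul, hg.1, inv_smul_eq_of_smul_eq h4]) fun x => by
        rw [mul_smul, h2, ← h5, inv_smul_smul])] at h1
      exact h1 h3
    by_cases h4 : IsSquare b
    · obtain ⟨z, rfl⟩ := h4
      exact (sq z (left_ne_zero_of_mul hb)).imp fun _ h => h.2
    · obtain ⟨z, hz⟩ : IsSquare (b * c) := by
        rw [← quadraticChar_one_iff_isSquare (mul_ne_zero hb hc.ne_zero), map_mul, quadraticChar_neg_one_iff_not_isSquare.2 h3,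
          quadraticChar_neg_one_iff_not_isSquare.2 h4]
        rfl
      obtain ⟨k, -, h5, h6⟩ := sq z (left_ne_zero_of_mul (hz ▸ mul_ne_zero hb hc.ne_zero))
      exact ⟨g⁻¹ * k, by rw [mul_smul]; exact inv_smul_eq_iff.2 (h5.trans hg.1.symm), fun x => by
        rw [mul_smul]; exact inv_smul_eq_iff.2 ((h6 x).trans (((h2 _).trans (by rw [← hz]; congr 1; ring)).symm))⟩
  · obtain ⟨x, hx⟩ := h.st_cyc hab
    obtain ⟨c, hc, h5⟩ := mu g h3 h4
    have s7 : s⁻¹ = s := inv_eq_of_mul_eq_one_right s1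
    have h6 : g * (s * g * s) = 1 := p6 _ (by rw [mul_smul, mul_smul, mul_smul, s2, h4, s3, h3]) fun z => by
      by_cases hz : z = 0
      · rw [hz, p0, mul_smul, mul_smul, mul_smul, s3, h3, s2, h4]
      have h7 := hc.ne_zero
      rw [mul_smul, mul_smul, mul_smul, hs z hz, h5, hs _ (by simp [hz, h7]), h5]
      congr 1
      field_simp
    have h7 := zp_comm (hx ▸ mem_st2.2 ⟨by rw [mul_smul, s2, h2], by rw [mul_smul, s3, h1]⟩ : r * s ∈ zpowers x)
      (inv_mem (hx ▸ mem_st2.2 ⟨h3, h4⟩ : g ∈ zpowers x))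
    rw [← mul_inv_cancel_right g⁻¹ (r * s), ← h7, ← eq_inv_of_mul_eq_one_right h6, mul_inv_rev, s7]
    simp only [← mul_assoc, mul_assoc _ s s, s1, mul_one]

end Cfsg.Agent.H3.ZG
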