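import Cfsg.Agent.H3.ZG3

/-! The involutions of a two-point stabilizer fix exactly two points. -/

set_option autoImplicit false
set_option linter.unusedSectionVars false
set_option linter.unusedVariables false

namespace Cfsg.Agent.H3.ZG

open Subgroup MulAction Cfsg.Agent.FT Cfsg.Agent.L0 Cfsg.Agent.H8 Cfsg.Agent.BS Cfsg.Agent.WA.Te
open Cfsg.Agent.H7 (opp)
open scoped commutatorElement

universe u

variable {G Ω : Type u} [Group G] [Finite G] [MulAction G Ω] [Finite Ω] {a g x y u v e c t : G} {α β γ : Ω}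

def fixAct (Ω : Type u) [MulAction G Ω] (u : G) : SubMulAction 𝐂[u] Ω where
  carrier := fixedBy Ω u
  smul_mem' g c hc := smul_fix_of_comm (mem_cent1.1 g.2) hc

abbrev XB (Ω : Type u) [MulAction G Ω] (u : G) := (toPermHom 𝐂[u] (fixAct Ω u)).range

def xb (Ω : Type u) [MulAction G Ω] (u : G) : 𝐂[u] →* XB Ω u := (toPermHom 𝐂[u] (fixAct Ω u)).rangeRestrict

theorem xb_smul (x : 𝐂[u]) (p : fixAct Ω u) : ((xb Ω u x • p : fixAct Ω u) : Ω) = (x : G) • (p : Ω) := rfl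

theorem xb_surj : Function.Surjective (xb Ω u) := MonoidHom.rangeRestrict_surjective _

theorem xb_eq_one {x : 𝐂[u]} : xb Ω u x = 1 ↔ ∀ p : Ω, u • p = p → (x : G) • p = p :=
  ⟨fun h p hp => by rw [← xb_smul x ⟨p, hp⟩, h, one_smul], fun h => Subtype.ext (Equiv.ext fun p => Subtype.ext (h p p.2))⟩

/-- the sign on the fixed points of `u` -/
noncomputable def sgD (Ω : Type u) [MulAction G Ω] [Finite Ω] (u : G) : 𝐂[u] →* ℤˣ :=
  (sg (XB Ω u) (fixAct Ω u)).comp (xb Ω u)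

theorem card_fixAct : Nat.card (fixAct Ω u) = (fixedBy Ω u).ncard := Nat.card_coe_set_eq _

theorem sgD_fpf {x : 𝐂[u]} (h : (x : G) * x = 1) (hf : ∀ p : Ω, u • p = p → (x : G) • p ≠ p) :
    sgD Ω u x = (-1) ^ ((fixedBy Ω u).ncard / 2) := by
  have := sg_invo (Ω := fixAct Ω u) (g := xb Ω u x) (by rw [← map_mul, show x * x = 1 from Subtype.ext h, map_one])
  rwa [show fixedBy (fixAct Ω u) (xb Ω u x) = ∅ from Set.eq_empty_of_forall_notMem fun p hp =>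
    hf p p.2 (congrArg Subtype.val hp), Set.ncard_empty, Nat.sub_zero, card_fixAct] at this

structure Dt (Ω : Type u) [MulAction G Ω] (a e u : G) (α : Ω) : Prop where
  h : ZH Ω a
  he : e ∈ zpowers a
  ie : Invo e
  iu : Invo u
  h1 : u • α = α
  h2 : u • e • α = e • α
  big : 2 < (fixedBy Ω u).ncard

namespace Dt

theorem ne (d : Dt Ω a e u α) (p : Ω) : p ≠ e • p := fun h => d.ie.2 (d.h.reg d.he h.symm)

theorem two (d : Dt Ω a e u α) : ∀ p ∈ fixedBy Ω u, ∀ q ∈ fixedBy Ω u, ∀ p' ∈ fixedBy Ω u, ∀ q' ∈ fixedBy Ω u,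
    p ≠ q → p' ≠ q' → ∃ g ∈ 𝐂[u], g • p = p' ∧ g • q = q' := fun p hp q hq p' hp' q' hq' h1 h2 => by
  obtain ⟨g, rfl, rfl⟩ := d.h.two p q p' q' h1 h2
  exact ⟨g, mem_cent1.2 (mul_inv_eq_iff_eq_mul.1 (d.h.uniq h2 (d.iu.conj g) d.iu
    (by rw [conj_smul_smul, show u • p = p from hp]) (by rw [conj_smul_smul, show u • q = q from hq]) hp' hq')), rfl, rfl⟩

theorem eX (d : Dt Ω a e u α) : e ∈ 𝐂[u] :=
  mem_cent1.2 (mul_inv_eq_iff_eq_mul.1 (d.h.uniq (d.ne α) (d.iu.conj e) d.iu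
    (by conv_lhs => rw [← d.ie.smul_smul α, conj_smul_smul, d.h2, d.ie.smul_smul]) (by rw [conj_smul_smul, d.h1])
    d.h1 d.h2))

theorem aX (d : Dt Ω a e u α) (hx : x ∈ zpowers a) (hp : u • x • α = x • α) : x ∈ 𝐂[u] :=
  mem_cent1.2 (mul_inv_eq_iff_eq_mul.1 (d.h.uniq (d.ne (x • α)) (d.iu.conj x) d.iu (by rw [conj_smul_smul, d.h1])
    (by rw [← mul_smul e, zp_comm d.he hx, mul_smul x e, conj_smul_smul, d.h2]) hp
    (smul_fix_of_comm (mem_cent1.1 d.eX) hp)))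

theorem HX (d : Dt Ω a e u α) : st2 G α (e • α) ≤ 𝐂[u] := fun x hx => by
  obtain ⟨y, hy⟩ := d.h.st_cyc (d.ne α)
  exact mem_cent1.2 (zp_comm (hy ▸ hx) (hy ▸ mem_st2.2 ⟨d.h1, d.h2⟩))

theorem even (d : Dt Ω a e u α) : Even (fixedBy Ω u).ncard := by
  have := card_dvd_ncard (P := zpowers e) (S := fixedBy Ω u)
    (fun g hg x hx => smul_fix_of_comm (mem_cent1.1 (zpowers_le.2 d.eX hg)) hx)
    fun g hg x _ h => d.h.reg (zpowers_le.2 d.he hg) h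
  rw [d.ie.card_zpowers] at this
  exact even_iff_two_dvd.2 this

theorem exists_c (d : Dt Ω a e u α) : ∃ c : 𝐂[u], zpowers (c : G) = zpowers a ⊓ 𝐂[u] := by
  have : IsCyclic (zpowers a ⊓ 𝐂[u] : Subgroup G) := isCyclic_of_injective (inclusion inf_le_left) (inclusion_injective _)
  obtain ⟨x, hx⟩ := this.exists_generator
  refine ⟨⟨x, x.2.2⟩, le_antisymm (zpowers_le.2 x.2) fun y hy => ?_⟩
  obtain ⟨i, hi⟩ := hx ⟨y, hy⟩
  exact ⟨i, congrArg Subtype.val hi⟩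

theorem ctr (d : Dt Ω a e u α) (hc : zpowers c = zpowers a ⊓ 𝐂[u]) {p : Ω} (hp : u • p = p) : ∃ x ∈ zpowers c, x • α = p := by
  obtain ⟨x, hx, rfl⟩ := d.h.tr' α p
  exact ⟨x, hc ▸ ⟨hx, d.aX hx hp⟩, rfl⟩

theorem zh (d : Dt Ω a e u α) {c : 𝐂[u]} (hc : zpowers (c : G) = zpowers a ⊓ 𝐂[u]) : ZH (fixAct Ω u) (xb Ω u c) where
  faith g hg := Subtype.ext (Equiv.ext hg)
  two p q p' q' h1 h2 := by
    obtain ⟨g, hg, h3, h4⟩ := d.two p p.2 q q.2 p' p'.2 q' q'.2 (fun e => h1 (Subtype.ext e)) fun e => h2 (Subtype.ext e)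
    exact ⟨xb Ω u ⟨g, hg⟩, Subtype.ext h3, Subtype.ext h4⟩
  tr p q := by
    classical
    obtain ⟨x, hx, h1⟩ := d.ctr hc p.2
    obtain ⟨y, hy, h2⟩ := d.ctr hc q.2
    obtain ⟨i, -, hi⟩ := Finset.mem_image.1 (mem_zpowers_iff_mem_range_orderOf.1 (mul_mem hy (inv_mem hx)))
    refine ⟨i, Subtype.ext ?_⟩
    rw [← map_pow, xb_smul, Subgroup.coe_pow, hi, ← h1, ← h2, ← mul_smul, inv_mul_cancel_right]
  even := card_fixAct (u := u) (Ω := Ω) ▸ d.even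
  big := card_fixAct (u := u) (Ω := Ω) ▸ d.big
  z p := by
    have := d.h.z p
    have : IsZGroup (stabilizer 𝐂[u] p) := IsZGroup.of_injective
      (f := ((stabilizer 𝐂[u] p).subtype |> (Subgroup.subtype _).comp).codRestrict (stabilizer G (p : Ω))
        fun x => congrArg Subtype.val x.2) fun x y e => Subtype.ext (Subtype.ext (congrArg Subtype.val e :))
    refine IsZGroup.of_surjective (f := ((xb Ω u).comp (stabilizer 𝐂[u] p).subtype).codRestrict (stabilizer _ p)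
      fun x => x.2) fun y => ?_
    obtain ⟨x, hx⟩ := xb_surj y.1
    exact ⟨⟨x, show xb Ω u x • p = p from hx ▸ y.2⟩, Subtype.ext hx⟩

/-- the generator of the Sylow subgroup of the two-point stabilizer -/
theorem exists_t (d : Dt Ω a e u α) : ∃ (t : 𝐂[u]) (r : ℕ), (t : G) ∈ st2 G α (e • α) ∧ orderOf (t : G) = 2 ^ (r + 2) ∧
    (∀ y ∈ st2 G α (e • α), (∃ k, y ^ 2 ^ k = 1) → y ∈ zpowers (t : G)) ∧ sgD Ω u t = -1 ∧ sg G Ω t = -1 ∧
    (t : G) ^ 2 ^ (r + 1) = u ∧ ∀ φ : 𝐂[u] →* ℤˣ, φ t = 1 → ∀ x : 𝐂[u], (x : G) • α = α → φ x = 1 := by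
  obtain ⟨x, hx⟩ := d.h.st_cyc (d.ne α)
  have m : x ∈ st2 G α (e • α) := hx ▸ mem_zpowers x
  obtain ⟨o, r, ho, e1, e2⟩ := two_part x
  obtain ⟨c, hc⟩ := d.exists_c
  have k1 : ∀ φ : 𝐂[u] →* ℤˣ, φ (⟨x, d.HX m⟩ ^ o) = 1 → ∀ y : 𝐂[u], (y : G) ∈ st2 G α (e • α) → φ y = 1 := fun φ h y hy => by
    obtain ⟨i, hi⟩ := hx ▸ hy
    rw [map_pow, Int.units_pow_eq_pow_mod_two, Nat.odd_iff.1 ho, pow_one] at h
    rw [show y = ⟨x, d.HX m⟩ ^ i from Subtype.ext hi.symm, map_zpow, h, one_zpow]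
  have k2 : sgD Ω u (⟨x, d.HX m⟩ ^ o) = -1 := (Int.units_eq_one_or _).resolve_left fun h => by
    obtain ⟨y, hy, h1⟩ := (d.zh hc).exists_odd (α := ⟨α, d.h1⟩) (β := ⟨e • α, d.h2⟩) fun h => d.ne α (congrArg Subtype.val h)
    obtain ⟨y, rfl⟩ := xb_surj y
    exact h1 (k1 _ h y ⟨congrArg Subtype.val hy.1, congrArg Subtype.val hy.2⟩)
  have k3 := fun y hy => mem_two_part (y := y) ho e1 (hx ▸ hy : y ∈ zpowers x)
  have k4 : u ∈ zpowers (x ^ o) := k3 u (mem_st2.2 ⟨d.h1, d.h2⟩) ⟨1, by rw [pow_one, pow_two, d.iu.1]⟩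
  have k5 : x ^ o ≠ u := fun e => by
    have : sgD Ω u (⟨x, d.HX m⟩ ^ o) = 1 := by
      rw [sgD, MonoidHom.comp_apply, xb_eq_one.2 fun p hp => by rwa [Subgroup.coe_pow, e], map_one]
    exact absurd (this.symm.trans k2) (by decide)
  obtain ⟨r, rfl⟩ : ∃ s, r = s + 2 := by
    refine ⟨r - 2, ?_⟩
    have h1 := orderOf_dvd_of_mem_zpowers k4
    rw [d.iu.orderOf_eq, e2] at h1
    rcases r with _ | _ | r
    · simp at h1
    · exact absurd (invo_eq_of_cyc (mem_zpowers _) k4 (Invo.of_orderOf e2) d.iu) k5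
    · rfl
  refine ⟨⟨x, d.HX m⟩ ^ o, r, pow_mem m o, e2, k3, k2, (Int.units_eq_one_or _).resolve_left fun h => ?_,
    invo_eq_of_cyc (npow_mem_zpowers _ _) k4 (Invo.of_orderOf ?_) d.iu, fun φ h y hy => ?_⟩
  · obtain ⟨y, hy, h1⟩ := d.h.exists_odd (d.ne α)
    exact h1 (k1 ((sg G Ω).comp (Subgroup.subtype _)) h ⟨y, d.HX hy⟩ hy)
  · show orderOf ((x ^ o) ^ _) = 2
    rw [orderOf_pow_of_dvd (by positivity) (e2 ▸ pow_dvd_pow 2 (by omega)), e2, pow_succ', Nat.mul_div_cancel _ (by positivity)]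
  · refine hom_triv φ (H := (st2 G α (e • α)).subgroupOf 𝐂[u]) (M := (stabilizer G α ⊓ 𝐂[u]).subgroupOf 𝐂[u])
      (comap_mono (le_inf inf_le_left d.HX)) ?_ (k1 φ h) y ⟨hy, y.2⟩
    rw [relIndex_subgroupOf inf_le_right]
    exact (d.h.odd_idx (d.ne α)).of_dvd_nat ⟨_, (relIndex_mul_relIndex _ _ _ (le_inf inf_le_left d.HX) inf_le_left).symm⟩

/-- the kernel on the fixed points of `u` is central -/
theorem cent (d : Dt Ω a e u α) {w : G} (hw : ∀ p : Ω, u • p = p → w • p = p) (hg : g ∈ 𝐂[u]) : g * w = w * g := by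
  obtain ⟨t, r, ht, -, -, h1, -⟩ := d.exists_t
  obtain ⟨x, hx⟩ := d.h.st_cyc (d.ne α)
  have n1 : 𝐂[u] ≤ 𝐍(fixingSubgroup G (fixedBy Ω u)) := fun g hg => mem_normalizer_fintype fun w hw =>
    (mem_fixingSubgroup_iff G).2 fun p hp => by
      rw [mul_smul, mul_smul, (mem_fixingSubgroup_iff G).1 hw _ (smul_fix_of_comm (mem_cent1.1 (inv_mem hg)) hp),
        smul_inv_smul]
  have n2 : fixingSubgroup G (fixedBy Ω u) ≤ st2 G α (e • α) := fun w hw =>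
    ⟨(mem_fixingSubgroup_iff G).1 hw _ d.h1, (mem_fixingSubgroup_iff G).1 hw _ d.h2⟩
  obtain ⟨p, hp⟩ := not_forall.1 fun h => by
    rw [sgD, MonoidHom.comp_apply, xb_eq_one.2 h, map_one] at h1
    simp at h1
  push Not at hp
  obtain ⟨y, hy, h2⟩ := tr_of_norm (C := 𝐂(fixingSubgroup G (fixedBy Ω u)) ⊓ 𝐂[u]) d.two
    (le_normalizer_inf (n1.trans (normalizer_le_normalizer_centralizer _)) le_normalizer)
    ⟨fun w hw => zp_comm (hx ▸ n2 hw) (hx ▸ ht), t.2⟩ hp.1 (smul_fix_of_comm (mem_cent1.1 t.2) hp.1) hp.2 d.h1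
    (smul_fix_of_comm (mem_cent1.1 hg) d.h1)
  have hw' := (mem_fixingSubgroup_iff G).2 hw
  have m1 : y⁻¹ * g ∈ stabilizer G α := by rw [mem_stabilizer_iff, mul_smul, ← h2, inv_smul_smul]
  have := d.h.der_free (commutator_mem_commutator m1 (n2 hw').1) (d.ne α).symm (n2 (mul_mem
    ((mem_normalizer_iff.1 (n1 (mul_mem (inv_mem (mem_inf.1 hy).2) hg)) w).1 hw') (inv_mem hw'))).2
  rw [commutatorElement_eq_one_iff_mul_comm, ← mul_assoc, (inv_mem (mem_inf.1 hy).1 : y⁻¹ ∈ _) w hw', mul_assoc,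
    mul_assoc] at this
  exact mul_left_cancel this

/-- `u` is not isolated -/
theorem exists_u' (d : Dt Ω a e u α) : ∃ g : G, g * u * g⁻¹ ∈ 𝐂[u] ∧ ∀ p : Ω, u • p = p → (g * u * g⁻¹) • p ≠ p := by
  obtain ⟨g, h1, h2⟩ : ∃ g : G, Commute u (g * u * g⁻¹) ∧ g * u * g⁻¹ ≠ u := by
    by_contra! hn
    refine d.iu.2 (d.h.faith u fun p => ?_)
    obtain ⟨g, hg, rfl⟩ := d.h.tr' α p
    have := fix_of_odd (O := opp 2 ⊤) d.h.two' (H7.le_normalizer_opp ⊤) (fun _ _ _ _ => Set.mem_univ _)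
      (Nat.not_even_iff_odd.mp fun h => H7.not_dvd_card_opp ⊤ h.two_dvd) (Set.ncard_univ Ω ▸ d.h.even)
      (H7.zstar_commute_in d.iu.1 (mem_top u) (fun g _ => hn g) (mem_top g)) (Set.mem_univ (g • α))
    rwa [commutatorElement_def, mul_smul, inv_smul_smul, mul_smul, inv_smul_eq_of_smul_eq d.h1, mul_smul] at this
  refine ⟨g, mem_cent1.2 h1.symm, fun p hp h3 => h2 ?_⟩
  obtain ⟨q, hq, h4⟩ := exists_fixed_of_odd (d.iu.conj g).pgroup_zpowers (S := fixedBy Ω u \ {p})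
    (fun x hx q hq => ⟨smul_fix_of_comm (mem_cent1.1 (zpowers_le.2 (mem_cent1.2 h1.symm) hx)) hq.1, fun e =>
      hq.2 (smul_left_cancel x (e.trans (zpowers_le.2 (show _ ∈ stabilizer G p from h3) hx).symm))⟩) (by
      rw [Set.ncard_sdiff_singleton_of_mem (show p ∈ fixedBy Ω u from hp)]
      have := d.even
      have := d.big
      grind)
  exact d.h.uniq (Ne.symm hq.2) (d.iu.conj g) d.iu h3 (h4 _ (mem_zpowers _)) hp hq.1

theorem exists_e' (d : Dt Ω a e u α) : ∃ g ∈ 𝐂[u], Commute e (g * e * g⁻¹) ∧ g * e * g⁻¹ ≠ e := by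
  by_contra! hn
  obtain ⟨γ, hγ, h1, h2⟩ : ∃ γ ∈ fixedBy Ω u, γ ≠ α ∧ γ ≠ e • α := by
    by_contra! hc
    have : fixedBy Ω u ⊆ {α, e • α} := fun p hp => by by_cases e : p = α; exacts [Or.inl e, Or.inr (hc p hp e)]
    have := (Set.ncard_le_ncard this).trans (Set.ncard_insert_le _ _)
    have := d.big
    simp only [Set.ncard_singleton] at *
    omega
  obtain ⟨g, hg, h3, h4⟩ := d.two α d.h1 _ d.h2 α d.h1 γ hγ (d.ne α) h1.symm
  have := fix_of_odd (O := opp 2 𝐂[u]) d.two (H7.le_normalizer_opp _)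
    (fun x hx p hp => smul_fix_of_comm (mem_cent1.1 (H7.opp_le _ hx)) hp)
    (Nat.not_even_iff_odd.mp fun h => H7.not_dvd_card_opp _ h.two_dvd) d.even
    (H7.zstar_commute_in d.ie.1 d.eX hn hg) hγ
  rw [commutatorElement_def, mul_smul, inv_smul_eq_of_smul_eq h4, mul_smul, inv_smul_smul, mul_smul, h3] at this
  exact h2 this.symm

theorem caseA (d : Dt Ω a e u α) (hf : (fixedBy Ω u).ncard % 4 = 2) : False := by
  obtain ⟨t, r, ht, -, -, h1, h2, h3, h4⟩ := d.exists_t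
  obtain ⟨c, hc⟩ := d.exists_c
  obtain ⟨g, hg, h5⟩ := d.exists_u'
  have s1 : sg G Ω u = 1 := by rw [← h3, map_pow, h2, pow_succ, (Even.mul_left even_two _).neg_one_pow]
  have s2 := sg_invo (Ω := Ω) d.iu.1
  rw [s1, eq_comm, neg_one_pow_eq_one_iff_even (by decide)] at s2
  have l : (fixedBy Ω u).ncard ≤ Nat.card Ω := Set.ncard_le_card _
  have := d.h.even
  have s3 : sg G Ω c = -1 := by
    obtain ⟨k, hk⟩ := (hc.le (mem_zpowers _)).1
    rcases Int.even_or_odd' k with ⟨j, rfl | rfl⟩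
    · exfalso
      obtain ⟨i, hi⟩ := hc.ge ⟨d.he, d.eX⟩
      obtain ⟨m, hm⟩ : ∃ m, Nat.card Ω = 2 * (2 * m + 1) := ⟨Nat.card Ω / 4, by grind⟩
      have e1 : e ^ (2 * m + 1) = 1 := by
        rw [← show (c : G) ^ i = e from hi, ← show a ^ (2 * j) = c from hk, ← zpow_natCast, ← zpow_mul, ← zpow_mul,
          ← orderOf_dvd_iff_zpow_eq_one, d.h.ord, hm]
        exact ⟨j * i, by push_cast; ring⟩
      rw [pow_succ, pow_mul, pow_two, d.ie.1, one_pow, one_mul] at e1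
      exact d.ie.2 e1
    · rw [← show a ^ (2 * j + 1) = c from hk, map_zpow, d.h.sg_a, zpow_add, zpow_mul]; simp
  have s4 : sgD Ω u c = -1 := (d.zh hc).sg_a
  let φ : 𝐂[u] →* ℤˣ := sgD Ω u * (sg G Ω).comp (Subgroup.subtype _)
  have k : ∀ x : 𝐂[u], φ x = 1 := fun x => by
    obtain ⟨y, ⟨i, rfl⟩, h6⟩ := d.ctr hc (smul_fix_of_comm (mem_cent1.1 x.2) d.h1)
    have := h4 φ (by simp [φ, h1, h2]) ((c ^ i)⁻¹ * x) (by
      rw [Subgroup.coe_mul, mul_smul, ← h6]; exact inv_smul_smul _ _)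
    rwa [map_mul, map_inv, map_zpow, show φ c = 1 by simp [φ, s3, s4],
      one_zpow, inv_one, one_mul] at this
  have := k ⟨_, hg⟩
  rw [MonoidHom.mul_apply, sgD_fpf (d.iu.conj g).1 h5, Odd.neg_one_pow (by grind)] at this
  simp [s1] at this

theorem caseB (d : Dt Ω a e u α) (hf : (fixedBy Ω u).ncard % 4 = 0) (ih : F2 (XB Ω u) (fixAct Ω u)) : False := by
  obtain ⟨t, r, ht, ho, hT, h1, -, h3, -⟩ := d.exists_t
  obtain ⟨c, hc⟩ := d.exists_c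
  have n0 : (⟨α, d.h1⟩ : fixAct Ω u) ≠ ⟨e • α, d.h2⟩ := fun h => d.ne α (congrArg Subtype.val h)
  obtain ⟨-, -, -, -, -, hinv⟩ := (d.zh hc).moufang ih n0
  have hsq : ∀ x : 𝐂[u], (x : G) • α = α → e * x = x * e → xb Ω u x * xb Ω u x = 1 := fun x h4 h5 => by
    have := hinv (xb Ω u ⟨e, d.eX⟩) (xb Ω u x) rfl (Subtype.ext (d.ie.smul_smul α)) (Subtype.ext h4)
      (Subtype.ext (smul_fix_of_comm h5 h4))
    rwa [← map_mul, show ⟨e, d.eX⟩ * x = x * ⟨e, d.eX⟩ from Subtype.ext h5, map_mul, mul_inv_cancel_right,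
      ← mul_eq_one_iff_eq_inv] at this
  have fp : ∀ (g : G) (p : Ω), (g * e * g⁻¹) • p ≠ p := fun g p h => d.ne (g⁻¹ • p) (by
    rw [mul_smul, mul_smul, ← eq_inv_smul_iff] at h; exact h.symm)
  have t1 : xb Ω u t ≠ 1 := fun h => by
    rw [sgD, MonoidHom.comp_apply, h, map_one] at h1
    simp at h1
  have t2 : xb Ω u t ^ 2 ^ (r + 2) = 1 := by
    rw [← map_pow, show t ^ 2 ^ (r + 2) = 1 from Subtype.ext (ho ▸ pow_orderOf_eq_one (t : G)), map_one]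
  obtain ⟨i, hi⟩ := exists_invo_pow_of_two_elt ⟨_, t2⟩ t1
  have f1 : ∀ p : fixAct Ω u, (t : G) • (p : Ω) = p → xb Ω u t ^ i • p = p := fun p hp => pow_smul_eq (Subtype.ext hp) i
  have e1 : fixedBy (fixAct Ω u) (xb Ω u t ^ i) = {⟨α, d.h1⟩, ⟨e • α, d.h2⟩} := Set.ext fun p =>
    ⟨ih _ hi _ _ p n0 (f1 _ ht.1) (f1 _ ht.2), by rintro (rfl | rfl); exacts [f1 _ ht.1, f1 _ ht.2]⟩
  have f2 : ∀ p : Ω, u • p = p → (t : G) • p = p → p = α ∨ p = e • α := fun p hp h =>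
    (e1.le (f1 ⟨p, hp⟩ h)).imp (congrArg Subtype.val) (congrArg Subtype.val)
  have oi : Odd i := by
    have := sg_invo (Ω := fixAct Ω u) hi.1
    rw [e1, Set.ncard_pair n0, card_fixAct, map_pow, show sg _ _ (xb Ω u t) = -1 from h1,
      Odd.neg_one_pow (n := _ / 2) (by have := d.big; grind)] at this
    exact Nat.not_even_iff_odd.1 fun h => by simp [h.neg_one_pow] at this
  have t3 : xb Ω u (t ^ 2) = 1 := by
    rw [map_pow, ← orderOf_dvd_iff_pow_eq_one]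
    refine (((Nat.coprime_two_left.2 oi).pow_left _).coprime_dvd_left (orderOf_dvd_of_pow_eq_one t2)).dvd_of_dvd_mul_right ?_
    rw [orderOf_dvd_iff_pow_eq_one, two_mul, pow_add, hi.1]
  have w1 : ∀ z ∈ zpowers ((t : G) ^ 2), ∀ p : Ω, u • p = p → z • p = p := fun z hz p hp =>
    zpowers_le.2 (show _ ∈ stabilizer G p from xb_eq_one.1 t3 p hp) hz
  have w2 : ∀ z ∈ zpowers ((t : G) ^ 2), ∀ g ∈ 𝐂[u], g * z = z * g := fun z hz g hg => d.cent (w1 z hz) hg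
  have w3 : ∀ z ∈ zpowers (t : G), z ∈ zpowers ((t : G) ^ 2) ∨ ∃ y ∈ zpowers ((t : G) ^ 2), z = y * t := by
    rintro _ ⟨j, rfl⟩
    rcases Int.even_or_odd' j with ⟨j, rfl | rfl⟩
    · exact Or.inl ⟨j, by simp [zpow_mul, zpow_ofNat]⟩
    · exact Or.inr ⟨_, ⟨j, rfl⟩, by simp [zpow_mul, zpow_add, zpow_ofNat]⟩
  have w5 : ∀ z : 𝐂[u], (z : G) ∈ zpowers (t : G) → sgD Ω u z = 1 → (z : G) ∈ zpowers ((t : G) ^ 2) := fun z hz h =>
    (w3 z hz).resolve_right fun ⟨y, hy, e⟩ => by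
      have m := zpowers_le.2 (pow_mem t.2 2) hy
      rw [show z = ⟨y, m⟩ * t from Subtype.ext e, map_mul, h1, sgD, MonoidHom.comp_apply, xb_eq_one.2 (w1 y hy)] at h
      simp at h
  have ut : u ∈ zpowers (t : G) := ⟨(2 ^ (r + 1) : ℕ), (zpow_natCast _ _).trans h3⟩
  have w6 : ∀ z ∈ zpowers (t : G), z * z = 1 → z = 1 ∨ z = u := fun z hz h => (eq_or_ne z 1).imp_right fun h1 =>
    invo_eq_of_cyc hz ut ⟨h, h1⟩ d.iu
  have se : sgD Ω u ⟨e, d.eX⟩ = 1 := by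
    rw [sgD_fpf d.ie.1 fun p _ => (d.ne p).symm, Even.neg_one_pow (by grind)]
  have eu : e * u = u * e := mem_cent1.1 d.eX
  -- `e u` is conjugate to `u`
  obtain ⟨p, hp⟩ : ∃ p : Ω, (e * u) • p = p := by
    obtain ⟨g, hg, h5⟩ := d.exists_u'
    obtain ⟨k, hk, h6, h7⟩ := d.two α d.h1 _ (smul_fix_of_comm (mem_cent1.1 hg) d.h1) α d.h1 _ d.h2 (h5 α d.h1).symm (d.ne α)
    have i1 := (d.iu.conj g).conj k
    have m1 := mul_mem (mul_mem hk hg) (inv_mem hk)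
    have s1 : sgD Ω u ⟨_, m1⟩ = 1 := by
      rw [show (⟨_, m1⟩ : 𝐂[u]) = ⟨k, hk⟩ * ⟨_, hg⟩ * ⟨k, hk⟩⁻¹ from rfl, map_mul, map_mul,
        sgD_fpf (x := ⟨_, hg⟩) (d.iu.conj g).1 h5, Even.neg_one_pow (by grind)]
      simp
    have h8 : (k * (g * u * g⁻¹) * k⁻¹) • α = e • α := by rw [← h7, ← conj_smul_smul k, h6]
    have h9 : (k * (g * u * g⁻¹) * k⁻¹) • k • g • α = k • g • α := by rw [conj_smul_smul, conj_smul_smul, d.h1]
    generalize k * (g * u * g⁻¹) * k⁻¹ = v at i1 m1 s1 h8 h9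
    obtain ⟨o, s, ho, -, h10⟩ := two_part (e * v)
    have m2 : (e * v) ^ o ∈ zpowers (t : G) := hT _ (pow_mem (mem_st2.2 ⟨by rw [mul_smul, h8, d.ie.smul_smul],
      by rw [mul_smul, ← h8, i1.smul_smul, h8]⟩) o) ⟨s, h10 ▸ pow_orderOf_eq_one _⟩
    have m3 := w5 ((⟨e, d.eX⟩ * ⟨v, m1⟩) ^ o) m2 (by rw [map_pow, map_mul, se, s1]; simp)
    have m4 := inverts_pow (k := e * v) d.ie.1 (by rw [d.ie.mul_mul, mul_inv_rev, d.ie.inv_eq, i1.inv_eq]) o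
    rw [show e * (e * v) ^ o = (e * v) ^ o * e from w2 _ m3 e d.eX, d.ie.mul_mul', ← mul_eq_one_iff_eq_inv] at m4
    obtain ⟨x, -, ⟨h11, -⟩ | ⟨-, h11⟩⟩ := H4.reflection_conj d.ie.1 i1.1 o
    · exact absurd (by exact_mod_cast h11) (Nat.not_even_iff_odd.2 ho)
    rw [zpow_natCast] at h11
    refine ⟨x • k • g • α, ?_⟩
    rcases w6 _ m2 m4 with h | h
    · exact absurd (by rw [← mul_one e, ← h, ← h11, conj_smul_smul, h9]) (d.ne (x • k • g • α)).symm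
    · rw [← h, ← h11, conj_smul_smul, h9]
  have te : (t : G) * e = e * t := by
    have m1 : e * t * e⁻¹ ∈ zpowers (t : G) := hT _ (mem_st2.2 ⟨by
      conv_lhs => rw [← d.ie.smul_smul α, conj_smul_smul, ht.2, d.ie.smul_smul], by rw [conj_smul_smul, ht.1]⟩)
      ⟨r + 2, by rw [conj_pow, ← ho, pow_orderOf_eq_one]; simp⟩
    have m2 := mul_mem m1 (inv_mem (mem_zpowers (t : G)))
    have m3 := w2 _ (w5 (⟨e, d.eX⟩ * t * ⟨e, d.eX⟩⁻¹ * t⁻¹) m2 (by simp [se, h1])) e d.eX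
    simp only [Subgroup.coe_mul, Subgroup.coe_inv, d.ie.inv_eq] at m2 m3
    rcases w6 _ m2 (by
      calc _ = e * t * e * (t : G)⁻¹ * e * t * e * (t : G)⁻¹ := by group
        _ = 1 := by rw [← m3]; simp [← mul_assoc, d.ie.1, mul_assoc _ e e]) with h | h
    · rw [mul_inv_eq_one] at h
      conv_lhs => rw [← h, d.ie.mul_mul']
    · exact absurd hp (by rw [← h, mul_assoc, mul_assoc, d.ie.mul_mul, ← mul_assoc]; exact fp _ _)
  have ca : ∀ y ∈ zpowers (c : G), y ∈ zpowers a := fun y hy => (hc.le hy).1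
  have cX : ∀ y ∈ zpowers (c : G), y ∈ 𝐂[u] := fun y hy => (hc.le hy).2
  -- the structure of the centralizer of `e`
  have dec : ∀ g ∈ 𝐂[u], e * g = g * e → ∃ (j : ℤ) (k : G), (∀ p : Ω, u • p = p → k • p = p) ∧
      (g = c ^ j * k ∨ g = c ^ j * k * t) := fun g hg h4 => by
    obtain ⟨_, ⟨j, rfl⟩, h5⟩ := d.ctr hc (smul_fix_of_comm (mem_cent1.1 hg) d.h1)
    have h6 : ((c ^ j)⁻¹ * ⟨g, hg⟩ : 𝐂[u]).1 • α = α := by rw [Subgroup.coe_mul, mul_smul, ← h5]; exact inv_smul_smul _ _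
    have h7 : e * ((c ^ j)⁻¹ * ⟨g, hg⟩ : 𝐂[u]).1 = ((c ^ j)⁻¹ * ⟨g, hg⟩ : 𝐂[u]).1 * e := by
      show e * (((c : G) ^ j)⁻¹ * g) = ((c : G) ^ j)⁻¹ * g * e
      rw [← mul_assoc, zp_comm d.he (inv_mem (ca ((c : G) ^ j) ⟨j, rfl⟩)), mul_assoc, h4, mul_assoc]
    by_cases h8 : xb Ω u ((c ^ j)⁻¹ * ⟨g, hg⟩) = 1
    · exact ⟨j, _, xb_eq_one.1 h8, Or.inl (mul_inv_cancel_left _ _).symm⟩
    have h9 := (d.zh hc).uniq n0 ⟨hsq _ h6 h7, h8⟩ ⟨hsq t ht.1 te.symm, t1⟩ (Subtype.ext h6)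
      (Subtype.ext (smul_fix_of_comm h7 h6)) (Subtype.ext ht.1) (Subtype.ext ht.2)
    rw [← mul_inv_eq_one, ← map_inv, ← map_mul] at h9
    exact ⟨j, _, xb_eq_one.1 h9, Or.inr (by simp [mul_assoc])⟩
  have tt : ∀ p : Ω, u • p = p → (t : G) • (t : G) • p = p := fun p hp => by
    rw [← mul_smul, ← pow_two]; exact w1 _ (mem_zpowers _) p hp
  have cc := mem_zpowers (c : G)
  obtain ⟨j, k, hk, h4⟩ := dec (t * c * (t : G)⁻¹) (t * c * t⁻¹).2 (by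
    rw [← mul_assoc, ← mul_assoc, ← te, mul_assoc _ e, zp_comm d.he (ca _ cc), mul_assoc, mul_assoc, mul_assoc,
      mul_assoc, show e * (t : G)⁻¹ = (t : G)⁻¹ * e from (Commute.inv_right te.symm :)])
  have h5 : ∀ p : Ω, u • p = p → (t : G) • (c : G) • p = (c : G) ^ j • (t : G) • p := by
    rcases h4 with h4 | h4
    · intro p hp
      rw [← mul_smul, mul_inv_eq_iff_eq_mul.1 h4, mul_smul, mul_smul, hk _ (smul_fix_of_comm (mem_cent1.1 t.2) hp)]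
    · exfalso
      have h5 : ∀ p : Ω, u • p = p → (t : G) • (c : G) • p = (c : G) ^ j • p := fun p hp => by
        rw [← mul_smul, mul_inv_eq_iff_eq_mul.1 h4, mul_smul, mul_smul, mul_smul, tt p hp, hk p hp]
      have h6 : (c : G) ^ j * (c : G)⁻¹ = 1 := d.h.reg (α := α) (ca _ (mul_mem ⟨j, rfl⟩ (inv_mem cc))) (by
        rw [mul_smul, ← h5 _ (smul_fix_of_comm (mem_cent1.1 (inv_mem c.2)) d.h1), smul_inv_smul, ht.1])
      refine t1 (xb_eq_one.2 fun p hp => ?_)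
      rw [← smul_inv_smul (c : G) p, h5 _ (smul_fix_of_comm (mem_cent1.1 (inv_mem c.2)) hp), mul_inv_eq_one.1 h6]
  have h6 : ∀ (i : ℤ) (p : Ω), u • p = p → (t : G) • (c : G) ^ i • p = ((c : G) ^ j) ^ i • (t : G) • p := fun i p hp => by
    have : xb Ω u (t * c * t⁻¹ * (c ^ j)⁻¹) = 1 := xb_eq_one.2 fun q hq => by
      have h7 := smul_fix_of_comm (mem_cent1.1 (inv_mem (zpow_mem c.2 j))) hq
      simp only [Subgroup.coe_mul, Subgroup.coe_inv, mul_smul, SubgroupClass.coe_zpow]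
      rw [h5 _ (smul_fix_of_comm (mem_cent1.1 (inv_mem t.2)) h7), smul_inv_smul, smul_inv_smul]
    rw [map_mul, map_inv, mul_inv_eq_one] at this
    have := congrArg (fun z : XB Ω u => ((z ^ i • xb Ω u t • (⟨p, hp⟩ : fixAct Ω u) : fixAct Ω u) : Ω)) this
    simpa only [← map_zpow, xb_smul, conj_zpow, Subgroup.coe_mul, Subgroup.coe_inv, SubgroupClass.coe_zpow, mul_smul,
      inv_smul_smul] using this
  have h7 : ∀ (i : ℤ) (k : G), (∀ p : Ω, u • p = p → k • p = p) →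
      ((c : G) ^ i * k * t * (c ^ i * k * t)) • α = ((c : G) * c ^ j) ^ i • α := fun i k hk => by
    simp only [mul_smul]
    rw [ht.1, hk _ d.h1, h6 i _ d.h1, ht.1, hk _ (smul_fix_of_comm (mem_cent1.1 (zpow_mem (zpow_mem c.2 j) i)) d.h1),
      ← mul_smul, Commute.mul_zpow (Commute.self_zpow _ _)]
  have m5 : (c : G) * c ^ j ∈ zpowers (c : G) := mul_mem cc ⟨j, rfl⟩
  have h8 : (c : G) * c ^ j = 1 := by
    rcases f2 _ (smul_fix_of_comm (mem_cent1.1 (cX _ m5)) d.h1) (by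
      rw [mul_smul, h5 _ (smul_fix_of_comm (mem_cent1.1 (zpow_mem c.2 j)) d.h1), ← ht.1, ← h5 _ d.h1, tt _
        (smul_fix_of_comm (mem_cent1.1 c.2) d.h1), h5 _ d.h1, ht.1, ← mul_smul, ← mul_smul, (Commute.self_zpow _ _).eq]) with h | h
    · exact d.h.reg (ca _ m5) h
    have h8 : (c : G) * c ^ j = e := (inv_mul_eq_one.1 (d.h.reg (mul_mem (inv_mem d.he) (ca _ m5))
      (by rw [mul_smul, h, inv_smul_smul]))).symm
    obtain ⟨g, hg, h9, h10⟩ := d.exists_e'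
    have m6 := mul_mem (mul_mem hg d.eX) (inv_mem hg)
    have s1 : sgD Ω u ⟨_, m6⟩ = 1 := by
      rw [show (⟨_, m6⟩ : 𝐂[u]) = ⟨g, hg⟩ * ⟨e, d.eX⟩ * ⟨g, hg⟩⁻¹ from rfl, map_mul, map_mul, se]
      simp
    obtain ⟨i, k, hk, h11 | h11⟩ := dec _ m6 h9
    · have h12 := (d.ie.conj g).smul_smul α
      rw [h11, mul_smul, mul_smul, hk _ d.h1, hk _ (smul_fix_of_comm (mem_cent1.1 (zpow_mem c.2 i)) d.h1), ← mul_smul] at h12
      have h13 := d.h.reg (ca _ (mul_mem ⟨i, rfl⟩ ⟨i, rfl⟩)) h12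
      have h14 : (c : G) ^ i = e := invo_eq_of_cyc (ca _ ⟨i, rfl⟩) d.he ⟨h13, fun h => fp g α (by
        rw [h11, h, one_mul, hk _ d.h1])⟩ d.ie
      rw [h14] at h11
      have h15 : k = u := d.h.uniq (d.ne α) (by
        rw [eq_inv_mul_iff_mul_eq.2 h11.symm, d.ie.inv_eq]
        exact d.ie.mul_of_comm (d.ie.conj g) h9 h10.symm) d.iu (hk _ d.h1) (hk _ d.h2) d.h1 d.h2
      exact absurd (by rw [h11, h15, hp]) (fp g p)
    · have h12 := h7 i k hk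
      rw [← h11, (d.ie.conj g).1, one_smul, h8] at h12
      have m7 : k ∈ 𝐂[u] := d.HX ⟨hk _ d.h1, hk _ d.h2⟩
      rw [show (⟨_, m6⟩ : 𝐂[u]) = c ^ i * ⟨k, m7⟩ * t from Subtype.ext h11, map_mul, map_mul, h1, map_zpow,
        show sgD Ω u c = -1 from (d.zh hc).sg_a, sgD, MonoidHom.comp_apply, xb_eq_one.2 hk] at s1
      obtain ⟨i, rfl | rfl⟩ := Int.even_or_odd' i
      · simp [zpow_mul] at s1
      · rw [zpow_add, zpow_mul, zpow_two, d.ie.1, one_zpow, one_mul, zpow_one] at h12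
        exact absurd h12 (d.ne α)
  obtain ⟨x, hx, rfl⟩ := d.h.tr' α p
  have xe := zp_comm d.he hx
  have h9 : x * u * x⁻¹ = e * u := d.h.uniq (d.ne (x • α)) (d.iu.conj x) (d.ie.mul_of_comm d.iu eu fun h => d.ne α
    (h ▸ d.h1.symm)) (by rw [conj_smul_smul, d.h1]) (by rw [← mul_smul e, xe, mul_smul x e, conj_smul_smul, d.h2]) hp
    (smul_fix_of_comm (by rw [mul_assoc, eu]) hp)
  have h10 : e * (x * t * x⁻¹) = x * t * x⁻¹ * e := by
    rw [← mul_assoc, ← mul_assoc, xe, mul_assoc x, ← te, mul_assoc _ x⁻¹, ← zp_comm d.he (inv_mem hx)]; group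
  have h11 : (x * t * x⁻¹) ^ 2 ^ (r + 1) = e * u := by rw [conj_pow, h3, h9]
  have h12 : x * t * x⁻¹ ∈ 𝐂[u] := mem_cent1.2 (mul_left_cancel (a := e) (by
    rw [← mul_assoc e, h10, ← mul_assoc e, mul_assoc _ e, ← h11, ← pow_succ, ← pow_succ']))
  obtain ⟨i, k, hk, h13 | h13⟩ := dec _ h12 h10
  · rw [h13, Commute.mul_pow (d.cent hk (zpow_mem c.2 i))] at h11
    have h14 : e⁻¹ * ((c : G) ^ i) ^ 2 ^ (r + 1) = 1 := d.h.reg (α := α)
      (mul_mem (inv_mem d.he) (pow_mem (ca _ ⟨i, rfl⟩) _)) (by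
        rw [mul_smul, ← pow_smul_eq (hk _ d.h1) (2 ^ (r + 1)), ← mul_smul (_ ^ _), h11, pow_smul_eq (hk _ d.h1), mul_smul,
          d.h1, inv_smul_smul])
    rw [← inv_mul_eq_one.1 h14, mul_right_inj] at h11
    rcases w3 k (hT k ⟨hk _ d.h1, hk _ d.h2⟩ ⟨r + 2, by rw [pow_succ, pow_mul, h11, pow_two, d.iu.1]⟩) with ⟨l, hl⟩ | ⟨y, hy, h⟩
    · refine d.iu.2 ?_
      rw [← h11, ← show ((t : G) ^ 2) ^ l = k from hl, ← zpow_natCast, ← zpow_mul, mul_comm, zpow_mul, zpow_natCast, ← pow_mul,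
        ← pow_succ', ← ho, pow_orderOf_eq_one, one_zpow]
    · exact t1 (xb_eq_one.2 fun q hq => by rw [eq_inv_mul_iff_mul_eq.2 h.symm, mul_smul, hk q hq, w1 _ (inv_mem hy) q hq])
  · have h14 := h7 i k hk
    rw [← h13, h8, one_zpow, one_smul, ← pow_two] at h14
    have := pow_smul_eq h14 (2 ^ r)
    rw [← pow_mul, ← pow_succ', h11, mul_smul, d.h1] at this
    exact d.ne α this.symm

end Dt

theorem ZH.f2 (h : ZH Ω a) : F2 G Ω := by
  obtain ⟨n, hn⟩ : ∃ n, Nat.card Ω = n := ⟨_, rfl⟩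
  induction n using Nat.strong_induction_on generalizing G Ω a with
  | _ n ih =>
  intro u iu α β γ hab h1 h2 h3
  by_contra! hc
  obtain ⟨e, he, ie⟩ := h.exists_e
  obtain ⟨g, h4, h5⟩ := h.two α β α (e • α) hab fun e1 => ie.2 (h.reg he e1.symm)
  have d : Dt Ω a e (g * u * g⁻¹) α := ⟨h, he, ie, iu.conj g, by conv_lhs => rw [← h4, conj_smul_smul, h1, h4],
    by rw [← h5, conj_smul_smul, h2], (Set.two_lt_ncard_iff (Set.toFinite _)).2 ⟨g • α, g • β, g • γ,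
      by rw [mem_fixedBy, conj_smul_smul, h1], by rw [mem_fixedBy, conj_smul_smul, h2],
      by rw [mem_fixedBy, conj_smul_smul, h3], fun e => hab (smul_left_cancel g e), fun e => hc.1 (smul_left_cancel g e).symm,
      fun e => hc.2 (smul_left_cancel g e).symm⟩⟩
  obtain ⟨c, h6⟩ := d.exists_c
  have := d.even
  refine if h7 : (fixedBy Ω (g * u * g⁻¹)).ncard % 4 = 2 then d.caseA h7 else d.caseB (by grind) (ih _ ?_ (d.zh h6) rfl)
  rw [card_fixAct, ← hn, ← Set.ncard_univ]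
  exact Set.ncard_lt_ncard ⟨Set.subset_univ _, fun e => d.iu.2 (h.faith _ fun ω => e (Set.mem_univ ω))⟩

end Cfsg.Agent.H3.ZG
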