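import Cfsg.Agent.H3.ZG4
import Cfsg.Agent.L0.Char5

/-! Products of a cyclic group and a Z-group. -/

set_option autoImplicit false
set_option linter.unusedSectionVars false
set_option linter.unusedVariables false

namespace Cfsg.Agent.H3.ZG

open Subgroup MulAction Cfsg.Agent.FT Cfsg.Agent.L0 Cfsg.Agent.H8 Cfsg.Agent.BS Cfsg.Agent.WA.Te
open scoped commutatorElement

universe u

variable {G Ω : Type u} [Group G] [Finite G] [MulAction G Ω] [Finite Ω] {a g x y z : G} {α β γ : Ω}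

theorem solv_of_odd (B : Subgroup G) [IsZGroup B] (ho : Odd B.index) : Group.IsSolvable G := by
  have := Nat.fact_prime_two
  rcases Nat.even_or_odd (Nat.card G) with h | h
  swap
  · exact odd_solvable h
  obtain ⟨P⟩ : Nonempty (Sylow 2 B) := inferInstance
  have h1 : ¬ 2 ∣ (P.map B.subtype).index := by
    rw [index_map_subtype]
    exact fun e => (Nat.prime_two.dvd_mul.1 e).elim P.not_dvd_index ho.not_two_dvd_nat
  have h2 : IsCyclic ((P.2.map B.subtype).toSylow h1) :=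
    isCyclic_of_surjective (P.1.equivMapOfInjective _ B.subtype_injective) (MulEquiv.surjective _)
  have h3 := h2.isComplement' (Nat.minFac_eq_two_iff _ |>.2 h.two_dvd)
  have : Group.IsSolvable _ := odd_solvable (Nat.not_even_iff_odd.1 fun e => h1 (e.two_dvd.trans h3.index_eq_card.symm.dvd))
  have := Group.isSolvable_of_comm (G := (P.2.map B.subtype).toSylow h1) h2.isMulCommutative.is_comm.comm
  exact Group.isSolvable_of_ker_le_range (Subgroup.subtype _) (MonoidHom.transferSylow _ (h2.normalizer_le_centralizer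
    (Nat.minFac_eq_two_iff _ |>.2 h.two_dvd))) (range_subtype _).ge

theorem eq_bot_of_solv (h0 : ∀ N : Subgroup G, N.Normal → Group.IsSolvable N → N = ⊥) {K T : Subgroup G} [K.Normal]
    (h : T ⊴ K) (hs : Group.IsSolvable T) : T = ⊥ := by
  obtain ⟨S, h1, h2⟩ := Finite.exists_le_maximal (p := fun S : Subgroup G => S ⊴ K ∧ Group.IsSolvable S) ⟨h, hs⟩
  refine le_bot_iff.1 (h1.trans (h0 S (normalizer_eq_top_iff.1 (eq_top_iff.2 fun g _ => mem_normalizer_of_cj_le ?_)) h2.1.2).le)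
  have h3 := h2.1.1.cj g
  rw [cj_eq_self ((normalizer_eq_top K).ge (mem_top g))] at h3
  exact le_sup_right.trans (h2.2 ⟨⟨sup_le h2.1.1.1 h3.1, (le_inf h2.1.1.2 h3.2).trans (normalizer_inf_normalizer_le_normalizer_sup _ _)⟩,
    solvable_sup (h3.1.trans h2.1.1.2) h2.1.2 (solvable_cj h2.1.2 g)⟩ le_sup_left)

theorem zh_of (hs : ¬ Group.IsSolvable G) (hp : IsCoatom (stabilizer G α)) (htr : ∀ β : Ω, ∃ x ∈ zpowers a, x • α = β)
    (hreg : ∀ x ∈ zpowers a, x • α = α → x = 1) [IsZGroup (stabilizer G α)] :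
    4 < Nat.card Ω ∧ Even (orderOf a) ∧ ZH Ω ((toPermHom G Ω).rangeRestrict a) := by
  classical
  have : IsPretransitive G Ω := .of_orbit fun β => (htr β).imp fun _ h => h.2
  have h1 : 4 < Nat.card Ω := by
    by_contra! hc
    have : Group.IsSolvable (Equiv.Perm Ω) := isSolvable_of_primes Nat.prime_two Nat.prime_three fun r hr hd => by
      rw [Nat.card_perm, hr.dvd_factorial] at hd
      have := hr.two_le
      have : r ≠ 4 := fun e => absurd (e ▸ hr) (by decide)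
      omega
    exact hs (Group.isSolvable_of_ker_le_range (stabilizer G α).subtype (toPermHom G Ω) fun g hg =>
      ⟨⟨g, DFunLike.congr_fun (show toPermHom G Ω g = 1 from hg) α⟩, rfl⟩)
  have h2 : Even (Nat.card Ω) := Nat.not_odd_iff_even.1 fun ho =>
    hs (solv_of_odd (stabilizer G α) (by rwa [index_stabilizer_of_transitive]))
  have h3 : Even (orderOf a) := by
    have h3 := orbit_mul (zpowers a) α
    rw [show {c | ∃ e ∈ zpowers a, e • α = c} = Set.univ from Set.eq_univ_of_forall htr, Set.ncard_univ, Nat.card_zpowers] at h3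
    exact h3 ▸ h2.mul_right _
  obtain ⟨e, he, ie⟩ := exists_invo_of_even (L := zpowers a) (by rwa [Nat.card_zpowers])
  have h4 : ∀ β γ : Ω, β ≠ γ → ∃ g : G, g • β = α ∧ g • γ = e • α := fun β γ h => by
    obtain ⟨x, -, rfl⟩ := htr β
    obtain ⟨g, h5, h6⟩ := schur hp htr hreg he ie (β := x⁻¹ • γ) fun e => h (inv_smul_eq_iff.1 e).symm
    exact ⟨g * x⁻¹, by rw [mul_smul, inv_smul_smul, h5], by rw [mul_smul, h6]⟩
  refine ⟨h1, h3, fun g hg => Subtype.ext (Equiv.ext hg), fun p q p' q' h h' => ?_, fun p q => ?_, h2, by omega, fun β => ?_⟩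
  · obtain ⟨g, h5, h6⟩ := h4 p q h
    obtain ⟨k, h7, h8⟩ := h4 p' q' h'
    exact ⟨(toPermHom G Ω).rangeRestrict (k⁻¹ * g), show (k⁻¹ * g) • p = p' by rw [mul_smul, h5, ← h7, inv_smul_smul],
      show (k⁻¹ * g) • q = q' by rw [mul_smul, h6, ← h8, inv_smul_smul]⟩
  · obtain ⟨x, hx, rfl⟩ := htr p
    obtain ⟨y, hy, rfl⟩ := htr q
    obtain ⟨i, -, hi⟩ := Finset.mem_image.1 (mem_zpowers_iff_mem_range_orderOf.1 (mul_mem hy (inv_mem hx)))
    exact ⟨i, by rw [← map_pow, hi]; exact show (y * x⁻¹) • x • α = _ by rw [← mul_smul, inv_mul_cancel_right]⟩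
  · obtain ⟨x, -, rfl⟩ := htr β
    refine IsZGroup.of_surjective (f := (((toPermHom G Ω).rangeRestrict.comp (MulAut.conj x).toMonoidHom).comp
      (stabilizer G α).subtype).codRestrict (stabilizer _ (x • α)) fun y => show (x * y * x⁻¹) • x • α = _ by
        rw [conj_smul_smul, show (y : G) • α = α from y.2]) fun y => ?_
    obtain ⟨k, hk⟩ := (toPermHom G Ω).rangeRestrict_surjective y.1
    have h5 : k • x • α = x • α := show (toPermHom G Ω).rangeRestrict k • x • α = _ from hk ▸ y.2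
    exact ⟨⟨x⁻¹ * k * x, show _ • α = α by rw [mul_smul, mul_smul, h5, inv_smul_smul]⟩,
      Subtype.ext (Eq.trans (congrArg (toPermHom G Ω).rangeRestrict (show x * (x⁻¹ * k * x) * x⁻¹ = k by group)) hk)⟩

theorem ZH.exists_der (h : ZH Ω a) {K : Subgroup G} [hK : K.Normal] (hy : y ∈ K) (h1 : y ≠ 1) (h2 : y • α = α) :
    ∃ z ∈ K, z ≠ 1 ∧ z ∈ der (stabilizer G α) := by
  by_contra! hc
  obtain ⟨e, he, ie⟩ := h.exists_e
  have hab : α ≠ e • α := fun e1 => ie.2 (h.reg he e1.symm)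
  obtain ⟨u, iu, u1, u2⟩ := h.exists_u hab
  have h3 : ∀ x ∈ der (stabilizer G α), x * y = y * x := fun x hx => by
    by_contra hn
    exact hc ⁅x, y⁆ (mul_mem (hK.1 y hy x) (inv_mem hy)) (fun e => hn (commutatorElement_eq_one_iff_mul_comm.1 e))
      (commutator_mem_commutator (der_le _ hx) h2)
  obtain ⟨ν, hν⟩ := h.der_cyc α
  obtain ⟨x, hx, h4, -⟩ := h.der_tr h.f2 hab iu u1 u2 (γ := y • e • α) fun e => hab (smul_left_cancel y (h2.trans e.symm))
  refine hc y hy h1 (inv_mul_eq_one.1 (h.faith (x⁻¹ * y) fun ω => ?_) ▸ hx)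
  by_cases h5 : ω = α
  · rw [h5, mul_smul, h2, inv_smul_eq_of_smul_eq (der_le _ hx)]
  obtain ⟨w, hw, rfl, -⟩ := h.der_tr h.f2 hab iu u1 u2 h5
  exact smul_fix_of_comm (by rw [← mul_assoc, zp_comm (hν.le hw) (hν.le (inv_mem hx)), mul_assoc, h3 w hw, mul_assoc])
    (by rw [mul_smul, ← h4, inv_smul_smul])

theorem fix_one {p : ℕ} [hp : Fact p.Prime] (hc : Nat.card Ω = p + 1) (h1 : y ^ p = 1) (h2 : ¬ ∀ ω : Ω, y • ω = ω) :
    ∃! ω : Ω, y • ω = ω := by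
  have h3 := ncard_fixed_modEq (P := zpowers y) (H9.isPGroup_zpowers (p := p) ⟨1, by rwa [pow_one]⟩) (S := (Set.univ : Set Ω))
    Set.finite_univ fun _ _ _ _ => trivial
  have e : {x : Ω | x ∈ Set.univ ∧ ∀ g ∈ zpowers y, g • x = x} = fixedBy Ω y :=
    Set.ext fun x => ⟨fun h => h.2 y (mem_zpowers y), fun h => ⟨trivial, mem_Fx_zpowers.2 h⟩⟩
  have h4 := Set.ncard_lt_ncard (s := fixedBy Ω y) ⟨Set.subset_univ _, fun e => h2 fun ω => e (Set.mem_univ ω)⟩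
  rw [e] at h3
  rw [Set.ncard_univ, hc] at h3 h4
  obtain ⟨ω, h5⟩ := Set.ncard_eq_one.1 (show (fixedBy Ω y).ncard = 1 by
    have := hp.out.two_le
    have := Nat.le_of_dvd (by omega) ((Nat.modEq_iff_dvd' h4.le).1 h3.symm)
    by_contra h6
    have h7 : (fixedBy Ω y).ncard = 0 := by omega
    rw [h7, Nat.modEq_zero_iff_dvd, Nat.dvd_add_self_left] at h3
    exact hp.out.not_dvd_one h3)
  exact ⟨ω, h5.ge rfl, fun _ h => h5.le h⟩

theorem aut_inner {p : ℕ} [hp : Fact p.Prime] (hf : ∀ g : G, (∀ ω : Ω, g • ω = ω) → g = 1) (hc : Nat.card Ω = p + 1)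
    (htr : ∀ β : Ω, ∃ x ∈ zpowers a, x • α = β) (h1 : y ≠ 1) (h2 : y ^ p = 1) (h3 : y • α = α)
    (h4 : ∀ k : G, k • α = α → Commute (k * y * k⁻¹) y) (ψ : G ≃* G) (h5 : ψ a = a) :
    ∃ x ∈ zpowers a, ∀ k, ψ k = x * k * x⁻¹ := by
  obtain ⟨ω, h6, h7⟩ := fix_one hc (y := ψ y) (by rw [← map_pow, h2, map_one]) fun e => h1 (ψ.map_eq_one_iff.1 (hf _ e))
  obtain ⟨x, hx, rfl⟩ := htr ω
  have h8 : ∀ z ∈ zpowers a, ψ z = z := by rintro _ ⟨i, rfl⟩; rw [map_zpow, h5]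
  have h9 : ∀ k : G, k • α = α → ψ k • x • α = x • α := fun k hk => by
    have := h7 _ (smul_fix_of_comm ((h4 k⁻¹ (inv_smul_eq_of_smul_eq hk)).map ψ).eq h6)
    rw [map_mul, map_mul, inv_inv, map_inv, mul_smul, mul_smul, inv_smul_eq_iff] at this
    exact h7 _ this
  refine ⟨x, hx, fun k => (inv_mul_eq_one.1 (hf _ fun ω => ?_)).symm⟩
  obtain ⟨v, hv, rfl⟩ := htr ω
  obtain ⟨w, hw, h10⟩ := htr ((k * x⁻¹ * v) • α)
  have := h9 (w⁻¹ * (k * x⁻¹ * v)) (by rw [mul_smul, ← h10, inv_smul_smul])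
  rw [map_mul, map_mul, map_mul, h8 _ (inv_mem hw), h8 _ (inv_mem hx), h8 _ hv, mul_smul, inv_smul_eq_iff, ← mul_smul w,
    zp_comm hw hx, mul_smul x, h10, mul_assoc, mul_smul, ← mul_smul _ x, zp_comm (mul_mem (inv_mem hx) hv) hx,
    mul_inv_cancel_left] at this
  rw [mul_smul, inv_smul_eq_iff, this]
  simp only [mul_smul]

theorem main (hG : ¬ Group.IsSolvable G) (a : G) (B : Subgroup G) [IsZGroup B]
    (hAB : ∀ g : G, ∃ x ∈ zpowers a, ∃ b ∈ B, g = x * b) (h0 : ∀ N : Subgroup G, N.Normal → Group.IsSolvable N → N = ⊥) :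
    ∃ (p : ℕ) (_ : Fact p.Prime), 3 < p ∧ Nonempty (G ≃* (GL (Fin 2) (ZMod p) ⧸ center (GL (Fin 2) (ZMod p)))) := by
  obtain ⟨X, -, hX⟩ := Finite.exists_le_minimal (p := fun X : Subgroup G => B ≤ X ∧ ¬ Group.IsSolvable X) (a := ⊤)
    ⟨le_top, fun h => hG (Group.isSolvable_of_surjective (f := (⊤ : Subgroup G).subtype) fun g => ⟨⟨g, trivial⟩, rfl⟩)⟩
  have c1 : ∀ Y : Subgroup G, B ≤ Y → ∀ x ∈ zpowers a, x ∈ Y → x ∈ Y.normalCore := fun Y hY x hx h g => by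
    obtain ⟨y, hy, b, hb, e⟩ := hAB g⁻¹
    rw [e, inv_eq_iff_eq_inv.1 e, mul_inv_rev, mul_assoc, mul_assoc, ← mul_assoc x, zp_comm hx hy, mul_assoc,
      inv_mul_cancel_left]
    exact mul_mem (inv_mem (hY hb)) (mul_mem h (hY hb))
  have c2 : ∀ Y : Subgroup G, B ≤ Y → Group.IsSolvable Y → ∀ x ∈ zpowers a, x ∈ Y → x = 1 := fun Y hY hs x hx h =>
    mem_bot.1 (h0 _ inferInstance (solvable_of_le Y.normalCore_le hs) ▸ c1 Y hY x hx h)
  have c3 := c2 B le_rfl inferInstance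
  obtain ⟨b, hb⟩ : ∃ b : X, zpowers (b : G) = zpowers a ⊓ X := by
    have : IsCyclic (zpowers a ⊓ X : Subgroup G) := isCyclic_of_injective (inclusion inf_le_left) (inclusion_injective _)
    obtain ⟨x, hx⟩ := this.exists_generator
    refine ⟨⟨x, x.2.2⟩, le_antisymm (zpowers_le.2 x.2) fun y hy => ?_⟩
    obtain ⟨i, hi⟩ := hx ⟨y, hy⟩
    exact ⟨i, congrArg Subtype.val hi⟩
  have hb' : ∀ x : X, x ∈ zpowers b ↔ (x : G) ∈ zpowers a := fun x =>
    ⟨by rintro ⟨i, rfl⟩; exact (hb.le ⟨i, rfl⟩).1, fun h => (hb.ge ⟨h, x.2⟩).imp fun i hi => Subtype.ext hi⟩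
  obtain ⟨Ω, _, _, α, hα, htr⟩ : ∃ (Ω : Type u) (_ : Finite Ω) (_ : MulAction X Ω) (α : Ω),
      stabilizer X α = B.subgroupOf X ∧ ∀ β, ∃ x : X, x • α = β :=
    ⟨X ⧸ B.subgroupOf X, inferInstance, inferInstance, (1 : X), stabilizer_quotient _, fun β => exists_smul_eq X _ β⟩
  have hα' : ∀ x : X, x • α = α ↔ (x : G) ∈ B := fun x => by rw [← mem_stabilizer_iff, hα, mem_subgroupOf]
  have htr' : ∀ β : Ω, ∃ x ∈ zpowers b, x • α = β := fun β => by
    obtain ⟨g, rfl⟩ := htr β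
    obtain ⟨x, hx, y, hy, e⟩ := hAB g
    have h1 := hX.1.1 hy
    have h2 : x ∈ X := (mul_mem_cancel_right h1).1 (e ▸ g.2)
    exact ⟨⟨x, h2⟩, (hb' _).2 hx, by
      rw [show g = ⟨x, h2⟩ * ⟨y, h1⟩ from Subtype.ext e, mul_smul, (hα' ⟨y, h1⟩).2 hy]⟩
  have : IsZGroup (stabilizer X α) := hα ▸ IsZGroup.of_injective (f := (subgroupOfEquivOfLe hX.1.1).toMonoidHom)
    (MulEquiv.injective _)
  obtain ⟨h4, hev, hZ⟩ := zh_of (a := b) (α := α) hX.1.2 ⟨fun e => hX.1.2 (solvable_of_le (subgroupOf_eq_top.1 (hα ▸ e))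
    inferInstance), fun Y hY => by
      have h1 : B ≤ Y.map X.subtype := fun y hy => ⟨⟨y, hX.1.1 hy⟩, hY.le ((hα' _).2 hy), rfl⟩
      by_cases hs : Group.IsSolvable (Y.map X.subtype)
      · refine absurd (fun y hy => ?_) hY.not_ge
        obtain ⟨x, hx, z, hz, e⟩ := hAB y
        rw [c2 _ h1 hs x hx ((mul_mem_cancel_right (h1 hz)).1 (e ▸ ⟨y, hy, rfl⟩)), one_mul] at e
        exact (hα' y).2 (e ▸ hz)
      · exact eq_top_iff.2 fun y _ => by
          obtain ⟨z, hz, e⟩ := hX.2 ⟨h1, hs⟩ (map_subtype_le Y) y.2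
          exact (Subtype.ext e : z = y) ▸ hz⟩ htr'
    fun x hx h => Subtype.ext (c3 x ((hb' x).1 hx) ((hα' x).1 h))
  obtain ⟨φ, hφ⟩ : ∃ φ, φ = (toPermHom X Ω).rangeRestrict := ⟨_, rfl⟩
  have φs : ∀ (x : X) (ω : Ω), φ x • ω = x • ω := fun x ω => hφ ▸ rfl
  have φo : Function.Surjective φ := hφ ▸ MonoidHom.rangeRestrict_surjective _
  rw [← hφ] at hZ
  have k1 : ∀ (K : Subgroup G) [K.Normal], K ≤ X → ∀ x : X, (x : G) ∈ K → φ x = 1 → x = 1 := fun K _ hK x hx h =>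
    Subtype.ext (mem_bot.1 (eq_bot_of_solv h0 (K := K) (T := K ⊓ φ.ker.map X.subtype) ⟨inf_le_left,
      le_normalizer_inf le_normalizer fun g hg => mem_normalizer_fintype (by
        rintro _ ⟨y, hy, rfl⟩
        exact ⟨_, φ.normal_ker.1 y hy ⟨g, hK hg⟩, rfl⟩)⟩ (solvable_of_le (K := B) (by
        rintro _ ⟨-, y, hy, rfl⟩
        exact (hα' y).1 (by rw [← φs, show φ y = 1 from hy, one_smul])) inferInstance) ▸ mem_inf.2 ⟨hx, x, h, rfl⟩))
  obtain ⟨e, he, ie⟩ := exists_invo_of_even (L := zpowers b) (by rwa [Nat.card_zpowers])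
  obtain ⟨p, hp, hc, ⟨θ⟩, hN, -⟩ := hZ.moufang hZ.f2 (α := α) (β := e • α) fun h =>
    ie.2 (Subtype.ext (c3 e ((hb' e).1 he) ((hα' e).1 h.symm)))
  refine ⟨p, hp, by omega, ?_⟩
  have hK := X.normalCore_le
  have aK : ∀ x ∈ zpowers a, x ∈ X → x ∈ X.normalCore := c1 X hX.1.1
  generalize X.normalCore = K, X.normalCore_normal = hKn at hK aK
  obtain ⟨y, hy, h1, h2⟩ : ∃ y ∈ K, y ≠ 1 ∧ y ∈ B := by
    by_contra! hc
    have h1 : K ≤ zpowers a := fun k hk => by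
      obtain ⟨x, hx, y, hy, rfl⟩ := hAB k
      by_contra h
      exact hc y ((mul_mem_cancel_left (aK x hx ((mul_mem_cancel_right (hX.1.1 hy)).1 (hK hk)))).1 hk)
        (fun e => h (by rwa [e, mul_one])) hy
    exact ie.2 (Subtype.ext (mem_bot.1 (h0 K hKn (solvable_of_le h1 (Group.isSolvable_of_comm fun x y =>
      Subtype.ext (zp_comm x.2 y.2))) ▸ aK e ((hb' e).1 he) e.2)))
  have : ((K.subgroupOf X).map φ).Normal := .map inferInstance φ φo
  obtain ⟨_, ⟨z, hz, rfl⟩, h3, h5⟩ := hZ.exists_der (K := (K.subgroupOf X).map φ) (α := α) ⟨⟨y, hK hy⟩, hy, rfl⟩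
    (fun e => h1 (congrArg Subtype.val (k1 K hK _ hy e))) (by rw [φs, (hα' _).2 h2])
  obtain ⟨ν, hν⟩ := hZ.der_cyc α
  have z1 : z • α = α := (φs z α).symm.trans (der_le _ h5)
  have z2 : z ^ p = 1 := k1 K hK _ (pow_mem hz p) (by rw [map_pow, hN _ h5])
  let _ : MulAction K Ω := MulAction.compHom Ω (inclusion hK)
  obtain ⟨x, hx, h6⟩ := aut_inner (G := K) (a := ⟨b, aK b ((hb' b).1 (mem_zpowers b)) b.2⟩) (α := α) (y := ⟨z, hz⟩)
    (fun g hg => Subtype.ext (congrArg Subtype.val (k1 K hK (inclusion hK g) g.2 (hZ.faith _ fun ω => (φs _ ω).trans (hg ω))) :))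
    hc (fun β => by
      obtain ⟨_, ⟨i, rfl⟩, h⟩ := htr' β
      exact ⟨_, ⟨i, rfl⟩, h⟩) (fun e => h3 (by rw [show z = 1 from Subtype.ext (congrArg Subtype.val e :), map_one]))
    (Subtype.ext (congrArg Subtype.val z2 :)) z1 (fun k hk => by
      have h7 : φ (inclusion hK k) * φ z * (φ (inclusion hK k))⁻¹ ∈ der (stabilizer _ α) :=
        (mem_normalizer_iff.1 ((der_normalIn _).2 ((φs _ α).trans hk)) _).1 h5
      have h8 := k1 K hK ⁅inclusion hK (k * ⟨z, hz⟩ * k⁻¹), z⁆ (commutator_le_self K (commutator_mem_commutator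
        (k * ⟨z, hz⟩ * k⁻¹).2 hz)) (by
          rw [map_commutatorElement, commutatorElement_eq_one_iff_mul_comm, map_mul, map_mul, map_mul, map_mul, map_inv,
            map_inv]
          exact zp_comm (hν ▸ h7) (hν ▸ h5))
      exact Subtype.ext (congrArg Subtype.val (commutatorElement_eq_one_iff_mul_comm.1 h8) :))
    (MulAut.conjNormal a) (Subtype.ext (by
      rw [MulAut.conjNormal_apply, zp_comm (mem_zpowers a) ((hb' b).1 (mem_zpowers b)), mul_inv_cancel_right]))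
  have xa : (x : G) ∈ zpowers a := by
    obtain ⟨i, rfl⟩ := hx
    exact zpow_mem ((hb' b).1 (mem_zpowers b)) i
  have h7 : (x : G)⁻¹ * a ∈ 𝐂(K) := fun k hk => by
    have : a * k * a⁻¹ = x * k * (x : G)⁻¹ := congrArg Subtype.val (h6 ⟨k, hk⟩)
    calc _ = (x : G)⁻¹ * (x * k * (x : G)⁻¹) * a := by group
      _ = _ := by rw [← this]; group
  have h8 : ∀ w ∈ 𝐂(K), w ∈ X → w ∈ B := fun w hw h => by
    obtain ⟨ω, -, h9⟩ := fix_one hc z2 fun e => h3 (hZ.faith _ fun ω => (φs _ ω).trans (e ω))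
    exact (hα' ⟨w, h⟩).1 ((h9 _ (smul_fix_of_comm (Subtype.ext (hw z hz).symm) z1)).trans (h9 _ z1).symm)
  have h9 : Odd (orderOf ((x : G)⁻¹ * a)) := Nat.not_even_iff_odd.1 fun h => by
    obtain ⟨n, hn⟩ := exists_invo_pow_of_even h
    have ie' : Invo (e : G) := ⟨congrArg Subtype.val ie.1, fun h => ie.2 (Subtype.ext h)⟩
    have := invo_eq_of_cyc (pow_mem (mul_mem (inv_mem xa) (mem_zpowers a)) n) ((hb' e).1 he) hn ie'
    exact ie'.2 (c3 _ ((hb' e).1 he) (h8 _ (this ▸ pow_mem h7 n) e.2))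
  have : IsZGroup (B.subgroupOf 𝐂(K)) := IsZGroup.of_injective
    (f := ((Subgroup.subtype _).comp (B.subgroupOf 𝐂(K)).subtype).codRestrict B fun x => x.2)
    fun x y e => Subtype.ext (Subtype.ext (congrArg Subtype.val e :))
  have h10 := h0 𝐂(K) inferInstance (solv_of_odd (B.subgroupOf 𝐂(K)) (by
    have h10 := orbit_mul (zpowers (⟨_, h7⟩ : 𝐂(K))) ((1 : 𝐂(K)) : 𝐂(K) ⧸ B.subgroupOf 𝐂(K))
    rw [Set.eq_univ_of_forall (s := {c | _}) ?_, Set.ncard_univ, Nat.card_zpowers, ← Subgroup.orderOf_coe] at h10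
    · exact h9.of_dvd_nat ⟨_, h10.symm⟩
    intro q
    obtain ⟨w, rfl⟩ := QuotientGroup.mk_surjective q
    obtain ⟨_, ⟨i, rfl⟩, v, hv, e⟩ := hAB w
    refine ⟨_, ⟨i, rfl⟩, QuotientGroup.eq.2 (mem_subgroupOf.2 (h8 _ (SetLike.coe_mem _) ?_))⟩
    show ((((x : G)⁻¹ * a) ^ i) * 1)⁻¹ * w ∈ X
    rw [e, mul_one, Commute.mul_zpow (zp_comm (inv_mem xa) (mem_zpowers a)), mul_inv_rev, mul_assoc, ← mul_assoc _ (a ^ i),
      zp_comm (inv_mem (zpow_mem (inv_mem xa) i)) (zpow_mem (mem_zpowers a) i), mul_assoc, inv_mul_cancel_left]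
    exact mul_mem (inv_mem (zpow_mem (inv_mem (hK x.2)) i)) (hX.1.1 hv)))
  have h11 : ⊤ ≤ X := fun g _ => by
    obtain ⟨y, hy, v, hv, rfl⟩ := hAB g
    exact mul_mem (zpowers_le.2 (inv_mul_eq_one.1 (mem_bot.1 (h10 ▸ h7)) ▸ hK x.2) hy) (hX.1.1 hv)
  exact ⟨(topEquiv.symm.trans (MulEquiv.subgroupCongr (top_le_iff.1 h11).symm)).trans ((MulEquiv.ofBijective φ
    ⟨(injective_iff_map_eq_one φ).2 fun x => k1 ⊤ h11 x trivial, φo⟩).trans θ)⟩

end Cfsg.Agent.H3.ZG
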